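import Mathlib

/-!
# Integer matrices of finite order with an eigenvalue of maximal degree modulo a prime
-/

set_option autoImplicit false
set_option linter.unusedSectionVars false

namespace Cfsg.Agent.H15.CTor

open Polynomial Matrix

section
variable {l : ℕ}

/-- reduction of an integer matrix -/
abbrev red (R : Type*) [CommRing R] {l : ℕ} (P : Matrix (Fin l) (Fin l) ℤ) : Matrix (Fin l) (Fin l) R :=
  (Int.castRingHom R).mapMatrix P

theorem red_injective (R : Type*) [CommRing R] [CharZero R] : Function.Injective (red R (l := l)) := by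
  intro A B h
  ext i j
  have := congrFun (congrFun h i) j
  exact Int.cast_injective (α := R) this

theorem red_aeval (R : Type*) [CommRing R] (P : Matrix (Fin l) (Fin l) ℤ) (f : ℤ[X]) :
    red R (aeval P f) = aeval (red R P) (f.map (Int.castRingHom R)) :=
  Polynomial.map_aeval_eq_aeval_map (Subsingleton.elim _ _) f P

theorem aeval_mulVec {R : Type*} [CommRing R] {A : Matrix (Fin l) (Fin l) R} {a : Fin l → R} {q : R}
    (h : A *ᵥ a = q • a) (g : R[X]) : (aeval A g) *ᵥ a = g.eval q • a := by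
  have hp : ∀ k : ℕ, A ^ k *ᵥ a = q ^ k • a := by
    intro k
    induction k with
    | zero => simp
    | succ k ih => rw [pow_succ, pow_succ, ← Matrix.mulVec_mulVec, h, Matrix.mulVec_smul, ih, smul_smul, mul_comm]
  induction g using Polynomial.induction_on' with
  | add f g hf hg => rw [map_add, eval_add, add_smul, ← hf, ← hg, Matrix.add_mulVec]
  | monomial n c =>
    rw [aeval_monomial, eval_monomial, ← Algebra.smul_def, Matrix.smul_mulVec, hp, smul_smul]

/-- **L1**: the characteristic polynomial is cyclotomic -/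
theorem charpoly_eq {P : Matrix (Fin l) (Fin l) ℤ} {m d r : ℕ} [Fact r.Prime] {q : ZMod r} (hPm : P ^ m = 1) (hm : m ≠ 0)
    (hrm : ¬ r ∣ m) (hq : IsPrimitiveRoot q d) (hd : 0 < d) (hl : Nat.totient d = l) {a : Fin l → ZMod r} (ha : a ≠ 0)
    (hPa : red (ZMod r) P *ᵥ a = q • a) : P.charpoly = cyclotomic d ℤ := by
  classical
  have hdm : d ∣ m := by
    apply hq.dvd_of_pow_eq_one
    have h1 := aeval_mulVec hPa (X ^ m)
    have h2 : aeval (red (ZMod r) P) (X ^ m : (ZMod r)[X]) = 1 := by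
      rw [map_pow, aeval_X, ← map_pow, hPm, map_one]
    rw [h2, Matrix.one_mulVec, eval_pow, eval_X] at h1
    obtain ⟨i, hi⟩ := Function.ne_iff.1 ha
    have h3 := congrFun h1 i
    rw [Pi.smul_apply, smul_eq_mul] at h3
    exact (mul_eq_right₀ hi).1 h3.symm
  set A := red ℚ P with hA
  set g : ℤ[X] := ∏ e ∈ (Nat.divisors m).erase d, cyclotomic e ℤ with hg
  have hXm : cyclotomic d ℤ * g = X ^ m - 1 := by
    rw [← prod_cyclotomic_eq_X_pow_sub_one (Nat.pos_of_ne_zero hm), hg]
    exact Finset.mul_prod_erase (Nat.divisors m) (fun e => cyclotomic e ℤ) (Nat.mem_divisors.2 ⟨hdm, hm⟩)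
  have hdvd : cyclotomic d ℚ ∣ minpoly ℚ A := by
    by_contra hcon
    have hirr : Irreducible (cyclotomic d ℚ) := cyclotomic.irreducible_rat hd
    have hcop : IsCoprime (cyclotomic d ℚ) (minpoly ℚ A) := (hirr.coprime_iff_not_dvd).2 hcon
    have h1 : minpoly ℚ A ∣ cyclotomic d ℚ * g.map (Int.castRingHom ℚ) := by
      apply minpoly.dvd
      have h2 : cyclotomic d ℚ * g.map (Int.castRingHom ℚ) = X ^ m - 1 := by
        have := congrArg (Polynomial.map (Int.castRingHom ℚ)) hXm
        rw [Polynomial.map_mul, map_cyclotomic] at this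
        rw [this]
        simp
      rw [h2, map_sub, map_pow, aeval_X, map_one, hA, ← map_pow, hPm, map_one, sub_self]
    have h2 : minpoly ℚ A ∣ g.map (Int.castRingHom ℚ) := hcop.symm.dvd_of_dvd_mul_left h1
    have h3 : aeval A (g.map (Int.castRingHom ℚ)) = 0 := (minpoly.dvd_iff).1 h2
    rw [hA, ← red_aeval] at h3
    have h4 : aeval P g = 0 := red_injective ℚ (by rw [h3]; exact (map_zero _).symm)
    have h5 := aeval_mulVec hPa (g.map (Int.castRingHom (ZMod r)))
    rw [← red_aeval, h4] at h5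
    have h6 : red (ZMod r) (0 : Matrix (Fin l) (Fin l) ℤ) = 0 := map_zero _
    rw [h6, Matrix.zero_mulVec] at h5
    have h7 : eval q (g.map (Int.castRingHom (ZMod r))) = 0 := by
      by_contra h8
      exact (smul_ne_zero h8 ha) h5.symm
    rw [hg, Polynomial.map_prod, Polynomial.eval_prod, Finset.prod_eq_zero_iff] at h7
    obtain ⟨e, he, h8⟩ := h7
    rw [map_cyclotomic] at h8
    have hem : e ∣ m := (Nat.mem_divisors.1 (Finset.mem_of_mem_erase he)).1
    haveI : NeZero (e : ZMod r) := ⟨fun h => hrm (((ZMod.natCast_eq_zero_iff _ _).1 h).trans hem)⟩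
    have h9 : IsPrimitiveRoot q e := isRoot_cyclotomic_iff.1 h8
    exact (Finset.mem_erase.1 he).1 (h9.unique hq)
  have h1 : cyclotomic d ℚ ∣ A.charpoly := hdvd.trans (Matrix.minpoly_dvd_charpoly A)
  have h2 : A.charpoly = cyclotomic d ℚ := by
    refine Polynomial.eq_of_monic_of_dvd_of_natDegree_le (cyclotomic.monic d ℚ) (Matrix.charpoly_monic A) h1 ?_
    rw [Matrix.charpoly_natDegree_eq_dim, natDegree_cyclotomic, Fintype.card_fin, hl]
  have h3 : P.charpoly.map (Int.castRingHom ℚ) = (cyclotomic d ℤ).map (Int.castRingHom ℚ) := by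
    rw [map_cyclotomic, ← h2, hA]
    exact (Matrix.charpoly_map P (Int.castRingHom ℚ)).symm
  exact Polynomial.map_injective _ (Int.cast_injective (α := ℚ)) h3

/-- rows `v P^i` -/
def orb (P : Matrix (Fin l) (Fin l) ℤ) (v : Fin l → ℤ) : Matrix (Fin l) (Fin l) ℤ := Matrix.of fun i => v ᵥ* P ^ (i : ℕ)

theorem vecMul_aeval_sum {P : Matrix (Fin l) (Fin l) ℤ} (v : Fin l → ℤ) (c : Fin l → ℤ) :
    v ᵥ* (aeval P (∑ i : Fin l, C (c i) * X ^ (i : ℕ))) = c ᵥ* orb P v := by
  rw [map_sum]
  funext j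
  simp only [Matrix.vecMul_sum, map_mul, aeval_C, map_pow, aeval_X, Finset.sum_apply]
  simp only [Matrix.vecMul, dotProduct]
  refine Finset.sum_congr rfl fun i _ => ?_
  rw [← Algebra.smul_def]
  simp only [Matrix.smul_apply, orb, Matrix.of_apply, Matrix.vecMul, dotProduct, smul_eq_mul]
  rw [Finset.mul_sum]
  refine Finset.sum_congr rfl fun k _ => ?_
  ring

/-- **L3** -/
theorem det_orb_ne {P : Matrix (Fin l) (Fin l) ℤ} {d : ℕ} (hd : 0 < d) (hP : P.charpoly = cyclotomic d ℤ)
    {v : Fin l → ℤ} (hv : v ≠ 0) : (orb P v).det ≠ 0 := by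
  classical
  intro h0
  obtain ⟨c, hc, hc0⟩ := Matrix.exists_vecMul_eq_zero_iff.2 h0
  set g : ℤ[X] := ∑ i : Fin l, C (c i) * X ^ (i : ℕ) with hg
  have h1 : v ᵥ* (aeval P g) = 0 := by rw [hg, vecMul_aeval_sum, hc0]
  have hgdeg : g.degree < (l : WithBot ℕ) := by
    rw [hg]
    refine lt_of_le_of_lt (Polynomial.degree_sum_le _ _) ?_
    refine (Finset.sup_lt_iff (WithBot.bot_lt_coe l)).2 ?_
    intro i _
    refine lt_of_le_of_lt (Polynomial.degree_C_mul_X_pow_le _ _) ?_
    first | exact Nat.cast_lt.2 i.2 | exact WithBot.coe_lt_coe.2 i.2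
  have hgne : g ≠ 0 := by
    obtain ⟨i, hi⟩ := Function.ne_iff.1 hc
    intro h
    apply hi
    have h2 : g.coeff (i : ℕ) = c i := by
      rw [hg, Polynomial.finsetSum_coeff, Finset.sum_eq_single i]
      · simp
      · intro j _ hj
        rw [Polynomial.coeff_C_mul, Polynomial.coeff_X_pow, if_neg (fun h => hj (Fin.ext h.symm)), mul_zero]
      · intro h; exact absurd (Finset.mem_univ i) h
    rw [← h2, h]; simp
  -- over the rationals
  have hirr : Irreducible (cyclotomic d ℚ) := cyclotomic.irreducible_rat hd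
  have hdl : (cyclotomic d ℤ).natDegree = l := by rw [← hP, Matrix.charpoly_natDegree_eq_dim, Fintype.card_fin]
  have hnd : ¬ cyclotomic d ℚ ∣ g.map (Int.castRingHom ℚ) := by
    intro h
    have h2 : g.map (Int.castRingHom ℚ) ≠ 0 := by
      rwa [Ne, Polynomial.map_eq_zero_iff (Int.cast_injective (α := ℚ))]
    have h3 := Polynomial.degree_le_of_dvd h h2
    have h4 : (g.map (Int.castRingHom ℚ)).degree ≤ g.degree := Polynomial.degree_map_le
    have h5 : (cyclotomic d ℚ).degree = (l : WithBot ℕ) := by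
      rw [degree_cyclotomic]
      rw [natDegree_cyclotomic] at hdl
      rw [hdl]
    rw [h5] at h3
    exact absurd (lt_of_le_of_lt (h3.trans h4) hgdeg) (lt_irrefl _)
  obtain ⟨x, y, hxy⟩ := (hirr.coprime_iff_not_dvd).2 hnd
  set A := red ℚ P with hA
  have hA0 : aeval A (cyclotomic d ℚ) = 0 := by
    have h2 := red_aeval ℚ P (cyclotomic d ℤ)
    rw [← hP, Matrix.aeval_self_charpoly, hP, map_cyclotomic] at h2
    rw [← h2]
    exact map_zero _
  have h2 : (fun i => (v i : ℚ)) ᵥ* aeval A (g.map (Int.castRingHom ℚ)) = 0 := by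
    rw [hA, ← red_aeval]
    funext j
    have := congrFun h1 j
    have h3 := congrArg (Int.cast (R := ℚ)) this
    simp only [Matrix.vecMul, dotProduct, Pi.zero_apply] at h3 ⊢
    rw [Int.cast_sum] at h3
    rw [Int.cast_zero] at h3
    rw [← h3]
    refine Finset.sum_congr rfl fun k _ => ?_
    rw [Int.cast_mul]
    rfl
  have h3 : (fun i => (v i : ℚ)) = 0 := by
    have h4 : aeval A (x * cyclotomic d ℚ + y * g.map (Int.castRingHom ℚ)) = 1 := by rw [hxy, map_one]
    rw [map_add, map_mul, hA0, mul_zero, zero_add, mul_comm, map_mul] at h4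
    rw [← Matrix.vecMul_one (fun i => (v i : ℚ)), ← h4, ← Matrix.vecMul_vecMul, h2, Matrix.zero_vecMul]
  apply hv
  funext i
  have := congrFun h3 i
  simpa using this

theorem orb_mul_comm {P M : Matrix (Fin l) (Fin l) ℤ} (h : Commute M P) (v : Fin l → ℤ) : orb P v * M = orb P (v ᵥ* M) := by
  ext i j
  have h1 : (orb P v * M) i j = ((v ᵥ* P ^ (i : ℕ)) ᵥ* M) j := rfl
  rw [h1, Matrix.vecMul_vecMul, ← (h.pow_right (i : ℕ)).eq, ← Matrix.vecMul_vecMul]
  rfl

/-- **L2** -/
theorem det_ne_of_commute {P M : Matrix (Fin l) (Fin l) ℤ} {d : ℕ} (hd : 0 < d) (hP : P.charpoly = cyclotomic d ℤ)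
    (h : Commute M P) (hM : M ≠ 0) : M.det ≠ 0 := by
  classical
  intro h0
  obtain ⟨i, hi⟩ : ∃ i, M i ≠ 0 := by
    by_contra hcon
    push Not at hcon
    exact hM (funext hcon)
  have h1 : Pi.single i (1 : ℤ) ᵥ* M = M i := by
    rw [Matrix.single_one_vecMul]
    rfl
  have h2 := congrArg Matrix.det (orb_mul_comm h (Pi.single i 1))
  rw [h1, Matrix.det_mul, h0, mul_zero] at h2
  exact det_orb_ne hd hP hi h2.symm

/-- **stabilisers** -/
theorem stab_eq_one {P M : Matrix (Fin l) (Fin l) ℤ} {d m r : ℕ} [Fact r.Prime] (hd : 0 < d) (hP : P.charpoly = cyclotomic d ℤ)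
    (h : Commute M P) (hMm : M ^ m = 1) (hrm : ¬ r ∣ m) {a : Fin l → ZMod r} (ha : a ≠ 0) (hMa : red (ZMod r) M *ᵥ a = a) :
    M = 1 := by
  classical
  by_contra hne
  have h1 : (M - 1).det ≠ 0 := det_ne_of_commute hd hP (h.sub_left (Commute.one_left P)) (sub_ne_zero.2 hne)
  have h2 : (∑ i ∈ Finset.range m, M ^ i) * (M - 1) = 0 := by rw [geom_sum_mul, hMm, sub_self]
  have h3 : (∑ i ∈ Finset.range m, M ^ i) = 0 := by
    have h4 : (∑ i ∈ Finset.range m, M ^ i) * (M - 1) * (M - 1).adjugate = 0 := by rw [h2, Matrix.zero_mul]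
    rw [Matrix.mul_assoc, Matrix.mul_adjugate, Matrix.mul_smul, Matrix.mul_one] at h4
    exact (smul_eq_zero.1 h4).resolve_left h1
  have h4 : ∀ i, red (ZMod r) (M ^ i) *ᵥ a = a := by
    intro i
    induction i with
    | zero =>
      rw [pow_zero]
      have : red (ZMod r) (1 : Matrix (Fin l) (Fin l) ℤ) = 1 := map_one _
      rw [this, Matrix.one_mulVec]
    | succ i ih =>
      have : red (ZMod r) (M ^ (i + 1)) = red (ZMod r) (M ^ i) * red (ZMod r) M := by rw [pow_succ]; exact map_mul _ _ _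
      rw [this, ← Matrix.mulVec_mulVec, hMa, ih]
  have h5 : (red (ZMod r) (∑ i ∈ Finset.range m, M ^ i)) *ᵥ a = (m : ZMod r) • a := by
    have : red (ZMod r) (∑ i ∈ Finset.range m, M ^ i) = ∑ i ∈ Finset.range m, red (ZMod r) (M ^ i) := map_sum _ _ _
    rw [this, Matrix.sum_mulVec, Finset.sum_congr rfl fun i _ => h4 i, Finset.sum_const, Finset.card_range]
    funext j
    simp
  rw [h3] at h5
  have h6 : red (ZMod r) (0 : Matrix (Fin l) (Fin l) ℤ) = 0 := map_zero _
  rw [h6, Matrix.zero_mulVec] at h5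
  have h7 : (m : ZMod r) = 0 := by
    by_contra h8
    exact smul_ne_zero h8 ha h5.symm
  exact hrm ((ZMod.natCast_eq_zero_iff _ _).1 h7)

/-- **regularity** -/
theorem dvd_det_orb {P : Matrix (Fin l) (Fin l) ℤ} {r : ℕ} [Fact r.Prime] {q : ZMod r} {a : Fin l → ZMod r} (ha : a ≠ 0)
    (hPa : red (ZMod r) P *ᵥ a = q • a) {u : Fin l → ℤ} (hu : (fun i => (u i : ZMod r)) ⬝ᵥ a = 0) : (r : ℤ) ∣ (orb P u).det := by
  classical
  have h1 : (red (ZMod r) (orb P u)).det = 0 := by
    rw [← Matrix.exists_mulVec_eq_zero_iff]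
    refine ⟨a, ha, ?_⟩
    funext i
    have h2 : (red (ZMod r) (orb P u) *ᵥ a) i = ((fun i => (u i : ZMod r)) ᵥ* red (ZMod r) (P ^ (i : ℕ))) ⬝ᵥ a := by
      change (fun j => red (ZMod r) (orb P u) i j) ⬝ᵥ a = _
      congr 1
      funext j
      simp only [orb, RingHom.mapMatrix_apply, Matrix.map_apply, Matrix.of_apply, Matrix.vecMul, dotProduct]
      rw [map_sum]
      refine Finset.sum_congr rfl fun k _ => ?_
      rw [map_mul]
      rfl
    rw [h2, ← Matrix.dotProduct_mulVec]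
    have h3 : red (ZMod r) (P ^ (i : ℕ)) *ᵥ a = q ^ (i : ℕ) • a := by
      have h4 := aeval_mulVec hPa (X ^ (i : ℕ))
      rw [map_pow, aeval_X, ← map_pow, eval_pow, eval_X] at h4
      exact h4
    rw [h3, dotProduct_smul, hu, smul_zero]
    rfl
  have h2 : (red (ZMod r) (orb P u)).det = (((orb P u).det : ℤ) : ZMod r) := (RingHom.map_det (Int.castRingHom (ZMod r)) _).symm
  rw [h2] at h1
  exact (ZMod.intCast_zmod_eq_zero_iff_dvd _ _).1 h1

end
end Cfsg.Agent.H15.CTor
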