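import Cfsg.Agent.H15.CTor1
import Cfsg.Agent.H6.ChevTorusCard

/-!
# Kernels of `P - q` on powers of a cyclic group
-/

set_option autoImplicit false
set_option linter.unusedSectionVars false

namespace Cfsg.Agent.H15.CTor

open Polynomial Matrix Cfsg.Agent.H6

section
variable {l : ℕ}

/-- the additive homomorphism of an integer matrix -/
def zhom {M : Type*} [AddCommGroup M] (A : Matrix (Fin l) (Fin l) ℤ) : (Fin l → M) →+ (Fin l → M) where
  toFun := zact A
  map_zero' := zact_zero A
  map_add' x y := by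
    funext i
    simp only [zact, Pi.add_apply, smul_add, Finset.sum_add_distrib]

theorem card_zhom_ker {n : ℕ} [NeZero n] {A B : Matrix (Fin l) (Fin l) ℤ} {k : ℤ} (hAB : A * B = k • 1) (hk : k ≠ 0)
    (hkn : k ∣ n) : Nat.card (zhom (M := ZMod n) A).ker = A.det.natAbs := by
  classical
  have hdet : A.det ≠ 0 := by
    intro h
    have h1 := congrArg Matrix.det hAB
    rw [Matrix.det_mul, h, zero_mul, Matrix.det_smul, Matrix.det_one, mul_one] at h1
    exact pow_ne_zero _ hk h1.symm
  set f := zhom (M := ZMod n) A with hf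
  have h1 := AddSubgroup.card_mul_index f.ker
  have h2 := AddSubgroup.card_mul_index f.range
  rw [AddSubgroup.index_ker] at h1
  have h3 : Nat.card f.ker = f.range.index := by
    have h4 : Nat.card f.ker * Nat.card f.range = f.range.index * Nat.card f.range := by rw [h1, mul_comm f.range.index, h2]
    exact Nat.eq_of_mul_eq_mul_right Nat.card_pos h4
  rw [h3]
  set π : (Fin l → ℤ) →+ (Fin l → ZMod n) := (Int.castAddHom (ZMod n)).compLeft (Fin l) with hπ
  have hπs : Function.Surjective π := by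
    intro x
    choose y hy using fun i => ZMod.intCast_surjective (x i)
    exact ⟨y, funext hy⟩
  rw [← AddSubgroup.index_comap_of_surjective f.range hπs]
  have hπz : ∀ (C : Matrix (Fin l) (Fin l) ℤ) (x : Fin l → ℤ), π (C *ᵥ x) = zact C (π x) := by
    intro C x
    funext i
    change ((∑ j, C i j * x j : ℤ) : ZMod n) = ∑ j, C i j • ((x j : ℤ) : ZMod n)
    rw [Int.cast_sum]
    refine Finset.sum_congr rfl fun j _ => ?_
    rw [Int.cast_mul, zsmul_eq_mul]
  have hcomap : f.range.comap π = (LinearMap.range (Matrix.toLin' A)).toAddSubgroup := by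
    ext x
    rw [AddSubgroup.mem_comap, Submodule.mem_toAddSubgroup, LinearMap.mem_range]
    constructor
    · rintro ⟨y, hy⟩
      obtain ⟨y', rfl⟩ := hπs y
      change zact A (π y') = π x at hy
      rw [← hπz] at hy
      have h4 : ∀ i, (n : ℤ) ∣ x i - (A *ᵥ y') i := by
        intro i
        have h5 := congrFun hy i
        change (((A *ᵥ y') i : ℤ) : ZMod n) = ((x i : ℤ) : ZMod n) at h5
        exact (ZMod.intCast_eq_intCast_iff_dvd_sub _ _ _).1 h5
      obtain ⟨k', hk'⟩ := hkn
      choose z hz using h4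
      refine ⟨y' + B *ᵥ (k' • z), ?_⟩
      rw [Matrix.toLin'_apply, Matrix.mulVec_add, Matrix.mulVec_mulVec, hAB, Matrix.smul_mulVec, Matrix.one_mulVec]
      funext i
      have h5 := hz i
      rw [hk'] at h5
      simp only [Pi.add_apply, Pi.smul_apply, smul_eq_mul]
      linear_combination -h5
    · rintro ⟨y, rfl⟩
      rw [Matrix.toLin'_apply, hπz]
      exact ⟨π y, rfl⟩
  rw [hcomap]
  have hinj : Function.Injective (Matrix.toLin' A) := by
    rw [← LinearMap.ker_eq_bot, LinearMap.ker_eq_bot']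
    intro v hv
    by_contra hv0
    exact hdet (Matrix.exists_mulVec_eq_zero_iff.1 ⟨v, hv0, by rwa [Matrix.toLin'_apply] at hv⟩)
  have h5 := Submodule.natAbs_det_equiv (LinearMap.range (Matrix.toLin' A)) (LinearEquiv.ofInjective (Matrix.toLin' A) hinj)
  have h6 : ((LinearMap.range (Matrix.toLin' A)).subtype ∘ₗ
      (((LinearEquiv.ofInjective (Matrix.toLin' A) hinj : (Fin l → ℤ) ≃ₗ[ℤ] _) : (Fin l → ℤ) →+ _).toIntLinearMap)) = Matrix.toLin' A := by
    ext x; rfl
  rw [h6, LinearMap.det_toLin'] at h5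
  rw [h5, ← Submodule.cardQuot_apply]
  rfl

/-- the kernel of `P - q` on a power of an abelian group -/
def KerS (C : Type*) [CommGroup C] (P : Matrix (Fin l) (Fin l) ℤ) (q : ℕ) : Subgroup (Fin l → C) where
  carrier := {x | ∀ k, ∏ j, x j ^ P k j = x k ^ q}
  one_mem' k := by simp
  mul_mem' {x y} hx hy k := by
    simp only [Pi.mul_apply, mul_zpow, mul_pow]
    rw [Finset.prod_mul_distrib, hx k, hy k]
  inv_mem' {x} hx k := by
    simp only [Pi.inv_apply, _root_.inv_zpow, inv_pow, Finset.prod_inv_distrib]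
    rw [hx k]

theorem mem_KerS {C : Type*} [CommGroup C] {P : Matrix (Fin l) (Fin l) ℤ} {q : ℕ} {x : Fin l → C} :
    x ∈ KerS C P q ↔ ∀ k, ∏ j, x j ^ P k j = x k ^ q := Iff.rfl

/-- through additive notation -/
theorem zact_sub_iff {M : Type*} [AddCommGroup M] {P : Matrix (Fin l) (Fin l) ℤ} {q : ℕ} {x : Fin l → M} :
    zact (P - (q : ℤ) • (1 : Matrix (Fin l) (Fin l) ℤ)) x = 0 ↔ ∀ k, ∑ j, P k j • x j = q • x k := by
  have h1 : ∀ k, zact (P - (q : ℤ) • (1 : Matrix (Fin l) (Fin l) ℤ)) x k = (∑ j, P k j • x j) - q • x k := by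
    intro k
    unfold zact
    simp only [Matrix.sub_apply, Matrix.smul_apply, Matrix.one_apply, sub_smul, Finset.sum_sub_distrib]
    congr 1
    rw [Finset.sum_eq_single k]
    · simp
    · intro j _ hj
      rw [if_neg (Ne.symm hj)]; simp
    · intro h; exact absurd (Finset.mem_univ k) h
  constructor
  · intro h k
    have := congrFun h k
    rw [h1] at this
    exact sub_eq_zero.1 this
  · intro h
    funext k
    rw [h1, h k, sub_self]; rfl

theorem mem_KerS_iff {C : Type*} [CommGroup C] {P : Matrix (Fin l) (Fin l) ℤ} {q : ℕ} {x : Fin l → C} :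
    x ∈ KerS C P q ↔ zact (P - (q : ℤ) • (1 : Matrix (Fin l) (Fin l) ℤ)) (fun i => Additive.ofMul (x i)) = 0 := by
  rw [zact_sub_iff, mem_KerS]
  refine forall_congr' fun k => ?_
  constructor
  · intro h
    have := congrArg Additive.ofMul h
    rw [ofMul_prod] at this
    exact this
  · intro h
    apply Additive.ofMul.injective
    rw [ofMul_prod]
    exact h

theorem zact_smul {M : Type*} [AddCommGroup M] (A : Matrix (Fin l) (Fin l) ℤ) (k : ℤ) (x : Fin l → M) :
    zact (k • A) x = k • zact A x := by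
  funext i
  simp only [zact, Matrix.smul_apply, Pi.smul_apply, Finset.smul_sum, smul_eq_mul, mul_smul]

theorem KerS_cyclic {C : Type*} [CommGroup C] [Finite C] [IsCyclic C] {P : Matrix (Fin l) (Fin l) ℤ} {q d M₀ : ℕ} (hd : 0 < d)
    (hP : P.charpoly = cyclotomic d ℤ) (hM : (cyclotomic d ℤ).eval (q : ℤ) = M₀) (hM0 : M₀ ≠ 0) (hMn : M₀ ∣ Nat.card C)
    (hsq : ∀ p : ℕ, p.Prime → p ∣ M₀ → p ∣ d → ¬ p ^ 2 ∣ M₀) :
    IsCyclic (KerS C P q) ∧ Nat.card (KerS C P q) = M₀ := by
  classical
  haveI : NeZero (Nat.card C) := ⟨Nat.card_pos.ne'⟩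
  set n := Nat.card C with hn
  set A : Matrix (Fin l) (Fin l) ℤ := P - (q : ℤ) • (1 : Matrix (Fin l) (Fin l) ℤ) with hA
  obtain ⟨g, hg⟩ := X_sub_C_dvd_sub_C_eval (a := (q : ℤ)) (p := cyclotomic d ℤ)
  rw [hM] at hg
  set B := aeval P g with hB
  have hAB : A * B = (-(M₀ : ℤ)) • 1 := by
    have h1 := congrArg (aeval P) hg
    rw [map_sub, map_mul, map_sub, aeval_X, aeval_C, aeval_C, ← hP, Matrix.aeval_self_charpoly, zero_sub,
      Algebra.algebraMap_eq_smul_one, Algebra.algebraMap_eq_smul_one, ← hB, ← hA] at h1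
    rw [← h1, neg_smul]
  have hBA : B * A = (-(M₀ : ℤ)) • 1 := by
    rw [← hAB]
    have : Commute B P := by
      have h := (Commute.all g X).map (aeval P)
      rw [aeval_X] at h
      exact h
    rw [hA]
    exact (this.sub_right ((Commute.one_right B).smul_right (q : ℤ))).eq
  have hM0' : (-(M₀ : ℤ)) ≠ 0 := by
    rw [neg_ne_zero]; exact_mod_cast hM0
  have hdA : A.det.natAbs = M₀ := by
    have h1 := Matrix.eval_charpoly P (q : ℤ)
    rw [hP, hM] at h1
    have h2 : Matrix.scalar (Fin l) (q : ℤ) - P = -A := by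
      rw [hA, neg_sub]
      rw [Matrix.scalar_apply, Matrix.smul_one_eq_diagonal]
    rw [h2, Matrix.det_neg] at h1
    have h3 := congrArg Int.natAbs h1
    rw [Int.natAbs_mul, Int.natAbs_pow, Int.natAbs_neg, Int.natAbs_one, one_pow, one_mul, Int.natAbs_natCast] at h3
    exact h3.symm
  -- the order
  have hcard : Nat.card (KerS C P q) = M₀ := by
    have hdn : (-(M₀ : ℤ)) ∣ (n : ℤ) := by
      rw [neg_dvd]; exact_mod_cast hMn
    rw [← hdA, ← card_zhom_ker (n := n) hAB hM0' hdn]
    have e : Multiplicative (ZMod n) ≃* C := zmodCyclicMulEquiv inferInstance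
    refine Nat.card_congr ?_
    have key : ∀ x : Fin l → ZMod n, x ∈ (zhom (M := ZMod n) A).ker ↔ (fun i => e (Multiplicative.ofAdd (x i))) ∈ KerS C P q := by
      intro x
      rw [AddMonoidHom.mem_ker]
      change zact A x = 0 ↔ _
      rw [hA, zact_sub_iff, mem_KerS]
      refine forall_congr' fun k => ?_
      rw [← e.injective.eq_iff.trans Multiplicative.ofAdd.injective.eq_iff, ofAdd_sum, map_prod, ofAdd_nsmul, map_pow]
      have : ∀ j, e (Multiplicative.ofAdd (P k j • x j)) = e (Multiplicative.ofAdd (x j)) ^ P k j := by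
        intro j
        rw [ofAdd_zsmul, map_zpow]
      rw [Finset.prod_congr rfl fun j _ => this j]
    exact {
      toFun := fun x => ⟨fun i => Multiplicative.toAdd (e.symm (x.1 i)), (key _).2 (by
        have : (fun i => e (Multiplicative.ofAdd (Multiplicative.toAdd (e.symm (x.1 i))))) = x.1 := by
          funext i; rw [ofAdd_toAdd, MulEquiv.apply_symm_apply]
        rw [this]; exact x.2)⟩
      invFun := fun x => ⟨fun i => e (Multiplicative.ofAdd (x.1 i)), (key _).1 x.2⟩
      left_inv := fun x => Subtype.ext (funext fun i => by simp)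
      right_inv := fun x => Subtype.ext (funext fun i => by simp) }
  refine ⟨?_, hcard⟩
  -- the exponent
  have hexp : ∀ x : KerS C P q, x ^ M₀ = 1 := by
    intro x
    have h1 := mem_KerS_iff.1 x.2
    have h2 : zact (B * A) (fun i => Additive.ofMul (x.1 i)) = 0 := by
      rw [zact_mul, h1, zact_zero]
    rw [hBA, zact_smul, zact_one] at h2
    apply Subtype.ext
    funext i
    have h3 := congrFun h2 i
    rw [Pi.smul_apply, neg_smul, Pi.zero_apply, neg_eq_zero] at h3
    have h4 := congrArg Additive.toMul h3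
    rw [toMul_zsmul] at h4
    have h5 : (x.1 i) ^ (M₀ : ℤ) = 1 := h4
    rw [zpow_natCast] at h5
    exact h5
  have hnz : ∀ p : ℕ, p.Prime → p ∣ M₀ → red (ZMod p) B ≠ 0 := by
    intro p hp hpM hB0
    haveI : Fact p.Prime := ⟨hp⟩
    by_cases hpd : p ∣ d
    · -- square-free case
      have h1 : ∀ i j, (p : ℤ) ∣ B i j := by
        intro i j
        have := congrFun (congrFun hB0 i) j
        exact (ZMod.intCast_zmod_eq_zero_iff_dvd _ _).1 this
      choose B' hB' using h1
      obtain ⟨M₁, hM₁⟩ := hpM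
      have h2 : A * Matrix.of B' = (-(M₁ : ℤ)) • 1 := by
        have h3 : (p : ℤ) • (A * Matrix.of B') = (p : ℤ) • ((-(M₁ : ℤ)) • (1 : Matrix (Fin l) (Fin l) ℤ)) := by
          rw [← Matrix.mul_smul]
          have h4 : (p : ℤ) • Matrix.of B' = B := by
            ext i j
            rw [Matrix.smul_apply, Matrix.of_apply, hB' i j, smul_eq_mul]
          rw [h4, hAB, hM₁, smul_smul]
          congr 1
          push_cast; ring
        ext i j
        have h5 := congrFun (congrFun h3 i) j
        simp only [Matrix.smul_apply, smul_eq_mul] at h5 ⊢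
        have hp0 : (p : ℤ) ≠ 0 := by exact_mod_cast hp.ne_zero
        exact mul_left_cancel₀ hp0 h5
      have h3 := congrArg Matrix.det h2
      rw [Matrix.det_mul, Matrix.det_smul, Matrix.det_one, mul_one, Fintype.card_fin] at h3
      have h4 : M₀ ∣ M₁ ^ l := by
        have := congrArg Int.natAbs h3
        rw [Int.natAbs_mul, hdA, Int.natAbs_pow, Int.natAbs_neg, Int.natAbs_natCast] at this
        exact ⟨_, this.symm⟩
      have h5 : p ∣ M₁ := hp.dvd_of_dvd_pow ((Dvd.intro _ hM₁.symm).trans h4)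
      obtain ⟨M₂, hM₂⟩ := h5
      exact hsq p hp ⟨M₁, hM₁⟩ hpd ⟨M₂, by rw [hM₁, hM₂]; ring⟩
    · haveI : NeZero (d : ZMod p) := ⟨fun h => hpd ((ZMod.natCast_eq_zero_iff _ _).1 h)⟩
      have hsep := separable_cyclotomic d (ZMod p)
      set q' : ZMod p := (q : ZMod p) with hq'
      have hroot : (cyclotomic d (ZMod p)).eval q' = 0 := by
        have h1 : (cyclotomic d (ZMod p)).eval q' = (((cyclotomic d ℤ).eval (q : ℤ) : ℤ) : ZMod p) := by
          rw [← map_cyclotomic d (Int.castRingHom (ZMod p)), Polynomial.eval_map, hq']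
          have : ((q : ℕ) : ZMod p) = Int.castRingHom (ZMod p) (q : ℤ) := by simp
          rw [this, Polynomial.eval₂_at_apply]
          rfl
        rw [h1, hM, Int.cast_natCast]
        exact (ZMod.natCast_eq_zero_iff _ _).2 hpM
      -- the quotient at `q`
      have hgm : cyclotomic d (ZMod p) = (X - Polynomial.C q') * g.map (Int.castRingHom (ZMod p)) := by
        have h1 := congrArg (Polynomial.map (Int.castRingHom (ZMod p))) hg
        rw [Polynomial.map_sub, map_cyclotomic, Polynomial.map_mul, Polynomial.map_sub, map_X, map_C, map_C] at h1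
        have h2 : (Int.castRingHom (ZMod p)) (M₀ : ℤ) = 0 := by
          rw [eq_intCast, Int.cast_natCast]; exact (ZMod.natCast_eq_zero_iff _ _).2 hpM
        have h3 : (Int.castRingHom (ZMod p)) (q : ℤ) = q' := by simp [hq']
        rw [h2, h3, C_0, sub_zero] at h1
        exact h1
      have hgq : (g.map (Int.castRingHom (ZMod p))).eval q' ≠ 0 := by
        intro h0
        obtain ⟨u, v, huv⟩ := hsep
        have h1 : (derivative (cyclotomic d (ZMod p))).eval q' = 0 := by
          rw [hgm, derivative_mul, eval_add, eval_mul, eval_mul, h0, eval_sub, eval_X, eval_C, sub_self]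
          ring
        have h2 := congrArg (Polynomial.eval q') huv
        rw [eval_add, eval_mul, eval_mul, hroot, h1, mul_zero, mul_zero, add_zero, eval_one] at h2
        exact zero_ne_one h2
      have heig : ∃ v, v ≠ 0 ∧ red (ZMod p) P *ᵥ v = q' • v := by
        have h1 : ((red (ZMod p) P).charpoly).eval q' = 0 := by
          have : (red (ZMod p) P).charpoly = P.charpoly.map (Int.castRingHom (ZMod p)) := Matrix.charpoly_map P (Int.castRingHom (ZMod p))
          rw [this, hP, map_cyclotomic, hroot]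
        rw [Matrix.eval_charpoly] at h1
        obtain ⟨v, hv, hv0⟩ := Matrix.exists_mulVec_eq_zero_iff.2 h1
        refine ⟨v, hv, ?_⟩
        rw [Matrix.sub_mulVec, sub_eq_zero] at hv0
        rw [← hv0]
        funext i
        simp [Matrix.scalar_apply, Matrix.mulVec_diagonal]
      obtain ⟨v, hv, hv0⟩ := heig
      have h1 := aeval_mulVec hv0 (g.map (Int.castRingHom (ZMod p)))
      rw [← red_aeval, ← hB, hB0, Matrix.zero_mulVec] at h1
      exact smul_ne_zero hgq hv h1.symm
  -- conclude
  apply IsCyclic.of_exponent_eq_card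
  rw [hcard]
  have he : Monoid.exponent (KerS C P q) ∣ M₀ := Monoid.exponent_dvd_of_forall_pow_eq_one hexp
  by_contra hne
  obtain ⟨e', he'⟩ := he
  have he1 : e' ≠ 1 := by
    rintro rfl
    apply hne
    rw [he', mul_one]
  obtain ⟨p, hp, hpe⟩ := Nat.exists_prime_and_dvd he1
  haveI : Fact p.Prime := ⟨hp⟩
  have hpM : p ∣ M₀ := hpe.trans ⟨_, by rw [mul_comm]; exact he'⟩
  -- all elements are killed by `M₀ / p`
  have hk : ∀ x : KerS C P q, x ^ (M₀ / p) = 1 := by
    intro x
    obtain ⟨e₂, rfl⟩ := hpe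
    have h1 : M₀ / p = Monoid.exponent (KerS C P q) * e₂ := by
      rw [he']
      rw [show Monoid.exponent (KerS C P q) * (p * e₂) = p * (Monoid.exponent (KerS C P q) * e₂) by ring]
      exact Nat.mul_div_cancel_left _ hp.pos
    rw [h1, pow_mul, Monoid.pow_exponent_eq_one, one_pow]
  have h0 := hnz p hp hpM
  obtain ⟨i, j, hij⟩ : ∃ i j, ¬ (p : ℤ) ∣ B i j := by
    by_contra hcon
    push Not at hcon
    apply h0
    ext i j
    exact (ZMod.intCast_zmod_eq_zero_iff_dvd _ _).2 (hcon i j)
  obtain ⟨ζ, hζ⟩ := IsCyclic.exists_ofOrder_eq_natCard (α := C)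
  obtain ⟨s, hs⟩ := hMn
  set x : Fin l → C := fun i => ζ ^ ((s : ℤ) * B i j) with hx
  have hxm : x ∈ KerS C P q := by
    rw [mem_KerS_iff]
    have h1 : (fun i => Additive.ofMul (x i)) = zact B (Pi.single j ((s : ℤ) • Additive.ofMul ζ)) := by
      funext i
      unfold zact
      rw [Finset.sum_eq_single j]
      · rw [Pi.single_eq_same, hx, smul_smul, mul_comm]
        rfl
      · intro k _ hk'
        rw [Pi.single_eq_of_ne hk', smul_zero]
      · intro h; exact absurd (Finset.mem_univ j) h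
    rw [h1, ← hA, ← zact_mul, hAB, zact_smul, zact_one]
    funext k
    rw [Pi.smul_apply]
    by_cases hkj : k = j
    · subst hkj
      rw [Pi.single_eq_same, smul_smul]
      change Additive.ofMul (ζ ^ (-(M₀ : ℤ) * (s : ℤ))) = 0
      rw [neg_mul, _root_.zpow_neg, ← Nat.cast_mul, ← hs, zpow_natCast, hn, pow_card_eq_one']
      simp
    · rw [Pi.single_eq_of_ne hkj, smul_zero]; rfl
  have h1 := hk ⟨x, hxm⟩
  have h2 := congrFun (congrArg Subtype.val h1) i
  have h3 : (ζ ^ ((s : ℤ) * B i j)) ^ (M₀ / p) = 1 := h2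
  rw [← zpow_natCast, ← _root_.zpow_mul] at h3
  have h4 : ((n : ℕ) : ℤ) ∣ (s : ℤ) * B i j * ((M₀ / p : ℕ) : ℤ) := by
    rw [hn, ← hζ]
    exact orderOf_dvd_iff_zpow_eq_one.2 h3
  obtain ⟨M₁, hM₁⟩ := hpM
  have h5 : M₀ / p = M₁ := by rw [hM₁]; exact Nat.mul_div_cancel_left _ hp.pos
  rw [h5, hs, hM₁] at h4
  obtain ⟨k, hk2⟩ := h4
  apply hij
  refine ⟨k, ?_⟩
  have hM10 : (M₁ : ℤ) ≠ 0 := by
    rintro h
    apply hM0
    rw [hM₁]
    have : M₁ = 0 := by exact_mod_cast h
    rw [this, mul_zero]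
  have hs0 : (s : ℤ) ≠ 0 := by
    intro h
    have : s = 0 := by exact_mod_cast h
    rw [this, mul_zero] at hs
    exact NeZero.ne n hs
  push_cast at hk2
  have h6 : ((s : ℤ) * M₁) * B i j = ((s : ℤ) * M₁) * (p * k) := by linear_combination hk2
  exact mul_left_cancel₀ (mul_ne_zero hs0 hM10) h6

end
end Cfsg.Agent.H15.CTor
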