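import Cfsg.Agent.H15.OInv3

/-!
# Involutions of Chevalley groups in odd characteristic: the order of the centraliser of `t_j`
-/

set_option autoImplicit false
set_option linter.unusedSectionVars false

namespace Cfsg.Agent.H15.OInv

open Cfsg.Agent.H6 Cfsg.Lie Cfsg.Agent.H22 Cfsg.Agent.H15.Chev
open scoped Matrix

variable {D : ChevalleyDatum} {N : ℕ} {η : ℕ → ℕ → ℤ} {rc : ℕ → ℕ → ℤ} {F : Type*} [Field F]

/-- even part of a set of roots -/
def cS (rc : ℕ → ℕ → ℤ) (j : ℕ) (S : Set ℕ) : Set ℕ := {r | r ∈ S ∧ Even (rc r j)}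

/-- Weyl elements preserving the parity of the `j`-coordinate -/
def WT (hG : Good D N η rc) (j : ℕ) : Set hG.W := {w | ∀ r : Fin D.nroots, Even (rc (w.1 r) j) ↔ Even (rc r j)}

variable (hG : Good D N η rc) (hE : Ext D rc)

include hG

theorem chr_two_pow {j : ℕ} (hj : j < D.rank) (r : ℕ) : chr D.rank rc (cv F (2 ^ j)) r = (-1) ^ rc r j := by
  unfold chr
  rw [Finset.prod_eq_single j]
  · congr 1
    unfold cv
    rw [Nat.testBit_two_pow_self, if_pos rfl]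
  · intro k _ hk
    unfold cv
    rw [Nat.testBit_two_pow_of_ne (Ne.symm hk)]
    simp
  · intro h; exact absurd (Finset.mem_range.2 hj) h

theorem even_pow {n : ℤ} (h : Even n) : (((-1 : Fˣ) ^ n : Fˣ) : F) = 1 := by
  rw [h.neg_one_zpow, Units.val_one]

theorem odd_pow {n : ℤ} (h : ¬ Even n) : (((-1 : Fˣ) ^ n : Fˣ) : F) = -1 := by
  rw [(Int.not_even_iff_odd.1 h).neg_one_zpow]; push_cast; rfl

theorem tj_conj {j : ℕ} (hj : j < D.rank) {r : ℕ} (hr : r < D.nroots) (c : F) :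
    hv D F rc (2 ^ j) * xg D F r c * (hv D F rc (2 ^ j))⁻¹ = xg D F r ((((-1 : Fˣ) ^ rc r j : Fˣ) : F) * c) := by
  unfold hv
  rw [hG.tor_conj_xg (hG.isChr_chr _) hr, chr_two_pow hG hj]

theorem conj_op {t : GL D.Idx F} {χ : ℕ → F} (h : ∀ r < D.nroots, ∀ c : F, t * xg D F r c * t⁻¹ = xg D F r (χ r * c))
    (τ : ℕ → F) (m k : ℕ) (hmk : m + k ≤ D.nroots) :
    t * op (xg D F) τ m k * t⁻¹ = op (xg D F) (fun r => χ r * τ r) m k := by
  induction k generalizing m with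
  | zero => rw [op_zero, op_zero]; group
  | succ k ih =>
    rw [op_succ, op_succ, ← ih (m + 1) (by omega), ← h m (by omega)]
    group

include hE

theorem fix_iff (h2 : (2 : F) ≠ 0) {j : ℕ} (hj : j < D.rank) (τ : ℕ → F) :
    hv D F rc (2 ^ j) * op (xg D F) τ N N = op (xg D F) τ N N * hv D F rc (2 ^ j) ↔
    ∀ r, N ≤ r → r < D.nroots → ¬ Even (rc r j) → τ r = 0 := by
  have hn := hG.nroots_eq
  rw [← mul_inv_eq_iff_eq_mul, conj_op hG (fun r hr c => tj_conj hG hj hr c) τ N N (by omega)]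
  constructor
  · intro h r h1 h3 h4
    have h5 := hG.op_inj hE _ _ N N (by omega) le_rfl h r h1 h3
    rw [odd_pow hG h4] at h5
    have h6 : 2 * τ r = 0 := by linear_combination (-1 : F) * h5
    exact (mul_eq_zero.1 h6).resolve_left h2
  · intro h
    apply op_congr
    intro r h1 h3
    by_cases h4 : Even (rc r j)
    · rw [even_pow hG h4, one_mul]
    · rw [h r h1 (by omega) h4, mul_zero]

/-- the fixed points in `US S` -/
theorem exists_fixEquiv (h2 : (2 : F) ≠ 0) {j : ℕ} (hj : j < D.rank) {S : Set ℕ} (hS : PClo D N S) :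
    Nonempty ((cS rc j S → F) ≃ {u : GL D.Idx F // u ∈ US (xg D F) S ∧ hv D F rc (2 ^ j) * u = u * hv D F rc (2 ^ j)}) := by
  classical
  have hn := hG.nroots_eq
  refine ⟨Equiv.ofBijective (fun f => ⟨op (xg D F) (fun r => if h : r ∈ cS rc j S then f ⟨r, h⟩ else 0) N N,
    hG.op_mem_US hE hS.pos _ (fun r hr => dif_neg fun h => hr h.1), ?_⟩) ⟨?_, ?_⟩⟩
  · rw [fix_iff hG hE h2 hj]
    intro r _ _ h
    exact dif_neg fun h' => h h'.2
  · intro f f' h
    have h1 := congrArg Subtype.val h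
    have h3 := hG.op_inj hE _ _ N N (by rw [hG.nroots_eq]; ring) le_rfl h1
    funext ⟨r, hr⟩
    have h4 := h3 r (hS.pos r hr.1).1 (hS.pos r hr.1).2
    simpa [hr] using h4
  · rintro ⟨g, hg, hc⟩
    obtain ⟨t, ht, rfl⟩ := hG.exists_op' (hG.rd hE) hS hg
    rw [fix_iff hG hE h2 hj] at hc
    refine ⟨fun r => t r, Subtype.ext ?_⟩
    apply op_congr
    intro r h1 h3
    by_cases h4 : r ∈ cS rc j S
    · dsimp only; rw [dif_pos h4]
    · dsimp only
      rw [dif_neg h4]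
      by_cases h5 : r ∈ S
      · exact (hc r h1 (by omega) fun h => h4 ⟨h5, h⟩).symm
      · exact (ht r h5).symm

theorem card_fix [Finite F] (h2 : (2 : F) ≠ 0) {j : ℕ} (hj : j < D.rank) {S : Set ℕ} (hS : PClo D N S) :
    Nat.card {u : GL D.Idx F // u ∈ US (xg D F) S ∧ hv D F rc (2 ^ j) * u = u * hv D F rc (2 ^ j)} =
      Nat.card F ^ Nat.card (cS rc j S) := by
  have : Finite (cS rc j S) := Set.Finite.subset (Set.finite_lt_nat D.nroots) (fun r hr => (hS.pos r hr.1).2)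
  obtain ⟨e⟩ := exists_fixEquiv (F := F) hG hE h2 hj hS
  rw [← Nat.card_congr e, Nat.card_fun]

theorem mon_comm_iff (h2 : (2 : F) ≠ 0) {j : ℕ} (hj : j < D.rank) (ht : hv D F rc (2 ^ j) ∈ D.diagonalSubgroup F)
    {n : GL D.Idx F} (hn : n ∈ D.monomialSubgroup F) {w : hG.W} {χ : Fin D.nroots → Fˣ} (hm : Mon hG (xg D F) n w χ) :
    hv D F rc (2 ^ j) * n = n * hv D F rc (2 ^ j) ↔ w ∈ WT hG j := by
  set t := hv D F rc (2 ^ j) with htdef
  have htt : t * t = 1 := hv_sq hG _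
  have hti : t⁻¹ = t := inv_eq_of_mul_eq_one_left htt
  have hne : (-1 : F) ≠ 1 := by
    intro h
    apply h2
    linear_combination (-1 : F) * h
  constructor
  · intro h r
    have h1 := hm.act r 1
    have h3 : t * n * t⁻¹ = n := by rw [h, mul_inv_cancel_right]
    have h4 : n * xg D F r 1 * n⁻¹ = t * (n * (t * xg D F r 1 * t⁻¹) * n⁻¹) * t⁻¹ := by
      have : (t * n * t⁻¹) * xg D F r 1 * (t * n * t⁻¹)⁻¹ = n * xg D F r 1 * n⁻¹ := by rw [h3]
      rw [← this, hti]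
      rw [mul_inv_rev, mul_inv_rev, hti]
      group
    rw [tj_conj hG hj r.2, hm.act r ((((-1 : Fˣ) ^ rc r j : Fˣ) : F) * 1), tj_conj hG hj (w.1 r).2, h1] at h4
    have h5 := hG.xg_inj' hE (w.1 r).2 h4
    by_cases e1 : Even (rc r j) <;> by_cases e2 : Even (rc (w.1 r) j)
    · exact ⟨fun _ => e1, fun _ => e2⟩
    · exfalso
      rw [even_pow hG e1, odd_pow hG e2] at h5
      have h6 : (χ r : F) * 2 = 0 := by linear_combination h5
      exact (mul_ne_zero (χ r).ne_zero h2) h6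
    · exfalso
      rw [odd_pow hG e1, even_pow hG e2] at h5
      have h6 : (χ r : F) * 2 = 0 := by linear_combination h5
      exact (mul_ne_zero (χ r).ne_zero h2) h6
    · exact ⟨fun h => absurd h e2, fun h => absurd h e1⟩
  · intro hw
    have hd : n * t * n⁻¹ * t⁻¹ = 1 := by
      refine hG.diagonal_eq_one hE (mul_mem (hG.diagonal_normal_monomial hE hn ht) (inv_mem ht)) ?_
      intro s hs
      obtain ⟨r, hr⟩ : ∃ r : Fin D.nroots, w.1 r = ⟨s, hs⟩ := ⟨(w⁻¹).1 ⟨s, hs⟩, Equiv.apply_symm_apply w.1 _⟩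
      have hrs : ((w.1 r : Fin D.nroots) : ℕ) = s := by rw [hr]
      have e : n * t * n⁻¹ * t⁻¹ * xg D F s 1 * (n * t * n⁻¹ * t⁻¹)⁻¹ =
          n * (t * (n⁻¹ * (t * xg D F s 1 * t⁻¹) * n) * t⁻¹) * n⁻¹ := by
        rw [hti, mul_inv_rev, mul_inv_rev, mul_inv_rev, hti]
        group
      rw [e, tj_conj hG hj hs]
      have h3 := hm.act r (((χ r)⁻¹ : Fˣ) * ((((-1 : Fˣ) ^ rc s j : Fˣ) : F) * 1))
      rw [hrs] at h3
      have h4 : (χ r : F) * ((((χ r)⁻¹ : Fˣ) : F) * ((((-1 : Fˣ) ^ rc s j : Fˣ) : F) * 1)) = ((((-1 : Fˣ) ^ rc s j : Fˣ) : F) * 1) := by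
        rw [← mul_assoc, Units.mul_inv, one_mul]
      rw [h4] at h3
      have h5 : n⁻¹ * xg D F s ((((-1 : Fˣ) ^ rc s j : Fˣ) : F) * 1) * n =
          xg D F r ((((χ r)⁻¹ : Fˣ) : F) * ((((-1 : Fˣ) ^ rc s j : Fˣ) : F) * 1)) := by
        rw [← h3]; group
      rw [h5, tj_conj hG hj r.2, hm.act, hrs]
      congr 1
      have h6 := hw r
      rw [hrs] at h6
      by_cases e1 : Even (rc s j)
      · rw [even_pow hG e1, even_pow hG (h6.1 e1), one_mul, one_mul, mul_one, Units.mul_inv]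
      · rw [odd_pow hG e1, odd_pow hG (fun h => e1 (h6.2 h))]
        have := Units.mul_inv (χ r)
        linear_combination this
    rw [mul_inv_eq_one] at hd
    exact (mul_inv_eq_iff_eq_mul.1 hd).symm

theorem comm_parts {b n u t : GL D.Idx F} (ht : t ∈ D.diagonalSubgroup F) {v h : GL D.Idx F}
    (hvU : v ∈ D.posUnipotent F) (hh : h ∈ D.diagonalSubgroup F) (hb : b = v * h) (hn : n ∈ D.monomialSubgroup F)
    {w : hG.W} {χ : Fin D.nroots → Fˣ} (hm : Mon hG (xg D F) n w χ) (hu : u ∈ US (xg D F) (hG.Um w))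
    (hc : t * (b * n * u) = b * n * u * t) : t * v = v * t ∧ t * n = n * t ∧ t * u = u * t := by
  subst hb
  have hbB : v * h ∈ D.borelSubgroup F := mul_mem (Subgroup.mem_sup_left hvU) (Subgroup.mem_sup_right hh)
  have hu2 : t * u * t⁻¹ ∈ US (xg D F) (hG.Um w) := by
    have hh' : t ∈ HA D (xg D F) := by rw [hG.HA_eq]; exact ht
    obtain ⟨χ', hm'⟩ := hG.HA_mon (hG.rdn hE) hh'
    exact hm'.mem_US (S := hG.Um w) (T := hG.Um w) (fun r hr => hr.1) (fun r hr => hr) hu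
  have hnt : n * t⁻¹ * n⁻¹ ∈ D.diagonalSubgroup F := hG.diagonal_normal_monomial hE hn (inv_mem ht)
  set d := t * (n * t⁻¹ * n⁻¹) with hd
  have hdH : d ∈ D.diagonalSubgroup F := mul_mem ht hnt
  have hvt : t * v * t⁻¹ ∈ D.posUnipotent F := hG.diagonal_conj_pos ht hvU
  have hb2 : (t * v * t⁻¹) * (h * d) ∈ D.borelSubgroup F := mul_mem (Subgroup.mem_sup_left hvt) (Subgroup.mem_sup_right (mul_mem hh hdH))
  have hth : t * h = h * t := hG.diagonal_comm ht hh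
  have he : (t * v * t⁻¹) * (h * d) * n * (t * u * t⁻¹) = v * h * n * u := by
    calc (t * v * t⁻¹) * (h * d) * n * (t * u * t⁻¹) = t * v * t⁻¹ * (h * t) * n * t⁻¹ * n⁻¹ * n * (t * u * t⁻¹) := by rw [hd]; group
      _ = t * v * t⁻¹ * (t * h) * n * t⁻¹ * n⁻¹ * n * (t * u * t⁻¹) := by rw [hth]
      _ = (t * (v * h * n * u)) * t⁻¹ := by group
      _ = v * h * n * u := by rw [hc]; group
  obtain ⟨h1, h3⟩ := hG.canon_unique hE hb2 hbB hm hu2 hu he
  have h4 : v⁻¹ * (t * v * t⁻¹) ∈ D.posUnipotent F ⊓ D.diagonalSubgroup F := by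
    refine Subgroup.mem_inf.2 ⟨mul_mem (inv_mem hvU) hvt, ?_⟩
    have : v⁻¹ * (t * v * t⁻¹) = h * (h * d)⁻¹ := by
      have : t * v * t⁻¹ = v * h * (h * d)⁻¹ := by rw [← h1]; group
      rw [this]; group
    rw [this]
    exact mul_mem hh (inv_mem (mul_mem hh hdH))
  rw [hG.pos_inf_diagonal, Subgroup.mem_bot] at h4
  have h5 : t * v * t⁻¹ = v := by
    rw [inv_mul_eq_one] at h4; exact h4.symm
  have h6 : d = 1 := by
    rw [h5] at h1
    have := mul_left_cancel h1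
    exact mul_eq_left.1 this
  refine ⟨mul_inv_eq_iff_eq_mul.1 h5, ?_, mul_inv_eq_iff_eq_mul.1 h3⟩
  have h7 : t * n = n * t := by
    have : t * (n * t⁻¹ * n⁻¹) = 1 := by rw [← hd]; exact h6
    calc t * n = (t * (n * t⁻¹ * n⁻¹)) * n * t := by group
      _ = n * t := by rw [this, one_mul]
  exact h7

/-- the canonical form in the centraliser -/
theorem exists_centEquiv (h2 : (2 : F) ≠ 0) {j : ℕ} (hj : j < D.rank) (ht : hv D F rc (2 ^ j) ∈ D.diagonalSubgroup F) :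
    Nonempty ((Σ w : {w : hG.W // w ∈ WT hG j},
      ({u : GL D.Idx F // u ∈ US (xg D F) (posS D N) ∧ hv D F rc (2 ^ j) * u = u * hv D F rc (2 ^ j)} × D.diagonalSubgroup F) ×
      {u : GL D.Idx F // u ∈ US (xg D F) (hG.Um w.1) ∧ hv D F rc (2 ^ j) * u = u * hv D F rc (2 ^ j)}) ≃
      {g : GL D.Idx F // g ∈ D.group F ∧ hv D F rc (2 ^ j) * g = g * hv D F rc (2 ^ j)}) := by
  obtain ⟨f, hf⟩ := hG.exists_repF (F := F) hE
  have hUU : ∀ u, u ∈ US (xg D F) (posS D N) ↔ u ∈ D.posUnipotent F := by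
    intro u; rw [hG.posUnipotent_eq_US]; exact Iff.rfl
  have hU : ∀ w : hG.W, US (xg D F) (hG.Um w) ≤ D.posUnipotent F := by
    intro w u hu
    exact (hUU u).1 (US_mono (hG.Um_sub w) hu)
  have hfc : ∀ w ∈ WT hG j, hv D F rc (2 ^ j) * f w = f w * hv D F rc (2 ^ j) := by
    intro w hw
    obtain ⟨χ, hm⟩ := (hf w).2
    exact (mon_comm_iff hG hE h2 hj ht (hf w).1 hm).2 hw
  have hmul : ∀ x y : GL D.Idx F, hv D F rc (2 ^ j) * x = x * hv D F rc (2 ^ j) → hv D F rc (2 ^ j) * y = y * hv D F rc (2 ^ j) →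
      hv D F rc (2 ^ j) * (x * y) = (x * y) * hv D F rc (2 ^ j) := by
    intro x y hx hy
    rw [← mul_assoc, hx, mul_assoc, hy, mul_assoc]
  refine ⟨Equiv.ofBijective (fun x => ⟨x.2.1.1.1 * x.2.1.2.1 * f x.1.1 * x.2.2.1, ?_, ?_⟩) ⟨?_, ?_⟩⟩
  · exact mul_mem (mul_mem (mul_mem (hG.pos_le ((hUU _).1 x.2.1.1.2.1)) (hG.diagonal_le x.2.1.2.2)) (hG.monomial_le (hf _).1))
      (hG.pos_le (hU _ x.2.2.2.1))
  · exact hmul _ _ (hmul _ _ (hmul _ _ x.2.1.1.2.2 (hG.diagonal_comm ht x.2.1.2.2)) (hfc _ x.1.2)) x.2.2.2.2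
  · rintro ⟨⟨w, hw⟩, ⟨⟨v, hv1, hv2⟩, ⟨h, hh⟩⟩, ⟨u, hu1, hu2⟩⟩ ⟨⟨w', hw'⟩, ⟨⟨v', hv1', hv2'⟩, ⟨h', hh'⟩⟩, ⟨u', hu1', hu2'⟩⟩ he
    have h1 : v * h * f w * u = v' * h' * f w' * u' := congrArg Subtype.val he
    have hb : v * h ∈ D.borelSubgroup F := mul_mem (Subgroup.mem_sup_left ((hUU v).1 hv1)) (Subgroup.mem_sup_right hh)
    have hb' : v' * h' ∈ D.borelSubgroup F := mul_mem (Subgroup.mem_sup_left ((hUU v').1 hv1')) (Subgroup.mem_sup_right hh')
    have h3 := hG.bruhat_unique hE hb (hf w).1 (Subgroup.mem_sup_left (hU w hu1)) hb' (hf w').1 (Subgroup.mem_sup_left (hU w' hu1')) h1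
    obtain ⟨χ, hm⟩ := (hf w).2
    obtain ⟨χ', hm'⟩ := (hf w').2
    rw [← hG.HA_eq] at h3
    obtain ⟨χ'', h3⟩ := hG.HA_mon (hG.rdn hE) h3
    have h4 := hG.mon_unique hE (hm.inv.mul hm') h3
    have h5 : w = w' := by rwa [inv_mul_eq_one] at h4
    subst h5
    obtain ⟨h6, h7⟩ := hG.canon_unique hE hb hb' hm hu1 hu1' h1
    subst h7
    have h8 : v'⁻¹ * v ∈ D.posUnipotent F ⊓ D.diagonalSubgroup F := by
      refine Subgroup.mem_inf.2 ⟨mul_mem (inv_mem ((hUU v').1 hv1')) ((hUU v).1 hv1), ?_⟩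
      have : v'⁻¹ * v = h' * h⁻¹ := by
        rw [inv_mul_eq_iff_eq_mul, ← mul_assoc, ← h6, mul_inv_cancel_right]
      rw [this]
      exact mul_mem hh' (inv_mem hh)
    rw [hG.pos_inf_diagonal, Subgroup.mem_bot, inv_mul_eq_one] at h8
    subst h8
    have h9 := mul_left_cancel h6
    subst h9
    rfl
  · rintro ⟨g, hg, hc⟩
    obtain ⟨b, hb, n, hn, w, χ, hm, u, hu, rfl⟩ := hG.canon hE hg
    obtain ⟨v, hvU, h, hh, rfl⟩ := hG.mem_borel_iff.1 hb
    obtain ⟨c1, c2, c3⟩ := comm_parts hG hE ht hvU hh rfl hn hm hu hc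
    have hw : w ∈ WT hG j := (mon_comm_iff hG hE h2 hj ht hn hm).1 c2
    obtain ⟨χ', hm'⟩ := (hf w).2
    have h1 : n * (f w)⁻¹ ∈ D.diagonalSubgroup F := by
      have h2 := hm.mul hm'.inv
      rw [mul_inv_cancel] at h2
      exact hG.mem_diagonal_of_mon hE (mul_mem hn (inv_mem (hf w).1)) h2
    refine ⟨⟨⟨w, hw⟩, ⟨⟨v, (hUU v).2 hvU, c1⟩, ⟨h * (n * (f w)⁻¹), mul_mem hh h1⟩⟩, ⟨u, hu, c3⟩⟩, ?_⟩
    apply Subtype.ext
    change v * (h * (n * (f w)⁻¹)) * f w * u = v * h * n * u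
    group

/-- number of inversions in the even subsystem -/
noncomputable def lt (hG : Good D N η rc) (j : ℕ) (w : hG.W) : ℕ := ((hG.invs w).filter fun r : Fin D.nroots => Even (rc r j)).card

omit hE in
theorem card_cS_Um (j : ℕ) (w : hG.W) : Nat.card (cS rc j (hG.Um w)) = lt hG j w := by
  classical
  have h : (cS rc j (hG.Um w)) = (((hG.invs w).filter fun r : Fin D.nroots => Even (rc r j)).map ⟨fun r : Fin D.nroots => (r : ℕ), fun a b h => Fin.ext h⟩ : Finset ℕ) := by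
    ext r
    simp only [cS, Good.Um, Set.mem_ofPred_eq, Finset.coe_map, Function.Embedding.coeFn_mk, Set.mem_image, Finset.mem_coe,
      Finset.mem_filter, hG.mem_invs]
    constructor
    · rintro ⟨⟨h1, h2, h3⟩, h4⟩; exact ⟨⟨r, h1⟩, ⟨⟨h2, h3⟩, h4⟩, rfl⟩
    · rintro ⟨a, ⟨⟨h2, h3⟩, h4⟩, rfl⟩; exact ⟨⟨a.2, h2, h3⟩, h4⟩
  rw [h, Nat.card_coe_set_eq, Set.ncard_coe_finset, Finset.card_map]
  rfl

theorem card_cent [Fintype F] (h2 : (2 : F) ≠ 0) {j : ℕ} (hj : j < D.rank) (ht : hv D F rc (2 ^ j) ∈ D.diagonalSubgroup F) :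
    Nat.card {g : GL D.Idx F // g ∈ D.group F ∧ hv D F rc (2 ^ j) * g = g * hv D F rc (2 ^ j)} =
      Fintype.card F ^ Nat.card (cS rc j (posS D N)) * Nat.card (D.diagonalSubgroup F) *
        ∑ᶠ w ∈ WT hG j, Fintype.card F ^ lt hG j w := by
  classical
  haveI : Fintype hG.W := Fintype.ofFinite _
  obtain ⟨e⟩ := exists_centEquiv (F := F) hG hE h2 hj ht
  haveI : Fintype {w : hG.W // w ∈ WT hG j} := Fintype.ofFinite _
  rw [← Nat.card_congr e, Nat.card_sigma, finsum_mem_eq_finite_toFinset_sum _ (Set.toFinite _), Finset.mul_sum]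
  rw [Finset.sum_subtype (p := fun w => w ∈ WT hG j) _ (fun w => Set.Finite.mem_toFinset _)]
  refine Finset.sum_congr rfl fun w _ => ?_
  rw [Nat.card_prod, Nat.card_prod, card_fix hG hE h2 hj (S := posS D N) hG.pClo_all, card_fix hG hE h2 hj (hG.pClo_Um w.1), card_cS_Um hG,
    Nat.card_eq_fintype_card (α := F)]

end Cfsg.Agent.H15.OInv
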