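import Cfsg.Agent.H15.CTor2
import Cfsg.Agent.H15.OInv4
import Cfsg.Agent.H6.ChevNW
import Cfsg.Agent.H6.ChevFix

/-!
# Regular torus elements of Chevalley groups
-/

set_option autoImplicit false
set_option linter.unusedSectionVars false

namespace Cfsg.Agent.H15.CTor

open Cfsg.Agent.H6 Cfsg.Lie Cfsg.Agent.H22 Cfsg.Agent.H15.Chev
open scoped Matrix

variable {D : ChevalleyDatum} {N : ℕ} {η : ℕ → ℕ → ℤ} {rc : ℕ → ℕ → ℤ} {F : Type*} [Field F]
variable (hG : Good D N η rc) (hE : Ext D rc)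

include hG hE

theorem cent_unip {χ : ℕ → Fˣ} (hχ : IsChr D χ) (hreg : ∀ r < D.nroots, χ r ≠ 1) {u : GL D.Idx F} (hu : u ∈ D.posUnipotent F)
    (hc : tor D F χ * u = u * tor D F χ) : u = 1 := by
  have hn := hG.nroots_eq
  rw [hG.posUnipotent_eq_US] at hu
  obtain ⟨τ, hτ, rfl⟩ := hG.exists_op' (hG.rd hE) hG.pClo_all hu
  rw [← mul_inv_eq_iff_eq_mul, OInv.conj_op hG (χ := fun r => (χ r : F)) (fun r hr c => hG.tor_conj_xg hχ hr c) τ N N (by omega)] at hc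
  have h2 := hG.op_inj hE _ _ N N (by omega) le_rfl hc
  have h3 : ∀ r, N ≤ r → r < N + N → τ r = 0 := by
    intro r h1 h3
    have h4 := h2 r h1 (by omega)
    have h5 : ((χ r : F) - 1) * τ r = 0 := by
      have h6 : (χ r : F) * τ r = τ r := h4
      linear_combination h6
    rcases mul_eq_zero.1 h5 with h6 | h6
    · exfalso
      apply hreg r (by omega)
      apply Units.ext
      rw [Units.val_one]
      exact sub_eq_zero.1 h6
    · exact h6
  apply List.prod_eq_one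
  intro x hx
  rw [List.mem_map] at hx
  obtain ⟨r, hr, rfl⟩ := hx
  rw [List.mem_range'_1] at hr
  rw [h3 r hr.1 hr.2]
  exact hG.xg_zero r

theorem reg_fusion {χ₁ χ₂ : ℕ → Fˣ} (hχ₁ : IsChr D χ₁) (hχ₂ : IsChr D χ₂) (hr₁ : ∀ r < D.nroots, χ₁ r ≠ 1)
    (hr₂ : ∀ r < D.nroots, χ₂ r ≠ 1) (h1 : tor D F χ₁ ∈ D.diagonalSubgroup F) (h2 : tor D F χ₂ ∈ D.diagonalSubgroup F)
    {g : GL D.Idx F} (hg : g ∈ D.group F) (hc : g * tor D F χ₁ * g⁻¹ = tor D F χ₂) : g ∈ D.monomialSubgroup F := by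
  obtain ⟨b, hb, n, hn, w, χ, hm, u, hu, rfl⟩ := hG.canon hE hg
  obtain ⟨h₁, hh₁⟩ : ∃ h₁, h₁ = tor D F χ₁ := ⟨_, rfl⟩
  obtain ⟨h₂, hh₂⟩ : ∃ h₂, h₂ = tor D F χ₂ := ⟨_, rfl⟩
  rw [← hh₁] at h1
  rw [← hh₂] at h2
  rw [← hh₁, ← hh₂] at hc
  have hc' : b * n * u * h₁ = h₂ * (b * n * u) := by rw [← hc]; group
  have hu2 : h₁⁻¹ * u * h₁ ∈ US (xg D F) (hG.Um w) := by
    have hh : h₁⁻¹ ∈ HA D (xg D F) := by rw [hG.HA_eq]; exact inv_mem h1
    obtain ⟨χ', hm'⟩ := hG.HA_mon (hG.rdn hE) hh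
    have := hm'.mem_US (S := hG.Um w) (T := hG.Um w) (fun r hr => hr.1) (fun r hr => hr) hu
    rwa [inv_inv] at this
  have hb2 : b * (n * h₁ * n⁻¹) ∈ D.borelSubgroup F :=
    mul_mem hb (Subgroup.mem_sup_right (hG.diagonal_normal_monomial hE hn h1))
  have hb3 : h₂ * b ∈ D.borelSubgroup F := mul_mem (Subgroup.mem_sup_right h2) hb
  have he : (b * (n * h₁ * n⁻¹)) * n * (h₁⁻¹ * u * h₁) = (h₂ * b) * n * u := by
    calc (b * (n * h₁ * n⁻¹)) * n * (h₁⁻¹ * u * h₁) = b * n * u * h₁ := by group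
      _ = _ := by rw [hc']; group
  obtain ⟨h3, h3'⟩ := hG.canon_unique hE hb2 hb3 hm hu2 hu he
  -- the unipotent part
  have hu1 : u = 1 := by
    refine cent_unip hG hE hχ₁ hr₁ ?_ ?_
    · rw [hG.posUnipotent_eq_US]
      exact US_mono (hG.Um_sub w) hu
    · rw [← hh₁]
      calc h₁ * u = h₁ * (h₁⁻¹ * u * h₁) := by rw [h3']
        _ = u * h₁ := by group
  obtain ⟨v, hv, t, ht, rfl⟩ := hG.mem_borel_iff.1 hb
  have h4 : v⁻¹ * (h₂ * v * h₂⁻¹) = t * (n * h₁ * n⁻¹) * t⁻¹ * h₂⁻¹ := by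
    have h5 : v⁻¹ * (v * t * (n * h₁ * n⁻¹)) * t⁻¹ * h₂⁻¹ = v⁻¹ * (h₂ * (v * t)) * t⁻¹ * h₂⁻¹ := by rw [h3]
    calc v⁻¹ * (h₂ * v * h₂⁻¹) = v⁻¹ * (h₂ * (v * t)) * t⁻¹ * h₂⁻¹ := by group
      _ = _ := by rw [← h5]; group
  have hn1 := hG.diagonal_normal_monomial hE hn h1
  have h6 : v⁻¹ * (h₂ * v * h₂⁻¹) ∈ D.posUnipotent F ⊓ D.diagonalSubgroup F := by
    refine Subgroup.mem_inf.2 ⟨mul_mem (inv_mem hv) (hG.diagonal_conj_pos h2 hv), ?_⟩
    rw [h4]
    exact mul_mem (mul_mem (mul_mem ht hn1) (inv_mem ht)) (inv_mem h2)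
  rw [hG.pos_inf_diagonal, Subgroup.mem_bot, inv_mul_eq_one] at h6
  have hv1 : v = 1 := by
    refine cent_unip hG hE hχ₂ hr₂ hv ?_
    rw [← hh₂]
    calc h₂ * v = (h₂ * v * h₂⁻¹) * h₂ := by group
      _ = v * h₂ := by rw [← h6]
  rw [hu1, hv1, one_mul, mul_one]
  refine mul_mem ?_ hn
  rw [hG.monomial_eq hE]
  exact Subgroup.mem_sup_right ht

/-- conjugation of torus elements by monomial elements -/
theorem mon_tor_iff {n : GL D.Idx F} (hn : n ∈ D.monomialSubgroup F) {w : hG.W} {χ : Fin D.nroots → Fˣ}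
    (hm : Mon hG (xg D F) n w χ) {ψ ψ' : ℕ → Fˣ} (hψ : IsChr D ψ) (hψ' : IsChr D ψ') (h1 : tor D F ψ ∈ D.diagonalSubgroup F)
    (h2 : tor D F ψ' ∈ D.diagonalSubgroup F) : n * tor D F ψ * n⁻¹ = tor D F ψ' ↔ ∀ r : Fin D.nroots, ψ' (w.1 r) = ψ r := by
  have key : ∀ (r : Fin D.nroots) (c : F), (n * tor D F ψ * n⁻¹) * xg D F (w.1 r) ((χ r : F) * c) * (n * tor D F ψ * n⁻¹)⁻¹ =
      xg D F (w.1 r) ((χ r : F) * ((ψ r : F) * c)) := by
    intro r c
    have h3 := hG.tor_conj_xg hψ r.2 c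
    have h4 : xg D F (w.1 r) ((χ r : F) * c) = n * xg D F r c * n⁻¹ := (hm.act r c).symm
    rw [h4]
    calc (n * tor D F ψ * n⁻¹) * (n * xg D F r c * n⁻¹) * (n * tor D F ψ * n⁻¹)⁻¹ =
        n * (tor D F ψ * xg D F r c * (tor D F ψ)⁻¹) * n⁻¹ := by group
      _ = _ := by rw [h3, hm.act]
  constructor
  · intro h r
    have h3 := key r 1
    rw [h, hG.tor_conj_xg hψ' (w.1 r).2] at h3
    have h4 := hG.xg_inj' hE (w.1 r).2 h3
    apply Units.ext
    have h5 : (χ r : F) * ((ψ' (w.1 r) : F) - (ψ r : F)) = 0 := by linear_combination h4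
    exact sub_eq_zero.1 ((mul_eq_zero.1 h5).resolve_left (χ r).ne_zero)
  · intro h
    have hd : n * tor D F ψ * n⁻¹ * (tor D F ψ')⁻¹ = 1 := by
      refine hG.diagonal_eq_one hE (mul_mem (hG.diagonal_normal_monomial hE hn h1) (inv_mem h2)) ?_
      intro s hs
      obtain ⟨r, hr⟩ : ∃ r : Fin D.nroots, w.1 r = ⟨s, hs⟩ := ⟨(w⁻¹).1 ⟨s, hs⟩, Equiv.apply_symm_apply w.1 _⟩
      have hrs : ((w.1 r : Fin D.nroots) : ℕ) = s := by rw [hr]
      have e1 : (tor D F ψ')⁻¹ * xg D F s 1 * tor D F ψ' = xg D F s (((ψ' s)⁻¹ : Fˣ) : F) := by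
        have h3 := hG.tor_conj_xg hψ' hs (((ψ' s)⁻¹ : Fˣ) : F)
        rw [Units.mul_inv] at h3
        rw [← h3]; group
      have e : n * tor D F ψ * n⁻¹ * (tor D F ψ')⁻¹ * xg D F s 1 * (n * tor D F ψ * n⁻¹ * (tor D F ψ')⁻¹)⁻¹ =
          (n * tor D F ψ * n⁻¹) * ((tor D F ψ')⁻¹ * xg D F s 1 * tor D F ψ') * (n * tor D F ψ * n⁻¹)⁻¹ := by group
      rw [e, e1]
      have h3 := key r ((((χ r)⁻¹ : Fˣ) : F) * (((ψ' s)⁻¹ : Fˣ) : F))
      rw [← mul_assoc (χ r : F), Units.mul_inv, one_mul, hrs] at h3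
      rw [h3]
      congr 1
      have h4 := h r
      rw [hrs] at h4
      rw [← h4]
      have a1 := Units.mul_inv (χ r)
      have a2 := Units.mul_inv (ψ' s)
      calc (χ r : F) * ((ψ' s : F) * ((((χ r)⁻¹ : Fˣ) : F) * (((ψ' s)⁻¹ : Fˣ) : F))) =
          ((χ r : F) * (((χ r)⁻¹ : Fˣ) : F)) * ((ψ' s : F) * (((ψ' s)⁻¹ : Fˣ) : F)) := by ring
        _ = 1 := by rw [a1, a2, one_mul]
    exact mul_inv_eq_one.1 hd

omit hE

/-- extension of a vector -/
def ex {n : ℕ} (c : Fin n → Fˣ) : ℕ → Fˣ := fun k => if h : k < n then c ⟨k, h⟩ else 1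

omit hG in
theorem ex_apply {n : ℕ} (c : Fin n → Fˣ) (k : Fin n) : ex c k = c k := by
  unfold ex
  rw [dif_pos k.2]

omit hG in
theorem chr_ex (c : Fin D.rank → Fˣ) (r : ℕ) : chr D.rank rc (ex c) r = ∏ k : Fin D.rank, c k ^ rc r k := by
  unfold chr
  rw [Finset.prod_range]
  exact Finset.prod_congr rfl fun k _ => by rw [ex_apply]

/-- the torus through the values at the simple roots -/
noncomputable def tau (D : ChevalleyDatum) (rc : ℕ → ℕ → ℤ) (F : Type*) [Field F] : (Fin D.rank → Fˣ) →* GL D.Idx F where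
  toFun c := tor D F (chr D.rank rc (ex c))
  map_one' := by
    rw [← tor_one, tor_eq_iff]
    intro r _
    rw [chr_ex]
    simp
  map_mul' c d := by
    rw [← tor_mul, tor_eq_iff]
    intro r _
    rw [Pi.mul_apply, chr_ex, chr_ex, chr_ex]
    simp [mul_zpow, Finset.prod_mul_distrib]

omit hG in
theorem tau_def (c : Fin D.rank → Fˣ) : tau D rc F c = tor D F (chr D.rank rc (ex c)) := rfl

theorem tau_injective : Function.Injective (tau D rc F) := by
  intro c c' h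
  rw [tau_def, tau_def, tor_eq_iff] at h
  funext k
  have := h _ (hG.simple_lt k k.2)
  rw [hG.chr_simple _ k.2, hG.chr_simple _ k.2, ex_apply, ex_apply] at this
  exact this

theorem exists_tau {h : GL D.Idx F} (hh : h ∈ D.diagonalSubgroup F) : ∃ c, h = tau D rc F c := by
  obtain ⟨c, rfl⟩ := hG.mem_diagonal_iff.1 hh
  refine ⟨fun m => ∏ k ∈ Finset.range D.rank, c k ^ D.cartan k (D.simple m), ?_⟩
  rw [tau_def, tor_eq_iff]
  intro r hr
  rw [OInv.chr_of_cartan hG c hr, chr_ex]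
  unfold chr
  rw [Finset.prod_range]

theorem tau_mem [Finite F] (hinj : Function.Injective (PhiH D F D.rank)) (c : Fin D.rank → Fˣ) :
    tau D rc F c ∈ D.diagonalSubgroup F := by
  classical
  set Ψ : (Fin D.rank → Fˣ) → (Fin D.rank → Fˣ) := fun c m => ∏ k : Fin D.rank, c k ^ D.cartan k (D.simple m) with hΨ
  have h1 : ∀ c, PhiH D F D.rank c = tau D rc F (Ψ c) := by
    intro c
    change tor D F _ = tor D F _
    rw [tor_eq_iff]
    intro r hr
    have h2 := OInv.chr_of_cartan hG (ex c) hr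
    rw [Finset.prod_range] at h2
    rw [Finset.prod_congr rfl fun k _ => by rw [ex_apply]] at h2
    rw [h2, chr_ex]
    unfold chr
    rw [Finset.prod_range]
    refine Finset.prod_congr rfl fun k _ => ?_
    change (∏ k' ∈ Finset.range D.rank, ex c k' ^ D.cartan k' (D.simple k)) ^ rc r k = (∏ k' : Fin D.rank, c k' ^ D.cartan k' (D.simple k)) ^ rc r k
    rw [Finset.prod_range]
    congr 1
    exact Finset.prod_congr rfl fun k _ => by rw [ex_apply]
  have h2 : Function.Injective Ψ := by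
    intro a b hab
    apply hinj
    rw [h1, h1, hab]
  obtain ⟨b, hb⟩ := Finite.surjective_of_injective h2 c
  rw [← hb, ← h1, ← hG.range_PhiH rfl]
  exact ⟨b, rfl⟩

/-- matrix of a Weyl group element on the simple roots -/
def Pmat (w : hG.W) : Matrix (Fin D.rank) (Fin D.rank) ℤ := Matrix.of fun k j => rc (w.1 (hG.sr k)) j

theorem rc_vecMul (w : hG.W) (r : Fin D.nroots) (j : Fin D.rank) : rc (w.1 r) j = ((fun k : Fin D.rank => rc r k) ᵥ* Pmat hG w) j := by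
  rw [hG.rc_W w r j j.2]
  rfl

theorem Pmat_one : Pmat hG 1 = 1 := by
  ext k j
  change rc (D.simple k) j = _
  rw [hG.rc_simple k k.2 j j.2, Matrix.one_apply]
  by_cases h : k = j
  · rw [if_pos h, if_pos (by rw [h])]
  · rw [if_neg h, if_neg (fun h' => h (Fin.ext h'.symm))]

theorem Pmat_mul (w w' : hG.W) : Pmat hG (w * w') = Pmat hG w' * Pmat hG w := by
  ext k j
  exact rc_vecMul hG w (w'.1 (hG.sr k)) j

theorem Pmat_pow (w : hG.W) (i : ℕ) : Pmat hG (w ^ i) = Pmat hG w ^ i := by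
  induction i with
  | zero => rw [pow_zero, pow_zero, Pmat_one]
  | succ i ih => rw [pow_succ, Pmat_mul, ih, pow_succ']

theorem Pmat_injective {w : hG.W} (h : Pmat hG w = 1) : w = 1 := by
  apply Subtype.ext
  ext r
  change ((w.1 r : Fin D.nroots) : ℕ) = r
  apply hG.rc_inj (w.1 r).2 r.2
  intro j hj
  have := rc_vecMul hG w r ⟨j, hj⟩
  rw [h, Matrix.vecMul_one] at this
  exact this

include hE

/-- conjugation through coordinates -/
theorem mon_tau_iff [Finite F] (hinj : Function.Injective (PhiH D F D.rank)) {n : GL D.Idx F} (hn : n ∈ D.monomialSubgroup F)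
    {w : hG.W} {χ : Fin D.nroots → Fˣ} (hm : Mon hG (xg D F) n w χ) (c c' : Fin D.rank → Fˣ) :
    n * tau D rc F c * n⁻¹ = tau D rc F c' ↔ ∀ k, ∏ j, c' j ^ Pmat hG w k j = c k := by
  rw [tau_def, tau_def, mon_tor_iff hG hE hn hm (hG.isChr_chr _) (hG.isChr_chr _) (tau_mem hG hinj c) (tau_mem hG hinj c')]
  constructor
  · intro h k
    have h1 := h (hG.sr k)
    have h2 : chr D.rank rc (ex c) (hG.sr k) = c k := by
      have := hG.chr_simple (ex c) k.2
      rw [ex_apply] at this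
      exact this
    rw [h2, chr_ex] at h1
    exact h1
  · intro h r
    rw [chr_ex, chr_ex]
    have h1 : ∀ k : Fin D.rank, c k ^ rc r k = ∏ j, (c' j ^ (rc r k * Pmat hG w k j)) := by
      intro k
      rw [← h k, ← Finset.prod_zpow]
      exact Finset.prod_congr rfl fun j _ => by rw [← zpow_mul, mul_comm]
    rw [Finset.prod_congr rfl fun k _ => h1 k, Finset.prod_comm]
    refine Finset.prod_congr rfl fun j _ => ?_
    have h2 : rc (w.1 r) j = ∑ k : Fin D.rank, rc r k * Pmat hG w k j := rc_vecMul hG w r j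
    rw [h2, ← zpow_fin_sum]

end Cfsg.Agent.H15.CTor
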