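import Cfsg.Agent.H15.CTor3
import Cfsg.Agent.H17.GLOrders

/-!
# Self-centralizing cyclic tori of Chevalley groups: the main construction
-/

set_option autoImplicit false
set_option linter.unusedSectionVars false

namespace Cfsg.Agent.H15.CTor

open Cfsg.Agent.H6 Cfsg.Lie Cfsg.Agent.H22 Cfsg.Agent.H15.Chev
open scoped Matrix

/-- an element of order `r` is conjugate into a subgroup of index prime to `r` -/
theorem exists_conj_mem {G : Type*} [Group G] [Finite G] (T : Subgroup G) {r : ℕ} [Fact r.Prime] (h : ¬ r ∣ T.index) {x : G}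
    (hx : x ^ r = 1) : ∃ g : G, g⁻¹ * x * g ∈ T := by
  have hp : IsPGroup r (Subgroup.zpowers x) := by
    rintro ⟨y, hy⟩
    obtain ⟨i, rfl⟩ := Subgroup.mem_zpowers_iff.1 hy
    refine ⟨1, Subtype.ext ?_⟩
    change (x ^ i) ^ (r ^ 1) = 1
    rw [pow_one, ← zpow_natCast, ← zpow_mul, mul_comm, zpow_mul, zpow_natCast, hx, one_zpow]
  obtain ⟨y, hy⟩ := hp.nonempty_fixed_point_of_prime_not_dvd_card (G ⧸ T) h
  obtain ⟨g, rfl⟩ := QuotientGroup.mk_surjective y
  have h1 : ((x * g : G) : G ⧸ T) = (g : G ⧸ T) := hy ⟨x, Subgroup.mem_zpowers x⟩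
  refine ⟨g, ?_⟩
  have h2 := QuotientGroup.eq.1 h1.symm
  rwa [← mul_assoc] at h2

theorem fix_iff_algebraMap {F K : Type*} [Field F] [Fintype F] [Field K] [Algebra F K] (t : K) :
    t ^ Fintype.card F = t ↔ ∃ s : F, algebraMap F K s = t := by
  classical
  constructor
  · intro h
    set p : Polynomial K := Polynomial.X ^ Fintype.card F - Polynomial.X with hp
    have hc : 1 < Fintype.card F := Fintype.one_lt_card
    have hp0 : p ≠ 0 := FiniteField.X_pow_card_sub_X_ne_zero K hc
    have hS : (Finset.univ : Finset F).image (algebraMap F K) ⊆ p.roots.toFinset := by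
      intro y hy
      obtain ⟨s, _, rfl⟩ := Finset.mem_image.1 hy
      rw [Multiset.mem_toFinset, Polynomial.mem_roots hp0, Polynomial.IsRoot, hp, Polynomial.eval_sub, Polynomial.eval_pow,
        Polynomial.eval_X, ← map_pow, FiniteField.pow_card, sub_self]
    have hcard : p.roots.toFinset.card ≤ ((Finset.univ : Finset F).image (algebraMap F K)).card := by
      rw [Finset.card_image_of_injective _ (algebraMap F K).injective, Finset.card_univ]
      refine (Multiset.toFinset_card_le _).trans ((Polynomial.card_roots' p).trans ?_)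
      rw [hp, FiniteField.X_pow_card_sub_X_natDegree_eq K hc]
    have hEq := Finset.eq_of_subset_of_card_le hS hcard
    have ht : t ∈ p.roots.toFinset := by
      rw [Multiset.mem_toFinset, Polynomial.mem_roots hp0, Polynomial.IsRoot, hp, Polynomial.eval_sub, Polynomial.eval_pow,
        Polynomial.eval_X, h, sub_self]
    rw [← hEq] at ht
    obtain ⟨s, _, hs⟩ := Finset.mem_image.1 ht
    exact ⟨s, hs⟩
  · rintro ⟨s, rfl⟩
    rw [← map_pow, FiniteField.pow_card]

/-- translation to exponents -/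
theorem prod_zpow_iff {C : Type*} [CommGroup C] {l r : ℕ} {c : Fin l → C} {ζ : C} (hζ : orderOf ζ = r) {a : Fin l → ℤ}
    (hc : ∀ k, c k = ζ ^ a k) (u : Fin l → ℤ) (m : ℤ) :
    ∏ j, c j ^ u j = ζ ^ m ↔ (fun i => (u i : ZMod r)) ⬝ᵥ (fun i => (a i : ZMod r)) = (m : ZMod r) := by
  have h1 : ∏ j, c j ^ u j = ζ ^ (∑ j, a j * u j) := by
    rw [← zpow_fin_sum]
    exact Finset.prod_congr rfl fun j _ => by rw [hc j, ← zpow_mul]
  rw [h1, zpow_eq_zpow_iff_modEq, hζ, ← ZMod.intCast_eq_intCast_iff]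
  have h2 : ((∑ j, a j * u j : ℤ) : ZMod r) = (fun i => (u i : ZMod r)) ⬝ᵥ (fun i => (a i : ZMod r)) := by
    rw [Int.cast_sum]
    exact Finset.sum_congr rfl fun j _ => by rw [Int.cast_mul, mul_comm]
  rw [h2]

variable {D : ChevalleyDatum} {N : ℕ} {η : ℕ → ℕ → ℤ} {rc : ℕ → ℕ → ℤ}
variable (hG : Good D N η rc) (hE : Ext D rc)

include hG

theorem gmap_tau {K : Type*} [Field K] (σ : K ≃+* K) {q : ℕ} (hσ : ∀ x, σ x = x ^ q) (c : Fin D.rank → Kˣ) :
    gmap D σ (tau D rc K c) = tau D rc K (c ^ q) := by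
  rw [tau_def, tau_def, gmap_tor, tor_eq_iff]
  intro r _
  rw [chr_ex, chr_ex]
  apply Units.ext
  rw [Units.coe_map]
  change σ _ = _
  rw [hσ, ← Units.val_pow_eq_pow_val, ← Finset.prod_pow]
  congr 1
  refine Finset.prod_congr rfl fun k _ => ?_
  rw [Pi.pow_apply, ← zpow_natCast, ← zpow_natCast, ← zpow_mul, ← zpow_mul, mul_comm]

theorem mon_gmap {K : Type*} [Field K] (σ : K ≃+* K) {n : GL D.Idx K} {w : hG.W} {χ : Fin D.nroots → Kˣ}
    (h : Mon hG (xg D K) n w χ) : Mon hG (xg D K) (gmap D σ n) w (fun r => Units.map (σ : K →* K) (χ r)) := by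
  constructor
  · intro r t
    have h1 := h.act r (σ.symm t)
    have h2 := congrArg (gmap D σ) h1
    rw [map_mul, map_mul, map_inv, hG.gmap_xg, hG.gmap_xg, map_mul, RingEquiv.apply_symm_apply] at h2
    exact h2
  · intro r
    rw [h.neg, map_inv]

theorem rc_root_ne (s : Fin D.nroots) : (fun k : Fin D.rank => rc s k) ≠ 0 := by
  intro h
  have h1 : ∀ j < D.rank, rc s j = 0 := fun j hj => congrFun h ⟨j, hj⟩
  have h2 : D.neg s = s := by
    apply hG.rc_inj (hG.neg_lt' s.2) s.2
    intro j hj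
    rw [hG.rc_neg j hj s s.2, h1 j hj, neg_zero]
  exact hG.toSem.neg_ne s.2 h2

include hE

theorem index_torus {K : Type*} [Field K] [Finite K] {r : ℕ} [Fact r.Prime] (hQ : (Nat.card K : ZMod r) = 1)
    (hrW : ¬ r ∣ Nat.card hG.W) : ¬ r ∣ ((D.diagonalSubgroup K).subgroupOf (D.group K)).index := by
  haveI : Finite (Matrix D.Idx D.Idx K) := inferInstanceAs (Finite (D.Idx → D.Idx → K))
  haveI : Finite (GL D.Idx K) := Finite.of_injective (fun g : GL D.Idx K => (g : Matrix D.Idx D.Idx K)) fun a b h => Units.ext h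
  have hTG : D.diagonalSubgroup K ≤ D.group K := le_trans le_sup_right hG.borel_le
  have h1 := hG.card_group hE (F := K)
  have h2 := Subgroup.card_mul_index ((D.diagonalSubgroup K).subgroupOf (D.group K))
  rw [Nat.card_congr (Subgroup.subgroupOfEquivOfLe hTG).toEquiv, h1] at h2
  have h3 : ((D.diagonalSubgroup K).subgroupOf (D.group K)).index = Nat.card K ^ N * ∑ᶠ w : hG.W, Nat.card K ^ len hG.s w := by
    have h4 : Nat.card (D.diagonalSubgroup K) * ((D.diagonalSubgroup K).subgroupOf (D.group K)).index =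
        Nat.card (D.diagonalSubgroup K) * (Nat.card K ^ N * ∑ᶠ w : hG.W, Nat.card K ^ len hG.s w) := by
      rw [h2]; ring
    exact Nat.eq_of_mul_eq_mul_left Nat.card_pos h4
  rw [h3]
  intro h
  have h5 := (ZMod.natCast_eq_zero_iff _ _).2 h
  letI : Fintype hG.W := Fintype.ofFinite _
  rw [finsum_eq_sum_of_fintype] at h5
  push_cast at h5
  rw [hQ] at h5
  simp only [one_pow, one_mul, Finset.sum_const, nsmul_eq_mul, mul_one, Finset.card_univ] at h5
  rw [← Nat.card_eq_fintype_card] at h5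
  exact hrW ((ZMod.natCast_eq_zero_iff _ _).1 h5)

end Cfsg.Agent.H15.CTor
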