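import Cfsg.Agent.H15.CTor4

/-!
# Self-centralizing cyclic tori of Chevalley groups: the main theorem
-/

set_option autoImplicit false
set_option linter.unusedSectionVars false
set_option maxHeartbeats 1000000

namespace Cfsg.Agent.H15.CTor

open Cfsg.Agent.H6 Cfsg.Lie Cfsg.Agent.H22 Cfsg.Agent.H15.Chev
open scoped Matrix

variable {D : ChevalleyDatum} {N : ℕ} {η : ℕ → ℕ → ℤ} {rc : ℕ → ℕ → ℤ}
variable (hG : Good D N η rc) (hE : Ext D rc)

include hG hE

theorem exists_cyclic {F : Type*} [Field F] [Fintype F] {q d r M₀ : ℕ} (hq : Fintype.card F = q)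
    (hinj : ∀ (K : Type) [Field K], Function.Injective (PhiH D K D.rank)) (hd : 0 < d) (hl : Nat.totient d = D.rank)
    [Fact r.Prime] (hr : IsPrimitiveRoot (q : ZMod r) d) (hrW : ¬ r ∣ Nat.card hG.W) (hrG : r ∣ Nat.card (D.group F))
    (hM : (Polynomial.cyclotomic d ℤ).eval (q : ℤ) = M₀) (hM0 : M₀ ≠ 0)
    (hsq : ∀ p : ℕ, p.Prime → p ∣ M₀ → p ∣ d → ¬ p ^ 2 ∣ M₀)
    (hdet : ∀ (w : hG.W) (s : Fin D.nroots), (orb (Pmat hG w) (fun k => rc s k)).det ≠ 0 →
      ¬ (r : ℤ) ∣ (orb (Pmat hG w) (fun k => rc s k)).det) :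
    ∃ H : Subgroup ↥(D.group F), IsCyclic H ∧ Nat.card H = M₀ ∧
      Subgroup.centralizer (H : Set ↥(D.group F)) = H := by
  classical
  -- the extension field
  obtain ⟨K, iK, iFin, iAlg, hK⟩ := Cfsg.Agent.H17.exists_extension (F := F) d hd.ne'
  haveI : Module.Finite F K := Module.Finite.of_finite
  have hQ : Nat.card K = q ^ d := by
    rw [Module.natCard_eq_pow_finrank (K := F) (V := K), hK, Nat.card_eq_fintype_card, hq]
  haveI : Finite (Matrix D.Idx D.Idx K) := inferInstanceAs (Finite (D.Idx → D.Idx → K))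
  haveI : Finite (GL D.Idx K) := Finite.of_injective (fun g : GL D.Idx K => (g : Matrix D.Idx D.Idx K)) fun a b h => Units.ext h
  haveI : Finite (Matrix D.Idx D.Idx F) := inferInstanceAs (Finite (D.Idx → D.Idx → F))
  haveI : Finite (GL D.Idx F) := Finite.of_injective (fun g : GL D.Idx F => (g : Matrix D.Idx D.Idx F)) fun a b h => Units.ext h
  have hTG : D.diagonalSubgroup K ≤ D.group K := le_trans le_sup_right hG.borel_le
  let σ' : K ≃ₐ[F] K := FiniteField.frobeniusAlgEquivOfAlgebraic F K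
  obtain ⟨σ, hσ⟩ : ∃ σ : K ≃+* K, ∀ x, σ x = x ^ q := ⟨σ'.toRingEquiv, fun x => by
    change (FiniteField.frobeniusAlgEquivOfAlgebraic F K) x = x ^ q
    rw [FiniteField.coe_frobeniusAlgEquivOfAlgebraic, hq]⟩
  -- the fixed subgroup
  let GF : Subgroup ↥(D.group K) := ((gmap D σ).comp (D.group K).subtype).eqLocus (D.group K).subtype
  have hGF : ∀ g : ↥(D.group K), g ∈ GF ↔ gmap D σ (g : GL D.Idx K) = g := fun g => Iff.rfl
  obtain ⟨e⟩ := hG.exists_fix_equiv hE σ (hinj K) (algebraMap F K) (fun t => by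
    rw [hσ, ← hq]; exact fix_iff_algebraMap t) GF hGF
  -- an element of order `r`
  obtain ⟨x, hx⟩ : ∃ x : ↥(D.group F), orderOf x = r := by
    haveI : Fintype ↥(D.group F) := Fintype.ofFinite _
    rw [Nat.card_eq_fintype_card] at hrG
    exact exists_prime_orderOf_dvd_card r hrG
  have hrp : r.Prime := Fact.out
  obtain ⟨X, hX⟩ : ∃ X : ↥(D.group K), X = (e.symm x : ↥GF) := ⟨_, rfl⟩
  have hXfix : gmap D σ (X : GL D.Idx K) = X := by
    rw [hX]; exact (e.symm x).2
  have hXr : X ^ r = 1 := by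
    rw [hX, ← hx]
    have h1 : (e.symm x) ^ orderOf x = 1 := by rw [← map_pow, pow_orderOf_eq_one, map_one]
    exact congrArg Subtype.val h1
  have hX1 : X ≠ 1 := by
    rw [hX]
    intro h
    have h1 : e.symm x = 1 := Subtype.ext h
    rw [map_eq_one_iff e.symm e.symm.injective] at h1
    rw [h1, orderOf_one] at hx
    exact hrp.one_lt.ne hx
  have hQr : (Nat.card K : ZMod r) = 1 := by
    rw [hQ, Nat.cast_pow, hr.pow_eq_one]
  obtain ⟨g', hg'⟩ := exists_conj_mem ((D.diagonalSubgroup K).subgroupOf (D.group K)) (index_torus hG hE hQr hrW) hXr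
  rw [Subgroup.mem_subgroupOf] at hg'
  obtain ⟨g, hgdef⟩ : ∃ g : GL D.Idx K, g = g' := ⟨_, rfl⟩
  have hgG : g ∈ D.group K := hgdef ▸ g'.2
  obtain ⟨c, hc⟩ := exists_tau hG hg'
  have hc' : g⁻¹ * (X : GL D.Idx K) * g = tau D rc K c := by
    rw [← hc, hgdef]; rfl
  have hXc : (X : GL D.Idx K) = g * tau D rc K c * g⁻¹ := by rw [← hc']; group
  have hcr : c ^ r = 1 := by
    apply tau_injective hG
    rw [map_pow, map_one, ← hc']
    have h1 : (g⁻¹ * (X : GL D.Idx K) * g) ^ r = g⁻¹ * (X : GL D.Idx K) ^ r * g := by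
      have := conj_pow (a := g⁻¹) (b := (X : GL D.Idx K)) (i := r)
      rw [inv_inv] at this
      exact this
    have h2 : (X : GL D.Idx K) ^ r = 1 := congrArg Subtype.val hXr
    rw [h1, h2]; group
  have hc1 : c ≠ 1 := by
    intro h
    apply hX1
    apply Subtype.ext
    rw [hXc, h, map_one]
    change _ = (1 : GL D.Idx K)
    group
  -- exponents
  have hcardu : Nat.card Kˣ = q ^ d - 1 := by rw [Nat.card_units, hQ]
  have hrK : r ∣ Nat.card Kˣ := by
    have h1 := hQr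
    rw [hQ] at h1
    have hqpos : 1 ≤ q ^ d := Nat.one_le_pow _ _ (by rw [← hq]; exact Fintype.card_pos)
    rw [hcardu, ← ZMod.natCast_eq_zero_iff, Nat.cast_sub hqpos, h1, Nat.cast_one, sub_self]
  obtain ⟨ζ, hζ⟩ : ∃ ζ : Kˣ, orderOf ζ = r := by
    haveI : Fintype Kˣ := Fintype.ofFinite _
    rw [Nat.card_eq_fintype_card] at hrK
    exact exists_prime_orderOf_dvd_card r hrK
  have hexp : ∀ k, ∃ i : ℤ, c k = ζ ^ i := by
    intro k
    have h1 : IsPrimitiveRoot (ζ : K) r := by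
      have : IsPrimitiveRoot ζ r := by rw [← hζ]; exact IsPrimitiveRoot.orderOf ζ
      exact IsPrimitiveRoot.coe_units_iff.2 this
    have h2 : ((c k : Kˣ) : K) ^ r = 1 := by
      have := congrFun hcr k
      rw [Pi.pow_apply] at this
      rw [← Units.val_pow_eq_pow_val, this]; rfl
    obtain ⟨i, _, hi⟩ := h1.eq_pow_of_pow_eq_one h2
    refine ⟨i, ?_⟩
    apply Units.ext
    rw [zpow_natCast, Units.val_pow_eq_pow_val, hi]
  choose a ha using hexp
  set a' : Fin D.rank → ZMod r := fun i => (a i : ZMod r) with ha'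
  have ha'0 : a' ≠ 0 := by
    intro h
    apply hc1
    funext k
    have h1 : ((a k : ℤ) : ZMod r) = 0 := congrFun h k
    rw [ZMod.intCast_zmod_eq_zero_iff_dvd] at h1
    rw [ha k]
    change _ = (1 : Kˣ)
    rw [← orderOf_dvd_iff_zpow_eq_one, hζ]
    exact h1
  -- the eigenvalue equation
  have heig : ∀ (n : GL D.Idx K), n ∈ D.monomialSubgroup K → ∀ (w : hG.W) (χ : Fin D.nroots → Kˣ), Mon hG (xg D K) n w χ →
      n * gmap D σ (tau D rc K c) * n⁻¹ = tau D rc K c →
      red (ZMod r) (Pmat hG w) *ᵥ a' = (q : ZMod r) • a' := by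
    intro n hn w χ hm h
    rw [gmap_tau hG σ hσ, mon_tau_iff hG hE (hinj K) hn hm] at h
    funext k
    have h1 := h k
    rw [Pi.pow_apply, ha k, ← zpow_natCast, ← zpow_mul] at h1
    rw [prod_zpow_iff hζ ha] at h1
    have h2 : (red (ZMod r) (Pmat hG w) *ᵥ a') k = (fun i => ((Pmat hG w k i : ℤ) : ZMod r)) ⬝ᵥ (fun i => (a i : ZMod r)) := rfl
    rw [h2, h1, Pi.smul_apply, ha', smul_eq_mul]
    push_cast
    ring
  set m := Nat.card hG.W with hm
  have hm0 : m ≠ 0 := Nat.card_pos.ne'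
  have hPm : ∀ w : hG.W, Pmat hG w ^ m = 1 := by
    intro w
    rw [← Pmat_pow, hm, pow_card_eq_one', Pmat_one]
  have hchar : ∀ w : hG.W, red (ZMod r) (Pmat hG w) *ᵥ a' = (q : ZMod r) • a' →
      (Pmat hG w).charpoly = Polynomial.cyclotomic d ℤ := fun w h =>
    charpoly_eq (hPm w) hm0 hrW hr hd hl ha'0 h
  -- regularity
  set n₀ := g⁻¹ * gmap D σ g with hn₀
  have hn₀G : n₀ ∈ D.group K := mul_mem (inv_mem hgG) (hG.gmap_group σ hgG)
  have hn₀c : n₀ * gmap D σ (tau D rc K c) * n₀⁻¹ = tau D rc K c := by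
    rw [← hc', map_mul, map_mul, map_inv, hXfix, hn₀]
    group
  have hTc : ∀ b : Fin D.rank → Kˣ, tau D rc K b ∈ D.diagonalSubgroup K := tau_mem hG (hinj K)
  have hreg : ∀ s < D.nroots, chr D.rank rc (ex c) s ≠ 1 := by
    intro s hs h1
    have hfT : gmap D σ (tau D rc K c) ∈ D.diagonalSubgroup K := hG.gmap_diag σ (hTc c)
    obtain ⟨n, hn, hnc⟩ := hG.diagonal_fusion hE hfT (hTc c) hn₀G hn₀c
    obtain ⟨w, χ, hmw⟩ := hG.exists_mon hE hn
    have he := heig n hn w χ hmw hnc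
    have hcp := hchar w he
    have hne := det_orb_ne hd hcp (rc_root_ne hG ⟨s, hs⟩)
    apply hdet w ⟨s, hs⟩ hne
    apply dvd_det_orb ha'0 he
    rw [chr_ex] at h1
    have h2 := (prod_zpow_iff hζ ha (fun k : Fin D.rank => rc s k) 0).1 (by rw [zpow_zero]; exact h1)
    rw [Int.cast_zero] at h2
    exact h2
  have hreg2 : ∀ s < D.nroots, chr D.rank rc (ex (c ^ q)) s ≠ 1 := by
    intro s hs h1
    apply hreg s hs
    have h2 : chr D.rank rc (ex (c ^ q)) s = (chr D.rank rc (ex c) s) ^ q := by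
      rw [chr_ex, chr_ex, ← Finset.prod_pow]
      refine Finset.prod_congr rfl fun k _ => ?_
      rw [Pi.pow_apply, ← zpow_natCast, ← zpow_natCast, ← zpow_mul, ← zpow_mul, mul_comm]
    rw [h2] at h1
    apply Units.ext
    apply σ.injective
    rw [hσ, ← Units.val_pow_eq_pow_val, h1, Units.val_one, map_one]
  have hn₀N : n₀ ∈ D.monomialSubgroup K := by
    have h1 : n₀ * tau D rc K (c ^ q) * n₀⁻¹ = tau D rc K c := by rw [← gmap_tau hG σ hσ]; exact hn₀c
    exact reg_fusion hG hE (hG.isChr_chr _) (hG.isChr_chr _) hreg2 hreg (hTc (c ^ q)) (hTc c) hn₀G h1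
  obtain ⟨w₀, χ₀, hm₀⟩ := hG.exists_mon hE hn₀N
  have he₀ := heig n₀ hn₀N w₀ χ₀ hm₀ hn₀c
  have hcp₀ := hchar w₀ he₀
  -- the kernel
  haveI : IsCyclic Kˣ := inferInstance
  have hMn : M₀ ∣ Nat.card Kˣ := by
    have h1 := Polynomial.eval_dvd (x := (q : ℤ)) (Polynomial.cyclotomic.dvd_X_pow_sub_one d ℤ)
    rw [hM, Polynomial.eval_sub, Polynomial.eval_pow, Polynomial.eval_X, Polynomial.eval_one] at h1
    have hqpos : 1 ≤ q ^ d := Nat.one_le_pow _ _ (by rw [← hq]; exact Fintype.card_pos)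
    rw [hcardu, ← Int.natCast_dvd_natCast, Nat.cast_sub hqpos]
    push_cast
    exact h1
  obtain ⟨hcyc, hcard⟩ := KerS_cyclic (C := Kˣ) hd hcp₀ hM hM0 hMn hsq
  -- the fixed points in the twisted torus
  have hfix : ∀ b : Fin D.rank → Kˣ, gmap D σ (g * tau D rc K b * g⁻¹) = g * tau D rc K b * g⁻¹ ↔ b ∈ KerS Kˣ (Pmat hG w₀) q := by
    intro b
    have h1 : gmap D σ (g * tau D rc K b * g⁻¹) = g * (n₀ * tau D rc K (b ^ q) * n₀⁻¹) * g⁻¹ := by
      rw [map_mul, map_mul, map_inv, gmap_tau hG σ hσ, hn₀]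
      group
    rw [h1, mul_left_inj, mul_right_inj, mon_tau_iff hG hE (hinj K) hn₀N hm₀, mem_KerS]
    rfl
  -- the subgroup of the fixed subgroup
  let H₁ : Subgroup ↥GF := (D.diagonalSubgroup K).comap
    ((MulAut.conj g⁻¹).toMonoidHom.comp ((D.group K).subtype.comp GF.subtype))
  have hH₁ : ∀ y : ↥GF, y ∈ H₁ ↔ g⁻¹ * ((y : ↥(D.group K)) : GL D.Idx K) * g ∈ D.diagonalSubgroup K := by
    intro y
    change g⁻¹ * ((y : ↥(D.group K)) : GL D.Idx K) * g⁻¹⁻¹ ∈ D.diagonalSubgroup K ↔ _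
    rw [inv_inv]
  -- isomorphism with the kernel
  have hiso : Nonempty (↥(KerS Kˣ (Pmat hG w₀) q) ≃* ↥H₁) := by
    let Θ : ↥(KerS Kˣ (Pmat hG w₀) q) →* GL D.Idx K :=
      (MulAut.conj g).toMonoidHom.comp ((tau D rc K).comp (KerS Kˣ (Pmat hG w₀) q).subtype)
    have hΘ : ∀ b, Θ b = g * tau D rc K b.1 * g⁻¹ := fun b => rfl
    have hΘi : Function.Injective Θ := by
      intro b b' h
      rw [hΘ, hΘ, mul_left_inj, mul_right_inj] at h
      exact Subtype.ext (tau_injective hG h)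
    let Λ : ↥H₁ →* GL D.Idx K := (D.group K).subtype.comp (GF.subtype.comp H₁.subtype)
    have hΛi : Function.Injective Λ := by
      intro a b h
      exact Subtype.ext (Subtype.ext (Subtype.ext h))
    have hr : Θ.range = Λ.range := by
      ext y
      constructor
      · rintro ⟨b, rfl⟩
        have h1 : g * tau D rc K b.1 * g⁻¹ ∈ D.group K := mul_mem (mul_mem hgG (hTG (hTc b.1))) (inv_mem hgG)
        refine ⟨⟨⟨⟨_, h1⟩, (hfix b.1).2 b.2⟩, ?_⟩, rfl⟩
        rw [hH₁]
        have : g⁻¹ * (g * tau D rc K b.1 * g⁻¹) * g = tau D rc K b.1 := by group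
        change g⁻¹ * (g * tau D rc K b.1 * g⁻¹) * g ∈ _
        rw [this]
        exact hTc _
      · rintro ⟨y, rfl⟩
        have h1 := (hH₁ y.1).1 y.2
        obtain ⟨b, hb⟩ := exists_tau hG h1
        have h2 : Λ y = g * tau D rc K b * g⁻¹ := by
          rw [← hb]
          change ((y.1 : ↥(D.group K)) : GL D.Idx K) = _
          group
        have h3 : gmap D σ (Λ y) = Λ y := y.1.2
        rw [h2, hfix] at h3
        exact ⟨⟨b, h3⟩, by rw [hΘ, h2]⟩
    exact ⟨(MonoidHom.ofInjective hΘi).trans ((MulEquiv.subgroupCongr hr).trans (MonoidHom.ofInjective hΛi).symm)⟩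
  obtain ⟨E⟩ := hiso
  -- the centralizer
  have hcent : ∀ u : ↥GF, (∀ y ∈ H₁, y * u = u * y) ↔ u ∈ H₁ := by
    intro u
    constructor
    · intro hu
      have hXH : (⟨X, hXfix⟩ : ↥GF) ∈ H₁ := by
        rw [hH₁]
        change g⁻¹ * (X : GL D.Idx K) * g ∈ _
        rw [hc']
        exact hTc c
      have h1 := congrArg (fun z : ↥GF => ((z : ↥(D.group K)) : GL D.Idx K)) (hu _ hXH)
      obtain ⟨U, hU⟩ : ∃ U : GL D.Idx K, U = ((u : ↥(D.group K)) : GL D.Idx K) := ⟨_, rfl⟩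
      have h2 : (X : GL D.Idx K) * U = U * X := by rw [hU]; exact h1
      have hUG : U ∈ D.group K := by rw [hU]; exact u.1.2
      have hUf : gmap D σ U = U := by rw [hU]; exact u.2
      set V := g⁻¹ * U * g with hV
      have hVG : V ∈ D.group K := mul_mem (mul_mem (inv_mem hgG) hUG) hgG
      have hVc : V * tau D rc K c * V⁻¹ = tau D rc K c := by
        have h3 : V * tau D rc K c = tau D rc K c * V := by
          rw [hV, ← hc']
          calc g⁻¹ * U * g * (g⁻¹ * (X : GL D.Idx K) * g) = g⁻¹ * (U * X) * g := by group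
            _ = g⁻¹ * (X * U) * g := by rw [h2]
            _ = _ := by group
        rw [h3, mul_inv_cancel_right]
      have hVN : V ∈ D.monomialSubgroup K :=
        reg_fusion hG hE (hG.isChr_chr _) (hG.isChr_chr _) hreg hreg (hTc c) (hTc c) hVG hVc
      obtain ⟨w, χ, hmV⟩ := hG.exists_mon hE hVN
      have hcomm : w₀ * w = w * w₀ := by
        have h3 : n₀ * gmap D σ V = V * n₀ := by
          rw [hV, hn₀, map_mul, map_mul, map_inv, hUf]
          group
        have h4 := hm₀.mul (mon_gmap hG σ hmV)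
        have h5 := hmV.mul hm₀
        rw [h3] at h4
        exact hG.mon_unique hE h4 h5
      have hw1 : w = 1 := by
        apply Pmat_injective hG
        have hc2 : Commute (Pmat hG w) (Pmat hG w₀) := by
          change _ * _ = _ * _
          rw [← Pmat_mul, ← Pmat_mul, hcomm]
        refine stab_eq_one hd hcp₀ hc2 (hPm w) hrW ha'0 ?_
        rw [mon_tau_iff hG hE (hinj K) hVN hmV] at hVc
        funext k
        have h3 := hVc k
        rw [ha k] at h3
        rw [prod_zpow_iff hζ ha] at h3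
        exact h3
      rw [hw1] at hmV
      rw [hH₁, ← hU]
      exact hG.mem_diagonal_of_mon hE hVN hmV
    · intro hu y hy
      rw [hH₁] at hu hy
      have h3 := hG.diagonal_comm hy hu
      apply Subtype.ext
      apply Subtype.ext
      change ((y : ↥(D.group K)) : GL D.Idx K) * ((u : ↥(D.group K)) : GL D.Idx K) = ((u : ↥(D.group K)) : GL D.Idx K) * ((y : ↥(D.group K)) : GL D.Idx K)
      obtain ⟨U, hU⟩ : ∃ U : GL D.Idx K, U = ((u : ↥(D.group K)) : GL D.Idx K) := ⟨_, rfl⟩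
      obtain ⟨Y, hY⟩ : ∃ Y : GL D.Idx K, Y = ((y : ↥(D.group K)) : GL D.Idx K) := ⟨_, rfl⟩
      rw [← hU, ← hY] at h3 ⊢
      calc Y * U = g * ((g⁻¹ * Y * g) * (g⁻¹ * U * g)) * g⁻¹ := by group
        _ = g * ((g⁻¹ * U * g) * (g⁻¹ * Y * g)) * g⁻¹ := by rw [h3]
        _ = U * Y := by group
  -- transport
  have eH := (H₁.equivMapOfInjective e.toMonoidHom e.injective)
  refine ⟨H₁.map e.toMonoidHom, ?_, ?_, ?_⟩
  · haveI := hcyc
    exact isCyclic_of_surjective (E.trans eH) (E.trans eH).surjective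
  · rw [← Nat.card_congr eH.toEquiv, ← Nat.card_congr E.toEquiv, hcard]
  · ext z
    rw [Subgroup.mem_centralizer_iff]
    constructor
    · intro hz
      refine ⟨e.symm z, ?_, e.apply_symm_apply z⟩
      refine (hcent _).1 fun y hy => ?_
      apply e.injective
      have h1 := hz (e y) ⟨y, hy, rfl⟩
      rw [map_mul, map_mul, MulEquiv.apply_symm_apply]
      exact h1
    · rintro ⟨u, hu, rfl⟩ _ ⟨y, hy, rfl⟩
      change e y * e u = e u * e y
      rw [← map_mul, ← map_mul, (hcent u).2 hu y hy]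

end Cfsg.Agent.H15.CTor
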