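import Cfsg.Agent.H15.CTor5

/-!
# Self-centralizing cyclic tori: Hadamard's inequality and cyclotomic values
-/

set_option autoImplicit false
set_option linter.unusedSectionVars false

namespace Cfsg.Agent.H15.CTor

open Cfsg.Agent.H6 Cfsg.Lie Cfsg.Agent.H22 Cfsg.Agent.H15.Chev
open scoped Matrix

/-- Hadamard's inequality -/
theorem hadamard {n : ℕ} (M : Matrix (Fin n) (Fin n) ℤ) (B : ℕ) (h : ∀ i, ∑ j, (M i j) ^ 2 ≤ B) : M.det ^ 2 ≤ (B : ℤ) ^ n := by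
  classical
  haveI : Fact (Module.finrank ℝ (EuclideanSpace ℝ (Fin n)) = n) := ⟨by simp⟩
  set b := EuclideanSpace.basisFun (Fin n) ℝ with hb
  set o := b.toBasis.orientation with ho
  set v : Fin n → EuclideanSpace ℝ (Fin n) := fun i => WithLp.toLp 2 (fun j => (M i j : ℝ)) with hv
  have h1 := o.abs_volumeForm_apply_le v
  rw [o.volumeForm_robust b rfl] at h1
  have h2 : b.toBasis.det v = ((M.det : ℤ) : ℝ) := by
    rw [Module.Basis.det_apply]
    have h3 : b.toBasis.toMatrix v = (M.map (Int.cast : ℤ → ℝ)).transpose := by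
      ext i j
      simp [Module.Basis.toMatrix_apply, hb, hv]
    rw [h3, Matrix.det_transpose]
    exact (Int.cast_det M).symm
  rw [h2] at h1
  have h3 : ∀ i, ‖v i‖ ^ 2 ≤ (B : ℝ) := by
    intro i
    rw [EuclideanSpace.norm_sq_eq]
    have h4 := h i
    have h5 : ((∑ j, (M i j) ^ 2 : ℤ) : ℝ) ≤ (B : ℝ) := by exact_mod_cast h4
    refine le_trans (le_of_eq ?_) h5
    push_cast
    refine Finset.sum_congr rfl fun j _ => ?_
    rw [hv]
    simp
  have h4 : (((M.det : ℤ) : ℝ)) ^ 2 ≤ (B : ℝ) ^ n := by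
    calc (((M.det : ℤ) : ℝ)) ^ 2 = |((M.det : ℤ) : ℝ)| ^ 2 := (sq_abs _).symm
      _ ≤ (∏ i, ‖v i‖) ^ 2 := by gcongr
      _ = ∏ i, ‖v i‖ ^ 2 := by rw [Finset.prod_pow]
      _ ≤ ∏ _i : Fin n, (B : ℝ) := Finset.prod_le_prod (fun i _ => by positivity) fun i _ => h3 i
      _ = (B : ℝ) ^ n := by simp
  exact_mod_cast h4

/-- orbit matrices of roots have small determinant -/
theorem det_orb_sq_le {D : ChevalleyDatum} {N : ℕ} {η : ℕ → ℕ → ℤ} {rc : ℕ → ℕ → ℤ} (hG : Good D N η rc)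
    (B2 : Matrix (Fin D.rank) (Fin D.rank) ℤ) (B : ℕ)
    (hB : ∀ s : Fin D.nroots, ∑ j, (∑ k : Fin D.rank, rc s k * B2 k j) ^ 2 ≤ (B : ℤ)) (w : hG.W) (s : Fin D.nroots) :
    ((orb (Pmat hG w) (fun k => rc s k)).det) ^ 2 * B2.det ^ 2 ≤ (B : ℤ) ^ D.rank := by
  rw [← mul_pow, ← Matrix.det_mul]
  apply hadamard
  intro i
  have h1 : ∀ j : Fin D.rank, (orb (Pmat hG w) (fun k => rc s k) * B2) i j = ∑ k : Fin D.rank, rc ((w ^ (i : ℕ)).1 s) k * B2 k j := by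
    intro j
    rw [Matrix.mul_apply]
    refine Finset.sum_congr rfl fun k _ => ?_
    congr 1
    rw [rc_vecMul hG (w ^ (i : ℕ)) s k, Pmat_pow]
    rfl
  rw [Finset.sum_congr rfl fun j _ => by rw [h1 j]]
  exact hB _

/-- conclusion: the determinant is not divisible by a large prime -/
theorem not_dvd_of_sq_le {x : ℤ} {r : ℕ} {B : ℤ} (hx : x ≠ 0) (h : x ^ 2 ≤ B) (hr : B < (r : ℤ) ^ 2) : ¬ (r : ℤ) ∣ x := by
  intro hd
  have h1 := Int.le_of_dvd (Int.natAbs_pos.2 hx |> fun h => by exact_mod_cast h : (0 : ℤ) < (x.natAbs : ℤ)) ((Int.dvd_natAbs).2 hd)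
  have h2 : (r : ℤ) ^ 2 ≤ (x.natAbs : ℤ) ^ 2 := by gcongr
  rw [Int.natAbs_sq] at h2
  linarith

/-- primes dividing cyclotomic values -/
theorem prim_of_dvd {d q r M₀ : ℕ} [Fact r.Prime] (hM : (Polynomial.cyclotomic d ℤ).eval (q : ℤ) = M₀) (h : r ∣ M₀) (hrd : ¬ r ∣ d) :
    IsPrimitiveRoot (q : ZMod r) d := by
  haveI : NeZero (d : ZMod r) := ⟨fun h => hrd ((ZMod.natCast_eq_zero_iff _ _).1 h)⟩
  apply Polynomial.isRoot_cyclotomic_iff.1
  rw [Polynomial.IsRoot]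
  have h1 : (Polynomial.cyclotomic d (ZMod r)).eval (q : ZMod r) = (((Polynomial.cyclotomic d ℤ).eval (q : ℤ) : ℤ) : ZMod r) := by
    rw [← Polynomial.map_cyclotomic d (Int.castRingHom (ZMod r)), Polynomial.eval_map]
    have : ((q : ℕ) : ZMod r) = Int.castRingHom (ZMod r) (q : ℤ) := by simp
    rw [this, Polynomial.eval₂_at_apply]
    rfl
  rw [h1, hM, Int.cast_natCast]
  exact (ZMod.natCast_eq_zero_iff _ _).2 h

theorem dvd_sub_one {d q r : ℕ} [Fact r.Prime] (h : IsPrimitiveRoot (q : ZMod r) d) (hd : 1 < d) : d ∣ r - 1 := by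
  have h0 : (q : ZMod r) ≠ 0 := by
    intro h0
    have := h.pow_eq_one
    rw [h0, zero_pow (by omega)] at this
    exact zero_ne_one this
  exact h.dvd_of_pow_eq_one _ (ZMod.pow_card_sub_one_eq_one h0)

theorem cyc3 (q : ℤ) : (Polynomial.cyclotomic 3 ℤ).eval q = q ^ 2 + q + 1 := by
  rw [Polynomial.cyclotomic_three]
  simp

theorem cyc8 (q : ℤ) : (Polynomial.cyclotomic 8 ℤ).eval q = q ^ 4 + 1 := by
  have h : Polynomial.cyclotomic (2 ^ (2 + 1)) ℤ = ∑ i ∈ Finset.range 2, (Polynomial.X ^ 2 ^ 2) ^ i :=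
    Polynomial.cyclotomic_prime_pow_eq_geom_sum Nat.prime_two
  norm_num [Finset.sum_range_succ] at h
  rw [h]
  simp
  ring

theorem cyc5 (q : ℤ) : (Polynomial.cyclotomic 5 ℤ).eval q = q ^ 4 + q ^ 3 + q ^ 2 + q + 1 := by
  haveI : Fact (Nat.Prime 5) := ⟨by norm_num⟩
  rw [Polynomial.cyclotomic_prime, Polynomial.eval_finsetSum]
  simp [Finset.sum_range_succ]
  ring

theorem cyc15 (q : ℤ) : (Polynomial.cyclotomic 15 ℤ).eval q = q ^ 8 - q ^ 7 + q ^ 5 - q ^ 4 + q ^ 3 - q + 1 := by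
  have h : Polynomial.expand ℤ 3 (Polynomial.cyclotomic 5 ℤ) = Polynomial.cyclotomic (5 * 3) ℤ * Polynomial.cyclotomic 5 ℤ :=
    Polynomial.cyclotomic_expand_eq_cyclotomic_mul (by norm_num) (by norm_num) ℤ
  have h2 := congrArg (Polynomial.eval q) h
  rw [Polynomial.expand_eval, Polynomial.eval_mul, cyc5, cyc5] at h2
  have h3 : q ^ 4 + q ^ 3 + q ^ 2 + q + 1 ≠ 0 := by
    intro h0
    have h4 : (4 : ℤ) * (q ^ 4 + q ^ 3 + q ^ 2 + q + 1) = (2 * q ^ 2 + q) ^ 2 + 3 * (q + 2 / 1) ^ 2 - 8 * q - 8 := by ring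
    nlinarith [sq_nonneg (2 * q ^ 2 + q), sq_nonneg (q + 1), sq_nonneg q, sq_nonneg (q ^ 2 + q)]
  apply mul_right_cancel₀ h3
  have h5 : (5 * 3 : ℕ) = 15 := rfl
  rw [h5] at h2
  rw [← h2]
  ring

theorem cyc30 (q : ℤ) : (Polynomial.cyclotomic 30 ℤ).eval q = q ^ 8 + q ^ 7 - q ^ 5 - q ^ 4 - q ^ 3 + q + 1 := by
  have h : Polynomial.expand ℤ 2 (Polynomial.cyclotomic 15 ℤ) = Polynomial.cyclotomic (15 * 2) ℤ * Polynomial.cyclotomic 15 ℤ :=
    Polynomial.cyclotomic_expand_eq_cyclotomic_mul (by norm_num) (by norm_num) ℤ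
  have h2 := congrArg (Polynomial.eval q) h
  rw [Polynomial.expand_eval, Polynomial.eval_mul, cyc15] at h2
  have h3 : (Polynomial.cyclotomic 15 ℤ).eval q ≠ 0 := by
    have := Polynomial.cyclotomic_pos (n := 15) (by norm_num) q
    exact this.ne'
  apply mul_right_cancel₀ h3
  have h5 : (15 * 2 : ℕ) = 30 := rfl
  rw [h5] at h2
  rw [← h2, cyc15]
  ring

end Cfsg.Agent.H15.CTor
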