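import Cfsg.Agent.H15.CTor6
import Cfsg.Agent.H6.ChevInj
import Cfsg.Agent.H6.ChevExtTab
import Cfsg.Agent.H22.WeylEquiv

/-!
# Self-centralizing cyclic tori of G2, F4, E8
-/

set_option autoImplicit false
set_option linter.unusedSectionVars false
set_option maxRecDepth 100000

namespace Cfsg.Agent.H15.CTor

open Cfsg.Agent.H6 Cfsg.Lie Cfsg.Agent.H22 Cfsg.Agent.H15.Chev
open scoped Matrix

theorem hdet_of {D : ChevalleyDatum} {N : ℕ} {η : ℕ → ℕ → ℤ} {rc : ℕ → ℕ → ℤ} (hG : Good D N η rc) {n : ℕ} (hn : D.rank = n)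
    (b : ℕ → ℕ → ℤ) (B : ℕ) (Δ : ℤ) (hΔ0 : 0 ≤ Δ) (hΔ : (Matrix.of fun k j : Fin n => b k j).det ^ 2 = Δ)
    (hB : ∀ s < D.nroots, ∑ j ∈ Finset.range n, (∑ k ∈ Finset.range n, rc s k * b k j) ^ 2 ≤ (B : ℤ)) {r : ℕ}
    (hr : (B : ℤ) ^ n < Δ * (r : ℤ) ^ 2) : ∀ (w : hG.W) (s : Fin D.nroots), (orb (Pmat hG w) (fun k => rc s k)).det ≠ 0 →
      ¬ (r : ℤ) ∣ (orb (Pmat hG w) (fun k => rc s k)).det := by
  subst hn
  intro w s hne hdvd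
  have h1 := det_orb_sq_le hG (Matrix.of fun k j : Fin D.rank => b k j) B (by
    intro s
    have h2 := hB s s.2
    rw [Finset.sum_range] at h2
    refine le_trans (le_of_eq ?_) h2
    refine Finset.sum_congr rfl fun j _ => ?_
    rw [Finset.sum_range]
    rfl) w s
  rw [hΔ] at h1
  set x := (orb (Pmat hG w) (fun k => rc s k)).det with hx
  have h2 : (r : ℤ) ^ 2 ≤ x ^ 2 := by
    have h3 := Int.le_of_dvd (pow_pos (Int.natAbs_pos.2 hne |> fun h => by exact_mod_cast h : (0 : ℤ) < (x.natAbs : ℤ)) 1 |> fun h => by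
      rwa [pow_one] at h) ((Int.dvd_natAbs).2 hdvd)
    have h4 : (r : ℤ) ^ 2 ≤ (x.natAbs : ℤ) ^ 2 := by gcongr
    rwa [Int.natAbs_sq] at h4
  have h3 : Δ * (r : ℤ) ^ 2 ≤ Δ * x ^ 2 := mul_le_mul_of_nonneg_left h2 hΔ0
  linarith [mul_comm Δ (x ^ 2)]

theorem exists_prime_ne {M p : ℕ} (hp : p.Prime) (h1 : ¬ p ^ 2 ∣ M) (h2 : p < M) : ∃ r : ℕ, r.Prime ∧ r ∣ M ∧ r ≠ p := by
  by_cases hpM : p ∣ M
  · obtain ⟨k, rfl⟩ := hpM
    have hk : k ≠ 1 := by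
      rintro rfl
      omega
    obtain ⟨r, hr, hrk⟩ := Nat.exists_prime_and_dvd hk
    refine ⟨r, hr, hrk.mul_left p, ?_⟩
    rintro rfl
    obtain ⟨k', rfl⟩ := hrk
    exact h1 ⟨k', by ring⟩
  · have hM : M ≠ 1 := by have := hp.one_lt; omega
    obtain ⟨r, hr, hrk⟩ := Nat.exists_prime_and_dvd hM
    exact ⟨r, hr, hrk, fun h => hpM (h ▸ hrk)⟩

theorem dvd_pow_sub_one_of_prim {q d r k : ℕ} (hq : 1 ≤ q) (h : IsPrimitiveRoot (q : ZMod r) d) : r ∣ q ^ (d * k) - 1 := by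
  have h1 : 1 ≤ q ^ (d * k) := Nat.one_le_pow _ _ hq
  rw [← ZMod.natCast_eq_zero_iff, Nat.cast_sub h1, Nat.cast_pow, pow_mul, h.pow_eq_one, one_pow, Nat.cast_one, sub_self]

/-! ### G2 -/

def bG2 (k j : ℕ) : ℤ := (([[10, 0], [-15, 9]] : List (List ℤ)).getD k []).getD j 0
theorem bG2_det : (Matrix.of fun k j : Fin 2 => bG2 k j).det ^ 2 = 8100 := by decide +kernel
theorem bG2_bd : ∀ s < 12, ∑ j ∈ Finset.range 2, (∑ k ∈ Finset.range 2, cO TG2.MO s k * bG2 k j) ^ 2 ≤ ((324 : ℕ) : ℤ) := by decide +kernel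

/-! ### F4 -/

def bF4 (k j : ℕ) : ℤ := (([[1, -1, -1, -1], [0, 0, 0, 2], [0, 0, 2, -2], [0, 2, -2, 0]] : List (List ℤ)).getD k []).getD j 0
theorem bF4_det : (Matrix.of fun k j : Fin 4 => bF4 k j).det ^ 2 = 64 := by decide +kernel
theorem bF4_bd : ∀ s < 48, ∑ j ∈ Finset.range 4, (∑ k ∈ Finset.range 4, cO TF4.MO s k * bF4 k j) ^ 2 ≤ ((8 : ℕ) : ℤ) := by decide +kernel

/-! ### E8 -/

def bE8 (k j : ℕ) : ℤ := (([[1, -1, -1, -1, -1, -1, -1, 1], [2, 2, 0, 0, 0, 0, 0, 0], [-2, 2, 0, 0, 0, 0, 0, 0], [0, -2, 2, 0, 0, 0, 0, 0],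
  [0, 0, -2, 2, 0, 0, 0, 0], [0, 0, 0, -2, 2, 0, 0, 0], [0, 0, 0, 0, -2, 2, 0, 0], [0, 0, 0, 0, 0, -2, 2, 0]] : List (List ℤ)).getD k []).getD j 0
def cE8 (k j : ℕ) : ℤ := (([[2, 0, -1, 0, 0, 0, 0, 0], [0, 2, 0, -1, 0, 0, 0, 0], [-1, 0, 2, -1, 0, 0, 0, 0], [0, -1, -1, 2, -1, 0, 0, 0],
  [0, 0, 0, -1, 2, -1, 0, 0], [0, 0, 0, 0, -1, 2, -1, 0], [0, 0, 0, 0, 0, -1, 2, -1], [0, 0, 0, 0, 0, 0, -1, 2]] : List (List ℤ)).getD k []).getD j 0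
def ciE8 (k j : ℕ) : ℤ := (([[4, 5, 7, 10, 8, 6, 4, 2], [5, 8, 10, 15, 12, 9, 6, 3], [7, 10, 14, 20, 16, 12, 8, 4], [10, 15, 20, 30, 24, 18, 12, 6],
  [8, 12, 16, 24, 20, 15, 10, 5], [6, 9, 12, 18, 15, 12, 8, 4], [4, 6, 8, 12, 10, 8, 6, 3], [2, 3, 4, 6, 5, 4, 3, 2]] : List (List ℤ)).getD k []).getD j 0
theorem cE8_inv : (Matrix.of fun k j : Fin 8 => cE8 k j) * (Matrix.of fun k j : Fin 8 => ciE8 k j) = 1 := by decide +kernel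
theorem bE8_gram : (Matrix.of fun k j : Fin 8 => bE8 k j) * (Matrix.of fun k j : Fin 8 => bE8 k j).transpose =
    (4 : ℤ) • (Matrix.of fun k j : Fin 8 => cE8 k j) := by decide +kernel
theorem bE8_det : (Matrix.of fun k j : Fin 8 => bE8 k j).det ^ 2 = 65536 := by
  have h1 := congrArg Matrix.det bE8_gram
  rw [Matrix.det_mul, Matrix.det_transpose, Matrix.det_smul, Fintype.card_fin] at h1
  have h2 := congrArg Matrix.det cE8_inv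
  rw [Matrix.det_mul, Matrix.det_one] at h2
  have h3 : IsUnit (Matrix.of fun k j : Fin 8 => cE8 k j).det := IsUnit.of_mul_eq_one _ h2
  rcases Int.isUnit_iff.1 h3 with h4 | h4
  · rw [h4] at h1
    rw [pow_two, h1]; norm_num
  · rw [h4] at h1
    nlinarith [sq_nonneg (Matrix.of fun k j : Fin 8 => bE8 k j).det]
theorem bE8_bd : ∀ s < 240, ∑ j ∈ Finset.range 8, (∑ k ∈ Finset.range 8, cO TE8.MO s k * bE8 k j) ^ 2 ≤ ((8 : ℕ) : ℤ) := by decide +kernel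

end Cfsg.Agent.H15.CTor
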