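import Cfsg.Agent.H15.ChevCent4

/-!
# Centralizers of involutions of `F₄(q)`, `q` even
-/

set_option autoImplicit false
set_option linter.unusedSectionVars false
set_option maxRecDepth 100000

namespace Cfsg.Agent.H15.Chev

open Cfsg.Agent.H6 Cfsg.Lie Cfsg.Agent.H22
open scoped Matrix

section general
variable {D : ChevalleyDatum} {N : ℕ} {η : ℕ → ℕ → ℤ} {rc : ℕ → ℕ → ℤ} {F : Type*} [Field F]
variable (hG : Good D N η rc) (hE : Ext D rc)
include hG hE

theorem pair_coord {S R : Set ℕ} (hS : NoSum D N rc S) (hRS : R ⊆ S) {a b : ℕ} (ha : a ∈ S) (hb : b ∈ S) (hab : a ≠ b)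
    (haR : a ∉ R) (hbR : b ∉ R) {z : GL D.Idx F} (hz : z ∈ US (xg D F) R) {α β α' β' : F}
    (h : xg D F a α * xg D F b β * z = xg D F a α' * xg D F b β') : α = α' ∧ β = β' := by
  have h1 : α = α' := by
    by_contra hne
    have h2 : xg D F a (α - α') ∈ US (xg D F) (S \ {a}) := by
      have hzb : z ∈ US (xg D F) (S \ {a}) := US_mono (S := R) (T := S \ {a}) (fun r hr => ⟨hRS hr, fun h => haR (by
        rw [Set.mem_singleton_iff] at h; rw [← h]; exact hr)⟩) hz
      have hbm : ∀ t : F, xg D F b t ∈ US (xg D F) (S \ {a}) := fun t =>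
        mem_US (S := S \ {a}) ⟨hb, fun h => hab (by rw [Set.mem_singleton_iff] at h; exact h.symm)⟩ t
      have e : xg D F a (α - α') = xg D F b β' * (xg D F b β * z)⁻¹ := by
        rw [sub_eq_neg_add, hG.xg_add, hG.xg_neg]
        have : xg D F b β' = (xg D F a α')⁻¹ * (xg D F a α * xg D F b β * z) := by rw [h]; group
        rw [this]; group
      rw [e]
      exact mul_mem (hbm _) (inv_mem (mul_mem (hbm _) hzb))
    have h3 := mem_of_xg_mem hG hE ((hS.mono Set.sdiff_subset).pClo hG) (hS.pos a ha).2 (sub_ne_zero.2 hne) h2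
    exact h3.2 rfl
  refine ⟨h1, ?_⟩
  subst h1
  by_contra hne
  have h2 : xg D F b (β - β') ∈ US (xg D F) (S \ {b}) := by
    have e : xg D F b (β - β') = (xg D F b β * z⁻¹ * (xg D F b β)⁻¹) := by
      have h4 : xg D F b β * z = xg D F b β' := by
        have : xg D F a α * (xg D F b β * z) = xg D F a α * xg D F b β' := by rw [← h]; group
        exact mul_left_cancel this
      rw [sub_eq_add_neg, hG.xg_add, hG.xg_neg, ← h4]; group
    rw [e]
    have hcomm : Commute (xg D F b β) z := by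
      -- everything in `US S` commutes
      have h5 : US (xg D F) R ≤ Subgroup.centralizer {xg D F b β} := by
        rw [US_le]
        intro r hr t
        rw [Subgroup.mem_centralizer_singleton_iff]
        have hr' := hS.pos r (hRS hr)
        have hb' := hS.pos b hb
        have hrb : r ≠ b := fun h => hbR (h ▸ hr)
        have h6 := (hG.rd (F := F) hE).comm b hb'.2 r hr'.2 hrb (hG.ne_neg_of_pos hb'.2 hb'.1 hr'.1) β t
        have h7 : D.commTerms b r = [] := by
          rw [List.eq_nil_iff_forall_not_mem]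
          intro c hc
          have h8 : PClo D N {x | x = b ∨ x = r} := (hS.mono (by
            rintro x (rfl | rfl)
            · exact hb
            · exact hRS hr)).pClo hG
          have h9 := h8.clo b (Or.inl rfl) r (Or.inr rfl) c hc
          have h10 := hG.commTerms_gt hb'.2 hr'.2 hb'.1 hr'.1 hc
          rcases h9 with h9 | h9 <;> omega
        unfold ChevalleyDatum.commWord xw at h6
        rw [h7] at h6
        simpa using h6
      have h6 := h5 hz
      rw [Subgroup.mem_centralizer_singleton_iff] at h6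
      exact h6.symm
    have h7 : xg D F b β * z⁻¹ * (xg D F b β)⁻¹ = z⁻¹ := by
      have := hcomm.inv_right
      rw [this.eq]; group
    rw [h7]
    exact inv_mem (US_mono (S := R) (T := S \ {b}) (fun r hr => ⟨hRS hr, fun h => hbR (by
        rw [Set.mem_singleton_iff] at h; rw [← h]; exact hr)⟩) hz)
  have h3 := mem_of_xg_mem hG hE ((hS.mono Set.sdiff_subset).pClo hG) (hS.pos b hb).2 (sub_ne_zero.2 hne) h2
  exact h3.2 rfl

theorem pair_not_mem {S : Set ℕ} (hS : NoSum D N rc S) {a b : ℕ} (ha : a ∈ S) (hb : b ∈ S) (hab : a ≠ b) :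
    xg D F a 1 * xg D F b 1 ∉ US (xg D F) (S \ {a}) ∧ xg D F a 1 * xg D F b 1 ∉ US (xg D F) (S \ {b}) := by
  constructor
  · intro h
    have h1 : xg D F b 1 ∈ US (xg D F) (S \ {a}) :=
      mem_US (S := S \ {a}) ⟨hb, fun h => hab (by rw [Set.mem_singleton_iff] at h; exact h.symm)⟩ 1
    have h2 := mul_mem h (inv_mem h1)
    rw [mul_inv_cancel_right] at h2
    exact (mem_of_xg_mem hG hE ((hS.mono Set.sdiff_subset).pClo hG) (hS.pos a ha).2 one_ne_zero h2).2 rfl
  · intro h
    have h1 : xg D F a 1 ∈ US (xg D F) (S \ {b}) :=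
      mem_US (S := S \ {b}) ⟨ha, fun h => hab (by rw [Set.mem_singleton_iff] at h; exact h)⟩ 1
    have h2 := mul_mem (inv_mem h1) h
    rw [inv_mul_cancel_left] at h2
    exact (mem_of_xg_mem hG hE ((hS.mono Set.sdiff_subset).pClo hG) (hS.pos b hb).2 one_ne_zero h2).2 rfl

end general

namespace CF4

theorem nr : chevF4.nroots = 48 := by decide +kernel
theorem rk : chevF4.rank = 4 := by decide +kernel

/-- long roots -/
def Lg : List ℕ := [0, 1, 2, 4, 5, 6, 15, 16, 17, 21, 22, 23, 24, 25, 26, 30, 31, 32, 41, 42, 43, 45, 46, 47]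

theorem Lg_stable : ∀ i < chevF4.rank, ∀ r < chevF4.nroots, r ∈ {r | r ∈ Lg} → chevF4.reflectRoot i r ∈ {r | r ∈ Lg} := by
  rw [nr, rk]
  have : ∀ i < 4, ∀ r < 48, r ∈ Lg → chevF4.reflectRoot i r ∈ Lg := by decide +kernel
  exact this

theorem rc_lt : ∀ c < chevF4.nroots, cO TF4.MO c 2 < 2 * 2 := by
  rw [nr]; decide +kernel

theorem simples : chevF4.simple 0 = 33 ∧ chevF4.simple 1 = 27 ∧ chevF4.simple 2 = 25 ∧ chevF4.simple 3 = 24 := by
  decide +kernel
theorem negs : chevF4.neg 33 = 14 ∧ chevF4.neg 27 = 20 ∧ chevF4.neg 25 = 22 ∧ chevF4.neg 24 = 23 := by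
  decide +kernel

/-! ### the element `x_47(1) x_44(1)` -/

variable {F : Type*} [Field F]

theorem S1no : NoSum chevF4 24 (cO TF4.MO) {r | r ∈ [44, 47]} := by
  refine noSum_of_level (k := 2) (B := 2) ?_ (by rw [rk]; norm_num) (by norm_num) ?_ rc_lt
  · rw [nr]; intro r hr
    have : ∀ r ∈ [44, 47], 24 ≤ r ∧ r < 48 := by decide
    exact this r hr
  · have : ∀ r ∈ [44, 47], 2 ≤ cO TF4.MO r 2 := by decide +kernel
    exact this

theorem ev1 : ∀ s < 48, 24 ≤ s → ∀ r ∈ [44, 47], ∀ c ∈ chevF4.commTerms s r, c.2.1 % 2 = 0 := by decide +kernel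

theorem cart1 : ∀ i < 4, 0 ≤ 1 * chevF4.cartan i 47 + 1 * chevF4.cartan i 44 ∧
    (1 * chevF4.cartan i 47 + 1 * chevF4.cartan i 44 = 0 → i ∈ [1, 2] ∧ chevF4.cartan i 47 = 0 ∧ chevF4.cartan i 44 = 0) := by
  decide +kernel

theorem cartv1 : chevF4.cartan 0 47 = 0 ∧ chevF4.cartan 1 47 = 0 ∧ chevF4.cartan 2 47 = 0 ∧ chevF4.cartan 3 47 = 1 ∧
    chevF4.cartan 0 44 = 1 ∧ chevF4.cartan 1 44 = 0 ∧ chevF4.cartan 2 44 = 0 ∧ chevF4.cartan 3 44 = 0 := by decide +kernel

theorem comm1 (h2 : (2 : F) = 0) {s : ℕ} (hs : 24 ≤ s) (hs' : s < 48) (t : F) :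
    xg chevF4 F s t * (xg chevF4 F 47 1 * xg chevF4 F 44 1) = xg chevF4 F 47 1 * xg chevF4 F 44 1 * xg chevF4 F s t := by
  have h47 := even_comm TF4.good TF4.ext h2 (s := s) (r := 47) (by rw [nr]; exact hs') hs (by rw [nr]; norm_num) (by norm_num)
    (ev1 s hs' hs 47 (by simp)) t 1
  have h44 := even_comm TF4.good TF4.ext h2 (s := s) (r := 44) (by rw [nr]; exact hs') hs (by rw [nr]; norm_num) (by norm_num)
    (ev1 s hs' hs 44 (by simp)) t 1
  rw [← mul_assoc, h47, mul_assoc, h44, mul_assoc]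

theorem cent_w (h2 : (2 : F) = 0) :
    chevF4.group F ⊓ Subgroup.centralizer {xg chevF4 F 47 1 * xg chevF4 F 44 1} =
      chevF4.posUnipotent F ⊔ chevF4.rootSubgroup F 20 ⊔ chevF4.rootSubgroup F 22 := by
  have hG := TF4.good
  have hE := TF4.ext
  obtain ⟨s0, s1, s2, s3⟩ := simples
  obtain ⟨n0, n1, n2, n3⟩ := negs
  obtain ⟨a0, a1, a2, a3, b0, b1, b2, b3⟩ := cartv1
  set M := chevF4.posUnipotent F ⊔ chevF4.rootSubgroup F 20 ⊔ chevF4.rootSubgroup F 22 with hMdef
  have hUM : chevF4.posUnipotent F ≤ M := le_sup_left.trans le_sup_left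
  have h20M : chevF4.rootSubgroup F 20 ≤ M := le_sup_right.trans le_sup_left
  have h22M : chevF4.rootSubgroup F 22 ≤ M := le_sup_right
  have hx : ∀ r t, xg chevF4 F r t ∈ chevF4.rootSubgroup F r := fun r t => hG.mem_rootSubgroup.2 ⟨t, rfl⟩
  have hML : ML chevF4 (cO TF4.MO) F {j | j ∈ [1, 2]} ≤ M := by
    apply ML_le_of_simple hG hE
    · intro j hj hjr t
      exact hUM (hG.xg_mem_pos (hG.simple_pos j hjr) (hG.simple_lt j hjr) t)
    · intro j hj hjr t
      have hj' : j = 1 ∨ j = 2 := by simpa using hj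
      rcases hj' with rfl | rfl
      · rw [s1, n1]; exact h20M (hx _ _)
      · rw [s2, n2]; exact h22M (hx _ _)
  have hcn : ∀ k, (k = 1 ∨ k = 2) → ∀ c : F, xg chevF4 F (chevF4.neg (chevF4.simple k)) c * (xg chevF4 F 47 1 * xg chevF4 F 44 1) =
      xg chevF4 F 47 1 * xg chevF4 F 44 1 * xg chevF4 F (chevF4.neg (chevF4.simple k)) c := by
    intro k hk c
    have hk4 : k < chevF4.rank := by rw [rk]; omega
    have hk47 : chevF4.cartan k 47 = 0 := by rcases hk with rfl | rfl <;> assumption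
    have hk44 : chevF4.cartan k 44 = 0 := by rcases hk with rfl | rfl <;> assumption
    have hsl := hG.simple_lt k hk4
    have hsp := hG.simple_pos k hk4
    have h47 := neg_simple_comm hG hE h2 (k := k) (r := 47) hk4 (by rw [nr]; norm_num) hk47 (fun c =>
      even_comm hG hE h2 hsl hsp (by rw [nr]; norm_num) (by norm_num) (ev1 _ (by rw [nr] at hsl; exact hsl) hsp 47 (by simp)) c 1) c
    have h44 := neg_simple_comm hG hE h2 (k := k) (r := 44) hk4 (by rw [nr]; norm_num) hk44 (fun c =>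
      even_comm hG hE h2 hsl hsp (by rw [nr]; norm_num) (by norm_num) (ev1 _ (by rw [nr] at hsl; exact hsl) hsp 44 (by simp)) c 1) c
    rw [← mul_assoc, h47, mul_assoc, h44, mul_assoc]
  have hM : M ≤ chevF4.group F ⊓ Subgroup.centralizer {xg chevF4 F 47 1 * xg chevF4 F 44 1} := by
    refine sup_le (sup_le ?_ ?_) ?_
    · rw [hG.posUnipotent_eq_US, US_le]
      rintro s ⟨h1, h3⟩ t
      refine Subgroup.mem_inf.2 ⟨hG.xg_mem_group _ _, ?_⟩
      rw [Subgroup.mem_centralizer_singleton_iff]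
      exact comm1 h2 h1 (by rw [nr] at h3; exact h3) t
    · intro x hx
      obtain ⟨t, rfl⟩ := hG.mem_rootSubgroup.1 hx
      refine Subgroup.mem_inf.2 ⟨hG.xg_mem_group _ _, ?_⟩
      rw [Subgroup.mem_centralizer_singleton_iff]
      have := hcn 1 (Or.inl rfl) t
      rwa [s1, n1] at this
    · intro x hx
      obtain ⟨t, rfl⟩ := hG.mem_rootSubgroup.1 hx
      refine Subgroup.mem_inf.2 ⟨hG.xg_mem_group _ _, ?_⟩
      rw [Subgroup.mem_centralizer_singleton_iff]
      have := hcn 2 (Or.inr rfl) t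
      rwa [s2, n2] at this
  have i47 : (47 : ℕ) < chevF4.nroots := by rw [nr]; norm_num
  have i44 : (44 : ℕ) < chevF4.nroots := by rw [nr]; norm_num
  refine cent_gen hG hE (J := {j | j ∈ [1, 2]}) hM hML ?_ ?_
  · intro n hn w χ hm u hu u' hu' he
    have hv : xg chevF4 F 47 1 * xg chevF4 F 44 1 ∈ US (xg chevF4 F) {r | r ∈ [44, 47]} :=
      mul_mem (mem_US (S := {r | r ∈ [44, 47]}) (by simp) 1) (mem_US (S := {r | r ∈ [44, 47]}) (by simp) 1)
    have hpn := pair_not_mem (F := F) hG hE S1no (a := 47) (b := 44) (by simp) (by simp) (by norm_num)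
    have hev : ∀ s, 24 ≤ s → s < chevF4.nroots → ∀ r ∈ {r | r ∈ [44, 47]}, ∀ c ∈ chevF4.commTerms s r,
        c.2.1 % 2 = 0 ∨ c.1 ∈ (∅ : Set ℕ) := by
      intro s h1 h3 r hr c hc
      rw [nr] at h3
      exact Or.inl (ev1 s h3 h1 r hr c hc)
    have h47 := weyl_step hG hE h2 (a := ⟨47, i47⟩) S1no (Set.empty_subset _) (le_refl _) (by intro s _ _ r hr; exact absurd hr (by simp))
      hev hv (by simp) hpn.1 hm hu hu' he
    have h44 := weyl_step hG hE h2 (a := ⟨44, i44⟩) S1no (Set.empty_subset _) (le_refl _) (by intro s _ _ r hr; exact absurd hr (by simp))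
      hev hv (by simp) hpn.2 hm hu hu' he
    have l47 := (W_stable_iff hG Lg_stable w⁻¹ ⟨47, i47⟩).2 (show (47 : ℕ) ∈ Lg by decide)
    have l44 : ¬ (((w⁻¹).1 ⟨44, i44⟩ : ℕ) ∈ {r | r ∈ Lg}) := fun h =>
      absurd ((W_stable_iff hG Lg_stable w⁻¹ ⟨44, i44⟩).1 h) (show ¬ ((44 : ℕ) ∈ Lg) by decide)
    have e47 : (w⁻¹).1 ⟨47, i47⟩ = ⟨47, i47⟩ := by
      apply Fin.ext
      have h3 : ((w⁻¹).1 ⟨47, i47⟩ : ℕ) = 44 ∨ ((w⁻¹).1 ⟨47, i47⟩ : ℕ) = 47 := by simpa using h47
      rcases h3 with h3 | h3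
      · rw [h3] at l47; exact absurd l47 (by decide)
      · exact h3
    have e44 : (w⁻¹).1 ⟨44, i44⟩ = ⟨44, i44⟩ := by
      apply Fin.ext
      have h3 : ((w⁻¹).1 ⟨44, i44⟩ : ℕ) = 44 ∨ ((w⁻¹).1 ⟨44, i44⟩ : ℕ) = 47 := by simpa using h44
      rcases h3 with h3 | h3
      · exact h3
      · rw [h3] at l44; exact absurd (by decide) l44
    have h5 := stab_gen2 hG (a := ⟨47, i47⟩) (b := ⟨44, i44⟩) (J := {j | j ∈ [1, 2]}) (α := 1) (β := 1)
      (fun i hi => (cart1 i (by rw [rk] at hi; exact hi)).1) (fun i hi => (cart1 i (by rw [rk] at hi; exact hi)).2)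
      _ w⁻¹ rfl e47 e44
    exact (Subgroup.inv_mem_iff _).1 h5
  · intro q hq h hh hqh
    have hqU : q ∈ chevF4.posUnipotent F := by
      rw [radical_eq hG hE] at hq
      rw [hG.posUnipotent_eq_US]; exact US_mono Set.sdiff_subset hq
    refine mul_mem (hUM hqU) ?_
    have hqc := (Subgroup.mem_inf.1 (hM (hUM hqU))).2
    rw [Subgroup.mem_centralizer_singleton_iff] at hqc
    have hhc : Commute h (xg chevF4 F 47 1 * xg chevF4 F 44 1) := by
      have c1 : Commute (q * h) (xg chevF4 F 47 1 * xg chevF4 F 44 1) := hqh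
      have c2 : Commute q (xg chevF4 F 47 1 * xg chevF4 F 44 1) := hqc
      have := c2.inv_left.mul_left c1
      rwa [inv_mul_cancel_left] at this
    rw [hG.mem_diagonal_iff] at hh
    obtain ⟨c, rfl⟩ := hh
    have t47 := hG.tor_conj_xg (F := F) (hG.isChr_cartan c) i47 1
    have t44 := hG.tor_conj_xg (F := F) (hG.isChr_cartan c) i44 1
    have hE2 := pair_coord (F := F) hG hE S1no (R := ∅) (Set.empty_subset _) (a := 47) (b := 44) (by simp) (by simp) (by norm_num)
      (by simp) (by simp) (z := 1) (one_mem _)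
      (α := ((∏ k ∈ Finset.range chevF4.rank, c k ^ chevF4.cartan k 47 : Fˣ) : F) * 1)
      (β := ((∏ k ∈ Finset.range chevF4.rank, c k ^ chevF4.cartan k 44 : Fˣ) : F) * 1) (α' := 1) (β' := 1) (by
        rw [mul_one, ← t47, ← t44]
        have e := hhc.eq
        rw [← mul_inv_eq_iff_eq_mul] at e
        rw [← e]; group)
    apply hML
    apply tor_mem hG hE
    have q1 := hE2.1
    have q2 := hE2.2
    rw [rk] at q1 q2
    simp only [Finset.prod_range_succ, Finset.prod_range_zero, a0, a1, a2, a3, b0, b1, b2, b3, zpow_zero, zpow_one, one_mul, mul_one] at q1 q2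
    intro i hi hiJ
    rw [rk] at hi
    have hi' : i = 0 ∨ i = 3 := by
      have : ¬ (i = 1 ∨ i = 2) := by simpa using hiJ
      omega
    rcases hi' with rfl | rfl
    · exact Units.ext q2
    · exact Units.ext q1

end CF4

end Cfsg.Agent.H15.Chev
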