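import Cfsg.Agent.H15.ChevCent5

/-!
# Centralizers of involutions of `F₄(q)`, `q` even: the fourth class
-/

set_option autoImplicit false
set_option linter.unusedSectionVars false
set_option maxRecDepth 100000

namespace Cfsg.Agent.H15.Chev

open Cfsg.Agent.H6 Cfsg.Lie Cfsg.Agent.H22
open scoped Matrix

namespace CF4

variable {F : Type*} [Field F]

def S2 : List ℕ := [39, 40, 44, 45, 46, 47]
def R2 : List ℕ := [40, 44, 46, 47]

theorem S2pos : ∀ r ∈ S2, 24 ≤ r ∧ r < 48 := by decide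

theorem S2no : NoSum chevF4 24 (cO TF4.MO) {r | r ∈ S2} := by
  refine noSum_of_level (k := 2) (B := 2) ?_ (by rw [rk]; norm_num) (by norm_num) ?_ rc_lt
  · rw [nr]; exact S2pos
  · have : ∀ r ∈ S2, 2 ≤ cO TF4.MO r 2 := by decide +kernel
    exact this

theorem ev2 : ∀ s < 48, 24 ≤ s → ∀ r ∈ S2, ∀ c ∈ chevF4.commTerms s r, c.2.1 % 2 = 0 ∨ c.1 ∈ R2 := by decide +kernel

/-- the commuting pairs -/
theorem ev3 : ∀ s < 48, 24 ≤ s → s ∉ [25, 26, 27, 34] → ∀ r ∈ [39, 45], ∀ c ∈ chevF4.commTerms s r, c.2.1 % 2 = 0 := by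
  decide +kernel

theorem ev4 : ∀ s ∈ [25, 26, 27, 34], ∀ r ∈ R2, ∀ c ∈ chevF4.commTerms s r, c.2.1 % 2 = 0 := by
  decide +kernel

theorem cart2 : ∀ i < 4, 0 ≤ 3 * chevF4.cartan i 39 + 2 * chevF4.cartan i 45 ∧
    (3 * chevF4.cartan i 39 + 2 * chevF4.cartan i 45 = 0 → i ∈ [0, 3] ∧ chevF4.cartan i 39 = 0 ∧ chevF4.cartan i 45 = 0) := by
  decide +kernel

theorem cartv2 : chevF4.cartan 0 39 = 0 ∧ chevF4.cartan 1 39 = -1 ∧ chevF4.cartan 2 39 = 1 ∧ chevF4.cartan 3 39 = 0 ∧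
    chevF4.cartan 0 45 = 0 ∧ chevF4.cartan 1 45 = 2 ∧ chevF4.cartan 2 45 = -1 ∧ chevF4.cartan 3 45 = 0 := by decide +kernel

theorem pairs2 : ∀ r ∈ S2, ∀ s ∈ S2, r ∉ Lg → s ∈ Lg → chevF4.pairing r s = 0 → r = 39 ∧ s = 45 := by decide +kernel
theorem pair0 : chevF4.pairing 39 45 = 0 := by decide +kernel

theorem ct : chevF4.commTerms 39 34 = [(44, -1, 1, 1)] ∧ chevF4.commTerms 39 27 = [(40, -1, 1, 1)] ∧
    chevF4.commTerms 39 25 = [] ∧ chevF4.commTerms 39 26 = [] ∧ chevF4.commTerms 45 34 = [] ∧ chevF4.commTerms 45 27 = [] ∧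
    chevF4.commTerms 45 25 = [(46, -1, 1, 1)] ∧ chevF4.commTerms 45 26 = [(47, -1, 1, 1)] := by decide +kernel

/-- positive roots outside a list -/
def TX (X : List ℕ) : Set ℕ := {r | 24 ≤ r ∧ r < 48 ∧ r ∉ X}

theorem lev1 : ∀ r < 48, 24 ≤ r → r ∉ [24, 33] → 1 ≤ cO TF4.MO r 1 + cO TF4.MO r 2 := by decide +kernel
theorem lev0 : ∀ r < 48, 24 ≤ r → 0 ≤ cO TF4.MO r 1 ∧ 0 ≤ cO TF4.MO r 2 := by decide +kernel
theorem lev2 : ∀ r ∈ [24, 33, 25, 26, 27, 34], cO TF4.MO r 1 + cO TF4.MO r 2 ≤ 1 := by decide +kernel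

theorem TX_pClo {X : List ℕ} (h1 : ∀ r ∈ [24, 33], r ∈ X) (h2 : ∀ r ∈ X, r ∈ [24, 33, 25, 26, 27, 34]) :
    PClo chevF4 24 (TX X) := by
  apply TF4.good.pClo_of
  · intro r hr; rw [nr]; exact ⟨hr.1, hr.2.1⟩
  · intro r hr s hs c a b hc hcN ha hb hrc
    rw [nr] at hc
    refine ⟨hcN, hc, ?_⟩
    intro hcX
    have h3 := lev2 c (h2 c hcX)
    have h4 := hrc 1 (by rw [rk]; norm_num)
    have h5 := hrc 2 (by rw [rk]; norm_num)
    have h6 := lev1 r hr.2.1 hr.1 (fun h => hr.2.2 (h1 r h))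
    have h7 := lev1 s hs.2.1 hs.1 (fun h => hs.2.2 (h1 s h))
    have ha' : (1 : ℤ) ≤ a := by exact_mod_cast ha
    have hb' : (1 : ℤ) ≤ b := by exact_mod_cast hb
    nlinarith [mul_nonneg (show (0 : ℤ) ≤ (a : ℤ) - 1 by omega) (show (0 : ℤ) ≤ cO TF4.MO r 1 + cO TF4.MO r 2 by omega),
      mul_nonneg (show (0 : ℤ) ≤ (b : ℤ) - 1 by omega) (show (0 : ℤ) ≤ cO TF4.MO s 1 + cO TF4.MO s 2 by omega)]

theorem TX_diff (X : List ℕ) (r : ℕ) : TX X \ {r} = TX (r :: X) := by
  ext s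
  unfold TX
  simp only [Set.mem_diff, Set.mem_ofPred_eq, Set.mem_singleton_iff, List.mem_cons]
  tauto

/-- the group generated in the statement -/
noncomputable def Mv (F : Type*) [Field F] : Subgroup (GL chevF4.Idx F) :=
  chevF4.rootSubgroup F 33 ⊔ chevF4.rootSubgroup F 14 ⊔ chevF4.rootSubgroup F 24 ⊔ chevF4.rootSubgroup F 23 ⊔
      Subgroup.closure {g : GL chevF4.Idx F | ∃ (r : ℕ) (c : F), chevF4.IsPosRoot r ∧ r ∉ [27, 25, 34, 26] ∧
        (g : Matrix chevF4.Idx chevF4.Idx F) = chevF4.x F r c}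

/-- commutation relation with one odd term -/
theorem rel1 (h2 : (2 : F) = 0) {r s k : ℕ} (hr : r < 48) (hs : s < 48) (hr' : 24 ≤ r) (hs' : 24 ≤ s) (hne : s ≠ r)
    (h : chevF4.commTerms r s = [(k, -1, 1, 1)]) (u : F) :
    xg chevF4 F s u * xg chevF4 F r 1 = xg chevF4 F r 1 * xg chevF4 F s u * xg chevF4 F k u := by
  have hG := TF4.good
  have hr2 : r < chevF4.nroots := by rw [nr]; exact hr
  have hs2 : s < chevF4.nroots := by rw [nr]; exact hs
  have h1 := (hG.rd (F := F) TF4.ext).comm r hr2 s hs2 hne (hG.ne_neg_of_pos hr2 hr' hs') 1 u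
  rw [h1]
  congr 1
  unfold ChevalleyDatum.commWord xw
  rw [h]
  simp

theorem rel0 {r s : ℕ} (hr : r < 48) (hs : s < 48) (hr' : 24 ≤ r) (hs' : 24 ≤ s) (hne : s ≠ r)
    (h : chevF4.commTerms r s = []) (u : F) :
    xg chevF4 F s u * xg chevF4 F r 1 = xg chevF4 F r 1 * xg chevF4 F s u := by
  have hG := TF4.good
  have hr2 : r < chevF4.nroots := by rw [nr]; exact hr
  have hs2 : s < chevF4.nroots := by rw [nr]; exact hs
  have h1 := (hG.rd (F := F) TF4.ext).comm r hr2 s hs2 hne (hG.ne_neg_of_pos hr2 hr' hs') 1 u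
  rw [h1]
  unfold ChevalleyDatum.commWord xw
  rw [h]
  simp

theorem cmS (h2 : (2 : F) = 0) {s r : ℕ} (hs : s ∈ [25, 26, 27, 34]) (hr : r ∈ R2) (t u : F) :
    Commute (xg chevF4 F s t) (xg chevF4 F r u) := by
  have h1 : ∀ s ∈ [25, 26, 27, 34], 24 ≤ s ∧ s < 48 := by decide
  have h3 : ∀ r ∈ R2, 24 ≤ r ∧ r < 48 := by decide
  exact even_comm TF4.good TF4.ext h2 (by rw [nr]; exact (h1 s hs).2) (h1 s hs).1 (by rw [nr]; exact (h3 r hr).2) (h3 r hr).1
    (ev4 s hs r hr) t u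

/-- the four conjugations -/
theorem conj4 (h2 : (2 : F) = 0) (a b c d : F) (h : xg chevF4 F 25 c * (xg chevF4 F 26 d * (xg chevF4 F 27 a * xg chevF4 F 34 b)) *
    (xg chevF4 F 39 1 * xg chevF4 F 45 1) = xg chevF4 F 39 1 * xg chevF4 F 45 1 *
      (xg chevF4 F 25 c * (xg chevF4 F 26 d * (xg chevF4 F 27 a * xg chevF4 F 34 b)))) :
    xg chevF4 F 46 c * xg chevF4 F 47 d * xg chevF4 F 40 a * xg chevF4 F 44 b = 1 := by
  obtain ⟨c1, c2, c3, c4, c5, c6, c7, c8⟩ := ct
  set v := xg chevF4 F 39 1 * xg chevF4 F 45 1 with hv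
  have e34 : xg chevF4 F 34 b * v = v * xg chevF4 F 34 b * xg chevF4 F 44 b := by
    have r1 := rel1 (F := F) h2 (r := 39) (s := 34) (k := 44) (by norm_num) (by norm_num) (by norm_num) (by norm_num) (by norm_num) c1 b
    have r2 := rel0 (F := F) (r := 45) (s := 34) (by norm_num) (by norm_num) (by norm_num) (by norm_num) (by norm_num) c5 b
    have r3 : xg chevF4 F 44 b * xg chevF4 F 45 1 = xg chevF4 F 45 1 * xg chevF4 F 44 b :=
      even_comm TF4.good TF4.ext h2 (by rw [nr]; norm_num) (by norm_num) (by rw [nr]; norm_num) (by norm_num)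
        (ev3 44 (by norm_num) (by norm_num) (by decide) 45 (by simp)) b 1
    rw [hv, ← mul_assoc, r1, mul_assoc, r3, ← mul_assoc, mul_assoc (xg chevF4 F 39 1), r2]
    simp only [mul_assoc]
  have e27 : xg chevF4 F 27 a * v = v * xg chevF4 F 27 a * xg chevF4 F 40 a := by
    have r1 := rel1 (F := F) h2 (r := 39) (s := 27) (k := 40) (by norm_num) (by norm_num) (by norm_num) (by norm_num) (by norm_num) c2 a
    have r2 := rel0 (F := F) (r := 45) (s := 27) (by norm_num) (by norm_num) (by norm_num) (by norm_num) (by norm_num) c6 a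
    have r3 : xg chevF4 F 40 a * xg chevF4 F 45 1 = xg chevF4 F 45 1 * xg chevF4 F 40 a :=
      even_comm TF4.good TF4.ext h2 (by rw [nr]; norm_num) (by norm_num) (by rw [nr]; norm_num) (by norm_num)
        (ev3 40 (by norm_num) (by norm_num) (by decide) 45 (by simp)) a 1
    rw [hv, ← mul_assoc, r1, mul_assoc, r3, ← mul_assoc, mul_assoc (xg chevF4 F 39 1), r2]
    simp only [mul_assoc]
  have e26 : xg chevF4 F 26 d * v = v * xg chevF4 F 26 d * xg chevF4 F 47 d := by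
    have r1 := rel0 (F := F) (r := 39) (s := 26) (by norm_num) (by norm_num) (by norm_num) (by norm_num) (by norm_num) c4 d
    have r2 := rel1 (F := F) h2 (r := 45) (s := 26) (k := 47) (by norm_num) (by norm_num) (by norm_num) (by norm_num) (by norm_num) c8 d
    rw [hv, ← mul_assoc, r1, mul_assoc, r2]
    simp only [mul_assoc]
  have e25 : xg chevF4 F 25 c * v = v * xg chevF4 F 25 c * xg chevF4 F 46 c := by
    have r1 := rel0 (F := F) (r := 39) (s := 25) (by norm_num) (by norm_num) (by norm_num) (by norm_num) (by norm_num) c3 c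
    have r2 := rel1 (F := F) h2 (r := 45) (s := 25) (k := 46) (by norm_num) (by norm_num) (by norm_num) (by norm_num) (by norm_num) c7 c
    rw [hv, ← mul_assoc, r1, mul_assoc, r2]
    simp only [mul_assoc]
  -- commutations
  have k1 := cmS (F := F) h2 (s := 34) (r := 40) (by simp) (by decide) b a
  have k2 := cmS (F := F) h2 (s := 27) (r := 47) (by simp) (by decide) a d
  have k3 := cmS (F := F) h2 (s := 34) (r := 47) (by simp) (by decide) b d
  have k4 := cmS (F := F) h2 (s := 26) (r := 46) (by simp) (by decide) d c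
  have k5 := cmS (F := F) h2 (s := 27) (r := 46) (by simp) (by decide) a c
  have k6 := cmS (F := F) h2 (s := 34) (r := 46) (by simp) (by decide) b c
  set A := xg chevF4 F 25 c
  set B := xg chevF4 F 26 d
  set C := xg chevF4 F 27 a
  set E := xg chevF4 F 34 b
  set p := xg chevF4 F 46 c
  set q := xg chevF4 F 47 d
  set r := xg chevF4 F 40 a
  set t := xg chevF4 F 44 b
  have h3 : A * (B * (C * E)) * v = v * (A * (B * (C * E))) * (p * q * r * t) := by
    calc A * (B * (C * E)) * v = A * B * C * (E * v) := by group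
      _ = A * B * (C * v) * E * t := by rw [e34]; group
      _ = A * B * v * C * (r * E) * t := by rw [e27]; group
      _ = A * (B * v) * C * E * r * t := by rw [← k1.eq]; group
      _ = A * v * B * (q * C) * E * r * t := by rw [e26]; group
      _ = A * v * B * C * (q * E) * r * t := by rw [← k2.eq]; group
      _ = (A * v) * B * C * E * q * r * t := by rw [← k3.eq]; group
      _ = v * A * (p * B) * C * E * q * r * t := by rw [e25]; group
      _ = v * A * B * (p * C) * E * q * r * t := by rw [← k4.eq]; group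
      _ = v * A * B * C * (p * E) * q * r * t := by rw [← k5.eq]; group
      _ = v * A * B * C * E * p * q * r * t := by rw [← k6.eq]; group
      _ = _ := by group
  rw [h3] at h
  exact mul_eq_left.1 h

theorem four_zero (h : ∀ S : Set ℕ, S ⊆ {r | r ∈ S2} → PClo chevF4 24 S) {a b c d : F}
    (h1 : xg chevF4 F 46 c * xg chevF4 F 47 d * xg chevF4 F 40 a * xg chevF4 F 44 b = 1) :
    a = 0 ∧ b = 0 ∧ c = 0 ∧ d = 0 := by
  have hG := TF4.good
  have hE := TF4.ext
  have key : ∀ r ∈ R2, ∀ t : F, xg chevF4 F r t ∈ US (xg chevF4 F) {s | s ∈ R2 ∧ s ≠ r} → t = 0 := by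
    intro r hr t ht
    by_contra hne
    have h3 : PClo chevF4 24 {s | s ∈ R2 ∧ s ≠ r} := h _ (by
      rintro s ⟨hs, _⟩
      have : ∀ s ∈ R2, s ∈ S2 := by decide
      exact this s hs)
    have h4 : ∀ r ∈ R2, r < 48 := by decide
    exact (mem_of_xg_mem hG hE h3 (by rw [nr]; exact h4 r hr) hne ht).2 rfl
  have hm : ∀ r s, s ∈ R2 → s ≠ r → ∀ t : F, xg chevF4 F s t ∈ US (xg chevF4 F) {s | s ∈ R2 ∧ s ≠ r} := fun r s h1 h2 t =>
    mem_US (S := {s | s ∈ R2 ∧ s ≠ r}) ⟨h1, h2⟩ t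
  have m40 : (40 : ℕ) ∈ R2 := by decide
  have m44 : (44 : ℕ) ∈ R2 := by decide
  have m46 : (46 : ℕ) ∈ R2 := by decide
  have m47 : (47 : ℕ) ∈ R2 := by decide
  have ha : a = 0 := by
    apply key 40 m40
    have e : xg chevF4 F 40 a = (xg chevF4 F 46 c * xg chevF4 F 47 d)⁻¹ * (xg chevF4 F 44 b)⁻¹ := by
      have : xg chevF4 F 40 a = (xg chevF4 F 46 c * xg chevF4 F 47 d)⁻¹ * (xg chevF4 F 46 c * xg chevF4 F 47 d *
        xg chevF4 F 40 a * xg chevF4 F 44 b) * (xg chevF4 F 44 b)⁻¹ := by group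
      rw [this, h1, mul_one]
    rw [e]
    exact mul_mem (inv_mem (mul_mem (hm _ _ m46 (by norm_num) _) (hm _ _ m47 (by norm_num) _))) (inv_mem (hm _ _ m44 (by norm_num) _))
  have hb : b = 0 := by
    apply key 44 m44
    have e : xg chevF4 F 44 b = (xg chevF4 F 46 c * xg chevF4 F 47 d * xg chevF4 F 40 a)⁻¹ := by
      rw [eq_inv_iff_mul_eq_one]
      have : xg chevF4 F 44 b * (xg chevF4 F 46 c * xg chevF4 F 47 d * xg chevF4 F 40 a) =
        (xg chevF4 F 46 c * xg chevF4 F 47 d * xg chevF4 F 40 a)⁻¹ * (xg chevF4 F 46 c * xg chevF4 F 47 d *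
        xg chevF4 F 40 a * xg chevF4 F 44 b) * (xg chevF4 F 46 c * xg chevF4 F 47 d * xg chevF4 F 40 a) := by group
      rw [this, h1]; group
    rw [e]
    exact inv_mem (mul_mem (mul_mem (hm _ _ m46 (by norm_num) _) (hm _ _ m47 (by norm_num) _)) (hm _ _ m40 (by norm_num) _))
  have hc : c = 0 := by
    apply key 46 m46
    have e : xg chevF4 F 46 c = (xg chevF4 F 47 d * xg chevF4 F 40 a * xg chevF4 F 44 b)⁻¹ := by
      rw [eq_inv_iff_mul_eq_one, ← h1]; group
    rw [e]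
    exact inv_mem (mul_mem (mul_mem (hm _ _ m47 (by norm_num) _) (hm _ _ m40 (by norm_num) _)) (hm _ _ m44 (by norm_num) _))
  have hd : d = 0 := by
    apply key 47 m47
    rw [ha, hb, hc, hG.xg_zero, hG.xg_zero, hG.xg_zero, one_mul, mul_one, mul_one] at h1
    rw [h1]; exact one_mem _
  exact ⟨ha, hb, hc, hd⟩

theorem cent_v (h2 : (2 : F) = 0) :
    chevF4.group F ⊓ Subgroup.centralizer {xg chevF4 F 39 1 * xg chevF4 F 45 1} = Mv F := by
  have hG := TF4.good
  have hE := TF4.ext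
  obtain ⟨s0, s1, s2, s3⟩ := simples
  obtain ⟨n0, n1, n2, n3⟩ := negs
  obtain ⟨a0, a1, a2, a3, b0, b1, b2, b3⟩ := cartv2
  have hx : ∀ r t, xg chevF4 F r t ∈ chevF4.rootSubgroup F r := fun r t => hG.mem_rootSubgroup.2 ⟨t, rfl⟩
  have h33 : chevF4.rootSubgroup F 33 ≤ Mv F := ((le_sup_left.trans le_sup_left).trans le_sup_left).trans le_sup_left
  have h14 : chevF4.rootSubgroup F 14 ≤ Mv F := ((le_sup_right.trans le_sup_left).trans le_sup_left).trans le_sup_left
  have h24 : chevF4.rootSubgroup F 24 ≤ Mv F := (le_sup_right.trans le_sup_left).trans le_sup_left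
  have h23 : chevF4.rootSubgroup F 23 ≤ Mv F := le_sup_right.trans le_sup_left
  have hcl : ∀ r, 24 ≤ r → r < 48 → r ∉ [27, 25, 34, 26] → ∀ t : F, xg chevF4 F r t ∈ Mv F := by
    intro r h1 h3 h4 t
    refine Subgroup.mem_sup_right (Subgroup.subset_closure ⟨r, t, hG.isPos_iff.2 ⟨h1, by rw [nr]; exact h3⟩, h4, hG.coe_xg r t⟩)
  have hML : ML chevF4 (cO TF4.MO) F {j | j ∈ [0, 3]} ≤ Mv F := by
    apply ML_le_of_simple hG hE
    · intro j hj hjr t
      have hj' : j = 0 ∨ j = 3 := by simpa using hj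
      rcases hj' with rfl | rfl
      · rw [s0]; exact h33 (hx _ _)
      · rw [s3]; exact h24 (hx _ _)
    · intro j hj hjr t
      have hj' : j = 0 ∨ j = 3 := by simpa using hj
      rcases hj' with rfl | rfl
      · rw [s0, n0]; exact h14 (hx _ _)
      · rw [s3, n3]; exact h23 (hx _ _)
  have hpc : ∀ s, 24 ≤ s → s < 48 → s ∉ [25, 26, 27, 34] → ∀ r ∈ [39, 45], ∀ t : F,
      xg chevF4 F s t * xg chevF4 F r 1 = xg chevF4 F r 1 * xg chevF4 F s t := by
    intro s h1 h3 h4 r hr t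
    have h5 : ∀ r ∈ [39, 45], 24 ≤ r ∧ r < 48 := by decide
    exact even_comm hG hE h2 (by rw [nr]; exact h3) h1 (by rw [nr]; exact (h5 r hr).2) (h5 r hr).1 (ev3 s h3 h1 h4 r hr) t 1
  have hpc2 : ∀ s, 24 ≤ s → s < 48 → s ∉ [25, 26, 27, 34] → ∀ t : F,
      xg chevF4 F s t * (xg chevF4 F 39 1 * xg chevF4 F 45 1) = xg chevF4 F 39 1 * xg chevF4 F 45 1 * xg chevF4 F s t := by
    intro s h1 h3 h4 t
    rw [← mul_assoc, hpc s h1 h3 h4 39 (by simp), mul_assoc, hpc s h1 h3 h4 45 (by simp), mul_assoc]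
  have hcn : ∀ k, (k = 0 ∨ k = 3) → ∀ c : F, xg chevF4 F (chevF4.neg (chevF4.simple k)) c * (xg chevF4 F 39 1 * xg chevF4 F 45 1) =
      xg chevF4 F 39 1 * xg chevF4 F 45 1 * xg chevF4 F (chevF4.neg (chevF4.simple k)) c := by
    intro k hk c
    have hk4 : k < chevF4.rank := by rw [rk]; omega
    have hk39 : chevF4.cartan k 39 = 0 := by rcases hk with rfl | rfl <;> assumption
    have hk45 : chevF4.cartan k 45 = 0 := by rcases hk with rfl | rfl <;> assumption
    have hsl := hG.simple_lt k hk4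
    rw [nr] at hsl
    have hsp := hG.simple_pos k hk4
    have hsn : chevF4.simple k ∉ [25, 26, 27, 34] := by
      rcases hk with rfl | rfl
      · rw [s0]; decide
      · rw [s3]; decide
    have h39 := neg_simple_comm hG hE h2 (k := k) (r := 39) hk4 (by rw [nr]; norm_num) hk39
      (fun c => hpc _ hsp hsl hsn 39 (by simp) c) c
    have h45 := neg_simple_comm hG hE h2 (k := k) (r := 45) hk4 (by rw [nr]; norm_num) hk45
      (fun c => hpc _ hsp hsl hsn 45 (by simp) c) c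
    rw [← mul_assoc, h39, mul_assoc, h45, mul_assoc]
  have hM : Mv F ≤ chevF4.group F ⊓ Subgroup.centralizer {xg chevF4 F 39 1 * xg chevF4 F 45 1} := by
    have hr1 : ∀ s, 24 ≤ s → s < 48 → s ∉ [25, 26, 27, 34] → chevF4.rootSubgroup F s ≤
        chevF4.group F ⊓ Subgroup.centralizer {xg chevF4 F 39 1 * xg chevF4 F 45 1} := by
      intro s h1 h3 h4 x hx
      obtain ⟨t, rfl⟩ := hG.mem_rootSubgroup.1 hx
      refine Subgroup.mem_inf.2 ⟨hG.xg_mem_group _ _, ?_⟩
      rw [Subgroup.mem_centralizer_singleton_iff]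
      exact hpc2 s h1 h3 h4 t
    refine sup_le (sup_le (sup_le (sup_le (hr1 33 (by norm_num) (by norm_num) (by decide)) ?_)
      (hr1 24 (by norm_num) (by norm_num) (by decide))) ?_) ?_
    · intro x hx
      obtain ⟨t, rfl⟩ := hG.mem_rootSubgroup.1 hx
      refine Subgroup.mem_inf.2 ⟨hG.xg_mem_group _ _, ?_⟩
      rw [Subgroup.mem_centralizer_singleton_iff]
      have := hcn 0 (Or.inl rfl) t
      rwa [s0, n0] at this
    · intro x hx
      obtain ⟨t, rfl⟩ := hG.mem_rootSubgroup.1 hx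
      refine Subgroup.mem_inf.2 ⟨hG.xg_mem_group _ _, ?_⟩
      rw [Subgroup.mem_centralizer_singleton_iff]
      have := hcn 3 (Or.inr rfl) t
      rwa [s3, n3] at this
    · rw [Subgroup.closure_le]
      rintro g ⟨r, c, hp, hr, hg⟩
      have hp' := hG.isPos_iff.1 hp
      rw [nr] at hp'
      rw [hG.eq_xg_iff.1 hg]
      have hr' : r ∉ [25, 26, 27, 34] := by
        intro h; apply hr
        simp only [List.mem_cons, List.not_mem_nil, or_false] at h ⊢
        tauto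
      exact hr1 r hp'.1 hp'.2 hr' (hx r c)
  have i39 : (39 : ℕ) < chevF4.nroots := by rw [nr]; norm_num
  have i45 : (45 : ℕ) < chevF4.nroots := by rw [nr]; norm_num
  have hRS : {r | r ∈ R2} ⊆ {r | r ∈ S2} := by
    have : ∀ r ∈ R2, r ∈ S2 := by decide
    exact this
  have hLS : {r | r ∈ [39, 45]} ⊆ {r | r ∈ S2} := by
    have : ∀ r ∈ [39, 45], r ∈ S2 := by decide
    exact this
  have evR : ∀ s, 24 ≤ s → s < chevF4.nroots → ∀ r ∈ {r | r ∈ R2}, ∀ c ∈ chevF4.commTerms s r,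
      c.2.1 % 2 = 0 ∨ c.1 ∈ {r | r ∈ R2} := by
    intro s h1 h3 r hr c hc
    rw [nr] at h3
    exact ev2 s h3 h1 r (hRS hr) c hc
  have evL : ∀ s, 24 ≤ s → s < chevF4.nroots → ∀ r ∈ {r | r ∈ [39, 45]}, ∀ c ∈ chevF4.commTerms s r,
      c.2.1 % 2 = 0 ∨ c.1 ∈ {r | r ∈ R2} := by
    intro s h1 h3 r hr c hc
    rw [nr] at h3
    exact ev2 s h3 h1 r (hLS hr) c hc
  have hLm : ∀ α β : F, xg chevF4 F 39 α * xg chevF4 F 45 β ∈ US (xg chevF4 F) {r | r ∈ [39, 45]} := fun α β =>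
    mul_mem (mem_US (S := {r | r ∈ [39, 45]}) (by simp) α) (mem_US (S := {r | r ∈ [39, 45]}) (by simp) β)
  have m39 : (39 : ℕ) ∈ {r | r ∈ S2} := show 39 ∈ S2 by decide
  have m45 : (45 : ℕ) ∈ {r | r ∈ S2} := show 45 ∈ S2 by decide
  have n39 : (39 : ℕ) ∉ {r | r ∈ R2} := show ¬ (39 ∈ R2) by decide
  have n45 : (45 : ℕ) ∉ {r | r ∈ R2} := show ¬ (45 ∈ R2) by decide
  refine cent_gen hG hE (J := {j | j ∈ [0, 3]}) hM hML ?_ ?_
  · intro n hn w χ hm u hu u' hu' he
    have hpn := pair_not_mem (F := F) hG hE S2no (a := 39) (b := 45) m39 m45 (by norm_num)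
    have h39 := weyl_step hG hE h2 (a := ⟨39, i39⟩) S2no hRS hLS evR evL (hLm 1 1) n39 hpn.1 hm hu hu' he
    have h45 := weyl_step hG hE h2 (a := ⟨45, i45⟩) S2no hRS hLS evR evL (hLm 1 1) n45 hpn.2 hm hu hu' he
    have l45 := (W_stable_iff hG Lg_stable w⁻¹ ⟨45, i45⟩).2 (show (45 : ℕ) ∈ Lg by decide)
    have l39 : ¬ (((w⁻¹).1 ⟨39, i39⟩ : ℕ) ∈ {r | r ∈ Lg}) := fun h =>
      absurd ((W_stable_iff hG Lg_stable w⁻¹ ⟨39, i39⟩).1 h) (show ¬ ((39 : ℕ) ∈ Lg) by decide)
    have hp : chevF4.pairing ((w⁻¹).1 ⟨39, i39⟩) ((w⁻¹).1 ⟨45, i45⟩) = 0 := by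
      have := hG.pairing_W w⁻¹ ⟨39, i39⟩ ⟨45, i45⟩
      rw [this]; exact pair0
    obtain ⟨e39, e45⟩ := pairs2 _ h39 _ h45 l39 l45 hp
    have h5 := stab_gen2 hG (a := ⟨39, i39⟩) (b := ⟨45, i45⟩) (J := {j | j ∈ [0, 3]}) (α := 3) (β := 2)
      (fun i hi => (cart2 i (by rw [rk] at hi; exact hi)).1) (fun i hi => (cart2 i (by rw [rk] at hi; exact hi)).2)
      _ w⁻¹ rfl (Fin.ext e39) (Fin.ext e45)
    exact (Subgroup.inv_mem_iff _).1 h5
  · intro q hq h hh hqh
    set v := xg chevF4 F 39 1 * xg chevF4 F 45 1 with hv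
    have hqU : q ∈ chevF4.posUnipotent F := by
      rw [radical_eq hG hE] at hq
      rw [hG.posUnipotent_eq_US]; exact US_mono Set.sdiff_subset hq
    rw [hG.mem_diagonal_iff] at hh
    obtain ⟨c, rfl⟩ := hh
    have t39 := hG.tor_conj_xg (F := F) (hG.isChr_cartan c) i39 1
    have t45 := hG.tor_conj_xg (F := F) (hG.isChr_cartan c) i45 1
    set h := tor chevF4 F (fun s => ∏ k ∈ Finset.range chevF4.rank, c k ^ chevF4.cartan k s) with hh
    set α : F := ((∏ k ∈ Finset.range chevF4.rank, c k ^ chevF4.cartan k 39 : Fˣ) : F) * 1 with hα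
    set β : F := ((∏ k ∈ Finset.range chevF4.rank, c k ^ chevF4.cartan k 45 : Fˣ) : F) * 1 with hβ
    have hhv : h * v * h⁻¹ = xg chevF4 F 39 α * xg chevF4 F 45 β := by
      rw [← t39, ← t45, hv]; group
    obtain ⟨z, hz, hqv⟩ := even_coset hG hE h2 (R := {r | r ∈ R2}) (L := {r | r ∈ [39, 45]})
      (fun r hr => S2no.pos r (hRS hr)) evR (fun r hr => S2no.pos r (hLS hr)) evL (hLm α β) hqU
    have hE2 : α = 1 ∧ β = 1 := by
      refine pair_coord (F := F) hG hE S2no hRS (a := 39) (b := 45) m39 m45 (by norm_num) n39 n45 hz ?_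
      rw [← hqv, ← hhv]
      have hqh' : q * h * v * (q * h)⁻¹ = v := by rw [mul_inv_eq_iff_eq_mul]; exact hqh
      calc q * (h * v * h⁻¹) * q⁻¹ = q * h * v * (q * h)⁻¹ := by group
        _ = v := hqh'
    have hhc : Commute h v := by
      rw [hE2.1, hE2.2, ← hv, mul_inv_eq_iff_eq_mul] at hhv
      exact hhv
    have hqc : Commute q v := by
      have c1 : Commute (q * h) v := hqh
      have := c1.mul_left hhc.inv_left
      rwa [mul_inv_cancel_right] at this
    -- the torus part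
    have hhM : h ∈ Mv F := by
      apply hML
      apply tor_mem hG hE
      have q1 := hE2.1
      have q2 := hE2.2
      rw [hα, mul_one, rk] at q1
      rw [hβ, mul_one, rk] at q2
      have q1' : (∏ k ∈ Finset.range 4, c k ^ chevF4.cartan k 39 : Fˣ) = 1 := Units.ext q1
      have q2' : (∏ k ∈ Finset.range 4, c k ^ chevF4.cartan k 45 : Fˣ) = 1 := Units.ext q2
      simp only [Finset.prod_range_succ, Finset.prod_range_zero, a0, a1, a2, a3, b0, b1, b2, b3, zpow_zero, zpow_one, one_mul,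
        mul_one] at q1' q2'
      have e1 : c 2 = c 1 := by
        have : c 1 * (c 1 ^ (-1 : ℤ) * c 2) = c 1 * 1 := by rw [q1']
        rw [zpow_neg_one, mul_inv_cancel_left, mul_one] at this
        exact this
      have e2 : c 1 = 1 := by
        rw [e1, zpow_neg_one] at q2'
        have : c 1 ^ (2 : ℤ) * (c 1)⁻¹ = c 1 := by
          rw [zpow_two, mul_inv_cancel_right]
        rw [this] at q2'
        exact q2'
      intro i hi hiJ
      rw [rk] at hi
      have hi' : i = 1 ∨ i = 2 := by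
        have : ¬ (i = 0 ∨ i = 3) := by simpa using hiJ
        omega
      rcases hi' with rfl | rfl
      · exact e2
      · rw [e1]; exact e2
    refine mul_mem ?_ hhM
    -- the unipotent part
    have hqT : q ∈ US (xg chevF4 F) (TX [24, 33]) := by
      rw [radical_eq hG hE] at hq
      refine US_mono ?_ hq
      rintro r ⟨⟨hr1, hr2⟩, hr3⟩
      refine ⟨hr1, by rw [nr] at hr2; exact hr2, ?_⟩
      intro hr4
      apply hr3
      have hr4' : r = 24 ∨ r = 33 := by simpa using hr4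
      rcases hr4' with rfl | rfl
      · have := phi_simple hG (J := {j | j ∈ [0, 3]}) (j := 3) (by simp) (by rw [rk]; norm_num)
        rwa [s3] at this
      · have := phi_simple hG (J := {j | j ∈ [0, 3]}) (j := 0) (by simp) (by rw [rk]; norm_num)
        rwa [s0] at this
    obtain ⟨x25, q1, hq1, e1⟩ := split_root hG hE (TX_pClo (X := [24, 33]) (by decide) (by decide)) (r := 25)
      ⟨by norm_num, by norm_num, by decide⟩ hqT
    rw [TX_diff] at hq1
    obtain ⟨x26, q2, hq2, e2⟩ := split_root hG hE (TX_pClo (X := [25, 24, 33]) (by decide) (by decide)) (r := 26)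
      ⟨by norm_num, by norm_num, by decide⟩ hq1
    rw [TX_diff] at hq2
    obtain ⟨x27, q3, hq3, e3⟩ := split_root hG hE (TX_pClo (X := [26, 25, 24, 33]) (by decide) (by decide)) (r := 27)
      ⟨by norm_num, by norm_num, by decide⟩ hq2
    rw [TX_diff] at hq3
    obtain ⟨x34, q4, hq4, e4⟩ := split_root hG hE (TX_pClo (X := [27, 26, 25, 24, 33]) (by decide) (by decide)) (r := 34)
      ⟨by norm_num, by norm_num, by decide⟩ hq3
    rw [TX_diff] at hq4
    have hq4M : q4 ∈ Mv F := by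
      have : US (xg chevF4 F) (TX [34, 27, 26, 25, 24, 33]) ≤ Mv F := by
        rw [US_le]
        rintro r ⟨hr1, hr2, hr3⟩ t
        refine hcl r hr1 hr2 ?_ t
        intro h; apply hr3
        simp only [List.mem_cons, List.not_mem_nil, or_false] at h ⊢
        tauto
      exact this hq4
    have hq4c := (Subgroup.mem_inf.1 (hM hq4M)).2
    rw [Subgroup.mem_centralizer_singleton_iff] at hq4c
    have hqe : q = (xg chevF4 F 25 x25 * (xg chevF4 F 26 x26 * (xg chevF4 F 27 x27 * xg chevF4 F 34 x34))) * q4 := by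
      rw [e1, e2, e3, e4]; group
    have hpc : Commute (xg chevF4 F 25 x25 * (xg chevF4 F 26 x26 * (xg chevF4 F 27 x27 * xg chevF4 F 34 x34))) v := by
      have c1 : Commute q4 v := hq4c
      rw [hqe] at hqc
      have := hqc.mul_left c1.inv_left
      rwa [mul_inv_cancel_right] at this
    have h6 := conj4 (F := F) h2 x27 x34 x25 x26 hpc.eq
    obtain ⟨z1, z2, z3, z4⟩ := four_zero (fun S hS => (S2no.mono hS).pClo hG) h6
    rw [hqe, z1, z2, z3, z4, hG.xg_zero, hG.xg_zero, hG.xg_zero, hG.xg_zero, one_mul, one_mul, one_mul, one_mul]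
    exact hq4M

end CF4

end Cfsg.Agent.H15.Chev
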