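import Cfsg.Agent.H15.ChevCent6
import Cfsg.Agent.H15.WCl4
import Cfsg.Agent.H15.ChevInv6

/-!
# Involutions of `G₂(q)`, `q` even
-/

set_option autoImplicit false
set_option linter.unusedSectionVars false
set_option maxRecDepth 100000

namespace Cfsg.Agent.H15.Chev

open Cfsg.Agent.H6 Cfsg.Lie Cfsg.Agent.H22
open scoped Matrix

namespace CG2

variable {F : Type*} [Field F]

theorem nr : chevG2.nroots = 12 := by decide +kernel
theorem rk : chevG2.rank = 2 := by decide +kernel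
theorem simples : chevG2.simple 0 = 7 ∧ chevG2.simple 1 = 6 := by decide +kernel
theorem negs : chevG2.neg 7 = 4 ∧ chevG2.neg 6 = 5 := by decide +kernel
theorem carts : chevG2.cartan 0 9 = 1 ∧ chevG2.cartan 1 9 = 0 ∧ chevG2.cartan 0 11 = 0 ∧ chevG2.cartan 1 11 = 1 := by
  decide +kernel

/-- long roots -/
def Lg : List ℕ := [0, 1, 5, 6, 10, 11]

theorem Lg_stable : ∀ i < chevG2.rank, ∀ r < chevG2.nroots, r ∈ {r | r ∈ Lg} → chevG2.reflectRoot i r ∈ {r | r ∈ Lg} := by
  rw [nr, rk]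
  have : ∀ i < 2, ∀ r < 12, r ∈ Lg → chevG2.reflectRoot i r ∈ Lg := by decide +kernel
  exact this

theorem relG {r s : ℕ} (hr : r < 12) (hs : s < 12) (hr' : 6 ≤ r) (hs' : 6 ≤ s) (hne : s ≠ r) (t u : F) :
    xg chevG2 F s u * xg chevG2 F r t = xg chevG2 F r t * xg chevG2 F s u * xw (xg chevG2 F) (chevG2.commWord F r s t u) := by
  have hG := TG2.good
  have hr2 : r < chevG2.nroots := by rw [nr]; exact hr
  have hs2 : s < chevG2.nroots := by rw [nr]; exact hs
  exact (hG.rd (F := F) TG2.ext).comm r hr2 s hs2 hne (hG.ne_neg_of_pos hr2 hr' hs') t u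

theorem cts : chevG2.commTerms 6 7 = [(8, 1, 1, 1), (9, 1, 1, 2), (10, -1, 1, 3), (11, -2, 2, 3)] ∧
    chevG2.commTerms 6 10 = [(11, 1, 1, 1)] ∧
    chevG2.commTerms 7 8 = [(9, -2, 1, 1), (10, -3, 2, 1), (11, 3, 1, 2)] ∧
    chevG2.commTerms 7 9 = [(10, 3, 1, 1)] ∧ chevG2.commTerms 8 9 = [(11, 3, 1, 1)] := by decide +kernel

theorem cts0 : chevG2.commTerms 6 8 = [] ∧ chevG2.commTerms 6 9 = [] ∧ chevG2.commTerms 6 11 = [] ∧
    chevG2.commTerms 7 10 = [] ∧ chevG2.commTerms 7 11 = [] ∧ chevG2.commTerms 8 10 = [] ∧ chevG2.commTerms 8 11 = [] ∧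
    chevG2.commTerms 9 10 = [] ∧ chevG2.commTerms 9 11 = [] ∧ chevG2.commTerms 10 11 = [] := by decide +kernel

theorem comm0 {r s : ℕ} (hr : r < 12) (hs : s < 12) (hr' : 6 ≤ r) (hs' : 6 ≤ s) (hne : s ≠ r)
    (h : chevG2.commTerms r s = []) (t u : F) : Commute (xg chevG2 F s u) (xg chevG2 F r t) := by
  have h1 := relG (F := F) hr hs hr' hs' hne t u
  unfold ChevalleyDatum.commWord xw at h1
  rw [h] at h1
  rw [List.map_nil, List.map_nil, List.prod_nil, mul_one] at h1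
  exact h1

theorem x2 (h2 : (2 : F) = 0) (r : ℕ) (t : F) : xg chevG2 F r t * xg chevG2 F r t = 1 := by
  rw [← TG2.good.xg_add]
  have : t + t = 0 := by linear_combination t * h2
  rw [this, TG2.good.xg_zero]

theorem xinv (h2 : (2 : F) = 0) (r : ℕ) (t : F) : (xg chevG2 F r t)⁻¹ = xg chevG2 F r t :=
  inv_eq_of_mul_eq_one_left (x2 h2 r t)

theorem r67 (h2 : (2 : F) = 0) (t u : F) : xg chevG2 F 7 u * xg chevG2 F 6 t = xg chevG2 F 6 t * xg chevG2 F 7 u *
    (xg chevG2 F 8 (t * u) * xg chevG2 F 9 (t * u ^ 2) * xg chevG2 F 10 (t * u ^ 3)) := by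
  rw [relG (r := 6) (s := 7) (by norm_num) (by norm_num) (by norm_num) (by norm_num) (by norm_num)]
  congr 1
  unfold ChevalleyDatum.commWord xw
  rw [cts.1]
  simp only [List.map_cons, List.map_nil, List.prod_cons, List.prod_nil, mul_one]
  have e1 : ((1 : ℤ) : F) * (-t) ^ 1 * u ^ 1 = t * u := by push_cast; linear_combination (-t * u) * h2
  have e2 : ((1 : ℤ) : F) * (-t) ^ 1 * u ^ 2 = t * u ^ 2 := by push_cast; linear_combination (-t * u ^ 2) * h2
  have e3 : ((-1 : ℤ) : F) * (-t) ^ 1 * u ^ 3 = t * u ^ 3 := by push_cast; ring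
  have e4 : ((-2 : ℤ) : F) * (-t) ^ 2 * u ^ 3 = 0 := by push_cast; linear_combination (-t ^ 2 * u ^ 3) * h2
  rw [e1, e2, e3, e4, TG2.good.xg_zero, mul_one, mul_assoc]

theorem r610 (h2 : (2 : F) = 0) (t u : F) : xg chevG2 F 10 u * xg chevG2 F 6 t = xg chevG2 F 6 t * xg chevG2 F 10 u *
    xg chevG2 F 11 (t * u) := by
  rw [relG (r := 6) (s := 10) (by norm_num) (by norm_num) (by norm_num) (by norm_num) (by norm_num)]
  congr 1
  unfold ChevalleyDatum.commWord xw
  rw [cts.2.1]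
  simp only [List.map_cons, List.map_nil, List.prod_cons, List.prod_nil, mul_one]
  have e1 : ((1 : ℤ) : F) * (-t) ^ 1 * u ^ 1 = t * u := by push_cast; linear_combination (-t * u) * h2
  rw [e1]

theorem r78 (h2 : (2 : F) = 0) (t u : F) : xg chevG2 F 8 u * xg chevG2 F 7 t = xg chevG2 F 7 t * xg chevG2 F 8 u *
    (xg chevG2 F 10 (t ^ 2 * u) * xg chevG2 F 11 (t * u ^ 2)) := by
  rw [relG (r := 7) (s := 8) (by norm_num) (by norm_num) (by norm_num) (by norm_num) (by norm_num)]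
  congr 1
  unfold ChevalleyDatum.commWord xw
  rw [cts.2.2.1]
  simp only [List.map_cons, List.map_nil, List.prod_cons, List.prod_nil, mul_one]
  have e1 : ((-2 : ℤ) : F) * (-t) ^ 1 * u ^ 1 = 0 := by push_cast; linear_combination (t * u) * h2
  have e2 : ((-3 : ℤ) : F) * (-t) ^ 2 * u ^ 1 = t ^ 2 * u := by push_cast; linear_combination (-2 * t ^ 2 * u) * h2
  have e3 : ((3 : ℤ) : F) * (-t) ^ 1 * u ^ 2 = t * u ^ 2 := by push_cast; linear_combination (-2 * t * u ^ 2) * h2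
  rw [e1, e2, e3, TG2.good.xg_zero, one_mul]

theorem r79 (h2 : (2 : F) = 0) (t u : F) : xg chevG2 F 9 u * xg chevG2 F 7 t = xg chevG2 F 7 t * xg chevG2 F 9 u *
    xg chevG2 F 10 (t * u) := by
  rw [relG (r := 7) (s := 9) (by norm_num) (by norm_num) (by norm_num) (by norm_num) (by norm_num)]
  congr 1
  unfold ChevalleyDatum.commWord xw
  rw [cts.2.2.2.1]
  simp only [List.map_cons, List.map_nil, List.prod_cons, List.prod_nil, mul_one]
  have e3 : ((3 : ℤ) : F) * (-t) ^ 1 * u ^ 1 = t * u := by push_cast; linear_combination (-2 * t * u) * h2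
  rw [e3]

theorem r89 (h2 : (2 : F) = 0) (t u : F) : xg chevG2 F 9 u * xg chevG2 F 8 t = xg chevG2 F 8 t * xg chevG2 F 9 u *
    xg chevG2 F 11 (t * u) := by
  rw [relG (r := 8) (s := 9) (by norm_num) (by norm_num) (by norm_num) (by norm_num) (by norm_num)]
  congr 1
  unfold ChevalleyDatum.commWord xw
  rw [cts.2.2.2.2]
  simp only [List.map_cons, List.map_nil, List.prod_cons, List.prod_nil, mul_one]
  have e3 : ((3 : ℤ) : F) * (-t) ^ 1 * u ^ 1 = t * u := by push_cast; linear_combination (-2 * t * u) * h2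
  rw [e3]

theorem c68 (t u : F) : Commute (xg chevG2 F 8 u) (xg chevG2 F 6 t) :=
  comm0 (by norm_num) (by norm_num) (by norm_num) (by norm_num) (by norm_num) cts0.1 t u
theorem c69 (t u : F) : Commute (xg chevG2 F 9 u) (xg chevG2 F 6 t) :=
  comm0 (by norm_num) (by norm_num) (by norm_num) (by norm_num) (by norm_num) cts0.2.1 t u
theorem c611 (t u : F) : Commute (xg chevG2 F 11 u) (xg chevG2 F 6 t) :=
  comm0 (by norm_num) (by norm_num) (by norm_num) (by norm_num) (by norm_num) cts0.2.2.1 t u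
theorem c710 (t u : F) : Commute (xg chevG2 F 10 u) (xg chevG2 F 7 t) :=
  comm0 (by norm_num) (by norm_num) (by norm_num) (by norm_num) (by norm_num) cts0.2.2.2.1 t u
theorem c711 (t u : F) : Commute (xg chevG2 F 11 u) (xg chevG2 F 7 t) :=
  comm0 (by norm_num) (by norm_num) (by norm_num) (by norm_num) (by norm_num) cts0.2.2.2.2.1 t u
theorem c810 (t u : F) : Commute (xg chevG2 F 10 u) (xg chevG2 F 8 t) :=
  comm0 (by norm_num) (by norm_num) (by norm_num) (by norm_num) (by norm_num) cts0.2.2.2.2.2.1 t u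
theorem c811 (t u : F) : Commute (xg chevG2 F 11 u) (xg chevG2 F 8 t) :=
  comm0 (by norm_num) (by norm_num) (by norm_num) (by norm_num) (by norm_num) cts0.2.2.2.2.2.2.1 t u
theorem c910 (t u : F) : Commute (xg chevG2 F 10 u) (xg chevG2 F 9 t) :=
  comm0 (by norm_num) (by norm_num) (by norm_num) (by norm_num) (by norm_num) cts0.2.2.2.2.2.2.2.1 t u
theorem c911 (t u : F) : Commute (xg chevG2 F 11 u) (xg chevG2 F 9 t) :=
  comm0 (by norm_num) (by norm_num) (by norm_num) (by norm_num) (by norm_num) cts0.2.2.2.2.2.2.2.2.1 t u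
theorem c1011 (t u : F) : Commute (xg chevG2 F 11 u) (xg chevG2 F 10 t) :=
  comm0 (by norm_num) (by norm_num) (by norm_num) (by norm_num) (by norm_num) cts0.2.2.2.2.2.2.2.2.2 t u

/-! ### the centraliser of `x_9(1)` -/

theorem S3no : NoSum chevG2 6 (cO TG2.MO) {r | r ∈ [9, 10, 11]} := by
  refine noSum_of_level (k := 0) (B := 2) ?_ (by rw [rk]; norm_num) (by norm_num) ?_ ?_
  · rw [nr]; intro r hr
    have : ∀ r ∈ [9, 10, 11], 6 ≤ r ∧ r < 12 := by decide
    exact this r hr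
  · have : ∀ r ∈ [9, 10, 11], 2 ≤ cO TG2.MO r 0 := by decide +kernel
    exact this
  · rw [nr]; decide +kernel

theorem ev9 : ∀ s < 12, 6 ≤ s → ∀ r ∈ [9, 10, 11], ∀ c ∈ chevG2.commTerms s r, c.2.1 % 2 = 0 ∨ c.1 ∈ [10, 11] := by decide +kernel

theorem PC7 : PClo chevG2 6 {r | 7 ≤ r ∧ r < 12} := by
  have := TG2.good.pClo_ge TG2.good.pClo_all 7
  have e : ({r | 6 ≤ r ∧ r < chevG2.nroots} ∩ {r | 7 ≤ r} : Set ℕ) = {r | 7 ≤ r ∧ r < 12} := by
    ext r
    rw [nr]
    simp only [Set.mem_inter_iff, Set.mem_ofPred_eq]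
    omega
  rwa [e] at this

theorem PC8 : PClo chevG2 6 {r | 8 ≤ r ∧ r < 12} := by
  have := TG2.good.pClo_ge TG2.good.pClo_all 8
  have e : ({r | 6 ≤ r ∧ r < chevG2.nroots} ∩ {r | 8 ≤ r} : Set ℕ) = {r | 8 ≤ r ∧ r < 12} := by
    ext r
    rw [nr]
    simp only [Set.mem_inter_iff, Set.mem_ofPred_eq]
    omega
  rwa [e] at this

theorem cent9 (h2 : (2 : F) = 0) :
    chevG2.group F ⊓ Subgroup.centralizer {xg chevG2 F 9 1} =
      chevG2.rootSubgroup F 9 ⊔ chevG2.rootSubgroup F 10 ⊔ chevG2.rootSubgroup F 11 ⊔ chevG2.rootSubgroup F 6 ⊔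
        chevG2.rootSubgroup F 5 := by
  have hG := TG2.good
  have hE := TG2.ext
  obtain ⟨s0, s1⟩ := simples
  obtain ⟨n0, n1⟩ := negs
  obtain ⟨a0, a1, b0, b1⟩ := carts
  set M := chevG2.rootSubgroup F 9 ⊔ chevG2.rootSubgroup F 10 ⊔ chevG2.rootSubgroup F 11 ⊔ chevG2.rootSubgroup F 6 ⊔
        chevG2.rootSubgroup F 5 with hMdef
  have hx : ∀ r t, xg chevG2 F r t ∈ chevG2.rootSubgroup F r := fun r t => hG.mem_rootSubgroup.2 ⟨t, rfl⟩
  have h9M : chevG2.rootSubgroup F 9 ≤ M := ((le_sup_left.trans le_sup_left).trans le_sup_left).trans le_sup_left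
  have h10M : chevG2.rootSubgroup F 10 ≤ M := ((le_sup_right.trans le_sup_left).trans le_sup_left).trans le_sup_left
  have h11M : chevG2.rootSubgroup F 11 ≤ M := (le_sup_right.trans le_sup_left).trans le_sup_left
  have h6M : chevG2.rootSubgroup F 6 ≤ M := le_sup_right.trans le_sup_left
  have h5M : chevG2.rootSubgroup F 5 ≤ M := le_sup_right
  have hML : ML chevG2 (cO TG2.MO) F {j | j ∈ [1]} ≤ M := by
    apply ML_le_of_simple hG hE
    · intro j hj hjr t
      have hj' : j = 1 := by simpa using hj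
      subst hj'
      rw [s1]; exact h6M (hx _ _)
    · intro j hj hjr t
      have hj' : j = 1 := by simpa using hj
      subst hj'
      rw [s1, n1]; exact h5M (hx _ _)
  have hc6 : ∀ c : F, xg chevG2 F 6 c * xg chevG2 F 9 1 = xg chevG2 F 9 1 * xg chevG2 F 6 c := fun c => (c69 c 1).symm.eq
  have hc5 : ∀ c : F, xg chevG2 F 5 c * xg chevG2 F 9 1 = xg chevG2 F 9 1 * xg chevG2 F 5 c := by
    intro c
    have := neg_simple_comm hG hE h2 (k := 1) (r := 9) (by rw [rk]; norm_num) (by rw [nr]; norm_num) a1 (by rw [s1]; exact hc6) c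
    rwa [s1, n1] at this
  have hM : M ≤ chevG2.group F ⊓ Subgroup.centralizer {xg chevG2 F 9 1} := by
    have key : ∀ r, (∀ c : F, xg chevG2 F r c * xg chevG2 F 9 1 = xg chevG2 F 9 1 * xg chevG2 F r c) →
        chevG2.rootSubgroup F r ≤ chevG2.group F ⊓ Subgroup.centralizer {xg chevG2 F 9 1} := by
      intro r hr x hx
      obtain ⟨t, rfl⟩ := hG.mem_rootSubgroup.1 hx
      refine Subgroup.mem_inf.2 ⟨hG.xg_mem_group _ _, ?_⟩
      rw [Subgroup.mem_centralizer_singleton_iff]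
      exact hr t
    refine sup_le (sup_le (sup_le (sup_le (key 9 ?_) (key 10 ?_)) (key 11 ?_)) (key 6 hc6)) (key 5 hc5)
    · intro c; rw [← hG.xg_add, add_comm, hG.xg_add]
    · intro c; exact (c910 1 c).eq
    · intro c; exact (c911 1 c).eq
  have i9 : (9 : ℕ) < chevG2.nroots := by rw [nr]; norm_num
  have hRS : {r | r ∈ [10, 11]} ⊆ {r | r ∈ [9, 10, 11]} := by
    have : ∀ r ∈ [10, 11], r ∈ [9, 10, 11] := by decide
    exact this
  have hLS : {r | r ∈ [9]} ⊆ {r | r ∈ [9, 10, 11]} := by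
    have : ∀ r ∈ [9], r ∈ [9, 10, 11] := by decide
    exact this
  have evR : ∀ s, 6 ≤ s → s < chevG2.nroots → ∀ r ∈ {r | r ∈ [10, 11]}, ∀ c ∈ chevG2.commTerms s r,
      c.2.1 % 2 = 0 ∨ c.1 ∈ {r | r ∈ [10, 11]} := by
    intro s h1 h3 r hr c hc
    rw [nr] at h3
    exact ev9 s h3 h1 r (hRS hr) c hc
  have evL : ∀ s, 6 ≤ s → s < chevG2.nroots → ∀ r ∈ {r | r ∈ [9]}, ∀ c ∈ chevG2.commTerms s r,
      c.2.1 % 2 = 0 ∨ c.1 ∈ {r | r ∈ [10, 11]} := by
    intro s h1 h3 r hr c hc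
    rw [nr] at h3
    exact ev9 s h3 h1 r (hLS hr) c hc
  have hLm : ∀ α : F, xg chevG2 F 9 α ∈ US (xg chevG2 F) {r | r ∈ [9]} := fun α => mem_US (S := {r | r ∈ [9]}) (by simp) α
  have n9 : (9 : ℕ) ∉ {r | r ∈ [10, 11]} := show ¬ (9 ∈ [10, 11]) by decide
  -- root elements at 9 are not in `US` of the complement
  have hn9 : ∀ S : Set ℕ, S ⊆ {r | r ∈ [9, 10, 11]} → 9 ∉ S → ∀ α : F, xg chevG2 F 9 α ∈ US (xg chevG2 F) S → α = 0 := by
    intro S hS h9 α hα
    by_contra hne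
    exact h9 (mem_of_xg_mem hG hE ((S3no.mono hS).pClo hG) i9 hne hα)
  refine cent_gen hG hE (J := {j | j ∈ [1]}) hM hML ?_ ?_
  · intro n hn w χ hm u hu u' hu' he
    have h9 := weyl_step hG hE h2 (a := ⟨9, i9⟩) S3no hRS hLS evR evL (hLm 1) n9 (by
      intro h
      exact one_ne_zero (hn9 ({r | r ∈ [9, 10, 11]} \ {9}) Set.sdiff_subset (fun h => h.2 rfl) 1 h)) hm hu hu' he
    have l9 : ¬ (((w⁻¹).1 ⟨9, i9⟩ : ℕ) ∈ {r | r ∈ Lg}) := fun h =>
      absurd ((W_stable_iff hG Lg_stable w⁻¹ ⟨9, i9⟩).1 h) (show ¬ ((9 : ℕ) ∈ Lg) by decide)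
    have e9 : (w⁻¹).1 ⟨9, i9⟩ = ⟨9, i9⟩ := by
      apply Fin.ext
      have h3 : ∀ r ∈ [9, 10, 11], r ∉ Lg → r = 9 := by decide
      exact h3 _ h9 l9
    have h5 := stab_gen2 hG (a := ⟨9, i9⟩) (b := ⟨9, i9⟩) (J := {j | j ∈ [1]}) (α := 1) (β := 1)
      (fun i hi => by
        rw [rk] at hi
        have : i = 0 ∨ i = 1 := by omega
        rcases this with rfl | rfl
        · simp only [a0]; norm_num
        · simp only [a1]; norm_num) (fun i hi => by
        rw [rk] at hi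
        have : i = 0 ∨ i = 1 := by omega
        rcases this with rfl | rfl
        · simp only [a0]; norm_num
        · intro _; exact ⟨by simp, a1, a1⟩)
      _ w⁻¹ rfl e9 e9
    exact (Subgroup.inv_mem_iff _).1 h5
  · intro q hq h hh hqh
    have hqU : q ∈ chevG2.posUnipotent F := by
      rw [radical_eq hG hE] at hq
      rw [hG.posUnipotent_eq_US]; exact US_mono Set.sdiff_subset hq
    rw [hG.mem_diagonal_iff] at hh
    obtain ⟨c, rfl⟩ := hh
    have t9 := hG.tor_conj_xg (F := F) (hG.isChr_cartan c) i9 1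
    set h := tor chevG2 F (fun s => ∏ k ∈ Finset.range chevG2.rank, c k ^ chevG2.cartan k s) with hh
    set α : F := ((∏ k ∈ Finset.range chevG2.rank, c k ^ chevG2.cartan k 9 : Fˣ) : F) * 1 with hα
    obtain ⟨z, hz, hqv⟩ := even_coset hG hE h2 (R := {r | r ∈ [10, 11]}) (L := {r | r ∈ [9]})
      (fun r hr => S3no.pos r (hRS hr)) evR (fun r hr => S3no.pos r (hLS hr)) evL (hLm α) hqU
    have hα1 : α = 1 := by
      have h3 : xg chevG2 F 9 α * z = xg chevG2 F 9 1 := by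
        rw [← hqv, ← t9]
        have hqh' : q * h * xg chevG2 F 9 1 * (q * h)⁻¹ = xg chevG2 F 9 1 := by rw [mul_inv_eq_iff_eq_mul]; exact hqh
        calc q * (h * xg chevG2 F 9 1 * h⁻¹) * q⁻¹ = q * h * xg chevG2 F 9 1 * (q * h)⁻¹ := by group
          _ = _ := hqh'
      have h4 : xg chevG2 F 9 (1 - α) ∈ US (xg chevG2 F) {r | r ∈ [10, 11]} := by
        rw [sub_eq_neg_add, hG.xg_add, hG.xg_neg, ← h3, inv_mul_cancel_left]
        exact hz
      have h5 := hn9 _ hRS n9 _ h4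
      linear_combination -h5
    have hhc : Commute h (xg chevG2 F 9 1) := by
      rw [hα1, mul_inv_eq_iff_eq_mul] at t9
      exact t9
    have hqc : Commute q (xg chevG2 F 9 1) := by
      have c1 : Commute (q * h) (xg chevG2 F 9 1) := hqh
      have := c1.mul_left hhc.inv_left
      rwa [mul_inv_cancel_right] at this
    -- the torus part
    have hhM : h ∈ M := by
      apply hML
      apply tor_mem hG hE
      rw [hα, mul_one, rk] at hα1
      have q1' : (∏ k ∈ Finset.range 2, c k ^ chevG2.cartan k 9 : Fˣ) = 1 := Units.ext hα1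
      simp only [Finset.prod_range_succ, Finset.prod_range_zero, a0, a1, zpow_zero, zpow_one, one_mul, mul_one] at q1'
      intro i hi hiJ
      rw [rk] at hi
      have hi' : i = 0 := by
        have : ¬ (i = 1) := by simpa using hiJ
        omega
      subst hi'
      exact q1'
    refine mul_mem ?_ hhM
    -- the unipotent part
    have hqT : q ∈ US (xg chevG2 F) {r | 7 ≤ r ∧ r < 12} := by
      rw [radical_eq hG hE] at hq
      refine US_mono ?_ hq
      rintro r ⟨⟨hr1, hr2⟩, hr3⟩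
      rw [nr] at hr2
      refine ⟨?_, hr2⟩
      by_contra hcon
      apply hr3
      have : r = 6 := by omega
      subst this
      have := phi_simple hG (J := {j | j ∈ [1]}) (j := 1) (by simp) (by rw [rk]; norm_num)
      rwa [s1] at this
    obtain ⟨x7, q1, hq1, e1⟩ := split_root hG hE PC7 (r := 7) ⟨by norm_num, by norm_num⟩ hqT
    have d7 : ({r | 7 ≤ r ∧ r < 12} \ {7} : Set ℕ) = {r | 8 ≤ r ∧ r < 12} := by
      ext r; simp only [Set.mem_sdiff, Set.mem_ofPred_eq, Set.mem_singleton_iff]; omega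
    rw [d7] at hq1
    obtain ⟨x8, q2, hq2, e2⟩ := split_root hG hE PC8 (r := 8) ⟨by norm_num, by norm_num⟩ hq1
    have hq2M : q2 ∈ M := by
      have : US (xg chevG2 F) ({r | 8 ≤ r ∧ r < 12} \ {8}) ≤ M := by
        rw [US_le]
        rintro r ⟨⟨hr1, hr2⟩, hr3⟩ t
        have hr4 : r ≠ 8 := fun h => hr3 h
        have : r = 9 ∨ r = 10 ∨ r = 11 := by omega
        rcases this with rfl | rfl | rfl
        · exact h9M (hx _ _)
        · exact h10M (hx _ _)
        · exact h11M (hx _ _)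
      exact this hq2
    have hq2c := (Subgroup.mem_inf.1 (hM hq2M)).2
    rw [Subgroup.mem_centralizer_singleton_iff] at hq2c
    have hqe : q = (xg chevG2 F 7 x7 * xg chevG2 F 8 x8) * q2 := by
      rw [e1, e2]; group
    have hpc : Commute (xg chevG2 F 7 x7 * xg chevG2 F 8 x8) (xg chevG2 F 9 1) := by
      have c1 : Commute q2 (xg chevG2 F 9 1) := hq2c
      rw [hqe] at hqc
      have := hqc.mul_left c1.inv_left
      rwa [mul_inv_cancel_right] at this
    have h6 : xg chevG2 F 9 1 * (xg chevG2 F 7 x7 * xg chevG2 F 8 x8) = xg chevG2 F 7 x7 * xg chevG2 F 8 x8 *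
        xg chevG2 F 9 1 * (xg chevG2 F 10 x7 * xg chevG2 F 11 x8) := by
      have k1 := r79 h2 x7 (1 : F)
      have k2 := r89 h2 x8 (1 : F)
      rw [mul_one] at k1 k2
      calc xg chevG2 F 9 1 * (xg chevG2 F 7 x7 * xg chevG2 F 8 x8) = (xg chevG2 F 9 1 * xg chevG2 F 7 x7) * xg chevG2 F 8 x8 := by group
        _ = xg chevG2 F 7 x7 * xg chevG2 F 9 1 * (xg chevG2 F 10 x7 * xg chevG2 F 8 x8) := by rw [k1]; group
        _ = xg chevG2 F 7 x7 * (xg chevG2 F 9 1 * xg chevG2 F 8 x8) * xg chevG2 F 10 x7 := by rw [(c810 x8 x7).eq]; group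
        _ = xg chevG2 F 7 x7 * xg chevG2 F 8 x8 * xg chevG2 F 9 1 * (xg chevG2 F 11 x8 * xg chevG2 F 10 x7) := by rw [k2]; group
        _ = _ := by rw [(c1011 x7 x8).eq]
    rw [← hpc.eq] at h6
    have h7 : xg chevG2 F 10 x7 * xg chevG2 F 11 x8 = 1 := mul_eq_left.1 h6.symm
    have z7 : x7 = 0 := by
      by_contra hne
      have h8 : xg chevG2 F 10 x7 ∈ US (xg chevG2 F) {r | r ∈ [11]} := by
        rw [eq_inv_of_mul_eq_one_left h7]
        exact inv_mem (mem_US (S := {r | r ∈ [11]}) (by simp) x8)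
      have h9 := mem_of_xg_mem hG hE ((S3no.mono (T := {r | r ∈ [11]}) (by
        have : ∀ r ∈ [11], r ∈ [9, 10, 11] := by decide
        exact this)).pClo hG) (by rw [nr]; norm_num) hne h8
      exact absurd h9 (show ¬ (10 ∈ [11]) by decide)
    have z8 : x8 = 0 := by
      rw [z7, hG.xg_zero, one_mul] at h7
      by_contra hne
      exact hG.xg_ne_one hE (by rw [nr]; norm_num) hne h7
    rw [hqe, z7, z8, hG.xg_zero, hG.xg_zero, one_mul, one_mul]
    exact hq2M

end CG2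

end Cfsg.Agent.H15.Chev
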