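import Cfsg.Agent.H15.ChevCent7

/-!
# Involution classes of `G₂(q)`, `q` even
-/

set_option autoImplicit false
set_option linter.unusedSectionVars false
set_option maxRecDepth 100000

namespace Cfsg.Agent.H15.Chev

open Cfsg.Agent.H6 Cfsg.Lie Cfsg.Agent.H22
open scoped Matrix

namespace CG2

variable {F : Type*} [Field F]

/-- conjugacy in the group -/
def Cj (g g' : GL chevG2.Idx F) : Prop := ∃ h ∈ chevG2.group F, h * g * h⁻¹ = g'

theorem Cj.refl (g : GL chevG2.Idx F) : Cj g g := ⟨1, one_mem _, by group⟩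

theorem Cj.trans {a b c : GL chevG2.Idx F} (h1 : Cj a b) (h2 : Cj b c) : Cj a c := by
  obtain ⟨x, hx, rfl⟩ := h1
  obtain ⟨y, hy, rfl⟩ := h2
  exact ⟨y * x, mul_mem hy hx, by group⟩

theorem Cj.sq {a b : GL chevG2.Idx F} (h1 : Cj a b) (ha : a * a = 1) : b * b = 1 := by
  obtain ⟨x, hx, rfl⟩ := h1
  have : x * a * x⁻¹ * (x * a * x⁻¹) = x * (a * a) * x⁻¹ := by group
  rw [this, ha]; group

/-- conjugating by a root element -/
theorem Cj.root (r : ℕ) (t : F) (g : GL chevG2.Idx F) : Cj g ((xg chevG2 F r t)⁻¹ * g * xg chevG2 F r t) :=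
  ⟨(xg chevG2 F r t)⁻¹, inv_mem (TG2.good.xg_mem_group r t), by rw [inv_inv]⟩

/-- conjugation by `n_0` and `n_1` -/
theorem ngc (h2 : (2 : F) = 0) {k r : ℕ} (hk : k < 2) (hr : r < 12) (t : F) :
    ng chevG2 F k * xg chevG2 F r t * (ng chevG2 F k)⁻¹ = xg chevG2 F (chevG2.reflectRoot k r) t := by
  have hG := TG2.good
  have h := hG.ng_conj (F := F) (i := k) (by rw [rk]; exact hk) (r := r) (by rw [nr]; exact hr) t
  have hη : (((etF TG2.E) k r : ℤ) : F) = 1 := by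
    rcases hG.eta k (by rw [rk]; exact hk) r (by rw [nr]; exact hr) with h | h <;> rw [h]
    · simp
    · push_cast; linear_combination -h2
  rw [h, hη, one_mul]

theorem refl0 : chevG2.reflectRoot 0 6 = 10 ∧ chevG2.reflectRoot 0 8 = 9 ∧ chevG2.reflectRoot 0 9 = 8 ∧
    chevG2.reflectRoot 0 10 = 6 ∧ chevG2.reflectRoot 0 11 = 11 ∧ chevG2.reflectRoot 1 7 = 8 ∧ chevG2.reflectRoot 1 8 = 7 ∧
    chevG2.reflectRoot 1 9 = 9 ∧ chevG2.reflectRoot 1 10 = 11 ∧ chevG2.reflectRoot 1 11 = 10 := by decide +kernel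

/-- scaling by the torus -/
theorem scale9 {t : F} (ht : t ≠ 0) : Cj (xg chevG2 F 9 t) (xg chevG2 F 9 1) := by
  have hG := TG2.good
  obtain ⟨a0, a1, b0, b1⟩ := carts
  let c : ℕ → Fˣ := fun k => if k = 0 then (Units.mk0 t ht)⁻¹ else 1
  have h1 := hG.tor_conj_xg (F := F) (hG.isChr_cartan c) (r := 9) (by rw [nr]; norm_num) t
  refine ⟨_, ?_, h1.trans ?_⟩
  · rw [hG.tor_eq_prod_hgr]
    apply Subgroup.list_prod_mem
    intro x hx
    rw [List.mem_map] at hx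
    obtain ⟨i, hi, rfl⟩ := hx
    unfold hgr
    exact mul_mem (hG.ngr_mem_group _ _) (hG.ngr_mem_group _ _)
  · congr 1
    have : (∏ k ∈ Finset.range chevG2.rank, c k ^ chevG2.cartan k 9 : Fˣ) = (Units.mk0 t ht)⁻¹ := by
      rw [rk]
      simp [Finset.prod_range_succ, a0, a1, c]
    rw [this, Units.val_inv_eq_inv_val, Units.val_mk0, inv_mul_cancel₀ ht]

theorem scale11 {t : F} (ht : t ≠ 0) : Cj (xg chevG2 F 11 t) (xg chevG2 F 11 1) := by
  have hG := TG2.good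
  obtain ⟨a0, a1, b0, b1⟩ := carts
  let c : ℕ → Fˣ := fun k => if k = 1 then (Units.mk0 t ht)⁻¹ else 1
  have h1 := hG.tor_conj_xg (F := F) (hG.isChr_cartan c) (r := 11) (by rw [nr]; norm_num) t
  refine ⟨_, ?_, h1.trans ?_⟩
  · rw [hG.tor_eq_prod_hgr]
    apply Subgroup.list_prod_mem
    intro x hx
    rw [List.mem_map] at hx
    obtain ⟨i, hi, rfl⟩ := hx
    unfold hgr
    exact mul_mem (hG.ngr_mem_group _ _) (hG.ngr_mem_group _ _)
  · congr 1
    have : (∏ k ∈ Finset.range chevG2.rank, c k ^ chevG2.cartan k 11 : Fˣ) = (Units.mk0 t ht)⁻¹ := by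
      rw [rk]
      simp [Finset.prod_range_succ, b0, b1, c]
    rw [this, Units.val_inv_eq_inv_val, Units.val_mk0, inv_mul_cancel₀ ht]

/-- `x_9(d) x_10(e) x_11(f)` -/
theorem cj_D2 (h2 : (2 : F) = 0) {d : F} (hd : d ≠ 0) (e f : F) :
    Cj (xg chevG2 F 9 d * xg chevG2 F 10 e * xg chevG2 F 11 f) (xg chevG2 F 9 1) := by
  have s1 := Cj.root 7 (e / d) (xg chevG2 F 9 d * xg chevG2 F 10 e * xg chevG2 F 11 f)
  have e1 : (xg chevG2 F 7 (e / d))⁻¹ * (xg chevG2 F 9 d * xg chevG2 F 10 e * xg chevG2 F 11 f) * xg chevG2 F 7 (e / d) =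
      xg chevG2 F 9 d * xg chevG2 F 11 f := by
    have k1 := r79 h2 (e / d) d
    have k2 : e / d * d = e := div_mul_cancel₀ e hd
    rw [k2] at k1
    calc (xg chevG2 F 7 (e / d))⁻¹ * (xg chevG2 F 9 d * xg chevG2 F 10 e * xg chevG2 F 11 f) * xg chevG2 F 7 (e / d) =
        (xg chevG2 F 7 (e / d))⁻¹ * xg chevG2 F 9 d * xg chevG2 F 10 e * (xg chevG2 F 11 f * xg chevG2 F 7 (e / d)) := by group
      _ = (xg chevG2 F 7 (e / d))⁻¹ * xg chevG2 F 9 d * (xg chevG2 F 10 e * xg chevG2 F 7 (e / d)) * xg chevG2 F 11 f := by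
        rw [(c711 (e / d) f).eq]; group
      _ = (xg chevG2 F 7 (e / d))⁻¹ * (xg chevG2 F 9 d * xg chevG2 F 7 (e / d)) * xg chevG2 F 10 e * xg chevG2 F 11 f := by
        rw [(c710 (e / d) e).eq]; group
      _ = xg chevG2 F 9 d * (xg chevG2 F 10 e * xg chevG2 F 10 e) * xg chevG2 F 11 f := by rw [k1]; group
      _ = _ := by rw [x2 h2, mul_one]
  rw [e1] at s1
  have s2 := Cj.root 8 (f / d) (xg chevG2 F 9 d * xg chevG2 F 11 f)
  have e2 : (xg chevG2 F 8 (f / d))⁻¹ * (xg chevG2 F 9 d * xg chevG2 F 11 f) * xg chevG2 F 8 (f / d) =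
      xg chevG2 F 9 d := by
    have k1 := r89 h2 (f / d) d
    have k2 : f / d * d = f := div_mul_cancel₀ f hd
    rw [k2] at k1
    calc (xg chevG2 F 8 (f / d))⁻¹ * (xg chevG2 F 9 d * xg chevG2 F 11 f) * xg chevG2 F 8 (f / d) =
        (xg chevG2 F 8 (f / d))⁻¹ * xg chevG2 F 9 d * (xg chevG2 F 11 f * xg chevG2 F 8 (f / d)) := by group
      _ = (xg chevG2 F 8 (f / d))⁻¹ * (xg chevG2 F 9 d * xg chevG2 F 8 (f / d)) * xg chevG2 F 11 f := by
        rw [(c811 (f / d) f).eq]; group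
      _ = xg chevG2 F 9 d * (xg chevG2 F 11 f * xg chevG2 F 11 f) := by rw [k1]; group
      _ = _ := by rw [x2 h2, mul_one]
  rw [e2] at s2
  exact (s1.trans s2).trans (scale9 hd)

/-- `x_10(e) x_11(f)` -/
theorem cj_D3 (h2 : (2 : F) = 0) {e f : F} (h : e ≠ 0 ∨ f ≠ 0) :
    Cj (xg chevG2 F 10 e * xg chevG2 F 11 f) (xg chevG2 F 11 1) := by
  have hG := TG2.good
  by_cases he : e = 0
  · have hf : f ≠ 0 := by rcases h with h | h; exact absurd he h; exact h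
    rw [he, hG.xg_zero, one_mul]
    exact scale11 hf
  · have s1 := Cj.root 6 (f / e) (xg chevG2 F 10 e * xg chevG2 F 11 f)
    have e1 : (xg chevG2 F 6 (f / e))⁻¹ * (xg chevG2 F 10 e * xg chevG2 F 11 f) * xg chevG2 F 6 (f / e) =
        xg chevG2 F 10 e := by
      have k1 := r610 h2 (f / e) e
      have k2 : f / e * e = f := div_mul_cancel₀ f he
      rw [k2] at k1
      calc (xg chevG2 F 6 (f / e))⁻¹ * (xg chevG2 F 10 e * xg chevG2 F 11 f) * xg chevG2 F 6 (f / e) =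
          (xg chevG2 F 6 (f / e))⁻¹ * xg chevG2 F 10 e * (xg chevG2 F 11 f * xg chevG2 F 6 (f / e)) := by group
        _ = (xg chevG2 F 6 (f / e))⁻¹ * (xg chevG2 F 10 e * xg chevG2 F 6 (f / e)) * xg chevG2 F 11 f := by
          rw [(c611 (f / e) f).eq]; group
        _ = xg chevG2 F 10 e * (xg chevG2 F 11 f * xg chevG2 F 11 f) := by rw [k1]; group
        _ = _ := by rw [x2 h2, mul_one]
    rw [e1] at s1
    have s2 : Cj (xg chevG2 F 10 e) (xg chevG2 F 11 e) := by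
      refine ⟨ng chevG2 F 1, hG.ng_mem_group 1, ?_⟩
      rw [ngc h2 (by norm_num) (by norm_num), refl0.2.2.2.2.2.2.2.2.1]
    exact (s1.trans s2).trans (scale11 he)

/-- `x_8(c) x_10(e) x_11(f)` -/
theorem cj_D1 (h2 : (2 : F) = 0) (hsq : ∀ c : F, ∃ a, a ^ 2 = c) {c : F} (hc : c ≠ 0) (e f : F) :
    Cj (xg chevG2 F 8 c * xg chevG2 F 10 e * xg chevG2 F 11 f) (xg chevG2 F 9 1) := by
  have hG := TG2.good
  obtain ⟨t, ht⟩ := hsq (e / c)
  have s1 := Cj.root 7 t (xg chevG2 F 8 c * xg chevG2 F 10 e * xg chevG2 F 11 f)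
  have e1 : (xg chevG2 F 7 t)⁻¹ * (xg chevG2 F 8 c * xg chevG2 F 10 e * xg chevG2 F 11 f) * xg chevG2 F 7 t =
      xg chevG2 F 8 c * xg chevG2 F 11 (t * c ^ 2 + f) := by
    have k1 := r78 h2 t c
    have k2 : t ^ 2 * c = e := by rw [ht]; exact div_mul_cancel₀ e hc
    rw [k2] at k1
    calc (xg chevG2 F 7 t)⁻¹ * (xg chevG2 F 8 c * xg chevG2 F 10 e * xg chevG2 F 11 f) * xg chevG2 F 7 t =
        (xg chevG2 F 7 t)⁻¹ * xg chevG2 F 8 c * xg chevG2 F 10 e * (xg chevG2 F 11 f * xg chevG2 F 7 t) := by group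
      _ = (xg chevG2 F 7 t)⁻¹ * xg chevG2 F 8 c * (xg chevG2 F 10 e * xg chevG2 F 7 t) * xg chevG2 F 11 f := by
        rw [(c711 t f).eq]; group
      _ = (xg chevG2 F 7 t)⁻¹ * (xg chevG2 F 8 c * xg chevG2 F 7 t) * xg chevG2 F 10 e * xg chevG2 F 11 f := by
        rw [(c710 t e).eq]; group
      _ = xg chevG2 F 8 c * xg chevG2 F 10 e * (xg chevG2 F 11 (t * c ^ 2) * xg chevG2 F 10 e) * xg chevG2 F 11 f := by
        rw [k1]; group
      _ = xg chevG2 F 8 c * (xg chevG2 F 10 e * xg chevG2 F 10 e) * (xg chevG2 F 11 (t * c ^ 2) * xg chevG2 F 11 f) := by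
        rw [(c1011 e (t * c ^ 2)).eq]; group
      _ = _ := by rw [x2 h2, mul_one, ← hG.xg_add]
  rw [e1] at s1
  set g := t * c ^ 2 + f with hg
  have s2 := Cj.root 9 (g / c) (xg chevG2 F 8 c * xg chevG2 F 11 g)
  have e2 : (xg chevG2 F 9 (g / c))⁻¹ * (xg chevG2 F 8 c * xg chevG2 F 11 g) * xg chevG2 F 9 (g / c) =
      xg chevG2 F 8 c := by
    have k1 := r89 h2 c (g / c)
    have k2 : c * (g / c) = g := mul_div_cancel₀ g hc
    rw [k2] at k1
    calc (xg chevG2 F 9 (g / c))⁻¹ * (xg chevG2 F 8 c * xg chevG2 F 11 g) * xg chevG2 F 9 (g / c) =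
        (xg chevG2 F 9 (g / c))⁻¹ * xg chevG2 F 8 c * (xg chevG2 F 11 g * xg chevG2 F 9 (g / c)) := by group
      _ = (xg chevG2 F 9 (g / c))⁻¹ * (xg chevG2 F 8 c * xg chevG2 F 9 (g / c) * xg chevG2 F 11 g) := by
        rw [(c911 (g / c) g).eq]; group
      _ = (xg chevG2 F 9 (g / c))⁻¹ * (xg chevG2 F 9 (g / c) * xg chevG2 F 8 c) := by rw [k1]
      _ = _ := by group
  rw [e2] at s2
  have s3 : Cj (xg chevG2 F 8 c) (xg chevG2 F 9 c) := by
    refine ⟨ng chevG2 F 0, hG.ng_mem_group 0, ?_⟩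
    rw [ngc h2 (by norm_num) (by norm_num), refl0.2.1]
  exact ((s1.trans s2).trans s3).trans (scale9 hc)

/-- involutions in `X_8 X_9 X_10 X_11` -/
theorem cj_D (h2 : (2 : F) = 0) (hsq : ∀ c : F, ∃ a, a ^ 2 = c) (c d e f : F)
    (hu : (xg chevG2 F 8 c * xg chevG2 F 9 d * (xg chevG2 F 10 e * xg chevG2 F 11 f)) *
      (xg chevG2 F 8 c * xg chevG2 F 9 d * (xg chevG2 F 10 e * xg chevG2 F 11 f)) = 1)
    (hne : xg chevG2 F 8 c * xg chevG2 F 9 d * (xg chevG2 F 10 e * xg chevG2 F 11 f) ≠ 1) :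
    Cj (xg chevG2 F 8 c * xg chevG2 F 9 d * (xg chevG2 F 10 e * xg chevG2 F 11 f)) (xg chevG2 F 11 1) ∨
    Cj (xg chevG2 F 8 c * xg chevG2 F 9 d * (xg chevG2 F 10 e * xg chevG2 F 11 f)) (xg chevG2 F 9 1) := by
  have hG := TG2.good
  have hE := TG2.ext
  set y := xg chevG2 F 10 e * xg chevG2 F 11 f with hy
  have hy2 : y * y = 1 := by
    calc y * y = xg chevG2 F 10 e * (xg chevG2 F 11 f * xg chevG2 F 10 e) * xg chevG2 F 11 f := by rw [hy]; group
      _ = xg chevG2 F 10 e * xg chevG2 F 10 e * (xg chevG2 F 11 f * xg chevG2 F 11 f) := by rw [(c1011 e f).eq]; group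
      _ = 1 := by rw [x2 h2, x2 h2, mul_one]
  have hy8 : Commute y (xg chevG2 F 8 c) := (c810 c e).mul_left (c811 c f)
  have hy9 : Commute y (xg chevG2 F 9 d) := (c910 d e).mul_left (c911 d f)
  have hsqr : (xg chevG2 F 8 c * xg chevG2 F 9 d * y) * (xg chevG2 F 8 c * xg chevG2 F 9 d * y) = xg chevG2 F 11 (c * d) := by
    calc (xg chevG2 F 8 c * xg chevG2 F 9 d * y) * (xg chevG2 F 8 c * xg chevG2 F 9 d * y) =
        xg chevG2 F 8 c * xg chevG2 F 9 d * (y * xg chevG2 F 8 c) * xg chevG2 F 9 d * y := by group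
      _ = xg chevG2 F 8 c * xg chevG2 F 9 d * xg chevG2 F 8 c * (y * xg chevG2 F 9 d) * y := by rw [hy8.eq]; group
      _ = xg chevG2 F 8 c * (xg chevG2 F 9 d * xg chevG2 F 8 c) * xg chevG2 F 9 d * (y * y) := by rw [hy9.eq]; group
      _ = (xg chevG2 F 8 c * xg chevG2 F 8 c) * xg chevG2 F 9 d * (xg chevG2 F 11 (c * d) * xg chevG2 F 9 d) := by
        rw [hy2, r89 h2 c d]; group
      _ = (xg chevG2 F 9 d * xg chevG2 F 9 d) * xg chevG2 F 11 (c * d) := by rw [x2 h2, (c911 d (c * d)).eq]; group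
      _ = _ := by rw [x2 h2, one_mul]
  rw [hsqr] at hu
  have hcd : c * d = 0 := by
    by_contra hne
    exact hG.xg_ne_one hE (by rw [nr]; norm_num) hne hu
  by_cases hc : c = 0
  · by_cases hd : d = 0
    · left
      rw [hc, hd, hG.xg_zero, hG.xg_zero, one_mul, one_mul] at hne ⊢
      apply cj_D3 h2
      by_contra hcon
      push Not at hcon
      apply hne
      rw [hy, hcon.1, hcon.2, hG.xg_zero, hG.xg_zero, one_mul]
    · right
      rw [hc, hG.xg_zero, one_mul, hy, ← mul_assoc]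
      exact cj_D2 h2 hd e f
  · right
    have hd : d = 0 := by
      rcases mul_eq_zero.1 hcd with h | h
      · exact absurd h hc
      · exact h
    rw [hd, hG.xg_zero, mul_one, hy, ← mul_assoc]
    exact cj_D1 h2 hsq hc e f

end CG2

end Cfsg.Agent.H15.Chev
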