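import Cfsg.Agent.H15.ChevCent8

/-!
# Involution classes of `G₂(q)`, `q` even: reduction
-/

set_option autoImplicit false
set_option linter.unusedSectionVars false
set_option maxRecDepth 100000

namespace Cfsg.Agent.H15.Chev

open Cfsg.Agent.H6 Cfsg.Lie Cfsg.Agent.H22
open scoped Matrix

namespace CG2

variable {F : Type*} [Field F]

/-- the third level -/
noncomputable abbrev N9 (F : Type*) [Field F] : Subgroup (GL chevG2.Idx F) := US (xg chevG2 F) {r | r ∈ [9, 10, 11]}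

theorem m9 {r : ℕ} (hr : r ∈ [9, 10, 11]) (t : F) : xg chevG2 F r t ∈ N9 F := mem_US (S := {r | r ∈ [9, 10, 11]}) hr t

theorem n9_norm (h2 : (2 : F) = 0) {p : GL chevG2.Idx F} (hp : p ∈ chevG2.posUnipotent F) : ∀ z ∈ N9 F, p * z * p⁻¹ ∈ N9 F := by
  refine even_norm TG2.good TG2.ext h2 (R := {r | r ∈ [9, 10, 11]}) S3no.pos ?_ hp
  intro s h1 h3 r hr c hc
  rw [nr] at h3
  rcases ev9 s h3 h1 r hr c hc with h | h
  · exact Or.inl h
  · right
    have : ∀ r ∈ [10, 11], r ∈ [9, 10, 11] := by decide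
    exact this _ h

theorem ev8 : ∀ s < 12, 6 ≤ s → ∀ c ∈ chevG2.commTerms s 8, c.2.1 % 2 = 0 ∨ c.1 ∈ [9, 10, 11] := by decide +kernel

theorem n9_coset (h2 : (2 : F) = 0) {p : GL chevG2.Idx F} (hp : p ∈ chevG2.posUnipotent F) (t : F) :
    ∃ z ∈ N9 F, p * xg chevG2 F 8 t * p⁻¹ = xg chevG2 F 8 t * z := by
  refine even_coset TG2.good TG2.ext h2 (R := {r | r ∈ [9, 10, 11]}) (L := {r | r = 8}) S3no.pos ?_ ?_ ?_
    (mem_US (S := {r | r = 8}) rfl t) hp
  · intro s h1 h3 r hr c hc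
    rw [nr] at h3
    rcases ev9 s h3 h1 r hr c hc with h | h
    · exact Or.inl h
    · right
      have : ∀ r ∈ [10, 11], r ∈ [9, 10, 11] := by decide
      exact this _ h
  · rintro r rfl
    rw [nr]; norm_num
  · rintro s h1 h3 r rfl c hc
    rw [nr] at h3
    exact ev8 s h3 h1 c hc

theorem n9_form {z : GL chevG2.Idx F} (hz : z ∈ N9 F) : ∃ d e f : F, z = xg chevG2 F 9 d * (xg chevG2 F 10 e * xg chevG2 F 11 f) := by
  have hG := TG2.good
  have hE := TG2.ext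
  obtain ⟨d, z1, h1, e1⟩ := split_root hG hE (S3no.pClo hG) (r := 9) (by simp) hz
  have hs : ({r | r ∈ [9, 10, 11]} \ {9} : Set ℕ) = {r | r ∈ [10, 11]} := by
    ext r; simp only [List.mem_cons, List.not_mem_nil, or_false, Set.mem_sdiff, Set.mem_ofPred_eq, Set.mem_singleton_iff]; omega
  rw [hs] at h1
  have hs2 : {r | r ∈ [10, 11]} ⊆ {r | r ∈ [9, 10, 11]} := by
    have : ∀ r ∈ [10, 11], r ∈ [9, 10, 11] := by decide
    exact this
  obtain ⟨e, z2, h3, e2⟩ := split_root hG hE ((S3no.mono hs2).pClo hG) (r := 10) (by simp) h1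
  have hs3 : ({r | r ∈ [10, 11]} \ {10} : Set ℕ) = {11} := by
    ext r; simp only [List.mem_cons, List.not_mem_nil, or_false, Set.mem_sdiff, Set.mem_ofPred_eq, Set.mem_singleton_iff]; omega
  rw [hs3] at h3
  obtain ⟨f, rfl⟩ := (hG.mem_US_single (hG.rdn hE) (by rw [nr]; norm_num)).1 h3
  exact ⟨d, e, f, by rw [e1, e2]⟩

theorem pU {r : ℕ} (h1 : 6 ≤ r) (h3 : r < 12) (t : F) : xg chevG2 F r t ∈ chevG2.posUnipotent F :=
  TG2.good.xg_mem_pos h1 (by rw [nr]; exact h3) t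

/-- the general form -/
theorem u_form {u : GL chevG2.Idx F} (hu : u ∈ chevG2.posUnipotent F) :
    ∃ b a c : F, ∃ z ∈ N9 F, u = xg chevG2 F 6 b * (xg chevG2 F 7 a * (xg chevG2 F 8 c * z)) := by
  have hG := TG2.good
  have hE := TG2.ext
  rw [hG.posUnipotent_eq_US] at hu
  obtain ⟨b, z1, h1, e1⟩ := split_root hG hE hG.pClo_all (r := 6) ⟨le_refl 6, by rw [nr]; norm_num⟩ hu
  have hs : ({r | 6 ≤ r ∧ r < chevG2.nroots} \ {6} : Set ℕ) = {r | 7 ≤ r ∧ r < 12} := by
    ext r; rw [nr]; simp only [Set.mem_sdiff, Set.mem_ofPred_eq, Set.mem_singleton_iff]; omega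
  rw [hs] at h1
  obtain ⟨a, z2, h3, e2⟩ := split_root hG hE PC7 (r := 7) ⟨by norm_num, by norm_num⟩ h1
  have d7 : ({r | 7 ≤ r ∧ r < 12} \ {7} : Set ℕ) = {r | 8 ≤ r ∧ r < 12} := by
    ext r; simp only [Set.mem_sdiff, Set.mem_ofPred_eq, Set.mem_singleton_iff]; omega
  rw [d7] at h3
  obtain ⟨c, z, h4, e3⟩ := split_root hG hE PC8 (r := 8) ⟨by norm_num, by norm_num⟩ h3
  have d8 : ({r | 8 ≤ r ∧ r < 12} \ {8} : Set ℕ) = {r | r ∈ [9, 10, 11]} := by
    ext r; simp only [List.mem_cons, List.not_mem_nil, or_false, Set.mem_sdiff, Set.mem_ofPred_eq, Set.mem_singleton_iff]; omega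
  rw [d8] at h4
  exact ⟨b, a, c, z, h4, by rw [e1, e2, e3]⟩

/-- the square of an element of `U` -/
theorem ab_zero (h2 : (2 : F) = 0) {b a c : F} {z : GL chevG2.Idx F} (hz : z ∈ N9 F)
    (hu : (xg chevG2 F 6 b * (xg chevG2 F 7 a * (xg chevG2 F 8 c * z))) * (xg chevG2 F 6 b * (xg chevG2 F 7 a *
      (xg chevG2 F 8 c * z))) = 1) : b * a = 0 := by
  have hG := TG2.good
  have hE := TG2.ext
  set A := xg chevG2 F 6 b with hA
  set B := xg chevG2 F 7 a with hB
  set C := xg chevG2 F 8 c with hC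
  have pA : A ∈ chevG2.posUnipotent F := pU (by norm_num) (by norm_num) b
  have pB : B ∈ chevG2.posUnipotent F := pU (by norm_num) (by norm_num) a
  have pC : C ∈ chevG2.posUnipotent F := pU (by norm_num) (by norm_num) c
  have r1 := r67 h2 b a
  rw [← hA, ← hB] at r1
  set E := xg chevG2 F 8 (b * a) with hEd
  set k := xg chevG2 F 9 (b * a ^ 2) * xg chevG2 F 10 (b * a ^ 3) with hk
  have hkN : k ∈ N9 F := mul_mem (m9 (by simp) _) (m9 (by simp) _)
  have r1' : B * A = A * B * E * k := by rw [r1, hk]; group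
  obtain ⟨k1, hk1, r2⟩ := n9_coset h2 (inv_mem pB) c
  rw [inv_inv, ← hC] at r2
  -- C * B = B * C * k1
  have r2' : C * B = B * C * k1 := by rw [mul_assoc B C, ← r2]; group
  obtain ⟨k3, hk3, r3⟩ := n9_coset h2 (inv_mem pB) (b * a)
  rw [inv_inv, ← hEd] at r3
  have r3' : E * B = B * E * k3 := by rw [mul_assoc B E, ← r3]; group
  have hAC : C * A = A * C := (c68 b c).eq
  have hAA : A * A = 1 := x2 h2 6 b
  have hBB : B * B = 1 := x2 h2 7 a
  have hCC : C * C = 1 := x2 h2 8 c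
  have hkB : B⁻¹ * k * B ∈ N9 F := by
    have := n9_norm h2 (inv_mem pB) k hkN
    rwa [inv_inv] at this
  have hk1C : C⁻¹ * k1 * C ∈ N9 F := by
    have := n9_norm h2 (inv_mem pC) k1 hk1
    rwa [inv_inv] at this
  have hz1 : (A * B * C)⁻¹ * z * (A * B * C) ∈ N9 F := by
    have := n9_norm h2 (inv_mem (mul_mem (mul_mem pA pB) pC)) z hz
    rwa [inv_inv] at this
  have key : (A * (B * (C * z))) * (A * (B * (C * z))) =
      E * (k3 * (B⁻¹ * k * B) * (C * C) * (C⁻¹ * k1 * C) * ((A * B * C)⁻¹ * z * (A * B * C)) * z) := by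
    calc (A * (B * (C * z))) * (A * (B * (C * z))) =
        A * B * (C * A) * B * C * ((A * B * C)⁻¹ * z * (A * B * C)) * z := by group
      _ = A * (B * A) * (C * B) * C * ((A * B * C)⁻¹ * z * (A * B * C)) * z := by rw [hAC]; group
      _ = (A * A) * B * E * k * B * C * k1 * C * ((A * B * C)⁻¹ * z * (A * B * C)) * z := by rw [r1', r2']; group
      _ = B * (E * B) * (B⁻¹ * k * B) * C * k1 * C * ((A * B * C)⁻¹ * z * (A * B * C)) * z := by rw [hAA]; group
      _ = (B * B) * E * k3 * (B⁻¹ * k * B) * C * k1 * C * ((A * B * C)⁻¹ * z * (A * B * C)) * z := by rw [r3']; group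
      _ = _ := by rw [hBB]; group
  rw [key, hCC, mul_one] at hu
  have hN : E ∈ N9 F := by
    rw [eq_inv_of_mul_eq_one_left hu]
    exact inv_mem (mul_mem (mul_mem (mul_mem (mul_mem hk3 hkB) hk1C) hz1) hz)
  by_contra hne
  have := mem_of_xg_mem hG hE (S3no.pClo hG) (by rw [nr]; norm_num) hne hN
  exact absurd this (show ¬ (8 ∈ [9, 10, 11]) by decide)

/-- case `b = 0`, `a ≠ 0` -/
theorem cj_B (h2 : (2 : F) = 0) (hsq : ∀ c : F, ∃ a, a ^ 2 = c) {a c : F} (ha : a ≠ 0) {z : GL chevG2.Idx F} (hz : z ∈ N9 F)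
    (hu : (xg chevG2 F 7 a * (xg chevG2 F 8 c * z)) * (xg chevG2 F 7 a * (xg chevG2 F 8 c * z)) = 1) :
    Cj (xg chevG2 F 7 a * (xg chevG2 F 8 c * z)) (xg chevG2 F 11 1) ∨
    Cj (xg chevG2 F 7 a * (xg chevG2 F 8 c * z)) (xg chevG2 F 9 1) := by
  have hG := TG2.good
  have hE := TG2.ext
  set t := c / a with ht
  have s1 := Cj.root 6 t (xg chevG2 F 7 a * (xg chevG2 F 8 c * z))
  obtain ⟨z', hz', e1⟩ : ∃ z' ∈ N9 F, (xg chevG2 F 6 t)⁻¹ * (xg chevG2 F 7 a * (xg chevG2 F 8 c * z)) * xg chevG2 F 6 t =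
      xg chevG2 F 7 a * z' := by
    have k1 := r67 h2 t a
    have k2 : t * a = c := div_mul_cancel₀ c ha
    rw [k2] at k1
    set A := xg chevG2 F 6 t
    set B := xg chevG2 F 7 a
    set C := xg chevG2 F 8 c with hC
    set k := xg chevG2 F 9 (t * a ^ 2) * xg chevG2 F 10 (t * a ^ 3) with hk
    have k1' : B * A = A * B * C * k := by rw [k1, hk]; group
    have hkN : k ∈ N9 F := mul_mem (m9 (by simp) _) (m9 (by simp) _)
    have pA : A ∈ chevG2.posUnipotent F := pU (by norm_num) (by norm_num) t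
    have pC : C ∈ chevG2.posUnipotent F := pU (by norm_num) (by norm_num) c
    have hAC : C * A = A * C := (c68 t c).eq
    have hCC : C * C = 1 := x2 h2 8 c
    refine ⟨(C⁻¹ * k * C) * (A⁻¹ * z * A), mul_mem ?_ ?_, ?_⟩
    · have := n9_norm h2 (inv_mem pC) k hkN
      rwa [inv_inv] at this
    · have := n9_norm h2 (inv_mem pA) z hz
      rwa [inv_inv] at this
    · calc A⁻¹ * (B * (C * z)) * A = A⁻¹ * B * (C * A) * (A⁻¹ * z * A) := by group
        _ = A⁻¹ * (B * A) * C * (A⁻¹ * z * A) := by rw [hAC]; group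
        _ = B * (C * C) * (C⁻¹ * k * C) * (A⁻¹ * z * A) := by rw [k1']; group
        _ = _ := by rw [hCC]; group
  rw [e1] at s1
  have hu1 := s1.sq hu
  obtain ⟨d, e, f, rfl⟩ := n9_form hz'
  set y := xg chevG2 F 10 e * xg chevG2 F 11 f with hy
  have hy2 : y * y = 1 := by
    calc y * y = xg chevG2 F 10 e * (xg chevG2 F 11 f * xg chevG2 F 10 e) * xg chevG2 F 11 f := by rw [hy]; group
      _ = xg chevG2 F 10 e * xg chevG2 F 10 e * (xg chevG2 F 11 f * xg chevG2 F 11 f) := by rw [(c1011 e f).eq]; group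
      _ = 1 := by rw [x2 h2, x2 h2, mul_one]
  have hy7 : Commute y (xg chevG2 F 7 a) := (c710 a e).mul_left (c711 a f)
  have hy9 : Commute y (xg chevG2 F 9 d) := (c910 d e).mul_left (c911 d f)
  have hd : d = 0 := by
    have h3 : (xg chevG2 F 7 a * (xg chevG2 F 9 d * y)) * (xg chevG2 F 7 a * (xg chevG2 F 9 d * y)) = xg chevG2 F 10 (a * d) := by
      calc (xg chevG2 F 7 a * (xg chevG2 F 9 d * y)) * (xg chevG2 F 7 a * (xg chevG2 F 9 d * y)) =
          xg chevG2 F 7 a * xg chevG2 F 9 d * (y * xg chevG2 F 7 a) * xg chevG2 F 9 d * y := by group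
        _ = xg chevG2 F 7 a * (xg chevG2 F 9 d * xg chevG2 F 7 a) * (y * xg chevG2 F 9 d) * y := by rw [hy7.eq]; group
        _ = (xg chevG2 F 7 a * xg chevG2 F 7 a) * xg chevG2 F 9 d * xg chevG2 F 10 (a * d) * xg chevG2 F 9 d * (y * y) := by
          rw [hy9.eq, r79 h2 a d]; group
        _ = xg chevG2 F 9 d * (xg chevG2 F 10 (a * d) * xg chevG2 F 9 d) := by rw [x2 h2, hy2]; group
        _ = (xg chevG2 F 9 d * xg chevG2 F 9 d) * xg chevG2 F 10 (a * d) := by rw [(c910 d (a * d)).eq]; group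
        _ = _ := by rw [x2 h2, one_mul]
    rw [h3] at hu1
    have h4 : a * d = 0 := by
      by_contra hne
      exact hG.xg_ne_one hE (by rw [nr]; norm_num) hne hu1
    exact (mul_eq_zero.1 h4).resolve_left ha
  rw [hd, hG.xg_zero, one_mul] at s1 hu1
  have s2 : Cj (xg chevG2 F 7 a * y) (xg chevG2 F 8 a * xg chevG2 F 9 0 * (xg chevG2 F 10 f * xg chevG2 F 11 e)) := by
    refine ⟨ng chevG2 F 1, hG.ng_mem_group 1, ?_⟩
    obtain ⟨-, -, -, -, -, q1, q2, q3, q4, q5⟩ := refl0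
    have h7 := ngc (F := F) h2 (k := 1) (r := 7) (by norm_num) (by norm_num) a
    have h10 := ngc (F := F) h2 (k := 1) (r := 10) (by norm_num) (by norm_num) e
    have h11 := ngc (F := F) h2 (k := 1) (r := 11) (by norm_num) (by norm_num) f
    rw [q1] at h7
    rw [q4] at h10
    rw [q5] at h11
    rw [hG.xg_zero, mul_one, ← (c1011 f e).eq, ← h7, ← h10, ← h11, hy]
    group
  have s3 := s1.trans s2
  have hu3 := s3.sq hu
  have hne3 : xg chevG2 F 8 a * xg chevG2 F 9 0 * (xg chevG2 F 10 f * xg chevG2 F 11 e) ≠ 1 := by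
    intro h
    rw [hG.xg_zero, mul_one] at h
    have h5 : xg chevG2 F 8 a ∈ N9 F := by
      rw [eq_inv_of_mul_eq_one_left h]
      exact inv_mem (mul_mem (m9 (by simp) _) (m9 (by simp) _))
    have := mem_of_xg_mem hG hE (S3no.pClo hG) (by rw [nr]; norm_num) ha h5
    exact absurd this (show ¬ (8 ∈ [9, 10, 11]) by decide)
  rcases cj_D h2 hsq a 0 f e hu3 hne3 with h | h
  · exact Or.inl (s3.trans h)
  · exact Or.inr (s3.trans h)

/-- case `a = 0`, `b ≠ 0` -/
theorem cj_C (h2 : (2 : F) = 0) (hsq : ∀ c : F, ∃ a, a ^ 2 = c) {b c : F} (hb : b ≠ 0) {z : GL chevG2.Idx F} (hz : z ∈ N9 F)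
    (hu : (xg chevG2 F 6 b * (xg chevG2 F 8 c * z)) * (xg chevG2 F 6 b * (xg chevG2 F 8 c * z)) = 1) :
    Cj (xg chevG2 F 6 b * (xg chevG2 F 8 c * z)) (xg chevG2 F 11 1) ∨
    Cj (xg chevG2 F 6 b * (xg chevG2 F 8 c * z)) (xg chevG2 F 9 1) := by
  have hG := TG2.good
  have hE := TG2.ext
  set t := c / b with ht
  have s1 := Cj.root 7 t (xg chevG2 F 6 b * (xg chevG2 F 8 c * z))
  obtain ⟨z', hz', e1⟩ : ∃ z' ∈ N9 F, (xg chevG2 F 7 t)⁻¹ * (xg chevG2 F 6 b * (xg chevG2 F 8 c * z)) * xg chevG2 F 7 t =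
      xg chevG2 F 6 b * z' := by
    have k1 := r67 h2 b t
    have k2 : b * t = c := mul_div_cancel₀ c hb
    rw [k2] at k1
    have hBi : (xg chevG2 F 7 t)⁻¹ = xg chevG2 F 7 t := xinv h2 7 t
    set A := xg chevG2 F 6 b
    set B := xg chevG2 F 7 t
    set C := xg chevG2 F 8 c with hC
    set k := xg chevG2 F 9 (b * t ^ 2) * xg chevG2 F 10 (b * t ^ 3) with hk
    have k1' : B * A = A * B * C * k := by rw [k1, hk]; group
    have hkN : k ∈ N9 F := mul_mem (m9 (by simp) _) (m9 (by simp) _)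
    have pB : B ∈ chevG2.posUnipotent F := pU (by norm_num) (by norm_num) t
    have pC : C ∈ chevG2.posUnipotent F := pU (by norm_num) (by norm_num) c
    have hCC : C * C = 1 := x2 h2 8 c
    obtain ⟨k3, hk3, r3⟩ := n9_coset h2 pB c
    rw [← hC] at r3
    -- B⁻¹ u B = B u B⁻¹
    have e0 : B⁻¹ * (A * (C * z)) * B = B * (A * (C * z)) * B⁻¹ := by rw [hBi]
    rw [e0]
    refine ⟨(C⁻¹ * (k3 * (B * k * B⁻¹)) * C) * k3 * (B * z * B⁻¹), ?_, ?_⟩
    · refine mul_mem (mul_mem ?_ hk3) (n9_norm h2 pB z hz)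
      have := n9_norm h2 (inv_mem pC) (k3 * (B * k * B⁻¹)) (mul_mem hk3 (n9_norm h2 pB k hkN))
      rwa [inv_inv] at this
    · calc B * (A * (C * z)) * B⁻¹ = (B * A) * B⁻¹ * (B * C * B⁻¹) * (B * z * B⁻¹) := by group
        _ = A * (B * C * B⁻¹) * (B * k * B⁻¹) * (B * C * B⁻¹) * (B * z * B⁻¹) := by rw [k1']; group
        _ = A * (C * k3) * (B * k * B⁻¹) * (C * k3) * (B * z * B⁻¹) := by rw [r3]
        _ = A * (C * C) * (C⁻¹ * (k3 * (B * k * B⁻¹)) * C) * k3 * (B * z * B⁻¹) := by group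
        _ = _ := by rw [hCC]; group
  rw [e1] at s1
  have hu1 := s1.sq hu
  obtain ⟨d, e, f, rfl⟩ := n9_form hz'
  have h3 : (xg chevG2 F 6 b * (xg chevG2 F 9 d * (xg chevG2 F 10 e * xg chevG2 F 11 f))) *
      (xg chevG2 F 6 b * (xg chevG2 F 9 d * (xg chevG2 F 10 e * xg chevG2 F 11 f))) = xg chevG2 F 11 (b * e) := by
    have q1 := (c69 b d).eq
    have q2 := (c611 b f).eq
    have q3 := (c911 d f).eq
    have q4 := (c910 d e).eq
    have q5 := (c1011 e f).eq
    have q6 := (c911 d (b * e)).eq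
    have q7 := (c1011 e (b * e)).eq
    have q8 := r610 h2 b e
    have w6 := x2 h2 6 b
    have w9 := x2 h2 9 d
    have w10 := x2 h2 10 e
    have w11 := x2 h2 11 f
    have q9 : Commute (xg chevG2 F 11 f) (xg chevG2 F 11 (b * e)) := by
      change _ * _ = _ * _
      rw [← hG.xg_add, ← hG.xg_add, add_comm]
    set A := xg chevG2 F 6 b
    set P := xg chevG2 F 9 d
    set Q := xg chevG2 F 10 e
    set R := xg chevG2 F 11 f
    set S := xg chevG2 F 11 (b * e)
    calc (A * (P * (Q * R))) * (A * (P * (Q * R))) = A * P * Q * (R * A) * P * Q * R := by group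
      _ = A * P * (Q * A) * (R * P) * Q * R := by rw [q2]; group
      _ = A * (P * A) * Q * S * P * (R * Q) * R := by rw [q8, q3]; group
      _ = (A * A) * P * Q * (S * P) * Q * (R * R) := by rw [q1, q5]; group
      _ = P * (Q * P) * (S * Q) := by rw [w6, w11, q6]; group
      _ = (P * P) * (Q * Q) * S := by rw [q4, q7]; group
      _ = S := by rw [w9, w10]; group
  rw [h3] at hu1
  have he : e = 0 := by
    have h4 : b * e = 0 := by
      by_contra hne
      exact hG.xg_ne_one hE (by rw [nr]; norm_num) hne hu1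
    exact (mul_eq_zero.1 h4).resolve_left hb
  rw [he, hG.xg_zero, one_mul] at s1
  have s2 : Cj (xg chevG2 F 6 b * (xg chevG2 F 9 d * xg chevG2 F 11 f))
      (xg chevG2 F 8 d * xg chevG2 F 9 0 * (xg chevG2 F 10 b * xg chevG2 F 11 f)) := by
    refine ⟨ng chevG2 F 0, hG.ng_mem_group 0, ?_⟩
    obtain ⟨p1, p2, p3, p4, p5, -⟩ := refl0
    have h6 := ngc (F := F) h2 (k := 0) (r := 6) (by norm_num) (by norm_num) b
    have h9 := ngc (F := F) h2 (k := 0) (r := 9) (by norm_num) (by norm_num) d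
    have h11 := ngc (F := F) h2 (k := 0) (r := 11) (by norm_num) (by norm_num) f
    rw [p1] at h6
    rw [p3] at h9
    rw [p5] at h11
    have h12 := (c810 d b).eq
    rw [hG.xg_zero, mul_one]
    calc ng chevG2 F 0 * (xg chevG2 F 6 b * (xg chevG2 F 9 d * xg chevG2 F 11 f)) * (ng chevG2 F 0)⁻¹ =
        (ng chevG2 F 0 * xg chevG2 F 6 b * (ng chevG2 F 0)⁻¹) * (ng chevG2 F 0 * xg chevG2 F 9 d * (ng chevG2 F 0)⁻¹) *
          (ng chevG2 F 0 * xg chevG2 F 11 f * (ng chevG2 F 0)⁻¹) := by group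
      _ = xg chevG2 F 10 b * xg chevG2 F 8 d * xg chevG2 F 11 f := by rw [h6, h9, h11]
      _ = _ := by rw [h12]; group
  have s3 := s1.trans s2
  have hu3 := s3.sq hu
  have hne3 : xg chevG2 F 8 d * xg chevG2 F 9 0 * (xg chevG2 F 10 b * xg chevG2 F 11 f) ≠ 1 := by
    intro h
    rw [hG.xg_zero, mul_one] at h
    have h5 : xg chevG2 F 10 b ∈ US (xg chevG2 F) {r | r ∈ [8, 11]} := by
      have e : xg chevG2 F 10 b = (xg chevG2 F 8 d)⁻¹ * (xg chevG2 F 11 f)⁻¹ := by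
        have : xg chevG2 F 10 b = (xg chevG2 F 8 d)⁻¹ * (xg chevG2 F 8 d * (xg chevG2 F 10 b * xg chevG2 F 11 f)) *
          (xg chevG2 F 11 f)⁻¹ := by group
        rw [this, h, mul_one]
      rw [e]
      exact mul_mem (inv_mem (mem_US (S := {r | r ∈ [8, 11]}) (by simp) _)) (inv_mem (mem_US (S := {r | r ∈ [8, 11]}) (by simp) _))
    have hcl : PClo chevG2 6 {r | r ∈ [8, 11]} := by
      refine ⟨?_, ?_⟩
      · intro r hr
        rw [nr]
        have : ∀ r ∈ [8, 11], 6 ≤ r ∧ r < 12 := by decide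
        exact this r hr
      · have : ∀ r ∈ [8, 11], ∀ s ∈ [8, 11], ∀ c ∈ chevG2.commTerms r s, c.1 ∈ [8, 11] := by decide +kernel
        exact this
    have := mem_of_xg_mem hG hE hcl (by rw [nr]; norm_num) hb h5
    exact absurd this (show ¬ (10 ∈ [8, 11]) by decide)
  rcases cj_D h2 hsq d 0 b f hu3 hne3 with h | h
  · exact Or.inl (s3.trans h)
  · exact Or.inr (s3.trans h)

/-- involutions of `U` -/
theorem cj_U (h2 : (2 : F) = 0) (hsq : ∀ c : F, ∃ a, a ^ 2 = c) {u : GL chevG2.Idx F} (hu : u ∈ chevG2.posUnipotent F)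
    (hu2 : u * u = 1) (hne : u ≠ 1) : Cj u (xg chevG2 F 11 1) ∨ Cj u (xg chevG2 F 9 1) := by
  have hG := TG2.good
  obtain ⟨b, a, c, z, hz, rfl⟩ := u_form hu
  have hab := ab_zero h2 hz hu2
  by_cases hb : b = 0
  · rw [hb, hG.xg_zero, one_mul] at hu2 hne ⊢
    by_cases ha : a = 0
    · rw [ha, hG.xg_zero, one_mul] at hu2 hne ⊢
      obtain ⟨d, e, f, rfl⟩ := n9_form hz
      have e0 : xg chevG2 F 8 c * (xg chevG2 F 9 d * (xg chevG2 F 10 e * xg chevG2 F 11 f)) =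
          xg chevG2 F 8 c * xg chevG2 F 9 d * (xg chevG2 F 10 e * xg chevG2 F 11 f) := (mul_assoc _ _ _).symm
      rw [e0] at hu2 hne ⊢
      exact cj_D h2 hsq c d e f hu2 hne
    · exact cj_B h2 hsq ha hz hu2
  · have ha : a = 0 := (mul_eq_zero.1 hab).resolve_left hb
    rw [ha, hG.xg_zero, one_mul] at hu2 hne ⊢
    exact cj_C h2 hsq hb hz hu2

/-- all involutions -/
theorem cj_all [Fintype F] [CharP F 2] {g : GL chevG2.Idx F} (hg : g ∈ chevG2.group F) (hg2 : g * g = 1) (hne : g ≠ 1) :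
    Cj g (xg chevG2 F 11 1) ∨ Cj g (xg chevG2 F 9 1) := by
  have hG := TG2.good
  have hE := TG2.ext
  have h2 : (2 : F) = 0 := CharTwo.two_eq_zero
  have hsq : ∀ c : F, ∃ a, a ^ 2 = c := by
    intro c
    obtain ⟨a, ha⟩ := FiniteField.isSquare_of_char_two (F := F) (ringChar.eq F 2) c
    exact ⟨a, by rw [pow_two]; exact ha.symm⟩
  have hPhi : Phi chevG2 (cO TG2.MO) {j | j ∈ List.range chevG2.rank} = {r | r < chevG2.nroots} := by
    ext r
    constructor
    · exact fun h => h.1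
    · intro h
      refine ⟨h, fun i hi hiJ => absurd ?_ hiJ⟩
      exact List.mem_range.2 hi
  have hML : ML chevG2 (cO TG2.MO) F {j | j ∈ List.range chevG2.rank} = chevG2.group F := by
    rw [hG.group_eq_US]
    change US (xg chevG2 F) (Phi chevG2 (cO TG2.MO) _) = _
    rw [hPhi]
  have hgL : g ∈ chevG2.leviSubgroup F {j | j ∈ List.range chevG2.rank} := ML_le_levi hG hE _ (by rw [hML]; exact hg)
  obtain ⟨m, hm, hmU⟩ := levi_sylow hG hE 2 hgL ⟨1, by rw [pow_one, pow_two, hg2]⟩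
  have hsqm : (m * g * m⁻¹) * (m * g * m⁻¹) = 1 := by
    have : (m * g * m⁻¹) * (m * g * m⁻¹) = m * (g * g) * m⁻¹ := by group
    rw [this, hg2]; group
  rw [hML] at hm
  have hc : Cj g (m * g * m⁻¹) := ⟨m, hm, rfl⟩
  have hne' : m * g * m⁻¹ ≠ 1 := by
    intro h
    apply hne
    have : g = m⁻¹ * (m * g * m⁻¹) * m := by group
    rw [this, h]; group
  rcases cj_U h2 hsq (UL_le_pos hG _ hmU) hsqm hne' with h | h
  · exact Or.inl (hc.trans h)
  · exact Or.inr (hc.trans h)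

end CG2

end Cfsg.Agent.H15.Chev
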