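import Cfsg.Agent.H15.ChevReg
import Cfsg.Agent.H6.ChevField

/-!
# Fixed points of field endomorphisms in Chevalley groups over arbitrary fields
-/

set_option autoImplicit false
set_option linter.unusedSectionVars false

namespace Cfsg.Agent.H15.Chev

open Cfsg.Agent.H6 Cfsg.Lie Cfsg.Agent.H22
open scoped Matrix

variable {D : ChevalleyDatum} {N : ℕ} {η : ℕ → ℕ → ℤ} {rc : ℕ → ℕ → ℤ} {F : Type*} [Field F]
variable (hG : Good D N η rc) (hE : Ext D rc) (σ : F →+* F)

/-- the group generated by the root elements with parameter fixed by `σ` -/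
def LS (D : ChevalleyDatum) (σ : F →+* F) : Subgroup (GL D.Idx F) :=
  Subgroup.closure {g | ∃ (s : ℕ) (t : F), σ t = t ∧ g = xg D F s t}

/-- the induced endomorphism of the general linear group -/
noncomputable abbrev Phm (D : ChevalleyDatum) (σ : F →+* F) : GL D.Idx F →* GL D.Idx F :=
  Matrix.GeneralLinearGroup.map (n := D.Idx) σ

theorem xg_mem_LS (s : ℕ) {t : F} (ht : σ t = t) : xg D F s t ∈ LS D σ := Subgroup.subset_closure ⟨s, t, ht, rfl⟩

theorem ng_mem_LS (i : ℕ) : ng D F i ∈ LS D σ := by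
  unfold ng ngr
  exact mul_mem (mul_mem (xg_mem_LS σ _ (map_one σ)) (xg_mem_LS σ _ (by simp))) (xg_mem_LS σ _ (map_one σ))

include hG

theorem Phm_xg (r : ℕ) (t : F) : Phm D σ (xg D F r t) = xg D F r (σ t) := hG.map_xg σ r t

theorem Phm_LS {g : GL D.Idx F} (hg : g ∈ LS D σ) : Phm D σ g = g := by
  unfold LS at hg
  induction hg using Subgroup.closure_induction with
  | mem x hx =>
    obtain ⟨s, t, ht, rfl⟩ := hx
    rw [Phm_xg hG σ, ht]
  | one => exact map_one _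
  | mul a b _ _ ha hb => rw [map_mul, ha, hb]
  | inv a _ ha => rw [map_inv, ha]

theorem Phm_group {g : GL D.Idx F} (hg : g ∈ D.group F) : Phm D σ g ∈ D.group F := by
  rw [hG.group_eq_closure] at hg
  induction hg using Subgroup.closure_induction with
  | mem x hx =>
    obtain ⟨s, t, _, rfl⟩ := hx
    rw [Phm_xg hG σ]
    exact hG.xg_mem_group _ _
  | one => rw [map_one]; exact one_mem _
  | mul a b _ _ ha hb => rw [map_mul]; exact mul_mem ha hb
  | inv a _ ha => rw [map_inv]; exact inv_mem ha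

theorem Phm_US {S : Set ℕ} {g : GL D.Idx F} (hg : g ∈ US (xg D F) S) : Phm D σ g ∈ US (xg D F) S := by
  unfold US at hg
  induction hg using Subgroup.closure_induction with
  | mem x hx =>
    obtain ⟨s, hs, t, rfl⟩ := hx
    rw [Phm_xg hG σ]
    exact mem_US hs _
  | one => rw [map_one]; exact one_mem _
  | mul a b _ _ ha hb => rw [map_mul]; exact mul_mem ha hb
  | inv a _ ha => rw [map_inv]; exact inv_mem ha

theorem Phm_diag {g : GL D.Idx F} (hg : g ∈ D.diagonalSubgroup F) : Phm D σ g ∈ D.diagonalSubgroup F := by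
  rw [hG.diagonalSubgroup_eq] at hg
  induction hg using Subgroup.closure_induction with
  | mem x hx =>
    obtain ⟨s, t, hs, ht, rfl⟩ := hx
    have e : Phm D σ (hgr D F s t) = hgr D F s (σ t) := by
      unfold hgr ngr
      simp only [map_mul, Phm_xg hG σ, map_neg, map_inv₀, map_one]
    rw [e, hG.diagonalSubgroup_eq]
    exact Subgroup.subset_closure ⟨s, σ t, hs, (map_ne_zero σ).2 ht, rfl⟩
  | one => rw [map_one]; exact one_mem _
  | mul a b _ _ ha hb => rw [map_mul]; exact mul_mem ha hb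
  | inv a _ ha => rw [map_inv]; exact inv_mem ha

theorem Phm_op (τ : ℕ → F) : ∀ (k m : ℕ), Phm D σ (op (xg D F) τ m k) = op (xg D F) (fun s => σ (τ s)) m k := by
  intro k
  induction k with
  | zero => intro m; rw [op_zero, op_zero, map_one]
  | succ k ih => intro m; rw [op_succ, op_succ, map_mul, ih, Phm_xg hG σ]

theorem op_mem_LS (τ : ℕ → F) : ∀ (k m : ℕ), (∀ s, m ≤ s → s < m + k → σ (τ s) = τ s) →
    op (xg D F) τ m k ∈ LS D σ := by
  intro k
  induction k with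
  | zero => intro m _; rw [op_zero]; exact one_mem _
  | succ k ih =>
    intro m h
    rw [op_succ]
    exact mul_mem (xg_mem_LS σ _ (h m le_rfl (by omega))) (ih (m + 1) fun s h1 h2 => h s (by omega) (by omega))

include hE

/-- representatives of the Weyl group inside `LS` -/
theorem rep_LS (w : hG.W) : ∃ m ∈ LS D σ, m ∈ D.monomialSubgroup F ∧ ∃ χ, Mon hG (xg D F) m w χ := by
  induction w using hG.W_induction with
  | one => exact ⟨1, one_mem _, one_mem _, 1, Mon.one⟩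
  | mul i w ih =>
    obtain ⟨m, h1, h2, χ, h3⟩ := ih
    obtain ⟨χ', h4⟩ := hG.mon_ng (F := F) hE i
    exact ⟨ng D F i * m, mul_mem (ng_mem_LS σ i) h1, mul_mem (hG.ng_mem_monomial i.2) h2, _, h4.mul h3⟩

/-- fixed elements of `U` -/
theorem pos_fixed {u : GL D.Idx F} (hu : u ∈ D.posUnipotent F) (hf : Phm D σ u = u) : u ∈ LS D σ := by
  obtain ⟨τ, rfl⟩ := (hG.mem_pos_iff hE).1 hu
  rw [Phm_op hG σ] at hf
  have hNn := hG.nroots_eq
  apply op_mem_LS hG σ
  intro s h1 h2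
  exact hG.op_inj hE _ _ N N (by omega) le_rfl hf s h1 (by omega)

/-- the centraliser of `LS` -/
theorem cent_LS {z : GL D.Idx F} (hz : z ∈ D.group F) (hc : ∀ g ∈ LS D σ, z * g * z⁻¹ = g) : z = 1 := by
  have hzB : z ∈ D.borelSubgroup F := by
    apply mem_borel_of_simple hG hE hz
    intro i
    refine ⟨1, one_ne_zero, ?_⟩
    rw [hc _ (xg_mem_LS σ _ (map_one σ))]
    exact hG.xg_mem_pos (hG.sr_pos i) (hG.sr i).2 1
  obtain ⟨w, hw⟩ := hG.exists_longest
  obtain ⟨m, hm1, hm2, χ, hm3⟩ := rep_LS hG hE σ w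
  obtain ⟨v, hv, t, ht, he⟩ := hG.mem_borel_iff.1 hzB
  have h1 : z = m * v * m⁻¹ * (m * t * m⁻¹) := by
    have e1 := hc m hm1
    have e2 : m * z * m⁻¹ = z := by
      have : z * m = m * z := by
        calc z * m = z * m * z⁻¹ * z := by group
          _ = m * z := by rw [e1]
      rw [← this]; group
    rw [← e2, he]; group
  have hzH : z ∈ D.diagonalSubgroup F := by
    rw [← hG.borel_inf_negBorel]
    refine Subgroup.mem_inf.2 ⟨hzB, ?_⟩
    rw [h1]
    refine mul_mem (Subgroup.mem_sup_left ?_) (Subgroup.mem_sup_right (hG.diagonal_normal_monomial hE hm2 ht))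
    rw [hG.posUnipotent_eq_US] at hv
    rw [hG.negUnipotent_eq_US]
    exact hm3.mem_US (fun r hr => hr.2) (fun r hr => (hw r).1 hr.1) hv
  exact hG.diagonal_eq_one hE hzH fun r _ => hc _ (xg_mem_LS σ _ (map_one σ))

/-- the elements fixed by `σ` -/
theorem fixed_form {g : GL D.Idx F} (hg : g ∈ D.group F) (hf : Phm D σ g = g) :
    ∃ v ∈ LS D σ, ∃ h ∈ D.diagonalSubgroup F, ∃ m ∈ LS D σ, ∃ u ∈ LS D σ, g = v * h * m * u ∧ Phm D σ h = h ∧
      v ∈ D.posUnipotent F ∧ u ∈ D.posUnipotent F ∧ m ∈ D.monomialSubgroup F := by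
  obtain ⟨b, hb, n, hn, w, χ, hm, u, hu, he⟩ := hG.canon hE hg
  obtain ⟨m, hm1, hm2, χ', hm3⟩ := rep_LS hG hE σ w
  have hd : n * m⁻¹ ∈ D.diagonalSubgroup F := by
    have h3 := hm.mul hm3.inv
    rw [mul_inv_cancel] at h3
    exact hG.mem_diagonal_of_mon hE (mul_mem hn (inv_mem hm2)) h3
  have hb' : b * (n * m⁻¹) ∈ D.borelSubgroup F := mul_mem hb (Subgroup.mem_sup_right hd)
  have he' : g = (b * (n * m⁻¹)) * m * u := by rw [he]; group
  obtain ⟨v, hv, h, hh, hvh⟩ := hG.mem_borel_iff.1 hb'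
  rw [hvh] at he' hb'
  have h1 : Phm D σ (v * h) * m * Phm D σ u = (v * h) * m * u := by
    have : Phm D σ g = g := hf
    rw [he', map_mul, map_mul, Phm_LS hG σ hm1] at this
    exact this
  have hv' : Phm D σ v ∈ D.posUnipotent F := by
    rw [hG.posUnipotent_eq_US] at hv ⊢
    exact Phm_US hG σ hv
  have h2 : Phm D σ (v * h) ∈ D.borelSubgroup F := by
    rw [map_mul]
    exact mul_mem (Subgroup.mem_sup_left hv') (Subgroup.mem_sup_right (Phm_diag hG σ hh))
  obtain ⟨h3, h4⟩ := hG.canon_unique hE h2 hb' hm3 (Phm_US hG σ hu) hu h1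
  have huU : u ∈ D.posUnipotent F := by
    rw [hG.posUnipotent_eq_US]; exact US_mono (hG.Um_sub w) hu
  rw [map_mul] at h3
  have h5 : v⁻¹ * Phm D σ v = h * (Phm D σ h)⁻¹ := by
    have : Phm D σ v = v * h * (Phm D σ h)⁻¹ := by rw [← h3]; group
    rw [this]; group
  have h6 : v⁻¹ * Phm D σ v ∈ D.posUnipotent F ⊓ D.diagonalSubgroup F :=
    Subgroup.mem_inf.2 ⟨mul_mem (inv_mem hv) hv', by
      rw [h5]; exact mul_mem hh (inv_mem (Phm_diag hG σ hh))⟩
  rw [hG.pos_inf_diagonal, Subgroup.mem_bot, inv_mul_eq_one] at h6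
  have h7 : Phm D σ h = h := by
    rw [← h6] at h3
    exact mul_left_cancel h3
  exact ⟨v, pos_fixed hG hE σ hv h6.symm, h, hh, m, hm1, u, pos_fixed hG hE σ huU h4, he', h7, hv, huU, hm2⟩

/-- fixed torus elements normalise `LS` -/
theorem diag_norm_LS {h : GL D.Idx F} (hh : h ∈ D.diagonalSubgroup F) (hf : Phm D σ h = h) {g : GL D.Idx F}
    (hg : g ∈ LS D σ) : h * g * h⁻¹ ∈ LS D σ := by
  unfold LS at hg
  induction hg using Subgroup.closure_induction with
  | mem x hx =>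
    obtain ⟨s, t, ht, rfl⟩ := hx
    by_cases hs : s < D.nroots
    · obtain ⟨χ, hχ⟩ := hG.diagonal_conj_xg (F := F) hh
      rw [hχ s hs t]
      apply xg_mem_LS
      have h1 := congrArg (Phm D σ) (hχ s hs 1)
      rw [map_mul, map_mul, map_inv, hf, Phm_xg hG σ, Phm_xg hG σ, map_one, hχ s hs 1] at h1
      have h2 := hG.xg_inj' hE hs h1
      rw [mul_one] at h2
      rw [map_mul, ← h2, ht]
    · have : xg D F s t = 1 := by
        apply Units.ext
        rw [hG.coe_xg, x_ge (by omega)]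
        rfl
      rw [this, mul_one, mul_inv_cancel]
      exact one_mem _
  | one => rw [mul_one, mul_inv_cancel]; exact one_mem _
  | mul a b _ _ ha hb =>
    have : h * (a * b) * h⁻¹ = (h * a * h⁻¹) * (h * b * h⁻¹) := by group
    rw [this]; exact mul_mem ha hb
  | inv a _ ha =>
    have : h * a⁻¹ * h⁻¹ = (h * a * h⁻¹)⁻¹ := by group
    rw [this]; exact inv_mem ha

theorem norm_of_fixed {K : Subgroup (GL D.Idx F)} (hKG : K ≤ D.group F) (hLK : LS D σ ≤ K)
    (hKf : ∀ g ∈ K, Phm D σ g = g) {g : GL D.Idx F} (hg : g ∈ D.group F) (hf : Phm D σ g = g) {x : GL D.Idx F}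
    (hx : x ∈ K) : g * x * g⁻¹ ∈ K := by
  obtain ⟨v, hv, h, hh, m, hm, u, hu, rfl, hf', -⟩ := fixed_form hG hE σ hg hf
  have e : v * h * m * u * x * (v * h * m * u)⁻¹ = v * (h * ((m * u) * x * (m * u)⁻¹) * h⁻¹) * v⁻¹ := by group
  rw [e]
  have hmu : m * u ∈ K := hLK (mul_mem hm hu)
  have hx' : (m * u) * x * (m * u)⁻¹ ∈ K := mul_mem (mul_mem hmu hx) (inv_mem hmu)
  refine mul_mem (mul_mem (hLK hv) ?_) (inv_mem (hLK hv))
  generalize (m * u) * x * (m * u)⁻¹ = y at hx'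
  obtain ⟨v', hv', h', hh', m', hm', u', hu', rfl, -⟩ := fixed_form hG hE σ (hKG hx') (hKf _ hx')
  have hh'K : h' ∈ K := by
    have e1 : h' = v'⁻¹ * (v' * h' * m' * u') * u'⁻¹ * m'⁻¹ := by group
    rw [e1]
    exact mul_mem (mul_mem (mul_mem (inv_mem (hLK hv')) hx') (inv_mem (hLK hu'))) (inv_mem (hLK hm'))
  have hcomm : h * h' * h⁻¹ = h' := by
    rw [hG.mem_diagonal_iff] at hh hh'
    obtain ⟨c, rfl⟩ := hh
    obtain ⟨c', rfl⟩ := hh'
    rw [mul_inv_eq_iff_eq_mul, ← tor_mul, ← tor_mul, mul_comm]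
  have e2 : h * (v' * h' * m' * u') * h⁻¹ = (h * v' * h⁻¹) * (h * h' * h⁻¹) * (h * m' * h⁻¹) * (h * u' * h⁻¹) := by
    group
  rw [e2, hcomm]
  exact mul_mem (mul_mem (mul_mem (hLK (diag_norm_LS hG hE σ hh hf' hv')) hh'K)
    (hLK (diag_norm_LS hG hE σ hh hf' hm'))) (hLK (diag_norm_LS hG hE σ hh hf' hu'))

theorem fixed_of_norm {K : Subgroup (GL D.Idx F)} (hLK : LS D σ ≤ K)
    (hKf : ∀ g ∈ K, Phm D σ g = g) {g : GL D.Idx F} (hg : g ∈ D.group F) (h : ∀ x ∈ K, g * x * g⁻¹ ∈ K) :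
    Phm D σ g = g := by
  have h1 : g⁻¹ * Phm D σ g = 1 := by
    apply cent_LS hG hE σ (mul_mem (inv_mem hg) (Phm_group hG σ hg))
    intro x hx
    have h2 := hKf _ (h x (hLK hx))
    rw [map_mul, map_mul, map_inv, hKf x (hLK hx)] at h2
    have e : g⁻¹ * Phm D σ g * x * (g⁻¹ * Phm D σ g)⁻¹ = g⁻¹ * (Phm D σ g * x * (Phm D σ g)⁻¹) * g := by group
    rw [e, h2]
    group
  rw [inv_mul_eq_one] at h1
  exact h1.symm

end Cfsg.Agent.H15.Chev
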