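import Cfsg.Agent.H15.ChevInv8
import Cfsg.Agent.H6.TabE6
import Cfsg.Agent.H6.ChevExtTab

/-!
# Involution classes of `E6` in characteristic two: certificates
-/

set_option autoImplicit false
set_option linter.unusedSectionVars false
set_option maxRecDepth 100000

namespace Cfsg.Agent.H15.Chev.IE6

open Cfsg.Agent.H6 Cfsg.Lie Cfsg.Agent.H22 Cfsg.Agent.H15.Chev

def EE : ℕ → List (ℕ × ℕ) := entF chevE6 (caF 6 72 TE6.CA) (coF 6 72 TE6.CO) (ngF 72)

theorem EE_eq : EE = ent chevE6 :=
  entF_eq _ _ _ _ (chkCartan_spec TE6.c_cartan) (chkCoroot_spec TE6.c_coroot) (chkNeg_spec TE6.c_neg)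

/-- conjugations of the normal forms to the representatives -/
def T : List (List ℕ × List ℕ × List ℕ) :=
  [([71], [71], []),
   ([60, 71], [68, 66], [50, 21, 50]),
   ([44, 60, 71], [55, 65, 67], [47, 24, 47, 49, 22, 49]),
   ([39, 44, 60, 71], [55, 65, 67], [62, 9, 62, 50, 21, 50, 63, 8, 63, 42, 29, 42, 52, 19, 52, 37, 34, 37, 53, 47, 51, 63])]

/-- representatives with rank certificates -/
def RC : List (List ℕ × List (ℕ × List ℕ)) :=
  [([71], [(1, [77]), (6, [0]), (7, [52]), (8, [53]), (9, [54]), (10, [55]), (11, [56]), (12, [57]), (13, [58]), (14, [59]), (15, [60]), (16, [61]), (22, [67]), (23, [68]), (24, [69]), (25, [70]), (26, [71]), (27, [72]), (28, [73]), (29, [74]), (30, [75]), (31, [76])]),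
   ([68, 66], [(0, [72]), (2, [74]), (9, [4]), (10, [42]), (11, [2]), (13, [44]), (15, [47]), (16, [51]), (18, [55]), (19, [58]), (20, [60]), (21, [61]), (22, [62]), (23, [63]), (25, [64]), (27, [66]), (6, [27]), (28, [65]), (32, [67]), (34, [69]), (7, [34]), (35, [71]), (8, [35]), (36, [68]), (39, [70]), (41, [73]), (43, [75]), (12, [43]), (46, [76]), (14, [46]), (54, [77]), (17, [54])]),
   ([55, 65, 67], [(3, [71]), (0, [61]), (2, [73]), (14, [45]), (15, [49]), (17, [53]), (18, [56]), (20, [59]), (8, [20]), (21, [60]), (11, [21]), (25, [46]), (27, [65]), (29, [51]), (30, [66]), (32, [54]), (34, [68]), (35, [70]), (9, [35]), (37, [58]), (38, [69]), (42, [74]), (13, [42]), (43, [72]), (23, [43]), (44, [75]), (24, [44]), (47, [76]), (26, [47]), (16, [50]), (6, [16]), (55, [77]), (33, [55]), (19, [57]), (7, [19]), (10, [0]), (22, [0, 1]), (12, [0, 1, 2])])]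

theorem hEv : tabEv chevE6 = true := by decide +kernel
theorem hSym : tabSym chevE6 = true := by decide +kernel
theorem hA : T.all (okT EE 128 72 78) = true := by decide +kernel
theorem hB : ((chainsL chevE6 36 6 (List.range 6)).all fun S => S.isEmpty || T.any fun e => S.isPerm e.1) = true := by
  decide +kernel
theorem hC : RC.all (okR EE 128 72 78) = true := by decide +kernel
theorem hTR : (T.all fun e => decide (e.2.1 ∈ RC.map Prod.fst)) = true := by decide +kernel
theorem hnd : (RC.map fun e => e.2.length).Nodup := by decide +kernel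

end Cfsg.Agent.H15.Chev.IE6
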