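import Cfsg.Agent.H15.ChevCent4
import Cfsg.Agent.H6.ChevOrder

/-!
# Involutions of Chevalley groups in odd characteristic: reduction to monomial elements
-/

set_option autoImplicit false
set_option linter.unusedSectionVars false

namespace Cfsg.Agent.H15.OInv

open Cfsg.Agent.H6 Cfsg.Lie Cfsg.Agent.H22 Cfsg.Agent.H15.Chev
open scoped Matrix

variable {D : ChevalleyDatum} {N : ℕ} {η : ℕ → ℕ → ℤ} {rc : ℕ → ℕ → ℤ} {F : Type*} [Field F]
variable (hG : Good D N η rc) (hE : Ext D rc)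

include hG hE

omit hG hE in
/-- an inverted element of odd order gives a conjugation -/
theorem conj_of_inverts {G : Type*} [Group G] {n v : G} (h : n * v * n⁻¹ = v⁻¹) (ho : Odd (orderOf v)) :
    ∃ x ∈ Subgroup.zpowers v, v * n = x * n * x⁻¹ := by
  obtain ⟨k, hk⟩ := ho
  obtain ⟨y, hy⟩ : ∃ y, y = v ^ (k + 1) := ⟨_, rfl⟩
  refine ⟨y, hy ▸ pow_mem (Subgroup.mem_zpowers v) _, ?_⟩
  have h1 : y * y = v := by
    rw [hy, ← pow_add]
    have : k + 1 + (k + 1) = orderOf v + 1 := by omega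
    rw [this, pow_succ, pow_orderOf_eq_one, one_mul]
  have h2 : n * y * n⁻¹ = y⁻¹ := by
    rw [hy]
    have : n * v ^ (k + 1) * n⁻¹ = (n * v * n⁻¹) ^ (k + 1) := by rw [conj_pow]
    rw [this, h, inv_pow]
  have h3 : n * y⁻¹ = y * n := by
    have h5 : n * y⁻¹ * n⁻¹ = y := by
      have : n * y⁻¹ * n⁻¹ = (n * y * n⁻¹)⁻¹ := by group
      rw [this, h2, inv_inv]
    calc n * y⁻¹ = (n * y⁻¹ * n⁻¹) * n := by group
      _ = y * n := by rw [h5]
  calc v * n = y * (y * n) := by rw [← mul_assoc, h1]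
    _ = y * (n * y⁻¹) := by rw [h3]
    _ = _ := by group

/-- **Step 1**: involutions are conjugate to monomial elements -/
theorem to_mono [Fintype F] (hF : Odd (Fintype.card F)) {g : GL D.Idx F} (hg : g ∈ D.group F) (hg2 : g * g = 1) :
    ∃ h ∈ D.group F, ∃ n ∈ D.monomialSubgroup F, h * g * h⁻¹ = n := by
  classical
  haveI : Finite (Matrix D.Idx D.Idx F) := inferInstanceAs (Finite (D.Idx → D.Idx → F))
  haveI : Finite (GL D.Idx F) := Finite.of_injective (fun g : GL D.Idx F => (g : Matrix D.Idx D.Idx F)) fun a b h => Units.ext h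
  obtain ⟨b, hb, n, hn, w, χ, hm, u, hu, rfl⟩ := hG.canon hE hg
  have huU : u ∈ D.posUnipotent F := by
    rw [hG.posUnipotent_eq_US]; exact US_mono (hG.Um_sub w) hu
  have hUG : D.posUnipotent F ≤ D.group F := le_trans le_sup_left hG.borel_le
  have huB : u ∈ D.borelSubgroup F := Subgroup.mem_sup_left huU
  obtain ⟨v, hv, h, hh, hbv⟩ := hG.mem_borel_iff.1 (mul_mem huB hb)
  have hhN : h ∈ D.monomialSubgroup F := by
    rw [hG.monomial_eq hE]; exact Subgroup.mem_sup_right hh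
  obtain ⟨χh, hχh⟩ := hG.HA_mon (hG.rdn hE) (show h ∈ HA D (xg D F) by rw [hG.HA_eq]; exact hh)
  obtain ⟨χ₁, hm₁⟩ : ∃ χ₁, Mon hG (xg D F) (h * n) w χ₁ := by
    have := hχh.mul hm
    rw [one_mul] at this
    exact ⟨_, this⟩
  set m := h * n with hmdef
  have hmN : m ∈ D.monomialSubgroup F := mul_mem hhN hn
  have e1 : u * (b * n * u) * u⁻¹ = v * m := by
    calc u * (b * n * u) * u⁻¹ = (u * b) * n := by group
      _ = v * m := by rw [hbv, hmdef]; group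
  have hsq : (v * m) * (v * m) = 1 := by
    rw [← e1]
    have : u * (b * n * u) * u⁻¹ * (u * (b * n * u) * u⁻¹) = u * ((b * n * u) * (b * n * u)) * u⁻¹ := by group
    rw [this, hg2]; group
  have hvB : v ∈ D.borelSubgroup F := Subgroup.mem_sup_left hv
  -- `m⁻¹ m⁻¹` is diagonal
  have hd : m⁻¹ * m⁻¹ ∈ D.diagonalSubgroup F := by
    refine hG.bruhat_unique hE hvB hmN (one_mem _) (one_mem _) (inv_mem hmN) (inv_mem hvB) ?_
    rw [mul_one, one_mul, ← mul_inv_rev]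
    exact eq_inv_of_mul_eq_one_left hsq
  have hconj : m * v * m⁻¹ = v⁻¹ * (m⁻¹ * m⁻¹) := by
    have : m * v * m⁻¹ = v⁻¹ * ((v * m) * (v * m)) * (m⁻¹ * m⁻¹) := by group
    rw [this, hsq, mul_one]
  have hmvB : m * v * m⁻¹ ∈ D.borelSubgroup F := by
    rw [hconj]; exact mul_mem (inv_mem hvB) (Subgroup.mem_sup_right hd)
  have hmvU : m * v * m⁻¹ ∈ D.posUnipotent F := by
    have hv' := hv
    rw [hG.posUnipotent_eq_US] at hv'
    obtain ⟨v₁, h1, v₂, h2, he⟩ := hG.US_union_mul (hG.rd hE) hG.pClo_all (hG.posS_eq_union w) hv'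
    have h3 := hG.Upl_conj hE hm₁ h1
    have h4 := hG.Um_conj hE hm₁ h2
    have h5 : m * v₂ * m⁻¹ ∈ D.borelSubgroup F ⊓ D.negUnipotent F := by
      refine Subgroup.mem_inf.2 ⟨?_, h4⟩
      have e : m * v₂ * m⁻¹ = (m * v₁ * m⁻¹)⁻¹ * (m * v * m⁻¹) := by rw [he]; group
      rw [e]
      exact mul_mem (inv_mem (Subgroup.mem_sup_left h3)) hmvB
    rw [hG.borel_inf_neg, Subgroup.mem_bot] at h5
    have e : m * v * m⁻¹ = (m * v₁ * m⁻¹) * (m * v₂ * m⁻¹) := by rw [he]; group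
    rw [e, h5, mul_one]
    exact h3
  have hone : m⁻¹ * m⁻¹ = 1 := by
    have h3 : m⁻¹ * m⁻¹ ∈ D.posUnipotent F ⊓ D.monomialSubgroup F := by
      refine Subgroup.mem_inf.2 ⟨?_, mul_mem (inv_mem hmN) (inv_mem hmN)⟩
      have : m⁻¹ * m⁻¹ = v * (m * v * m⁻¹) := by rw [hconj]; group
      rw [this]
      exact mul_mem hv hmvU
    rwa [hG.pos_inf_monomial hE, Subgroup.mem_bot] at h3
  have hinv : m * v * m⁻¹ = v⁻¹ := by rw [hconj, hone, mul_one]
  have hodd : Odd (orderOf v) := by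
    have h3 : orderOf v ∣ Nat.card (D.posUnipotent F) := by
      have := orderOf_dvd_natCard (⟨v, hv⟩ : D.posUnipotent F)
      rwa [← Subgroup.orderOf_coe] at this
    rw [hG.card_pos hE] at h3
    exact (hF.pow).of_dvd_nat h3
  obtain ⟨x, hx, hxe⟩ := conj_of_inverts hinv hodd
  have hxU : x ∈ D.posUnipotent F := (Subgroup.zpowers_le.2 hv) hx
  refine ⟨x⁻¹ * u, mul_mem (inv_mem (hUG hxU)) (hUG huU), m, hmN, ?_⟩
  have e : x⁻¹ * u * (b * n * u) * (x⁻¹ * u)⁻¹ = x⁻¹ * (u * (b * n * u) * u⁻¹) * x := by group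
  rw [e, e1, hxe]; group

/-! ### rank one computations -/

theorem nX' {i : ℕ} (hi : i < D.rank) (c : Fˣ) (t : F) :
    ngr D F (D.simple i) (c : F) * xg D F (D.neg (D.simple i)) t * (ngr D F (D.simple i) (c : F))⁻¹ =
      xg D F (D.simple i) (-((c : F) ^ 2 * t)) := by
  have h := hG.ngr_conj_xg hi c (hG.neg_lt' (hG.simple_lt i hi)) t
  rw [h, hG.w_neg i hi _ (hG.simple_lt i hi), hG.w_simple, hG.neg_neg' (hG.simple_lt i hi)]
  have h1 : η i (D.neg (D.simple i)) = -1 := by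
    rw [hG.eta_neg i hi _ (hG.simple_lt i hi), hG.eta_simple i hi]
  have h2 : D.cartan i (D.neg (D.simple i)) = -2 := by
    rw [hG.cartan_neg hi (hG.simple_lt i hi), hG.cartan_diag i hi]
  rw [h1, h2]
  congr 1
  have h3 : ((c ^ (-(-2 : ℤ)) : Fˣ) : F) = (c : F) ^ 2 := by
    rw [neg_neg, ← Units.val_pow_eq_pow_val]; rfl
  rw [h3]
  push_cast
  ring

theorem nX1 {i : ℕ} (hi : i < D.rank) (c : Fˣ) (t : F) :
    ngr D F (D.simple i) (c : F) * xg D F (D.simple i) t * (ngr D F (D.simple i) (c : F))⁻¹ =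
      xg D F (D.neg (D.simple i)) (-(((c⁻¹ : Fˣ) : F) ^ 2 * t)) := by
  have h := hG.ngr_conj_xg hi c (hG.simple_lt i hi) t
  rw [h, hG.w_simple, hG.eta_simple i hi, hG.cartan_diag i hi]
  congr 1
  have : ((c ^ (-(2 : ℤ)) : Fˣ) : F) = ((c⁻¹ : Fˣ) : F) ^ 2 := by
    rw [zpow_neg, ← inv_zpow, ← Units.val_pow_eq_pow_val]
    rfl
  rw [this]
  push_cast
  ring

/-- `X(t/2) Y(-1/t) X(t) Y(-1/(2t)) = n(t)` -/
theorem rank1_B (h2 : (2 : F) ≠ 0) {i : ℕ} (hi : i < D.rank) (c : Fˣ) :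
    xg D F (D.simple i) ((c : F) / 2) * xg D F (D.neg (D.simple i)) (-(c : F)⁻¹) * xg D F (D.simple i) (c : F) *
      xg D F (D.neg (D.simple i)) (-(2 * (c : F))⁻¹) = ngr D F (D.simple i) (c : F) := by
  have h := nX' hG hE hi c (-(2 * (c : F))⁻¹)
  rw [mul_inv_eq_iff_eq_mul] at h
  have e1 : -((c : F) ^ 2 * (-(2 * (c : F))⁻¹)) = (c : F) / 2 := by
    have := c.ne_zero
    field_simp
  rw [e1] at h
  have e2 : xg D F (D.simple i) ((c : F) / 2) * xg D F (D.neg (D.simple i)) (-(c : F)⁻¹) * xg D F (D.simple i) (c : F) =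
      xg D F (D.simple i) (-((c : F) / 2)) * ngr D F (D.simple i) (c : F) := by
    unfold ngr
    have : (c : F) / 2 = -((c : F) / 2) + (c : F) := by field_simp; ring
    rw [← mul_assoc, ← mul_assoc, ← hG.xg_add, ← this]
  rw [e2, mul_assoc, h, ← mul_assoc, ← hG.xg_add, neg_add_cancel, hG.xg_zero, one_mul]

/-- **Lemma B** -/
theorem lemma_B (h2 : (2 : F) ≠ 0) {n : GL D.Idx F} {w : hG.W} {χ : Fin D.nroots → Fˣ} (hm : Mon hG (xg D F) n w χ)
    {j : Fin D.rank} (hj : w.1 (hG.sr j) = hG.ngf (hG.sr j)) {a : Fˣ} (ha : χ (hG.sr j) = a ^ 2) :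
    ∃ h ∈ D.group F, h * n * h⁻¹ = ngr D F (D.simple j) ((a⁻¹ : Fˣ) : F) * n := by
  set c : Fˣ := a⁻¹ with hc
  set X : F → GL D.Idx F := fun t => xg D F (D.simple j) t with hX
  set Y : F → GL D.Idx F := fun t => xg D F (D.neg (D.simple j)) t with hY
  have hXm : ∀ t, X t ∈ D.group F := fun t => hG.xg_mem_group _ _
  have hYm : ∀ t, Y t ∈ D.group F := fun t => hG.xg_mem_group _ _
  refine ⟨X ((c : F) / 2) * Y (-(c : F)⁻¹), mul_mem (hXm _) (hYm _), ?_⟩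
  have hnX : ∀ t, n * X t * n⁻¹ = Y ((a : F) ^ 2 * t) := by
    intro t
    have h := hm.act (hG.sr j) t
    rw [hj, ha] at h
    rw [Units.val_pow_eq_pow_val] at h
    exact h
  have hnY : ∀ t, n * Y t * n⁻¹ = X ((c : F) ^ 2 * t) := by
    intro t
    have h := hm.act (hG.ngf (hG.sr j)) t
    rw [hm.neg, ha, hG.W_neg, hj] at h
    have h3 : hG.ngf (hG.ngf (hG.sr j)) = hG.sr j := Fin.ext (hG.neg_neg' (hG.sr j).2)
    rw [h3, ← inv_pow, ← hc, Units.val_pow_eq_pow_val] at h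
    exact h
  have hXi : ∀ t, (X t)⁻¹ = X (-t) := fun t => (hG.xg_neg _ _).symm
  have hYi : ∀ t, (Y t)⁻¹ = Y (-t) := fun t => (hG.xg_neg _ _).symm
  have hB := rank1_B hG hE h2 j.2 c
  have hac : (a : F) * (c : F) = 1 := by rw [hc, ← Units.val_mul, mul_inv_cancel, Units.val_one]
  have hci : (c : F)⁻¹ = (a : F) := by
    exact inv_eq_of_mul_eq_one_left hac
  calc X ((c : F) / 2) * Y (-(c : F)⁻¹) * n * (X ((c : F) / 2) * Y (-(c : F)⁻¹))⁻¹ =
      X ((c : F) / 2) * Y (-(c : F)⁻¹) * (n * (Y (-(c : F)⁻¹))⁻¹ * n⁻¹) * (n * (X ((c : F) / 2))⁻¹ * n⁻¹) * n := by group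
    _ = X ((c : F) / 2) * Y (-(c : F)⁻¹) * X (c : F) * Y (-(2 * (c : F))⁻¹) * n := by
      rw [hXi, hYi, hnX, hnY]
      have e1 : (c : F) ^ 2 * -(-(c : F)⁻¹) = (c : F) := by
        have := c.ne_zero
        field_simp
      have e2 : (a : F) ^ 2 * -((c : F) / 2) = -(2 * (c : F))⁻¹ := by
        rw [← hci]
        have := c.ne_zero
        field_simp
      rw [e1, e2]
    _ = _ := by rw [hB]

/-- `X(b) Y(s) = Y(s/ν) h(ν) X(b/ν)`, `ν = 1 + b s` -/
theorem rank1_A {i : ℕ} (hi : i < D.rank) (s ν : Fˣ) {b : F} (hν : (ν : F) = 1 + b * s) :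
    xg D F (D.simple i) b * xg D F (D.neg (D.simple i)) (s : F) =
      xg D F (D.neg (D.simple i)) ((s : F) / ν) * hgr D F (D.simple i) (ν : F) * xg D F (D.simple i) (b / ν) := by
  set X : F → GL D.Idx F := fun t => xg D F (D.simple i) t with hX
  set Y : F → GL D.Idx F := fun t => xg D F (D.neg (D.simple i)) t with hY
  change X b * Y s = Y ((s : F) / ν) * hgr D F (D.simple i) (ν : F) * X (b / ν)
  have hXa : ∀ t u, X (t + u) = X t * X u := fun t u => hG.xg_add _ _ _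
  have hXi : ∀ t, (X t)⁻¹ = X (-t) := fun t => (hG.xg_neg _ _).symm
  -- `Y(u) = X(1/u) n(-1/u) X(1/u)`
  have hYn : ∀ u : Fˣ, Y (u : F) = X ((u : F)⁻¹) * ngr D F (D.simple i) (-(u : F)⁻¹) * X ((u : F)⁻¹) := by
    intro u
    have e : ngr D F (D.simple i) (-(u : F)⁻¹) = X (-(u : F)⁻¹) * Y (-(-(u : F)⁻¹)⁻¹) * X (-(u : F)⁻¹) := rfl
    have e2 : -(-(u : F)⁻¹)⁻¹ = (u : F) := by rw [inv_neg, inv_inv, neg_neg]
    rw [e, e2, ← hXi]; group
  have h1 := hYn s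
  have h2 := hYn (s * ν⁻¹)
  have es : ((s * ν⁻¹ : Fˣ) : F) = (s : F) / ν := by
    rw [Units.val_mul, Units.val_inv_eq_inv_val, div_eq_mul_inv]
  rw [es] at h2
  have hs0 := s.ne_zero
  have hν0 := ν.ne_zero
  -- `h(ν)` conjugates
  have hh : ∀ t, X t * hgr D F (D.simple i) (ν : F) = hgr D F (D.simple i) (ν : F) * X (((ν : F) ^ 2)⁻¹ * t) := by
    intro t
    rw [hG.hgr_eq_tor _ (hG.simple_lt i hi)]
    have h3 := hG.tor_conj_xg (F := F) (hG.isChr_pairing (D.simple i) ν) (hG.simple_lt i hi) (((ν : F) ^ 2)⁻¹ * t)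
    rw [mul_inv_eq_iff_eq_mul] at h3
    rw [h3]
    congr 2
    rw [hG.pairing_simple hi (hG.simple_lt i hi), hG.cartan_diag i hi]
    have : ((ν ^ (2 : ℤ) : Fˣ) : F) = (ν : F) ^ 2 := by
      rw [← Units.val_pow_eq_pow_val]; rfl
    rw [this, ← mul_assoc, mul_inv_cancel₀ (pow_ne_zero 2 hν0), one_mul]
  -- `n(-ν/s) h(ν) = n(-1/s)`
  have hn : ngr D F (D.simple i) (-((s : F) / ν)⁻¹) * hgr D F (D.simple i) (ν : F) = ngr D F (D.simple i) (-(s : F)⁻¹) := by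
    have q1 : ∀ u : Fˣ, ngr D F (D.simple i) (u : F) = hgr D F (D.simple i) (u : F) * ng D F i := by
      intro u
      unfold hgr ng
      rw [hG.ngr_neg_one, inv_mul_cancel_right]
    have q2 : ng D F i * hgr D F (D.simple i) (ν : F) = hgr D F (D.simple i) ((ν⁻¹ : Fˣ) : F) * ng D F i := by
      have h3 := hG.ng_conj_hgr (F := F) hi (hG.simple_lt i hi) ν
      rw [hG.w_simple] at h3
      rw [← mul_inv_eq_iff_eq_mul, h3, hG.hgr_eq_tor _ (hG.neg_lt' (hG.simple_lt i hi)), hG.hgr_eq_tor _ (hG.simple_lt i hi),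
        tor_eq_iff]
      intro r hr
      rw [hG.pairing_neg_left (hG.simple_lt i hi), zpow_neg, inv_zpow]
    have e1 : (-((s : F) / ν)⁻¹) = ((-(s⁻¹ * ν) : Fˣ) : F) := by
      push_cast
      field_simp
    have e2 : (-(s : F)⁻¹) = ((-(s⁻¹) : Fˣ) : F) := by
      push_cast
      rfl
    rw [e1, e2, q1, q1, mul_assoc, q2, ← mul_assoc, hG.hgr_mul (hG.simple_lt i hi)]
    congr 3
    rw [neg_mul, mul_inv_cancel_right]
  rw [h1, h2]
  calc X b * (X ((s : F)⁻¹) * ngr D F (D.simple i) (-(s : F)⁻¹) * X ((s : F)⁻¹)) =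
      X (b + (s : F)⁻¹) * ngr D F (D.simple i) (-(s : F)⁻¹) * X ((s : F)⁻¹) := by rw [hXa]; group
    _ = X (((s : F) / ν)⁻¹) * (ngr D F (D.simple i) (-((s : F) / ν)⁻¹) * hgr D F (D.simple i) (ν : F)) *
        (X (((ν : F) ^ 2)⁻¹ * ((s : F) / ν)⁻¹) * X (b / ν)) := by
      rw [hn, ← hXa]
      have e1 : b + (s : F)⁻¹ = ((s : F) / ν)⁻¹ := by
        rw [inv_div, hν]; field_simp; ring
      have e2 : ((ν : F) ^ 2)⁻¹ * ((s : F) / ν)⁻¹ + b / ν = (s : F)⁻¹ := by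
        have : (ν : F) ≠ 0 := hν0
        field_simp
        rw [hν]; ring
      rw [e1, e2]
    _ = X (((s : F) / ν)⁻¹) * ngr D F (D.simple i) (-((s : F) / ν)⁻¹) * (hgr D F (D.simple i) (ν : F) *
        X (((ν : F) ^ 2)⁻¹ * ((s : F) / ν)⁻¹)) * X (b / ν) := by group
    _ = _ := by rw [← hh]; group

/-- **Lemma A** -/
theorem lemma_A {n : GL D.Idx F} {w : hG.W} {χ : Fin D.nroots → Fˣ} (hm : Mon hG (xg D F) n w χ)
    {j : Fin D.rank} (hj : w.1 (hG.sr j) = hG.ngf (hG.sr j)) {b : F} {ν : Fˣ}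
    (hν : (ν : F) = 1 - (χ (hG.sr j) : F) * b ^ 2) :
    ∃ h ∈ D.group F, h * n * h⁻¹ = hgr D F (D.simple j) (ν : F) * n := by
  set c : Fˣ := χ (hG.sr j) with hc
  by_cases hb : b = 0
  · refine ⟨1, one_mem _, ?_⟩
    have h1 : ν = 1 := Units.ext (by rw [hν, hb, Units.val_one]; ring)
    rw [h1, Units.val_one]
    have : hgr D F (D.simple j) (1 : F) = 1 := by
      unfold hgr
      rw [hG.ngr_neg_one, mul_inv_cancel]
    rw [this]; group
  set X : F → GL D.Idx F := fun t => xg D F (D.simple j) t with hX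
  set Y : F → GL D.Idx F := fun t => xg D F (D.neg (D.simple j)) t with hY
  have hXm : ∀ t, X t ∈ D.group F := fun t => hG.xg_mem_group _ _
  have hYm : ∀ t, Y t ∈ D.group F := fun t => hG.xg_mem_group _ _
  have hnX : ∀ t, n * X t * n⁻¹ = Y ((c : F) * t) := by
    intro t
    have h := hm.act (hG.sr j) t
    rw [hj] at h
    exact h
  have hnY : ∀ t, n * Y t * n⁻¹ = X ((c : F)⁻¹ * t) := by
    intro t
    have h := hm.act (hG.ngf (hG.sr j)) t
    rw [hm.neg, hG.W_neg, hj] at h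
    have h3 : hG.ngf (hG.ngf (hG.sr j)) = hG.sr j := Fin.ext (hG.neg_neg' (hG.sr j).2)
    rw [h3, Units.val_inv_eq_inv_val] at h
    exact h
  have hXi : ∀ t, (X t)⁻¹ = X (-t) := fun t => (hG.xg_neg _ _).symm
  have hYi : ∀ t, (Y t)⁻¹ = Y (-t) := fun t => (hG.xg_neg _ _).symm
  have hc0 := c.ne_zero
  have hν0 := ν.ne_zero
  refine ⟨Y ((c : F) * b / ν) * X b, mul_mem (hYm _) (hXm _), ?_⟩
  have hs : (-((c : F) * b)) ≠ 0 := neg_ne_zero.2 (mul_ne_zero hc0 hb)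
  have hA := rank1_A hG hE (F := F) j.2 (Units.mk0 _ hs) ν (b := b) (by
    rw [hν, Units.val_mk0]; ring)
  rw [Units.val_mk0] at hA
  change X b * Y (-((c : F) * b)) = Y (-((c : F) * b) / ν) * hgr D F (D.simple j) (ν : F) * X (b / ν) at hA
  calc Y ((c : F) * b / ν) * X b * n * (Y ((c : F) * b / ν) * X b)⁻¹ =
      Y ((c : F) * b / ν) * X b * (n * (X b)⁻¹ * n⁻¹) * (n * (Y ((c : F) * b / ν))⁻¹ * n⁻¹) * n := by group
    _ = Y ((c : F) * b / ν) * (X b * Y (-((c : F) * b))) * X (-(b / ν)) * n := by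
      rw [hXi, hYi, hnX, hnY]
      have e1 : (c : F) * -b = -((c : F) * b) := by ring
      have e2 : (c : F)⁻¹ * -((c : F) * b / ν) = -(b / ν) := by field_simp
      rw [e1, e2]; group
    _ = (Y ((c : F) * b / ν) * Y (-((c : F) * b) / ν)) * hgr D F (D.simple j) (ν : F) * (X (b / ν) * X (-(b / ν))) * n := by
      rw [hA]; group
    _ = _ := by
      have e1 : Y ((c : F) * b / ν) * Y (-((c : F) * b) / ν) = 1 := by
        rw [neg_div, ← hYi, mul_inv_cancel]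
      have e2 : X (b / ν) * X (-(b / ν)) = 1 := by rw [← hXi, mul_inv_cancel]
      rw [e1, e2, one_mul, mul_one]

end Cfsg.Agent.H15.OInv
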