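import Cfsg.Agent.H15.OInv1
import Cfsg.Agent.H6.ChevTorusCard

/-!
# Involutions of Chevalley groups in odd characteristic: reduction to the torus
-/

set_option autoImplicit false
set_option linter.unusedSectionVars false

namespace Cfsg.Agent.H15.OInv

open Cfsg.Agent.H6 Cfsg.Lie Cfsg.Agent.H22 Cfsg.Agent.H15.Chev
open scoped Matrix

/-! ### squares in finite fields -/

section sq
variable {F : Type*} [Field F] [Fintype F]

theorem two_ne (hF : Odd (Fintype.card F)) : (2 : F) ≠ 0 := by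
  have h : ringChar F ≠ 2 := by
    intro h
    have h1 : Fintype.card F % 2 = 0 := FiniteField.even_card_of_char_two h
    rw [Nat.odd_iff] at hF
    omega
  exact Ring.two_ne_zero h

theorem rc_ne (hF : Odd (Fintype.card F)) : ringChar F ≠ 2 := by
  intro h
  have h1 : Fintype.card F % 2 = 0 := FiniteField.even_card_of_char_two h
  rw [Nat.odd_iff] at hF
  omega

theorem isSquare_mul_of_not {a b : Fˣ} (ha : ¬ IsSquare a) (hb : ¬ IsSquare b) : IsSquare (a * b) := by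
  classical
  obtain ⟨g, hg⟩ := IsCyclic.exists_generator (α := Fˣ)
  obtain ⟨m, rfl⟩ := Subgroup.mem_zpowers_iff.1 (hg a)
  obtain ⟨n, rfl⟩ := Subgroup.mem_zpowers_iff.1 (hg b)
  have h1 : Odd m := by
    rw [← Int.not_even_iff_odd]
    rintro ⟨k, rfl⟩
    exact ha ⟨g ^ k, by rw [← zpow_add]⟩
  have h2 : Odd n := by
    rw [← Int.not_even_iff_odd]
    rintro ⟨k, rfl⟩
    exact hb ⟨g ^ k, by rw [← zpow_add]⟩
  obtain ⟨k, hk⟩ := h1.add_odd h2
  exact ⟨g ^ k, by rw [← zpow_add, ← zpow_add, hk]⟩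

theorem not_isSquare_zpow {a : Fˣ} (ha : ¬ IsSquare a) {m : ℤ} (hm : Odd m) : ¬ IsSquare (a ^ m) := by
  rintro ⟨b, hb⟩
  obtain ⟨k, rfl⟩ := hm
  apply ha
  refine ⟨b * a ^ (-k), ?_⟩
  have : b * a ^ (-k) * (b * a ^ (-k)) = (b * b) * (a ^ (-k) * a ^ (-k)) := by
    rw [mul_mul_mul_comm]
  rw [this, ← hb, ← zpow_add, ← zpow_add]
  have : 2 * k + 1 + (-k + -k) = 1 := by ring
  rw [this, zpow_one]

theorem isSquare_units {a : Fˣ} : IsSquare (a : F) ↔ IsSquare a := by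
  constructor
  · rintro ⟨x, hx⟩
    have hx0 : x ≠ 0 := by
      rintro rfl
      rw [mul_zero] at hx
      exact a.ne_zero hx
    exact ⟨Units.mk0 x hx0, Units.ext (by rw [Units.val_mul, Units.val_mk0]; exact hx)⟩
  · rintro ⟨x, rfl⟩
    exact ⟨(x : F), Units.val_mul _ _⟩

theorem exists_nonsq {c : Fˣ} (hc : ¬ IsSquare c) : ∃ (b : F) (ν : Fˣ), (ν : F) = 1 - (c : F) * b ^ 2 ∧ ¬ IsSquare ν := by
  classical
  by_contra hcon
  push Not at hcon
  have hnz : ∀ b : F, 1 - (c : F) * b ^ 2 ≠ 0 := by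
    intro b hb
    apply hc
    have hb0 : b ≠ 0 := by
      rintro rfl
      simp at hb
    rw [← isSquare_units]
    refine ⟨b⁻¹, ?_⟩
    have : (c : F) * b ^ 2 = 1 := by linear_combination -hb
    field_simp
    linear_combination this
  have hsq : ∀ b : F, IsSquare (1 - (c : F) * b ^ 2) := by
    intro b
    have := hcon b (Units.mk0 _ (hnz b)) rfl
    rw [← isSquare_units, Units.val_mk0] at this
    exact this
  -- the map on squares
  let S : Type _ := {x : F // IsSquare x}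
  let f : S → S := fun s => ⟨1 - (c : F) * s.1, by
    obtain ⟨y, hy⟩ := s.2
    rw [hy, ← pow_two]
    exact hsq y⟩
  have hinj : Function.Injective f := by
    intro s t hst
    have h1 := congrArg Subtype.val hst
    change 1 - (c : F) * s.1 = 1 - (c : F) * t.1 at h1
    apply Subtype.ext
    have h2 : (c : F) * s.1 = (c : F) * t.1 := by linear_combination -h1
    exact mul_left_cancel₀ c.ne_zero h2
  have hsurj : Function.Surjective f := Finite.surjective_of_injective hinj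
  obtain ⟨s, hs⟩ := hsurj ⟨0, ⟨0, by ring⟩⟩
  have h1 := congrArg Subtype.val hs
  change 1 - (c : F) * s.1 = 0 at h1
  obtain ⟨y, hy⟩ := s.2
  rw [hy, ← pow_two] at h1
  exact hnz y h1

end sq

variable {D : ChevalleyDatum} {N : ℕ} {η : ℕ → ℕ → ℤ} {rc : ℕ → ℕ → ℤ} {F : Type*} [Field F]

/-- parity conditions on the root data -/
structure OddData (D : ChevalleyDatum) (rc : ℕ → ℕ → ℤ) : Prop where
  orth : ∀ i < D.rank, ∀ j < D.rank, D.cartan i (D.simple j) % 2 = 0 → D.cartan j (D.simple i) % 2 = 0 → i ≠ j →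
    D.cartan i (D.simple j) = 0
  lev : ∀ j < D.rank, ∃ c : ℤ, (∑ r ∈ Finset.range D.nroots, if rc r j = c then D.cartan j r else 0) % 2 = 1

variable (hG : Good D N η rc) (hE : Ext D rc)

include hG

theorem pos_of_rc {r : Fin D.nroots} {j : ℕ} (hj : j < D.rank) (h : 0 < rc r j) : N ≤ (r : ℕ) := by
  by_contra hcon
  have := hG.rc_neg_root r.2 (by omega) j hj
  omega

theorem neg_simple_of_min {w : hG.W} (hw2 : w * w = 1) (hmin : ∀ i, len hG.s w ≤ len hG.s (hG.s i * w * hG.s i))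
    (i : Fin D.rank) (hi : (w.1 (hG.sr i) : ℕ) < N) : w.1 (hG.sr i) = hG.ngf (hG.sr i) := by
  by_contra hne
  have h1 := hG.lt_iff_len.1 hi
  have hwi : w⁻¹ = w := inv_eq_of_mul_eq_one_left hw2
  have h2 : ((hG.s i * w).1 (hG.sr i) : ℕ) < N := by
    change ((hG.s i).1 (w.1 (hG.sr i)) : ℕ) < N
    have h3 : N ≤ (hG.ngf (w.1 (hG.sr i)) : ℕ) := hG.N_le_neg (w.1 (hG.sr i)).2 hi
    have h4 : hG.ngf (w.1 (hG.sr i)) ≠ hG.sr i := by
      intro h
      apply hne
      have h5 : w.1 (hG.sr i) = hG.ngf (hG.ngf (w.1 (hG.sr i))) := (Fin.ext (hG.neg_neg' (w.1 (hG.sr i)).2)).symm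
      rw [h5, h]
    have h5 := hG.s_pos (i := i) h3 h4
    rw [hG.W_neg] at h5
    by_contra hcon
    push Not at hcon
    have h6 := (hG.ngf_lt_iff ((hG.s i).1 (w.1 (hG.sr i)))).2 hcon
    omega
  have h3 := hG.lt_iff_len.1 h2
  have h4 : len hG.s (hG.s i * w) = len hG.s (w * hG.s i) := by
    have : hG.s i * w = (w * hG.s i)⁻¹ := by rw [mul_inv_rev, hG.genInv.inv_eq, hwi]
    rw [this, hG.genInv.len_inv]
  have h5 := hmin i
  omega

theorem QJ {J : Set ℕ} {j : Fin D.rank} (horth : ∀ k : Fin D.rank, (k : ℕ) ∈ J → k ≠ j → D.cartan j (D.simple k) = 0)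
    {w : hG.W} (hw : w ∈ Subgroup.closure {x | ∃ i : Fin D.rank, i ∈ {i : Fin D.rank | (i : ℕ) ∈ J} ∧ x = hG.s i}) :
    (∀ r : Fin D.nroots, rc (w.1 r) j = rc r j ∧ D.cartan j (w.1 r) = D.cartan j r) ∨
    (∀ r : Fin D.nroots, rc (w.1 r) j = rc r j - D.cartan j r ∧ D.cartan j (w.1 r) = - D.cartan j r) := by
  induction hw using Subgroup.closure_induction with
  | mem x hx =>
    obtain ⟨i, hi, rfl⟩ := hx
    by_cases hij : i = j
    · subst hij
      right
      intro r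
      rw [hG.s_val, hG.rc_w i i.2 i i.2 r r.2, if_pos rfl, hG.cartan_w i i.2 i i.2 r r.2, hG.cartan_diag i i.2]
      exact ⟨rfl, by ring⟩
    · left
      intro r
      rw [hG.s_val, hG.rc_w i i.2 j j.2 r r.2, if_neg (fun h => hij (Fin.ext h.symm)), hG.cartan_w i i.2 j j.2 r r.2,
        horth i hi hij]
      exact ⟨by ring, by ring⟩
  | one => left; intro r; exact ⟨rfl, rfl⟩
  | mul a b _ _ ha hb =>
    rcases ha with ha | ha <;> rcases hb with hb | hb
    · left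
      intro r
      change rc (a.1 (b.1 r)) j = _ ∧ D.cartan j (a.1 (b.1 r)) = _
      rw [(ha _).1, (ha _).2, (hb _).1, (hb _).2]
      exact ⟨rfl, rfl⟩
    · right
      intro r
      change rc (a.1 (b.1 r)) j = _ ∧ D.cartan j (a.1 (b.1 r)) = _
      rw [(ha _).1, (ha _).2, (hb _).1, (hb _).2]
      exact ⟨rfl, rfl⟩
    · right
      intro r
      change rc (a.1 (b.1 r)) j = _ ∧ D.cartan j (a.1 (b.1 r)) = _
      rw [(ha _).1, (ha _).2, (hb _).1, (hb _).2]
      exact ⟨rfl, rfl⟩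
    · left
      intro r
      change rc (a.1 (b.1 r)) j = _ ∧ D.cartan j (a.1 (b.1 r)) = _
      rw [(ha _).1, (ha _).2, (hb _).1, (hb _).2]
      exact ⟨by ring, by ring⟩
  | inv a _ ha =>
    have e : ∀ r : Fin D.nroots, a.1 ((a⁻¹).1 r) = r := fun r => Equiv.apply_symm_apply a.1 r
    rcases ha with ha | ha
    · left
      intro r
      have h1 := ha ((a⁻¹).1 r)
      rw [e] at h1
      exact ⟨h1.1.symm, h1.2.symm⟩
    · right
      intro r
      have h1 := ha ((a⁻¹).1 r)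
      rw [e] at h1
      exact ⟨by linarith [h1.1, h1.2], by linarith [h1.2]⟩

include hE

theorem mem_WJ {w : hG.W} (hw2 : w * w = 1) (hneg : ∀ i : Fin D.rank, (w.1 (hG.sr i) : ℕ) < N → w.1 (hG.sr i) = hG.ngf (hG.sr i)) :
    w ∈ Subgroup.closure {x | ∃ i : Fin D.rank, i ∈ {i : Fin D.rank | (i : ℕ) ∈
      {j : ℕ | ∃ h : j < D.rank, (w.1 (hG.sr ⟨j, h⟩) : ℕ) < N}} ∧ x = hG.s i} := by
  set J : Set ℕ := {j : ℕ | ∃ h : j < D.rank, (w.1 (hG.sr ⟨j, h⟩) : ℕ) < N} with hJ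
  have hJm : ∀ i : Fin D.rank, (i : ℕ) ∈ J ↔ (w.1 (hG.sr i) : ℕ) < N := fun i => ⟨fun ⟨_, h⟩ => h, fun h => ⟨i.2, h⟩⟩
  apply WJ_of_rad hG hE _ w rfl
  rintro r ⟨⟨hr1, hr2⟩, hr3⟩
  have hww : ∀ x : Fin D.nroots, w.1 (w.1 x) = x := by
    intro x
    have := congrArg (fun v : hG.W => v.1 x) hw2
    exact this
  obtain ⟨k0, hk0, hk0J, hk0r⟩ : ∃ k, ∃ _ : k < D.rank, k ∉ J ∧ rc r k ≠ 0 := by
    by_contra hcon
    push Not at hcon
    exact hr3 ⟨hr2, fun i hi hiJ => hcon i hi hiJ⟩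
  have hk0pos : 0 < rc r k0 := lt_of_le_of_ne (hG.rc_pos r hr2 hr1 k0 hk0) (Ne.symm hk0r)
  -- coordinates of `w (sr k)` for `k ∈ J`
  have hkJ : ∀ k : Fin D.rank, (k : ℕ) ∈ J → ∀ j < D.rank, rc (w.1 (hG.sr k)) j = -(if j = k then 1 else 0) := by
    intro k hk j hj
    rw [hneg k ((hJm k).1 hk)]
    change rc (D.neg (D.simple k)) j = _
    rw [hG.rc_neg j hj _ (hG.simple_lt k k.2), hG.rc_simple k k.2 j hj]
  have hkN : ∀ k : Fin D.rank, (k : ℕ) ∉ J → ∀ j < D.rank, 0 ≤ rc (w.1 (hG.sr k)) j := by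
    intro k hk j hj
    have h1 : N ≤ (w.1 (hG.sr k) : ℕ) := by
      by_contra hcon
      exact hk ((hJm k).2 (by omega))
    exact hG.rc_pos _ (w.1 (hG.sr k)).2 h1 j hj
  -- a coordinate outside `J`
  obtain ⟨j0, hj0, hj0J, hj0r⟩ : ∃ j, ∃ _ : j < D.rank, j ∉ J ∧ 0 < rc (w.1 (hG.sr ⟨k0, hk0⟩)) j := by
    by_contra hcon
    push Not at hcon
    have hz : ∀ k < D.rank, k ∉ J → rc (w.1 (hG.sr ⟨k0, hk0⟩)) k = 0 := fun k hk hkJ' =>
      le_antisymm (hcon k hk hkJ') (hkN ⟨k0, hk0⟩ hk0J k hk)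
    have h1 := hG.rc_W w (w.1 (hG.sr ⟨k0, hk0⟩)) k0 hk0
    rw [hww] at h1
    have h2 : rc (hG.sr ⟨k0, hk0⟩) k0 = 1 := by
      change rc (D.simple k0) k0 = 1
      rw [hG.rc_simple k0 hk0 k0 hk0, if_pos rfl]
    rw [h2] at h1
    have h3 : ∑ k : Fin D.rank, rc (w.1 (hG.sr ⟨k0, hk0⟩)) k * rc (w.1 (hG.sr k)) k0 = 0 := by
      apply Finset.sum_eq_zero
      intro k _
      by_cases hkJ' : (k : ℕ) ∈ J
      · rw [hkJ k hkJ' k0 hk0, if_neg (fun h => hk0J (by rw [h]; exact hkJ')), neg_zero, mul_zero]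
      · rw [hz k k.2 hkJ', zero_mul]
    omega
  have hmain : 0 < rc (w.1 r) j0 := by
    rw [hG.rc_W w r j0 hj0]
    have hnn : ∀ k ∈ (Finset.univ : Finset (Fin D.rank)), 0 ≤ rc r k * rc (w.1 (hG.sr k)) j0 := by
      intro k _
      by_cases hkJ' : (k : ℕ) ∈ J
      · rw [hkJ k hkJ' j0 hj0, if_neg (fun h => hj0J (by rw [h]; exact hkJ')), neg_zero, mul_zero]
      · exact mul_nonneg (hG.rc_pos r hr2 hr1 k k.2) (hkN k hkJ' j0 hj0)
    refine lt_of_lt_of_le (mul_pos hk0pos hj0r) ?_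
    exact Finset.single_le_sum hnn (Finset.mem_univ ⟨k0, hk0⟩)
  refine ⟨⟨pos_of_rc hG hj0 hmain, (w.1 r).2⟩, ?_⟩
  intro h
  have := h.2 j0 hj0 hj0J
  omega

theorem ng_sq (i : Fin D.rank) : ng D F i * ng D F i = hgr D F (D.simple i) ((-1 : Fˣ) : F) := by
  have h1 : hgr D F (D.simple i) ((-1 : Fˣ) : F) = (ng D F i * ng D F i)⁻¹ := by
    unfold hgr ng
    have : ((-1 : Fˣ) : F) = -1 := by push_cast; rfl
    rw [this, hG.ngr_neg_one, mul_inv_rev]
  have h2 : hgr D F (D.simple i) ((-1 : Fˣ) : F) * hgr D F (D.simple i) ((-1 : Fˣ) : F) = 1 := by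
    rw [hG.hgr_mul (hG.simple_lt i i.2)]
    have : ((-1 : Fˣ) * (-1) : Fˣ) = 1 := by simp
    rw [this, Units.val_one]
    unfold hgr
    rw [hG.ngr_neg_one, mul_inv_cancel]
  rw [h1] at h2 ⊢
  exact (eq_inv_of_mul_eq_one_left h2).trans (by rw [inv_inv]) |>.symm

theorem ngr_mono (i : Fin D.rank) (c : Fˣ) : ngr D F (D.simple i) (c : F) ∈ D.monomialSubgroup F := by
  have q1 : ngr D F (D.simple i) (c : F) = hgr D F (D.simple i) (c : F) * ng D F i := by
    unfold hgr ng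
    rw [hG.ngr_neg_one, inv_mul_cancel_right]
  rw [q1]
  refine mul_mem ?_ (hG.ng_mem_monomial i.2)
  rw [hG.monomial_eq hE]
  refine Subgroup.mem_sup_right ?_
  rw [hG.diagonalSubgroup_eq]
  exact Subgroup.subset_closure ⟨_, _, hG.simple_lt i i.2, c.ne_zero, rfl⟩

/-- **involutions are conjugate into the torus** -/
theorem to_torus (hOD : OddData D rc) [Fintype F] (hF : Odd (Fintype.card F)) {g : GL D.Idx F} (hg : g ∈ D.group F)
    (hg2 : g * g = 1) : ∃ h ∈ D.group F, ∃ t ∈ D.diagonalSubgroup F, h * g * h⁻¹ = t := by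
  classical
  have h2 := two_ne hF
  -- choose a conjugate monomial element with Weyl part of minimal length
  have hex : ∃ k, ∃ n ∈ D.monomialSubgroup F, ∃ (w : hG.W) (χ : Fin D.nroots → Fˣ), Mon hG (xg D F) n w χ ∧
      len hG.s w = k ∧ ∃ h ∈ D.group F, h * g * h⁻¹ = n := by
    obtain ⟨h, hh, n, hn, he⟩ := to_mono hG hE hF hg hg2
    obtain ⟨w, χ, hm⟩ := hG.exists_mon hE hn
    exact ⟨_, n, hn, w, χ, hm, rfl, h, hh, he⟩
  obtain ⟨n, hn, w, χ, hm, hlen, h, hh, he⟩ := Nat.find_spec hex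
  have hmin : ∀ n' ∈ D.monomialSubgroup F, ∀ (w' : hG.W) (χ' : Fin D.nroots → Fˣ), Mon hG (xg D F) n' w' χ' →
      (∃ h ∈ D.group F, h * g * h⁻¹ = n') → len hG.s w ≤ len hG.s w' := by
    intro n' hn' w' χ' hm' hc'
    rw [hlen]
    exact Nat.find_min' hex ⟨n', hn', w', χ', hm', rfl, hc'⟩
  have hn2 : n * n = 1 := by
    rw [← he]
    have : h * g * h⁻¹ * (h * g * h⁻¹) = h * (g * g) * h⁻¹ := by group
    rw [this, hg2]; group
  have hw2 : w * w = 1 := by
    have h3 := hm.mul hm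
    rw [hn2] at h3
    exact hG.mon_unique hE h3 Mon.one
  have hwi : w⁻¹ = w := inv_eq_of_mul_eq_one_left hw2
  have hmin' : ∀ i, len hG.s w ≤ len hG.s (hG.s i * w * hG.s i) := by
    intro i
    obtain ⟨χi, hmi⟩ := hG.mon_ng (F := F) hE i
    have h3 := (hmi.mul hm).mul hmi.inv
    rw [hG.genInv.inv_eq] at h3
    refine hmin _ (mul_mem (mul_mem (hG.ng_mem_monomial i.2) hn) (inv_mem (hG.ng_mem_monomial i.2))) _ _ h3
      ⟨ng D F i * h, mul_mem (hG.ng_mem_group i) hh, ?_⟩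
    rw [← he]; group
  have hneg := neg_simple_of_min hG hw2 hmin'
  by_cases hw1 : w = 1
  · subst hw1
    exact ⟨h, hh, n, hG.mem_diagonal_of_mon hE hn hm, he⟩
  exfalso
  -- (a) no square parameters
  have ha : ∀ n' ∈ D.monomialSubgroup F, ∀ χ' : Fin D.nroots → Fˣ, Mon hG (xg D F) n' w χ' →
      (∃ h ∈ D.group F, h * g * h⁻¹ = n') → ∀ j : Fin D.rank, (w.1 (hG.sr j) : ℕ) < N → ¬ IsSquare (χ' (hG.sr j)) := by
    rintro n' hn' χ' hm' ⟨h', hh', he'⟩ j hj ⟨a, ha⟩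
    obtain ⟨x, hx, hxe⟩ := lemma_B hG hE h2 hm' (hneg j hj) (a := a) (by rw [ha, pow_two])
    obtain ⟨wj, χj, hmj⟩ := hG.exists_mon (F := F) hE (ngr_mono hG hE j a⁻¹)
    have hwj : wj = hG.s j := by
      have h4 := hG.mon_nX (F := F) (hG.rdn hE) j a⁻¹
      exact hG.mon_unique hE hmj h4
    subst hwj
    have h5 := hmin _ (mul_mem (ngr_mono hG hE j a⁻¹) hn') _ _ (hmj.mul hm') ⟨x * h', mul_mem hx hh', by
      rw [← hxe, ← he']; group⟩
    have h6 := hG.lt_iff_len.1 hj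
    have h7 : len hG.s (hG.s j * w) = len hG.s (w * hG.s j) := by
      have : hG.s j * w = (w * hG.s j)⁻¹ := by rw [mul_inv_rev, hG.genInv.inv_eq, hwi]
      rw [this, hG.genInv.len_inv]
    omega
  have hcn : ∃ h ∈ D.group F, h * g * h⁻¹ = n := ⟨h, hh, he⟩
  -- (b) orthogonality
  have hb : ∀ j k : Fin D.rank, (w.1 (hG.sr j) : ℕ) < N → (w.1 (hG.sr k) : ℕ) < N → D.cartan j (D.simple k) % 2 = 0 := by
    intro j k hj hk
    by_contra hodd
    have hodd' : Odd (D.cartan j (D.simple k)) := by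
      rw [Int.odd_iff]; omega
    obtain ⟨b, ν, hν, hνs⟩ := exists_nonsq (ha n hn χ hm hcn j hj)
    obtain ⟨x, hx, hxe⟩ := lemma_A hG hE hm (hneg j hj) hν
    have hhd : hgr D F (D.simple j) (ν : F) ∈ D.diagonalSubgroup F := by
      rw [hG.diagonalSubgroup_eq]
      exact Subgroup.subset_closure ⟨_, _, hG.simple_lt j j.2, ν.ne_zero, rfl⟩
    have hhN : hgr D F (D.simple j) (ν : F) ∈ D.monomialSubgroup F := by
      rw [hG.monomial_eq hE]; exact Subgroup.mem_sup_right hhd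
    have hmh : Mon hG (xg D F) (hgr D F (D.simple j) (ν : F)) 1 (fun r => ν ^ D.cartan j r) := by
      constructor
      · intro r t
        have h3 := hG.tor_conj_xg (F := F) (hG.isChr_pairing (D.simple j) ν) r.2 t
        rw [hG.hgr_eq_tor _ (hG.simple_lt j j.2), h3, hG.pairing_simple j.2 r.2]
        rfl
      · intro r
        change ν ^ D.cartan j (D.neg r) = _
        rw [hG.cartan_neg j.2 r.2, zpow_neg]
    have hm' := hmh.mul hm
    rw [one_mul] at hm'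
    have h3 := ha _ (mul_mem hhN hn) _ hm' ⟨x * h, mul_mem hx hh, by rw [← hxe, ← he]; group⟩ k hk
    apply h3
    apply isSquare_mul_of_not
    · apply not_isSquare_zpow hνs
      rw [hneg k hk]
      change Odd (D.cartan j (D.neg (D.simple k)))
      rw [hG.cartan_neg j.2 (hG.simple_lt k k.2)]
      exact hodd'.neg
    · exact ha n hn χ hm hcn k hk
  -- (c)
  obtain ⟨j, hj⟩ : ∃ j : Fin D.rank, (w.1 (hG.sr j) : ℕ) < N := by
    by_contra hcon
    push Not at hcon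
    exact hw1 (hG.eq_one_of_pos hcon)
  have hWJ := mem_WJ hG hE hw2 hneg
  have hQ := QJ hG (j := j) (by
    rintro k ⟨_, hk⟩ hkj
    exact hOD.orth j j.2 k k.2 (hb j k hj hk) (hb k j hk hj) (fun h => hkj (Fin.ext h.symm))) hWJ
  have hrcj : rc (hG.sr j) j = 1 := by
    change rc (D.simple j) j = 1
    rw [hG.rc_simple j j.2 j j.2, if_pos rfl]
  have hrcj' : rc (hG.ngf (hG.sr j)) j = -1 := by
    change rc (D.neg (D.simple j)) j = -1
    rw [hG.rc_neg j j.2 _ (hG.simple_lt j j.2), hG.rc_simple j j.2 j j.2, if_pos rfl]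
  have hQ2 : ∀ r : Fin D.nroots, rc (w.1 r) j = rc r j - D.cartan j r ∧ D.cartan j (w.1 r) = - D.cartan j r := by
    rcases hQ with hQ | hQ
    · exfalso
      have := (hQ (hG.sr j)).1
      rw [hneg j hj, hrcj, hrcj'] at this
      omega
    · exact hQ
  obtain ⟨χj, hmj⟩ := hG.mon_ng (F := F) hE j
  obtain ⟨m, hmdef⟩ : ∃ m, m = (ng D F j)⁻¹ * n := ⟨_, rfl⟩
  have hnm : n = ng D F j * m := by rw [hmdef]; group
  obtain ⟨χm, hmm⟩ : ∃ χm, Mon hG (xg D F) m (hG.s j * w) χm := by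
    have h3 := hmj.inv.mul hm
    rw [hG.genInv.inv_eq, ← hmdef] at h3
    exact ⟨_, h3⟩
  set wm := hG.s j * w with hwm
  have hwmj : wm.1 (hG.sr j) = hG.sr j := by
    change (hG.s j).1 (w.1 (hG.sr j)) = hG.sr j
    rw [hneg j hj, hG.W_neg, hG.s_sr]
    exact Fin.ext (hG.neg_neg' (hG.sr j).2)
  set β := χm (hG.sr j) with hβ
  -- the parameter of `n` at `j`
  have hχj : (χ (hG.sr j) : F) = -(β : F) := by
    have h3 := hm.act (hG.sr j) 1
    have h4 := hmm.act (hG.sr j) 1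
    rw [hwmj, ← hβ] at h4
    have h5 := nX1 hG hE j.2 (1 : Fˣ) ((β : F) * 1)
    rw [hneg j hj] at h3
    have h6 : n * xg D F (hG.sr j) 1 * n⁻¹ = ng D F j * (m * xg D F (hG.sr j) 1 * m⁻¹) * (ng D F j)⁻¹ := by
      rw [hnm]; group
    rw [h6, h4] at h3
    have h7 : ng D F j * xg D F (hG.sr j) ((β : F) * 1) * (ng D F j)⁻¹ =
        ngr D F (D.simple j) ((1 : Fˣ) : F) * xg D F (D.simple j) ((β : F) * 1) * (ngr D F (D.simple j) ((1 : Fˣ) : F))⁻¹ := by
      rw [Units.val_one]; rfl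
    rw [h7, h5] at h3
    have h8 := hG.xg_inj' hE (hG.neg_lt' (hG.simple_lt j j.2)) h3
    rw [mul_one, mul_one] at h8
    rw [← h8]
    simp
  -- the square of `m`
  have hm2 : m * m = hgr D F (D.simple j) ((-β : Fˣ) : F) := by
    have h3 : m * ng D F j * m⁻¹ = ngr D F (D.simple j) (β : F) := by
      have h4 := hmm.conj_nX (hG.sr j) 1
      rw [hwmj, ← hβ, mul_one] at h4
      exact h4
    have h4 : ngr D F (D.simple j) (β : F) = hgr D F (D.simple j) (β : F) * ng D F j := by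
      unfold hgr ng
      rw [hG.ngr_neg_one, inv_mul_cancel_right]
    have h5 : ng D F j * hgr D F (D.simple j) (β : F) = hgr D F (D.simple j) ((β⁻¹ : Fˣ) : F) * ng D F j := by
      have h3 := hG.ng_conj_hgr (F := F) j.2 (hG.simple_lt j j.2) β
      rw [hG.w_simple] at h3
      rw [← mul_inv_eq_iff_eq_mul, h3, hG.hgr_eq_tor _ (hG.neg_lt' (hG.simple_lt j j.2)), hG.hgr_eq_tor _ (hG.simple_lt j j.2),
        tor_eq_iff]
      intro r hr
      rw [hG.pairing_neg_left (hG.simple_lt j j.2), zpow_neg, inv_zpow]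
    have h6 : n * n = (hgr D F (D.simple j) ((β⁻¹ : Fˣ) : F) * hgr D F (D.simple j) ((-1 : Fˣ) : F)) * (m * m) := by
      calc n * n = ng D F j * (m * ng D F j * m⁻¹) * (m * m) := by rw [hnm]; group
        _ = (ng D F j * hgr D F (D.simple j) (β : F)) * ng D F j * (m * m) := by rw [h3, h4]; group
        _ = hgr D F (D.simple j) ((β⁻¹ : Fˣ) : F) * (ng D F j * ng D F j) * (m * m) := by rw [h5]; group
        _ = _ := by rw [ng_sq hG hE]
    rw [hn2, hG.hgr_mul (hG.simple_lt j j.2)] at h6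
    have h7 : hgr D F (D.simple j) ((-β : Fˣ) : F) * hgr D F (D.simple j) ((β⁻¹ * -1 : Fˣ) : F) = 1 := by
      rw [hG.hgr_mul (hG.simple_lt j j.2)]
      have : (-β * (β⁻¹ * -1) : Fˣ) = 1 := by simp
      rw [this, Units.val_one]
      unfold hgr
      rw [hG.ngr_neg_one, mul_inv_cancel]
    have h8 : m * m = hgr D F (D.simple j) ((-β : Fˣ) : F) * (hgr D F (D.simple j) ((β⁻¹ * -1 : Fˣ) : F) * (m * m)) := by
      calc m * m = 1 * (m * m) := (one_mul _).symm
        _ = (hgr D F (D.simple j) ((-β : Fˣ) : F) * hgr D F (D.simple j) ((β⁻¹ * -1 : Fˣ) : F)) * (m * m) := by rw [h7]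
        _ = _ := mul_assoc _ _ _
    rw [h8, ← h6, mul_one]
  set c : Fˣ := -β with hc
  have hcχ : χ (hG.sr j) = c := Units.ext (by rw [hχj, hc]; push_cast; rfl)
  -- parameters
  have hpar : ∀ r : Fin D.nroots, χm (wm.1 r) * χm r = c ^ D.cartan j r := by
    intro r
    have h3 := (hmm.mul hmm).act r 1
    have h4 := hG.tor_conj_xg (F := F) (hG.isChr_pairing (D.simple j) c) r.2 1
    rw [← hG.hgr_eq_tor _ (hG.simple_lt j j.2), ← hm2, h3] at h4
    have h5 : (((wm * wm).1 r : Fin D.nroots) : ℕ) = r := by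
      exact hG.xg_inj hE ((wm * wm).1 r).2 r.2 (by simp) h4
    rw [h5] at h4
    have h6 := hG.xg_inj' hE r.2 h4
    rw [mul_one, mul_one, hG.pairing_simple j.2 r.2] at h6
    exact Units.ext h6
  obtain ⟨c0, hc0⟩ := hOD.lev j j.2
  set R : Finset (Fin D.nroots) := Finset.univ.filter fun r => rc r j = c0 with hR
  have hwmR : ∀ r : Fin D.nroots, rc (wm.1 r) j = rc r j := by
    intro r
    change rc ((hG.s j).1 (w.1 r)) j = rc r j
    rw [hG.s_val, hG.rc_w j j.2 j j.2 _ (w.1 r).2, if_pos rfl, (hQ2 r).1, (hQ2 r).2]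
    ring
  have hprod : ∏ r ∈ R, χm (wm.1 r) = ∏ r ∈ R, χm r := by
    refine Finset.prod_bij (fun r _ => wm.1 r) ?_ ?_ ?_ ?_
    · intro r hr
      rw [hR, Finset.mem_filter] at hr ⊢
      exact ⟨Finset.mem_univ _, by rw [hwmR]; exact hr.2⟩
    · intro a _ b _ hab
      exact wm.1.injective hab
    · intro r hr
      rw [hR, Finset.mem_filter] at hr
      refine ⟨(wm⁻¹).1 r, ?_, Equiv.apply_symm_apply wm.1 r⟩
      rw [hR, Finset.mem_filter]
      refine ⟨Finset.mem_univ _, ?_⟩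
      rw [← hwmR]
      have : wm.1 ((wm⁻¹).1 r) = r := Equiv.apply_symm_apply wm.1 r
      rw [this]; exact hr.2
    · intro r _; rfl
  have hfin : (∏ r ∈ R, χm r) * (∏ r ∈ R, χm r) = c ^ (∑ r ∈ R, D.cartan j r) := by
    calc (∏ r ∈ R, χm r) * (∏ r ∈ R, χm r) = (∏ r ∈ R, χm (wm.1 r)) * (∏ r ∈ R, χm r) := by rw [hprod]
      _ = ∏ r ∈ R, (χm (wm.1 r) * χm r) := (Finset.prod_mul_distrib).symm
      _ = ∏ r ∈ R, c ^ D.cartan j r := Finset.prod_congr rfl fun r _ => hpar r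
      _ = _ := Cfsg.Agent.H6.zpow_fin_sum _ _ _
  have hodd : Odd (∑ r ∈ R, D.cartan j r) := by
    rw [Int.odd_iff, ← hc0, hR, Finset.sum_filter]
    congr 1
    exact Fin.sum_univ_eq_sum_range (fun r => if rc r j = c0 then D.cartan j r else 0) D.nroots
  have hns := ha n hn χ hm hcn j hj
  rw [hcχ] at hns
  exact not_isSquare_zpow hns hodd ⟨_, hfin.symm⟩

end Cfsg.Agent.H15.OInv
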