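import Cfsg.Agent.H15.OInv2

/-!
# Involutions of Chevalley groups in odd characteristic: torus involutions
-/

set_option autoImplicit false
set_option linter.unusedSectionVars false

namespace Cfsg.Agent.H15.OInv

open Cfsg.Agent.H6 Cfsg.Lie Cfsg.Agent.H22 Cfsg.Agent.H15.Chev
open scoped Matrix

/-- sign vector of a bit mask -/
def cv (F : Type*) [Field F] (v k : ℕ) : Fˣ := if v.testBit k then -1 else 1

/-- the torus involution of a bit mask -/
noncomputable def hv (D : ChevalleyDatum) (F : Type*) [Field F] (rc : ℕ → ℕ → ℤ) (v : ℕ) : GL D.Idx F :=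
  tor D F (chr D.rank rc (cv F v))

/-- action of the simple reflections on bit masks -/
def vact (M : List ℕ) (i v : ℕ) : ℕ := if v.testBit i then v ^^^ M.getD i 0 else v

/-- guided search -/
def orbchk (M T reps : List ℕ) : ℕ → ℕ → Bool
  | 0, v => reps.contains v
  | (f + 1), v => reps.contains v || orbchk M T reps f (vact M (T.getD v 0) v)

variable {D : ChevalleyDatum} {N : ℕ} {η : ℕ → ℕ → ℤ} {rc : ℕ → ℕ → ℤ} {F : Type*} [Field F]
variable (hG : Good D N η rc)

include hG

theorem chr_of_cartan (c : ℕ → Fˣ) {r : ℕ} (hr : r < D.nroots) : (∏ k ∈ Finset.range D.rank, c k ^ D.cartan k r) =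
    chr D.rank rc (fun m => ∏ k ∈ Finset.range D.rank, c k ^ D.cartan k (D.simple m)) r := by
  unfold chr
  rw [Finset.prod_congr rfl fun k hk => by rw [hG.cartan_rc' (Finset.mem_range.1 hk) hr, Cfsg.Agent.H6.zpow_finset_sum]]
  rw [Finset.prod_comm]
  refine Finset.prod_congr rfl fun m _ => ?_
  rw [← Finset.prod_zpow]
  refine Finset.prod_congr rfl fun k _ => ?_
  rw [← zpow_mul, mul_comm]

theorem eq_hv {t : GL D.Idx F} (ht : t ∈ D.diagonalSubgroup F) (h2 : t * t = 1) : ∃ v < 2 ^ D.rank, t = hv D F rc v := by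
  classical
  obtain ⟨c, rfl⟩ := hG.mem_diagonal_iff.1 ht
  have h3 : ∀ r < D.nroots, (∏ k ∈ Finset.range D.rank, c k ^ D.cartan k r) * (∏ k ∈ Finset.range D.rank, c k ^ D.cartan k r) = 1 := by
    rw [← tor_mul, ← tor_one, tor_eq_iff] at h2
    intro r hr
    exact h2 r hr
  refine ⟨Nat.ofBits (fun i : Fin D.rank => decide ((∏ k ∈ Finset.range D.rank, c k ^ D.cartan k (D.simple i)) = -1)), Nat.ofBits_lt_two_pow _, ?_⟩
  unfold hv
  rw [tor_eq_iff]
  intro r hr
  rw [chr_of_cartan hG c hr]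
  unfold chr
  refine Finset.prod_congr rfl fun m hm => ?_
  congr 1
  unfold cv
  rw [Nat.testBit_ofBits_lt _ _ (Finset.mem_range.1 hm)]
  have h4 := h3 _ (hG.simple_lt m (Finset.mem_range.1 hm))
  by_cases h5 : (∏ k ∈ Finset.range D.rank, c k ^ D.cartan k (D.simple m)) = -1
  · simp only [h5, decide_true, if_true]
  · simp only [h5, decide_false, Bool.false_eq_true, if_false]
    have h6 : ((∏ k ∈ Finset.range D.rank, c k ^ D.cartan k (D.simple m) : Fˣ) : F) * ((∏ k ∈ Finset.range D.rank, c k ^ D.cartan k (D.simple m) : Fˣ) : F) = 1 := by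
      rw [← Units.val_mul, h4, Units.val_one]
    rcases mul_self_eq_one_iff.1 h6 with h7 | h7
    · exact Units.ext (by rw [h7, Units.val_one])
    · exact absurd (Units.ext (by rw [h7]; push_cast; rfl)) h5

theorem zpow_neg_one_parity (n : ℤ) : ((-1 : Fˣ)) ^ n = if n % 2 = 1 then -1 else 1 := by
  split_ifs with h
  · exact (Int.odd_iff.2 h).neg_one_zpow
  · exact (Int.even_iff.2 (by omega)).neg_one_zpow

theorem ng_conj_hv {M : List ℕ} (hM : ∀ i < D.rank, ∀ k < D.rank, (M.getD i 0).testBit k = decide (D.cartan i (D.simple k) % 2 = 1))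
    {i : ℕ} (hi : i < D.rank) (v : ℕ) : ng D F i * hv D F rc v * (ng D F i)⁻¹ = hv D F rc (vact M i v) := by
  unfold hv
  rw [hG.ng_conj_tor hi, tor_eq_iff]
  intro r hr
  have h1 : chr D.rank rc (cv F v) (D.reflectRoot i r) = chr D.rank rc (cv F v) r * (cv F v i ^ D.cartan i r)⁻¹ := by
    unfold chr
    have h2 : ∀ k ∈ Finset.range D.rank, cv F v k ^ rc (D.reflectRoot i r) k =
        cv F v k ^ rc r k * (if k = i then (cv F v i ^ D.cartan i r)⁻¹ else 1) := by
      intro k hk
      rw [hG.rc_w i hi k (Finset.mem_range.1 hk) r hr]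
      split_ifs with h
      · subst h
        rw [zpow_sub]
      · rw [sub_zero, mul_one]
    rw [Finset.prod_congr rfl h2, Finset.prod_mul_distrib]
    congr 1
    rw [Finset.prod_ite_eq' (Finset.range D.rank) i, if_pos (Finset.mem_range.2 hi)]
  rw [h1, hG.cartan_rc' hi hr, Cfsg.Agent.H6.zpow_finset_sum, ← Finset.prod_inv_distrib]
  unfold chr
  rw [← Finset.prod_mul_distrib]
  refine Finset.prod_congr rfl fun k hk => ?_
  have h3 : (cv F v i ^ (rc r k * D.cartan i (D.simple k)))⁻¹ = ((cv F v i ^ D.cartan i (D.simple k))⁻¹) ^ rc r k := by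
    rw [inv_zpow, ← zpow_mul, mul_comm]
  rw [h3, ← mul_zpow]
  congr 1
  have h4 := hM i hi k (Finset.mem_range.1 hk)
  unfold vact
  by_cases h5 : v.testBit i
  · rw [if_pos h5]
    unfold cv
    rw [Nat.testBit_xor, h4, if_pos h5, zpow_neg_one_parity hG]
    by_cases h6 : D.cartan i (D.simple k) % 2 = 1
    · simp only [h6, if_true, decide_true]
      cases v.testBit k <;> simp
    · simp only [h6, if_false, decide_false]
      cases v.testBit k <;> simp
  · rw [if_neg h5]
    have : cv F v i = 1 := by unfold cv; rw [if_neg h5]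
    rw [this]; simp

theorem orb_spec {M T reps : List ℕ} (hM : ∀ i < D.rank, ∀ k < D.rank, (M.getD i 0).testBit k = decide (D.cartan i (D.simple k) % 2 = 1))
    (hT : ∀ v < 2 ^ D.rank, T.getD v 0 < D.rank) (hTl : ∀ v < 2 ^ D.rank, vact M (T.getD v 0) v < 2 ^ D.rank) : ∀ (f v : ℕ), v < 2 ^ D.rank → orbchk M T reps f v = true →
    ∃ h ∈ D.group F, ∃ j ∈ reps, h * hv D F rc v * h⁻¹ = hv D F rc j := by
  intro f
  induction f with
  | zero =>
    intro v hv' h
    simp only [orbchk, List.contains_iff_mem] at h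
    exact ⟨1, one_mem _, v, h, by group⟩
  | succ f ih =>
    intro v hv' h
    simp only [orbchk, Bool.or_eq_true, List.contains_iff_mem] at h
    rcases h with h | h
    · exact ⟨1, one_mem _, v, h, by group⟩
    · obtain ⟨x, hx, j, hj, he⟩ := ih _ (hTl v hv') h
      refine ⟨x * ng D F (T.getD v 0), mul_mem hx (hG.ng_mem_group _), j, hj, ?_⟩
      rw [← he, ← ng_conj_hv hG hM (hT v hv')]
      group

theorem hv_zero : hv D F rc 0 = 1 := by
  unfold hv
  rw [← tor_one, tor_eq_iff]
  intro r _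
  unfold chr cv
  simp

theorem hv_mul (v w : ℕ) : hv D F rc v * hv D F rc w = hv D F rc (v ^^^ w) := by
  unfold hv
  rw [← tor_mul, tor_eq_iff]
  intro r _
  rw [Pi.mul_apply]
  unfold chr
  rw [← Finset.prod_mul_distrib]
  refine Finset.prod_congr rfl fun k _ => ?_
  rw [← mul_zpow]
  congr 1
  unfold cv
  rw [Nat.testBit_xor]
  cases v.testBit k <;> cases w.testBit k <;> simp

theorem hv_sq (v : ℕ) : hv D F rc v * hv D F rc v = 1 := by
  rw [hv_mul hG, Nat.xor_self, hv_zero hG]

/-- membership certificate -/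
theorem hv_mem {u v : ℕ} (h : ∀ m < D.rank, (∑ k ∈ Finset.range D.rank, if u.testBit k then D.cartan k (D.simple m) else 0) % 2 =
    if v.testBit m then 1 else 0) : hv D F rc v ∈ D.diagonalSubgroup F := by
  rw [hG.mem_diagonal_iff]
  refine ⟨cv F u, ?_⟩
  unfold hv
  rw [tor_eq_iff]
  intro r hr
  rw [chr_of_cartan hG _ hr]
  unfold chr
  refine Finset.prod_congr rfl fun m hm => ?_
  congr 1
  have h1 : ∀ k ∈ Finset.range D.rank, cv F u k ^ D.cartan k (D.simple m) = (-1 : Fˣ) ^ (if u.testBit k then D.cartan k (D.simple m) else 0) := by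
    intro k _
    unfold cv
    split_ifs <;> simp
  change cv F v m = ∏ k ∈ Finset.range D.rank, cv F u k ^ D.cartan k (D.simple m)
  rw [Finset.prod_congr rfl h1, ← Cfsg.Agent.H6.zpow_finset_sum, zpow_neg_one_parity hG, h m (Finset.mem_range.1 hm)]
  unfold cv
  cases v.testBit m <;> simp

/-- **every involution is conjugate to a representative** -/
theorem inv_class (hE : Ext D rc) (hOD : OddData D rc) [Fintype F] (hF : Odd (Fintype.card F)) {M T reps : List ℕ}
    (hM : ∀ i < D.rank, ∀ k < D.rank, (M.getD i 0).testBit k = decide (D.cartan i (D.simple k) % 2 = 1))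
    (hT : ∀ v < 2 ^ D.rank, T.getD v 0 < D.rank) (hTl : ∀ v < 2 ^ D.rank, vact M (T.getD v 0) v < 2 ^ D.rank)
    {f : ℕ} (hf : ∀ v < 2 ^ D.rank, v ≠ 0 → orbchk M T reps f v = true)
    {g : GL D.Idx F} (hg : g ∈ D.group F) (hg2 : g * g = 1) (hg1 : g ≠ 1) :
    ∃ h ∈ D.group F, ∃ j ∈ reps, h * g * h⁻¹ = hv D F rc j := by
  obtain ⟨x, hx, t, ht, he⟩ := to_torus hG hE hOD hF hg hg2
  have ht2 : t * t = 1 := by
    rw [← he]
    have : x * g * x⁻¹ * (x * g * x⁻¹) = x * (g * g) * x⁻¹ := by group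
    rw [this, hg2]; group
  obtain ⟨v, hv', rfl⟩ := eq_hv hG ht ht2
  have hv0 : v ≠ 0 := by
    rintro rfl
    rw [hv_zero hG] at he
    apply hg1
    have : g = x⁻¹ * (x * g * x⁻¹) * x := by group
    rw [this, he]; group
  obtain ⟨y, hy, j, hj, he'⟩ := orb_spec (F := F) hG hM hT hTl f v hv' (hf v hv' hv0)
  refine ⟨y * x, mul_mem hy hx, j, hj, ?_⟩
  rw [← he', ← he]; group

end Cfsg.Agent.H15.OInv
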