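import Mathlib
import Cfsg.Agent.H15.SylowSym
import Cfsg.Agent.H15.SylowAlt5

set_option autoImplicit false
set_option linter.unusedSectionVars false

open Equiv MulAction

namespace Cfsg.Agent.H15

variable {α : Type*} [Fintype α] [DecidableEq α]

/-- membership in the stabiliser of the matching -/
theorem mem_normalizer_swapsIn_iff (P : Sylow 2 (Perm α)) (y : Perm α)
    (hy : y ∈ Subgroup.normalizer (swapsIn P)) (e : α) (he : partner P e ≠ e) :
    partner P (y e) = y (partner P e) := by
  have h1 := (Subgroup.mem_set_normalizer_iff.mp hy (swap e (partner P e))).mp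
    ((mem_swapsIn_iff P _).mpr ⟨e, he, rfl⟩)
  rw [← Equiv.swap_apply_apply] at h1
  exact partner_eq_of_mem P _ _ (fun h => he (y.injective h)) h1.2

/-- the stabiliser of a two-block partition -/
def halfStab (O : Set α) : Subgroup (Perm α) where
  carrier := {g | (∀ x, g x ∈ O ↔ x ∈ O) ∨ (∀ x, g x ∈ O ↔ x ∉ O)}
  mul_mem' := by
    rintro g h (hg | hg) (hh | hh)
    · left; intro x; rw [Perm.mul_apply, hg, hh]
    · right; intro x; rw [Perm.mul_apply, hg, hh]
    · right; intro x; rw [Perm.mul_apply, hg, hh]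
    · left; intro x; rw [Perm.mul_apply, hg, hh, not_not]
  one_mem' := by left; intro x; simp
  inv_mem' := by
    rintro g (hg | hg)
    · left; intro x
      have := hg (g⁻¹ x)
      rw [papp_inv] at this; exact this.symm
    · right; intro x
      have := hg (g⁻¹ x)
      rw [papp_inv] at this
      rw [this, not_not]

theorem swap_mem_halfStab (O : Set α) (x y : α) (h : x ∈ O ↔ y ∈ O) :
    swap x y ∈ halfStab O := by
  left
  intro z
  by_cases h1 : z = x
  · subst h1; rw [swap_apply_left]; exact h.symm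
  by_cases h2 : z = y
  · subst h2; rw [swap_apply_right]; exact h
  rw [swap_apply_of_ne_of_ne h1 h2]

theorem halfStab_ne_top (O : Set α) (a z c : α) (ha : a ∈ O) (hz : z ∈ O) (hc : c ∉ O)
    (haz : a ≠ z) : halfStab O ≠ ⊤ := by
  intro h
  have h1 : swap a c ∈ halfStab O := by rw [h]; trivial
  have hac : a ≠ c := by rintro rfl; exact hc ha
  rcases h1 with h1 | h1
  · have := (h1 a).mpr ha
    rw [swap_apply_left] at this
    exact hc this
  · have h2 := (h1 z).mp
    have hzc : z ≠ c := by rintro rfl; exact hc hz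
    rw [swap_apply_of_ne_of_ne haz.symm hzc] at h2
    exact h2 hz hz

theorem normalizer_swapsIn_ne_top (P : Sylow 2 (Perm α)) (h3 : 3 ≤ Fintype.card α) :
    Subgroup.normalizer (swapsIn P) ≠ ⊤ := by
  intro h
  have hex : ∃ a, partner P a ≠ a := by
    by_contra hcon
    push Not at hcon
    have : Fintype.card α ≤ 1 := Fintype.card_le_one_iff.mpr
      (fun a b => partner_fixed_unique P a b (hcon a) (hcon b))
    omega
  obtain ⟨a, ha⟩ := hex
  have hex2 : ∃ c, c ∉ ({a, partner P a} : Finset α) := by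
    by_contra hcon
    push Not at hcon
    have : (Finset.univ : Finset α) ⊆ {a, partner P a} := fun y _ => hcon y
    have h1 := Finset.card_le_card this
    have h2 := Finset.card_le_two (a := a) (b := partner P a)
    rw [Finset.card_univ] at h1
    omega
  obtain ⟨c, hc⟩ := hex2
  simp only [Finset.mem_insert, Finset.mem_singleton, not_or] at hc
  have h1 : swap a c ∈ Subgroup.normalizer (swapsIn P) := by rw [h]; trivial
  have h2 := mem_normalizer_swapsIn_iff P _ h1 a ha
  rw [swap_apply_left, swap_apply_of_ne_of_ne ha (Ne.symm hc.2)] at h2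
  apply hc.1
  rw [← partner_partner P c, h2, partner_partner]

/-- if all swaps are in `L` then `L = ⊤` -/
theorem eq_top_of_swaps (L : Subgroup (Perm α)) (h : ∀ x y : α, swap x y ∈ L) : L = ⊤ := by
  rw [eq_top_iff, ← Equiv.Perm.closure_isSwap, Subgroup.closure_le]
  rintro _ ⟨x, y, _, rfl⟩
  exact h x y

theorem swap_mem_trans (L : Subgroup (Perm α)) (x y z : α) (h1 : swap x y ∈ L)
    (h2 : swap y z ∈ L) : swap x z ∈ L := by
  by_cases hxy : x = y
  · subst hxy; exact h2
  by_cases hyz : y = z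
  · subst hyz; exact h1
  by_cases hxz : x = z
  · subst hxz; rw [swap_self]; exact L.one_mem
  have h3 : swap y z * swap x y * (swap y z)⁻¹ = swap x z := by
    rw [← Equiv.swap_apply_apply, swap_apply_left, swap_apply_of_ne_of_ne hxy hxz]
  rw [← h3]
  exact L.mul_mem (L.mul_mem h2 h1) (L.inv_mem h2)

/-- The matching stabiliser and a partition stabiliser generate. -/
theorem sup_eq_top_aux (P : Sylow 2 (Perm α)) (O : Set α)
    (hP : (P : Subgroup (Perm α)) ≤ halfStab O)
    (a c z : α) (ha : partner P a ≠ a) (hc : partner P c ≠ c) (haO : a ∈ O) (hcO : c ∉ O)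
    (hzO : z ∈ O) (hza : z ≠ a) (hzb : z ≠ partner P a) :
    Subgroup.normalizer (swapsIn P) ⊔ halfStab O = ⊤ := by
  classical
  set L := Subgroup.normalizer (swapsIn P) ⊔ halfStab O with hL
  have hA : Subgroup.normalizer (swapsIn P) ≤ L := le_sup_left
  have hB : halfStab O ≤ L := le_sup_right
  have hsame : ∀ x y : α, (x ∈ O ↔ y ∈ O) → swap x y ∈ L :=
    fun x y h => hB (swap_mem_halfStab O x y h)
  -- a mixed swap suffices
  have hmix : ∀ x y : α, x ∈ O → y ∉ O → swap x y ∈ L → L = ⊤ := by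
    intro x y hx hy hxy
    apply eq_top_of_swaps
    have h1 : ∀ u v : α, u ∈ O → v ∉ O → swap u v ∈ L := by
      intro u v hu hv
      have h2 := hsame u x (by tauto)
      have h3 := hsame y v (by tauto)
      exact swap_mem_trans L _ _ _ (swap_mem_trans L _ _ _ h2 hxy) h3
    intro u v
    by_cases hu : u ∈ O <;> by_cases hv : v ∈ O
    · exact hsame u v (by tauto)
    · exact h1 u v hu hv
    · rw [swap_comm]; exact h1 v u hv hu
    · exact hsame u v (by tauto)
  by_cases hpa : partner P a ∈ O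
  · by_cases hpc : partner P c ∈ O
    · apply hmix _ _ hpc hcO
      rw [swap_comm]
      exact hB (hP (partner_mem P c))
    · have hca : c ≠ a := by rintro rfl; exact hcO haO
      have hcb : c ≠ partner P a := by intro h; rw [h] at hcO; exact hcO hpa
      obtain ⟨e1, e2, e3, e4, e5, e6⟩ := exchange_pairs P a c ha hc hca hcb
      have hzc : z ≠ c := by rintro rfl; exact hcO hzO
      have hzd : z ≠ partner P c := by rintro rfl; exact hpc hzO
      have hy := hA (mem_normalizer_swapsIn P _ e6)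
      have h1 := L.mul_mem (L.mul_mem hy (hsame a z (by tauto))) (L.inv_mem hy)
      rw [← Equiv.swap_apply_apply, e1, e5 z hza hzb hzc hzd, swap_comm] at h1
      exact hmix _ _ hzO hcO h1
  · exact hmix _ _ haO hpa (hB (hP (partner_mem P a)))

theorem exists_two_overgroups_aux (P : Sylow 2 (Perm α)) (O : Set α)
    (hP : (P : Subgroup (Perm α)) ≤ halfStab O) (hO : 2 < O.ncard) (hOc : Oᶜ.Nontrivial) :
    ∃ A B : Subgroup (Perm α), (P : Subgroup (Perm α)) ≤ A ∧ (P : Subgroup (Perm α)) ≤ B ∧
      A ≠ ⊤ ∧ B ≠ ⊤ ∧ A ⊔ B = ⊤ := by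
  have h3 : 3 ≤ Fintype.card α := by
    have h1 := Set.ncard_le_card O
    rw [Nat.card_eq_fintype_card] at h1
    omega
  have hnf : ∀ s : Set α, s.Nontrivial → ∃ a ∈ s, partner P a ≠ a := by
    rintro s ⟨x, hx, y, hy, hxy⟩
    by_cases h : partner P x = x
    · exact ⟨y, hy, fun h' => hxy (partner_fixed_unique P x y h h')⟩
    · exact ⟨x, hx, h⟩
  have hOn : O.Nontrivial := by
    rw [← Set.one_lt_ncard_iff_nontrivial]; omega
  obtain ⟨a, haO, ha⟩ := hnf O hOn
  obtain ⟨c, hcO, hc⟩ := hnf Oᶜ hOc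
  obtain ⟨z, hzO, hz⟩ : ∃ z ∈ O, z ∉ ({a, partner P a} : Set α) := by
    apply Set.exists_mem_notMem_of_ncard_lt_ncard _ (Set.toFinite _)
    have h1 := Set.ncard_insert_le a ({partner P a} : Set α)
    rw [Set.ncard_singleton] at h1
    omega
  simp only [Set.mem_insert_iff, Set.mem_singleton_iff, not_or] at hz
  exact ⟨_, _, sylow_le_normalizer_swapsIn P, hP, normalizer_swapsIn_ne_top P h3,
    halfStab_ne_top O a z c haO hzO hcO (Ne.symm hz.1),
    sup_eq_top_aux P O hP a c z ha hc haO hcO hzO hz.1 hz.2⟩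

theorem halfStab_compl (O : Set α) : halfStab Oᶜ = halfStab O := by
  ext g
  show ((∀ x, g x ∈ Oᶜ ↔ x ∈ Oᶜ) ∨ (∀ x, g x ∈ Oᶜ ↔ x ∉ Oᶜ)) ↔
    ((∀ x, g x ∈ O ↔ x ∈ O) ∨ (∀ x, g x ∈ O ↔ x ∉ O))
  simp only [Set.mem_compl_iff, not_not]
  constructor
  · rintro (h | h)
    · left; intro x; have := h x; tauto
    · right; intro x; have := h x; tauto
  · rintro (h | h)
    · left; intro x; have := h x; tauto
    · right; intro x; have := h x; tauto

theorem exists_two_overgroups_aux2 (P : Sylow 2 (Perm α)) (h5 : 5 ≤ Fintype.card α) (O : Set α)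
    (hP : (P : Subgroup (Perm α)) ≤ halfStab O) (hO : O.Nontrivial) (hOc : Oᶜ.Nontrivial) :
    ∃ A B : Subgroup (Perm α), (P : Subgroup (Perm α)) ≤ A ∧ (P : Subgroup (Perm α)) ≤ B ∧
      A ≠ ⊤ ∧ B ≠ ⊤ ∧ A ⊔ B = ⊤ := by
  have h1 := Set.ncard_add_ncard_compl O
  rw [Nat.card_eq_fintype_card] at h1
  by_cases h : 2 < O.ncard
  · exact exists_two_overgroups_aux P O hP h hOc
  · apply exists_two_overgroups_aux P Oᶜ (by rwa [halfStab_compl]) (by omega)
    rwa [compl_compl]

theorem exists_two_overgroups (P : Sylow 2 (Perm α)) (h5 : 5 ≤ Fintype.card α)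
    (hne : ¬ ∃ k : ℕ, 2 ≤ k ∧ Fintype.card α = 2 ^ k + 1) :
    ∃ A B : Subgroup (Perm α), (P : Subgroup (Perm α)) ≤ A ∧ (P : Subgroup (Perm α)) ≤ B ∧
      A ≠ ⊤ ∧ B ≠ ⊤ ∧ A ⊔ B = ⊤ := by
  classical
  have hex : ∃ a, partner P a ≠ a := by
    by_contra hcon
    push Not at hcon
    have : Fintype.card α ≤ 1 := Fintype.card_le_one_iff.mpr
      (fun a b => partner_fixed_unique P a b (hcon a) (hcon b))
    omega
  obtain ⟨a, ha⟩ := hex
  let O1 : Set α := MulAction.orbit P a
  have hmemO : ∀ x, x ∈ O1 ↔ ∃ p ∈ P, p a = x := by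
    intro x
    constructor
    · rintro ⟨p, rfl⟩; exact ⟨p.1, p.2, rfl⟩
    · rintro ⟨p, hp, rfl⟩; exact ⟨⟨p, hp⟩, rfl⟩
  have haO1 : a ∈ O1 := MulAction.mem_orbit_self a
  have hO1P : (P : Subgroup (Perm α)) ≤ halfStab O1 := by
    intro p hp
    left
    intro x
    rw [hmemO, hmemO]
    constructor
    · rintro ⟨q, hq, hqx⟩
      exact ⟨p⁻¹ * q, P.mul_mem (P.inv_mem hp) hq, by rw [Perm.mul_apply, hqx, pinv_app]⟩
    · rintro ⟨q, hq, rfl⟩
      exact ⟨p * q, P.mul_mem hp hq, rfl⟩
  have hO1n : O1.Nontrivial := ⟨a, haO1, partner P a, (hmemO _).mpr ⟨_, partner_mem P a, by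
    rw [swap_apply_left]⟩, ha.symm⟩
  -- cardinality of the orbit
  have hO1card : ∃ j, Nat.card O1 = 2 ^ j := by
    obtain ⟨j, hj⟩ := P.isPGroup'.card_orbit a
    exact ⟨j, hj⟩
  have hO1card' : O1.ncard = Nat.card O1 := rfl
  have hsum := Set.ncard_add_ncard_compl O1
  rw [Nat.card_eq_fintype_card] at hsum
  by_cases hc : O1ᶜ.Nontrivial
  · exact exists_two_overgroups_aux2 P h5 O1 hO1P hO1n hc
  · have hc1 : O1ᶜ.ncard ≤ 1 := by
      by_contra h
      exact hc (Set.one_lt_ncard_iff_nontrivial.mp (by omega))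
    obtain ⟨j, hj⟩ := hO1card
    have hc0 : O1ᶜ.ncard = 0 := by
      by_contra h
      apply hne
      refine ⟨j, ?_, ?_⟩
      · by_contra h2
        have : j = 0 ∨ j = 1 := by omega
        rcases this with rfl | rfl <;> omega
      · omega
    have hO1top : ∀ x, x ∈ O1 := by
      intro x
      by_contra hx
      have : O1ᶜ = ∅ := (Set.ncard_eq_zero (Set.toFinite _)).mp hc0
      have h2 : x ∈ O1ᶜ := hx
      rw [this] at h2; exact h2
    -- point stabiliser and an index two subgroup of `P` over it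
    have hcardα : Fintype.card α = 2 ^ j := by omega
    let St : Subgroup P := MulAction.stabilizer P a
    have hindex : St.index = 2 ^ j := by
      rw [MulAction.index_stabilizer]
      exact hj
    have hj1 : 1 ≤ j := by
      by_contra h
      have : j = 0 := by omega
      subst this
      omega
    obtain ⟨Q, hQ1, hQ2⟩ : ∃ Q : Subgroup P, Q.index = 2 ∧ St ≤ Q := by
      obtain ⟨m, hm⟩ := IsPGroup.iff_card.mp P.isPGroup'
      obtain ⟨s, hs⟩ := IsPGroup.iff_card.mp (P.isPGroup'.to_subgroup St)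
      have hmul := Subgroup.card_mul_index St
      rw [hindex, hs] at hmul
      have hm' : Nat.card P = 2 ^ m := hm
      rw [hm', ← pow_add] at hmul
      have hms : s + j = m := Nat.pow_right_injective (le_refl 2) hmul
      have hdvd : 2 ^ (m - 1) ∣ Nat.card P := by
        rw [hm']; exact pow_dvd_pow 2 (by omega)
      obtain ⟨Q, hQ1, hQ2⟩ := Sylow.exists_subgroup_card_pow_prime_le 2 hdvd St hs (by omega)
      refine ⟨Q, ?_, hQ2⟩
      have h1 := Subgroup.card_mul_index Q
      rw [hQ1, hm'] at h1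
      have h2 : 2 ^ m = 2 ^ (m - 1) * 2 := by rw [← pow_succ]; congr 1; omega
      rw [h2] at h1
      exact Nat.eq_of_mul_eq_mul_left (by positivity) h1
    have hQn : Q.Normal := Subgroup.normal_of_index_eq_two hQ1
    let O : Set α := {x | ∃ q ∈ Q, (q : P).1 a = x}
    have haO : a ∈ O := ⟨1, Q.one_mem, rfl⟩
    have hPO : (P : Subgroup (Perm α)) ≤ halfStab O := by
      intro p hp
      by_cases hpQ : (⟨p, hp⟩ : P) ∈ Q
      · left
        intro x
        constructor
        · rintro ⟨q, hq, hqx⟩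
          exact ⟨⟨p, hp⟩⁻¹ * q, Q.mul_mem (Q.inv_mem hpQ) hq, by
            show (p⁻¹ * q.1) a = x
            rw [Perm.mul_apply, hqx, pinv_app]⟩
        · rintro ⟨q, hq, rfl⟩
          exact ⟨⟨p, hp⟩ * q, Q.mul_mem hpQ hq, rfl⟩
      · right
        intro x
        obtain ⟨r, hr, hrx⟩ := (hmemO x).mp (hO1top x)
        -- r ∈ Q iff x ∈ O
        have key : ∀ y, ∀ r : P, r.1 a = y → (y ∈ O ↔ r ∈ Q) := by
          intro y r hry
          constructor
          · rintro ⟨q, hq, hqy⟩
            have : q⁻¹ * r ∈ St := by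
              rw [MulAction.mem_stabilizer_iff]
              show (q.1⁻¹ * r.1) a = a
              rw [Perm.mul_apply, hry, ← hqy, pinv_app]
            have h3 := Q.mul_mem hq (hQ2 this)
            rwa [mul_inv_cancel_left] at h3
          · intro hr
            exact ⟨r, hr, hry⟩
        rw [key x ⟨r, hr⟩ hrx, key (p x) (⟨p, hp⟩ * ⟨r, hr⟩) (by
          show (p * r) a = p x
          rw [Perm.mul_apply, hrx])]
        rw [Subgroup.mul_mem_iff_of_index_two hQ1]
        tauto
    -- an element of `P` outside `Q`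
    obtain ⟨p, hp⟩ : ∃ p : P, p ∉ Q := by
      by_contra hcon
      push Not at hcon
      have : Q = ⊤ := Subgroup.eq_top_iff' Q |>.mpr hcon
      rw [this, Subgroup.index_top] at hQ1
      omega
    have hpa : ∀ x, p.1 x ∈ O ↔ x ∉ O := by
      rcases hPO p.2 with h | h
      · exfalso
        obtain ⟨q, hq, hqa⟩ := (h a).mpr haO
        have : q⁻¹ * p ∈ St := by
          rw [MulAction.mem_stabilizer_iff]
          show (q.1⁻¹ * p.1) a = a
          rw [Perm.mul_apply, ← hqa, pinv_app]
        have h3 := Q.mul_mem hq (hQ2 this)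
        rw [mul_inv_cancel_left] at h3
        exact hp h3
      · exact h
    have hcardO : O.ncard = Oᶜ.ncard := by
      have h1 : Oᶜ = p.1 '' O := by
        ext y
        constructor
        · intro hy
          refine ⟨p.1⁻¹ y, ?_, papp_inv _ _⟩
          by_contra hcon
          have := (hpa (p.1⁻¹ y)).mpr hcon
          rw [papp_inv] at this
          exact hy this
        · rintro ⟨x, hx, rfl⟩
          intro hcon
          exact (hpa x).mp hcon hx
      rw [h1, Set.ncard_image_of_injective _ p.1.injective]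
    have hsum2 := Set.ncard_add_ncard_compl O
    rw [Nat.card_eq_fintype_card] at hsum2
    exact exists_two_overgroups_aux2 P h5 O hPO
      (Set.one_lt_ncard_iff_nontrivial.mp (by omega))
      (Set.one_lt_ncard_iff_nontrivial.mp (by omega))

/-- In degree `2^k+1` the Sylow 2-subgroup is transitive off its fixed point. -/
theorem trans_of_card (P : Sylow 2 (Perm α)) (k : ℕ) (hk : 1 ≤ k) (hcard : Fintype.card α = 2 ^ k + 1)
    (e : α) (he : ∀ p ∈ P, p e = e) (a b : α) (ha : a ≠ e) (hb : b ≠ e) :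
    ∃ p ∈ P, p a = b := by
  have h2k : 2 ≤ 2 ^ k := by
    calc 2 = 2 ^ 1 := rfl
      _ ≤ 2 ^ k := Nat.pow_le_pow_right (by norm_num) hk
  obtain ⟨g, hg⟩ := (Equiv.Perm.exists_with_cycleType_iff α (m := {2 ^ k})).mpr
    ⟨by simp [hcard], by simpa using h2k⟩
  have hgc : g.IsCycle := by rw [← Equiv.Perm.card_cycleType_eq_one, hg]; simp
  have hgs : g.support.card = 2 ^ k := by rw [← Equiv.Perm.sum_cycleType, hg]; simp
  have h1 : IsPGroup 2 (Subgroup.zpowers g) := by
    apply IsPGroup.of_card (n := k)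
    rw [Nat.card_zpowers, hgc.orderOf, hgs]
  obtain ⟨Q, hQ⟩ := h1.exists_le_sylow
  obtain ⟨l, hl⟩ := MulAction.exists_smul_eq (Perm α) Q P
  set g' := l * g * l⁻¹ with hg'
  have hg'P : g' ∈ P := by
    rw [← hl]
    exact Subgroup.smul_mem_pointwise_smul g (MulAut.conj l) (Q : Subgroup (Perm α))
      (hQ (Subgroup.mem_zpowers g))
  have hg'c : g'.IsCycle := hgc.conj
  have hg's : g'.support.card = 2 ^ k := by
    rw [hg', Equiv.Perm.card_support_conj, hgs]
  have hes : e ∉ g'.support := by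
    rw [Equiv.Perm.notMem_support]; exact he g' hg'P
  have hall : ∀ x, x ≠ e → g' x ≠ x := by
    intro x hx
    rw [← Equiv.Perm.mem_support]
    by_contra hxs
    have h2 : g'.support ⊆ (Finset.univ.erase e).erase x := by
      intro y hy
      rw [Finset.mem_erase, Finset.mem_erase]
      exact ⟨by rintro rfl; exact hxs hy, by rintro rfl; exact hes hy, Finset.mem_univ _⟩
    have h3 := Finset.card_le_card h2
    rw [Finset.card_erase_of_mem (by simp [hx]), Finset.card_erase_of_mem (Finset.mem_univ _),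
      Finset.card_univ] at h3
    omega
  obtain ⟨i, hi⟩ := hg'c.exists_pow_eq (hall a ha) (hall b hb)
  exact ⟨g' ^ i, P.pow_mem hg'P i, hi⟩

theorem exists_fixed_of_odd (P : Sylow 2 (Perm α)) (hodd : Odd (Fintype.card α)) :
    ∃ e, ∀ p ∈ P, p e = e := by
  have h1 := P.isPGroup'.card_modEq_card_fixedPoints α
  rw [Nat.card_eq_fintype_card (α := α)] at h1
  have h2 : Nat.card (fixedPoints P α) ≠ 0 := by
    intro h
    rw [h] at h1
    have := (Nat.modEq_zero_iff_dvd.mp h1)
    obtain ⟨m, hm⟩ := hodd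
    omega
  have h3 : Nonempty (fixedPoints P α) := by
    by_contra hcon
    rw [not_nonempty_iff] at hcon
    exact h2 Nat.card_of_isEmpty
  obtain ⟨⟨e, he⟩⟩ := h3
  exact ⟨e, fun p hp => he ⟨p, hp⟩⟩

/-- even elements are enough for transitivity -/
theorem even_trans_of_card (P : Sylow 2 (Perm α)) (k : ℕ) (hk : 2 ≤ k)
    (hcard : Fintype.card α = 2 ^ k + 1)
    (e : α) (he : ∀ p ∈ P, p e = e) (a b : α) (ha : a ≠ e) (hb : b ≠ e) :
    ∃ p ∈ P, p ∈ alternatingGroup α ∧ p a = b := by
  obtain ⟨p, hp, hpa⟩ := trans_of_card P k (by omega) hcard e he a b ha hb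
  rcases Int.units_eq_one_or (Perm.sign p) with h | h
  · exact ⟨p, hp, Equiv.Perm.mem_alternatingGroup.mpr h, hpa⟩
  · have h4 : 4 ≤ 2 ^ k := by
      calc 4 = 2 ^ 2 := rfl
        _ ≤ 2 ^ k := Nat.pow_le_pow_right (by norm_num) hk
    obtain ⟨c, hc⟩ : ∃ c, c ∉ ({a, partner P a, e} : Finset α) := by
      by_contra hcon
      push Not at hcon
      have h1 : (Finset.univ : Finset α) ⊆ {a, partner P a, e} := fun y _ => hcon y
      have h2 := Finset.card_le_card h1
      have h3 := Finset.card_le_three (a := a) (b := partner P a) (c := e)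
      rw [Finset.card_univ] at h2
      omega
    simp only [Finset.mem_insert, Finset.mem_singleton, not_or] at hc
    have hpc : partner P c ≠ c := by
      intro h5
      exact hc.2.2 (partner_fixed_unique P c e h5 ((partner_eq_iff P e).mpr he))
    have hca : partner P c ≠ a := by
      intro h5; apply hc.2.1; rw [← h5, partner_partner]
    refine ⟨p * swap c (partner P c), P.mul_mem hp (partner_mem P c), ?_, ?_⟩
    · rw [Equiv.Perm.mem_alternatingGroup, map_mul, h, Perm.sign_swap hpc.symm]; rfl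
    · rw [Perm.mul_apply, swap_apply_of_ne_of_ne (Ne.symm hc.1) hca.symm, hpa]

/-- an overgroup of `P ⊓ Alt` moving the fixed point is primitive -/
theorem primitive_of_card (P : Sylow 2 (Perm α)) (k : ℕ) (hk : 2 ≤ k)
    (hcard : Fintype.card α = 2 ^ k + 1)
    (e : α) (he : ∀ p ∈ P, p e = e) (K : Subgroup (Perm α))
    (hK : ∀ p ∈ P, p ∈ alternatingGroup α → p ∈ K) (hKe : ∃ g ∈ K, g e ≠ e) :
    IsPreprimitive K α := by
  obtain ⟨k0, hk0, hk0e⟩ := hKe
  apply isPreprimitive_of_is_two_pretransitive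
  rw [is_two_pretransitive_iff]
  have key : ∀ a : α, ∃ g ∈ K, g a = e := by
    intro a
    by_cases ha : a = e
    · exact ⟨1, K.one_mem, by simp [ha]⟩
    · have hf : k0⁻¹ e ≠ e := by
        intro h; apply hk0e
        have := papp_inv k0 e
        rwa [h] at this
      obtain ⟨p, hp, hpA, hpa⟩ := even_trans_of_card P k hk hcard e he a (k0⁻¹ e) ha hf
      exact ⟨k0 * p, K.mul_mem hk0 (hK p hp hpA), by rw [Perm.mul_apply, hpa, papp_inv]⟩
  intro a b c d hab hcd
  obtain ⟨g, hg, hga⟩ := key a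
  obtain ⟨h, hh, hhc⟩ := key c
  have h1 : g b ≠ e := by rw [← hga]; exact fun h => hab (g.injective h).symm
  have h2 : h d ≠ e := by rw [← hhc]; exact fun h' => hcd (h.injective h').symm
  obtain ⟨p, hp, hpA, hpb⟩ := even_trans_of_card P k hk hcard e he (g b) (h d) h1 h2
  refine ⟨⟨h⁻¹ * (p * g), K.mul_mem (K.inv_mem hh) (K.mul_mem (hK p hp hpA) hg)⟩, ?_, ?_⟩
  · show (h⁻¹ * (p * g)) a = c
    rw [Perm.mul_apply, Perm.mul_apply, hga, he p hp, ← hhc, pinv_app]
  · show (h⁻¹ * (p * g)) b = d
    rw [Perm.mul_apply, Perm.mul_apply, hpb, pinv_app]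

theorem exists_notMem_of_card_lt {s : Finset α} (h : s.card < Fintype.card α) : ∃ x, x ∉ s := by
  by_contra hcon
  push Not at hcon
  have h1 : (Finset.univ : Finset α) ⊆ s := fun y _ => hcon y
  have h2 := Finset.card_le_card h1
  rw [Finset.card_univ] at h2
  omega

/-- the three-cycle in the large case -/
theorem exists_threeCycle_of_card (P : Sylow 2 (Perm α)) (h9 : 9 ≤ Fintype.card α)
    (e : α) (he : ∀ p ∈ P, p e = e) (K : Subgroup (Perm α))
    (hK : ∀ p ∈ P, p ∈ alternatingGroup α → p ∈ K) (hKe : ∃ g ∈ K, g e ≠ e) :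
    ∃ g ∈ K, g.IsThreeCycle := by
  obtain ⟨k, hk, hke⟩ := hKe
  have hpe : partner P e = e := (partner_eq_iff P e).mpr he
  -- the second matching
  let q : α → α := fun x => k (partner P (k⁻¹ x))
  have hqq : ∀ x, q (q x) = x := by
    intro x; show k (partner P (k⁻¹ (k (partner P (k⁻¹ x))))) = x
    rw [pinv_app, partner_partner, papp_inv]
  have hqfix : ∀ x, q x = x ↔ x = k e := by
    intro x
    constructor
    · intro h
      have h1 : partner P (k⁻¹ x) = k⁻¹ x := by
        apply k.injective; rw [papp_inv]; exact h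
      have h2 := partner_fixed_unique P _ _ h1 hpe
      rw [← h2, papp_inv]
    · rintro rfl
      show k (partner P (k⁻¹ (k e))) = k e
      rw [pinv_app, hpe]
  have hsw : ∀ x y : α, partner P x ≠ x → partner P y ≠ y →
      swap x (partner P x) * swap y (partner P y) ∈ K := by
    intro x y hx hy
    apply hK _ (P.mul_mem (partner_mem P x) (partner_mem P y))
    rw [Equiv.Perm.mem_alternatingGroup, map_mul, Perm.sign_swap hx.symm, Perm.sign_swap hy.symm]
    rfl
  have hswq : ∀ x y : α, q x ≠ x → q y ≠ y →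
      swap x (q x) * swap y (q y) ∈ K := by
    intro x y hx hy
    have h1 := hsw (k⁻¹ x) (k⁻¹ y) (fun h => hx (by show k (partner P (k⁻¹ x)) = x; rw [h, papp_inv]))
      (fun h => hy (by show k (partner P (k⁻¹ y)) = y; rw [h, papp_inv]))
    have h2 := K.mul_mem (K.mul_mem hk h1) (K.inv_mem hk)
    have h3 : k * (swap (k⁻¹ x) (partner P (k⁻¹ x)) * swap (k⁻¹ y) (partner P (k⁻¹ y))) * k⁻¹ =
      (k * swap (k⁻¹ x) (partner P (k⁻¹ x)) * k⁻¹) * (k * swap (k⁻¹ y) (partner P (k⁻¹ y)) * k⁻¹) := by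
      group
    rw [h3, ← Equiv.swap_apply_apply, ← Equiv.swap_apply_apply, papp_inv, papp_inv] at h2
    exact h2
  -- the points
  set x1 := q e with hx1
  have hx1e : x1 ≠ e := by
    intro h; rw [hx1, hqfix] at h; exact hke h.symm
  have hqx1 : q x1 = e := hqq e
  set x2 := partner P x1 with hx2
  have hpx1 : x2 ≠ x1 := by
    intro h
    exact hx1e (partner_fixed_unique P x1 e h hpe)
  have hpx2 : partner P x2 = x1 := partner_partner P x1
  have hx2e : x2 ≠ e := by
    intro h
    rw [h, hpe] at hpx2; exact hx1e hpx2.symm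
  obtain ⟨y, hy⟩ := exists_notMem_of_card_lt (s := ({e, x1, x2, q x2, k e} : Finset α))
    (lt_of_le_of_lt Finset.card_le_five (by omega))
  simp only [Finset.mem_insert, Finset.mem_singleton, not_or] at hy
  obtain ⟨ye, yx1, yx2, yqx2, yke⟩ := hy
  have hqy : q y ≠ y := by rw [ne_eq, hqfix]; exact yke
  have hqye : q y ≠ e := by intro h; apply yx1; rw [← hqq y, h]
  have hqyx1 : q y ≠ x1 := by intro h; apply ye; rw [← hqq y, h, hqx1]
  have hqyx2 : q y ≠ x2 := by intro h; apply yqx2; rw [← hqq y, h]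
  obtain ⟨z, hz⟩ := exists_notMem_of_card_lt
    (s := ({e, x1, x2, y, q y, partner P y, partner P (q y)} : Finset α)) (by
      have h1 : ({e, x1, x2, y, q y, partner P y, partner P (q y)} : Finset α).card ≤ 7 := by
        refine le_trans (Finset.card_insert_le _ _) ?_
        have := Finset.card_le_six (a := x1) (b := x2) (c := y) (d := q y) (e := partner P y)
          (f := partner P (q y))
        omega
      omega)
  simp only [Finset.mem_insert, Finset.mem_singleton, not_or] at hz
  obtain ⟨ze, zx1, zx2, zy, zqy, zpy, zpqy⟩ := hz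
  have hpz : partner P z ≠ z := fun h => ze (partner_fixed_unique P z e h hpe)
  have hpze : partner P z ≠ e := by intro h; apply ze; rw [← partner_partner P z, h, hpe]
  have hpzx1 : partner P z ≠ x1 := by intro h; apply zx2; rw [← partner_partner P z, h]
  have hpzx2 : partner P z ≠ x2 := by intro h; apply zx1; rw [← partner_partner P z, h, hpx2]
  have hpzy : partner P z ≠ y := by intro h; apply zpy; rw [← partner_partner P z, h]
  have hpzqy : partner P z ≠ q y := by intro h; apply zpqy; rw [← partner_partner P z, h]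
  -- the elements
  have hu : swap x1 x2 * swap z (partner P z) ∈ K := hsw x1 z hpx1 hpz
  have hv : swap e x1 * swap y (q y) ∈ K := by
    have := hswq e y hx1e hqy
    exact this
  have comm : ∀ a b c d : α, a ≠ c → a ≠ d → b ≠ c → b ≠ d → swap a b * swap c d = swap c d * swap a b := by
    intro a b c d h1 h2 h3 h4
    apply Equiv.Perm.Disjoint.commute
    intro w
    by_cases w1 : w = a
    · right; rw [w1]; exact swap_apply_of_ne_of_ne h1 h2
    by_cases w2 : w = b
    · right; rw [w2]; exact swap_apply_of_ne_of_ne h3 h4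
    left; exact swap_apply_of_ne_of_ne w1 w2
  set t := swap x1 x2 with ht
  set t' := swap z (partner P z) with ht'
  set s := swap e x1 with hs
  set s' := swap y (q y) with hs'
  have c1 : t' * s = s * t' := comm _ _ _ _ ze zx1 hpze hpzx1
  have c2 : t' * t = t * t' := comm _ _ _ _ zx1 zx2 hpzx1 hpzx2
  have c3 : t' * s' = s' * t' := comm _ _ _ _ zy zqy hpzy hpzqy
  have c4 : s' * s = s * s' := comm _ _ _ _ ye yx1 hqye hqyx1
  have c5 : s' * t = t * s' := comm _ _ _ _ yx1 yx2 hqyx1 hqyx2
  have hs'2 : s' * s' = 1 := swap_mul_self _ _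
  have ht'2 : t' * t' = 1 := swap_mul_self _ _
  have hcalc : (t * t' * (s * s')) * (t * t' * (s * s')) = (t * s) * (t * s) := by
    have e1 : t * t' * (s * s') = (t * s) * (t' * s') := by
      calc t * t' * (s * s') = t * (t' * s) * s' := by group
        _ = t * (s * t') * s' := by rw [c1]
        _ = (t * s) * (t' * s') := by group
    have e2 : (t' * s') * (t * s) = (t * s) * (t' * s') := by
      calc (t' * s') * (t * s) = t' * (s' * t) * s := by group
        _ = t' * (t * s') * s := by rw [c5]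
        _ = (t' * t) * (s' * s) := by group
        _ = (t * t') * (s * s') := by rw [c2, c4]
        _ = t * (t' * s) * s' := by group
        _ = t * (s * t') * s' := by rw [c1]
        _ = (t * s) * (t' * s') := by group
    have e3 : (t' * s') * (t' * s') = 1 := by
      calc (t' * s') * (t' * s') = t' * (s' * t') * s' := by group
        _ = t' * (t' * s') * s' := by rw [c3]
        _ = (t' * t') * (s' * s') := by group
        _ = 1 := by rw [ht'2, hs'2, one_mul]
    rw [e1]
    calc t * s * (t' * s') * (t * s * (t' * s')) = (t * s) * ((t' * s') * (t * s)) * (t' * s') := by group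
      _ = (t * s) * ((t * s) * (t' * s')) * (t' * s') := by rw [e2]
      _ = (t * s) * (t * s) * ((t' * s') * (t' * s')) := by group
      _ = (t * s) * (t * s) := by rw [e3, mul_one]
  have h3c : (t * s).IsThreeCycle := by
    have := Equiv.Perm.isThreeCycle_swap_mul_swap_same (a := x1) (b := x2) (c := e) hpx1.symm hx1e hx2e
    rwa [swap_comm x1 e] at this
  refine ⟨(t * s) * (t * s), ?_, h3c.isThreeCycle_sq⟩
  rw [← hcalc]
  exact K.mul_mem (K.mul_mem hu hv) (K.mul_mem hu hv)

theorem cyc5_norm : ∀ v ∈ klein5List, cyc5 * v * cyc5⁻¹ ∈ klein5List := by decide +kernel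
theorem cyc5_norm' : ∀ v ∈ klein5List, cyc5⁻¹ * v * cyc5 ∈ klein5List := by decide +kernel
theorem cyc5_three : cyc5.IsThreeCycle := by
  have := Equiv.Perm.isThreeCycle_swap_mul_swap_same (a := (1 : Fin 5)) (b := 0) (c := 2)
    (by decide) (by decide) (by decide)
  rwa [swap_comm 1 0] at this

/-- a proper overgroup of a Sylow 2-subgroup of `Alt 5` contains a three-cycle -/
theorem exists_threeCycle_alt5 (S : Sylow 2 (alternatingGroup (Fin 5)))
    (H : Subgroup (alternatingGroup (Fin 5))) (hS : (S : Subgroup _) ≤ H)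
    (hne : H ≠ S) : ∃ g ∈ H, g.1.IsThreeCycle := by
  obtain ⟨g, hg⟩ := MulAction.exists_smul_eq (alternatingGroup (Fin 5)) klein5Sylow S
  have hSmem : ∀ v, v ∈ S ↔ g⁻¹ * v * g ∈ klein5 := by
    intro v
    rw [← hg]
    constructor
    · intro hv
      obtain ⟨w, hw, rfl⟩ := hv
      have : g⁻¹ * (MulAut.conj g w) * g = w := by
        simp [MulAut.conj_apply, mul_assoc]
      show g⁻¹ * (MulAut.conj g w) * g ∈ klein5
      rw [this]; exact hw
    · intro hv
      refine ⟨g⁻¹ * v * g, hv, ?_⟩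
      show MulAut.conj g (g⁻¹ * v * g) = v
      simp [MulAut.conj_apply, mul_assoc]
  let H' : Subgroup (alternatingGroup (Fin 5)) := H.comap (MulAut.conj g).toMonoidHom
  have hmem : ∀ x, x ∈ H' ↔ g * x * g⁻¹ ∈ H := fun x => Iff.rfl
  have h1 : klein5 ≤ H' := by
    intro v hv
    rw [hmem]
    apply hS
    show g * v * g⁻¹ ∈ S
    rw [hSmem]
    have : g⁻¹ * (g * v * g⁻¹) * g = v := by group
    rwa [this]
  have h2 : H' ≠ klein5 := by
    intro h
    apply hne
    apply le_antisymm _ hS
    intro x hx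
    show x ∈ S
    rw [hSmem, ← h, hmem]
    have : g * (g⁻¹ * x * g) * g⁻¹ = x := by group
    rwa [this]
  have h3 := normalizer_klein5_le H' h1 h2
  have h4 : (⟨cyc5, Equiv.Perm.mem_alternatingGroup.mpr cyc5_sign⟩ : alternatingGroup (Fin 5)) ∈
      Subgroup.normalizer (klein5 : Set (alternatingGroup (Fin 5))) := by
    rw [Subgroup.mem_normalizer_iff]
    intro v
    constructor
    · intro hv; exact cyc5_norm v.1 hv
    · intro hv
      have := cyc5_norm' _ hv
      have e : cyc5⁻¹ * ((⟨cyc5, Equiv.Perm.mem_alternatingGroup.mpr cyc5_sign⟩ * v *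
        ⟨cyc5, Equiv.Perm.mem_alternatingGroup.mpr cyc5_sign⟩⁻¹ : alternatingGroup (Fin 5)) :
          Perm (Fin 5)) * cyc5 = v.1 := by
        show cyc5⁻¹ * (cyc5 * v.1 * cyc5⁻¹) * cyc5 = v.1
        group
      rw [e] at this
      exact this
  have h5 := h3 h4
  rw [hmem] at h5
  refine ⟨_, h5, ?_⟩
  show (g.1 * cyc5 * g.1⁻¹).IsThreeCycle
  unfold Equiv.Perm.IsThreeCycle
  rw [Equiv.Perm.cycleType_conj]
  exact cyc5_three

/-- if `A, B` contain the Sylow subgroup and generate `Sym`, their intersections with `Alt`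
generate `Alt`. -/
theorem alt_sup_eq_top (P : Sylow 2 (Perm α)) (A B : Subgroup (Perm α)) (h2 : 2 ≤ Fintype.card α)
    (hA : (P : Subgroup (Perm α)) ≤ A) (hB : (P : Subgroup (Perm α)) ≤ B) (hAB : A ⊔ B = ⊤) :
    A.subgroupOf (alternatingGroup α) ⊔ B.subgroupOf (alternatingGroup α) = ⊤ := by
  classical
  have hex : ∃ a, partner P a ≠ a := by
    by_contra hcon
    push Not at hcon
    have : Fintype.card α ≤ 1 := Fintype.card_le_one_iff.mpr
      (fun a b => partner_fixed_unique P a b (hcon a) (hcon b))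
    omega
  obtain ⟨a, ha⟩ := hex
  set t := swap a (partner P a) with ht
  have htP : t ∈ P := partner_mem P a
  have htt : t * t = 1 := swap_mul_self _ _
  have hts : Perm.sign t = -1 := Perm.sign_swap ha.symm
  have hti : t⁻¹ = t := swap_inv _ _
  set L := A.subgroupOf (alternatingGroup α) ⊔ B.subgroupOf (alternatingGroup α) with hL
  -- L is normalised by t
  set L2 := L.map (alternatingGroup α).subtype with hL2
  have hmapsup : L2 = (A ⊓ alternatingGroup α) ⊔ (B ⊓ alternatingGroup α) := by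
    rw [hL2, hL, Subgroup.map_sup, Subgroup.subgroupOf_map_subtype, Subgroup.subgroupOf_map_subtype]
  have hnorm : ∀ x ∈ L2, t * x * t ∈ L2 := by
    have hle : L2 ≤ L2.comap (MulAut.conj t).toMonoidHom := by
      have h1 : A ⊓ alternatingGroup α ≤ L2.comap (MulAut.conj t).toMonoidHom := by
        intro x hx
        rw [Subgroup.mem_comap, hmapsup]
        apply Subgroup.mem_sup_left
        exact ⟨A.mul_mem (A.mul_mem (hA htP) hx.1) (A.inv_mem (hA htP)),
          (inferInstance : (alternatingGroup α).Normal).conj_mem x hx.2 t⟩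
      have h2 : B ⊓ alternatingGroup α ≤ L2.comap (MulAut.conj t).toMonoidHom := by
        intro x hx
        rw [Subgroup.mem_comap, hmapsup]
        apply Subgroup.mem_sup_right
        exact ⟨B.mul_mem (B.mul_mem (hB htP) hx.1) (B.inv_mem (hB htP)),
          (inferInstance : (alternatingGroup α).Normal).conj_mem x hx.2 t⟩
      calc L2 = (A ⊓ alternatingGroup α) ⊔ (B ⊓ alternatingGroup α) := hmapsup
        _ ≤ _ := sup_le h1 h2
    intro x hx
    have := hle hx
    have h3 : t * x * t⁻¹ ∈ L2 := this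
    rwa [hti] at h3
  let M : Subgroup (Perm α) := {
    carrier := {x | (Perm.sign x = 1 ∧ x ∈ L2) ∨ (Perm.sign x = -1 ∧ x * t ∈ L2)}
    one_mem' := Or.inl ⟨by simp, L2.one_mem⟩
    mul_mem' := by
      rintro x y (⟨hx, hx'⟩ | ⟨hx, hx'⟩) (⟨hy, hy'⟩ | ⟨hy, hy'⟩)
      · left; exact ⟨by rw [map_mul, hx, hy]; rfl, L2.mul_mem hx' hy'⟩
      · right
        refine ⟨by rw [map_mul, hx, hy]; rfl, ?_⟩
        rw [mul_assoc]; exact L2.mul_mem hx' hy'
      · right
        refine ⟨by rw [map_mul, hx, hy]; rfl, ?_⟩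
        have h3 := L2.mul_mem hx' (hnorm y hy')
        have h4 : x * t * (t * y * t) = x * (t * t) * y * t := by group
        rw [h4, htt, mul_one] at h3
        exact h3
      · left
        refine ⟨by rw [map_mul, hx, hy]; rfl, ?_⟩
        have h3 := L2.mul_mem hx' (hnorm _ hy')
        have h4 : x * t * (t * (y * t) * t) = x * (t * t) * y * (t * t) := by group
        rw [h4, htt, mul_one, mul_one] at h3
        exact h3
    inv_mem' := by
      rintro x (⟨hx, hx'⟩ | ⟨hx, hx'⟩)
      · left; exact ⟨by rw [map_inv, hx]; rfl, L2.inv_mem hx'⟩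
      · right
        refine ⟨by rw [map_inv, hx]; rfl, ?_⟩
        have h3 := hnorm _ (L2.inv_mem hx')
        rw [mul_inv_rev, hti] at h3
        have h4 : t * (t * x⁻¹) * t = (t * t) * x⁻¹ * t := by group
        rw [h4, htt, one_mul] at h3
        exact h3 }
  have hgen : ∀ C : Subgroup (Perm α), (P : Subgroup (Perm α)) ≤ C →
      (C ⊓ alternatingGroup α ≤ L2) → C ≤ M := by
    intro C hC hCL x hx
    rcases Int.units_eq_one_or (Perm.sign x) with h | h
    · left; exact ⟨h, hCL ⟨hx, Equiv.Perm.mem_alternatingGroup.mpr h⟩⟩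
    · right
      refine ⟨h, hCL ⟨C.mul_mem hx (hC htP), ?_⟩⟩
      show x * t ∈ alternatingGroup α
      rw [Equiv.Perm.mem_alternatingGroup, map_mul, h, hts]; rfl
  have hAM : A ≤ M := hgen A hA (by rw [hmapsup]; exact le_sup_left)
  have hBM : B ≤ M := hgen B hB (by rw [hmapsup]; exact le_sup_right)
  have hMtop : M = ⊤ := by
    rw [eq_top_iff, ← hAB]; exact sup_le hAM hBM
  rw [eq_top_iff]
  intro x _
  have h3 : x.1 ∈ M := by rw [hMtop]; trivial
  rcases h3 with ⟨_, h4⟩ | ⟨h4, _⟩
  · rw [hL2] at h4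
    obtain ⟨y, hy, hyx⟩ := h4
    have : y = x := Subtype.ext hyx
    rwa [← this]
  · have h5 := Equiv.Perm.mem_alternatingGroup.mp x.2
    rw [h5] at h4
    exact absurd h4 (by decide)

/-- abstract uniqueness: if every proper overgroup of `R` lies in the proper subgroup `N ≥ R`,
there is exactly one maximal subgroup over `R`. -/
theorem existsUnique_coatom {G : Type*} [Group G] (R N : Subgroup G) (hRN : R ≤ N) (hN : N ≠ ⊤)
    (h : ∀ K : Subgroup G, R ≤ K → K ≠ ⊤ → K ≤ N) : ∃! M : Subgroup G, IsCoatom M ∧ R ≤ M := by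
  have hco : IsCoatom N := by
    refine ⟨hN, ?_⟩
    intro K hK
    by_contra hne
    exact absurd (h K (hRN.trans hK.le) hne) (not_le_of_gt hK)
  refine ⟨N, ⟨hco, hRN⟩, ?_⟩
  rintro M ⟨hM, hRM⟩
  have h1 := h M hRM hM.1
  rcases eq_or_lt_of_le h1 with h2 | h2
  · exact h2
  · exact absurd (hM.2 N h2) hN

theorem not_existsUnique_coatom {G : Type*} [Group G] [Finite G] (R A B : Subgroup G) (hA : R ≤ A)
    (hB : R ≤ B) (hA' : A ≠ ⊤) (hB' : B ≠ ⊤) (hAB : A ⊔ B = ⊤) :
    ¬ ∃! M : Subgroup G, IsCoatom M ∧ R ≤ M := by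
  rintro ⟨M, hM, hu⟩
  obtain ⟨M1, hM1, hAM1⟩ := (eq_top_or_exists_le_coatom A).resolve_left hA'
  obtain ⟨M2, hM2, hBM2⟩ := (eq_top_or_exists_le_coatom B).resolve_left hB'
  have e1 := hu M1 ⟨hM1, hA.trans hAM1⟩
  have e2 := hu M2 ⟨hM2, hB.trans hBM2⟩
  apply hM.1.1
  rw [eq_top_iff, ← hAB]
  apply sup_le
  · rw [← e1]; exact hAM1
  · rw [← e2]; exact hBM2

end Cfsg.Agent.H15
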