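import Mathlib
import Cfsg.Agent.H15.SzChG
import Cfsg.Prelude.Def_DegreeGraph

/-! # Suzuki groups: the degree graph -/

set_option autoImplicit false

namespace Cfsg.Agent.H15.Suz

open Cfsg Cfsg.Agent.H3

theorem charDegrees_sub_of_equiv {A B : Type*} [Group A] [Group B] [Finite A] [Finite B]
    (e : A ≃* B) (d : ℕ) (hd : d ∈ charDegrees B) : d ∈ charDegrees A := by
  obtain ⟨χ, rfl⟩ := hd
  refine ⟨⟨fun a => (χ : B → ℂ) (e a), (isIrr_comp_equiv_iff e).mpr χ.2⟩, ?_⟩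
  unfold charDegree
  simp

theorem charDegrees_of_equiv {G H : Type*} [Group G] [Group H] [Finite G] [Finite H]
    (e : G ≃* H) : charDegrees G = charDegrees H :=
  Set.ext fun d => ⟨charDegrees_sub_of_equiv e.symm d, charDegrees_sub_of_equiv e d⟩

variable {F : Type*} [Field F] [Fintype F] (m : ℕ) [hS : SzF F m]

theorem mem_charDegrees (d : ℕ) : d ∈ charDegrees (Sg F m) ↔
    d = 1 ∨ d = Fintype.card F ^ 2 ∨ d = Fintype.card F ^ 2 + 1 ∨
    d = (Fintype.card F - 1) * (Fintype.card F - 2 ^ (m + 1) + 1) ∨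
    d = (Fintype.card F - 1) * (Fintype.card F + 2 ^ (m + 1) + 1) ∨
    d = 2 ^ m * (Fintype.card F - 1) := by
  have := Fintype.ofFinite (Sg F m)
  have := Fintype.ofFinite (IrrCharacter (Sg F m))
  have h := degrees_iff (F := F) m (d : ℤ)
  have h8 := eight_le_q (F := F) m
  have hr := r_le (F := F) m
  have h1 : (∃ χ : IrrCharacter (Sg F m), dg m χ = (d : ℤ)) ↔ d ∈ charDegrees (Sg F m) := by
    constructor
    · rintro ⟨χ, hχ⟩
      exact ⟨χ, by exact_mod_cast hχ⟩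
    · rintro ⟨χ, hχ⟩
      exact ⟨χ, by rw [dg, hχ]⟩
  rw [← h1, h]
  have c1 : ((Fintype.card F - 1 : ℕ) : ℤ) = (Fintype.card F : ℤ) - 1 := by
    push_cast [Nat.cast_sub (by omega : 1 ≤ Fintype.card F)]; ring
  have c2 : ((Fintype.card F - 2 ^ (m + 1) : ℕ) : ℤ) = (Fintype.card F : ℤ) - 2 ^ (m + 1) := by
    push_cast [Nat.cast_sub hr]; ring
  have e1 : (d : ℤ) = 1 ↔ d = 1 := by norm_cast
  have e2 : (d : ℤ) = (Fintype.card F : ℤ) ^ 2 ↔ d = Fintype.card F ^ 2 := by norm_cast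
  have e3 : (d : ℤ) = (Fintype.card F : ℤ) ^ 2 + 1 ↔ d = Fintype.card F ^ 2 + 1 := by norm_cast
  have e4 : (d : ℤ) = ((Fintype.card F : ℤ) - 1) * (Fintype.card F - 2 ^ (m + 1) + 1) ↔
      d = (Fintype.card F - 1) * (Fintype.card F - 2 ^ (m + 1) + 1) := by
    rw [← c1, ← c2]; norm_cast
  have e5 : (d : ℤ) = ((Fintype.card F : ℤ) - 1) * (Fintype.card F + 2 ^ (m + 1) + 1) ↔
      d = (Fintype.card F - 1) * (Fintype.card F + 2 ^ (m + 1) + 1) := by
    rw [← c1]; norm_cast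
  have e6 : (d : ℤ) = 2 ^ m * ((Fintype.card F : ℤ) - 1) ↔ d = 2 ^ m * (Fintype.card F - 1) := by
    rw [← c1]; norm_cast
  rw [e1, e2, e3, e4, e5, e6]

theorem prod_eq : (Fintype.card F + 2 ^ (m + 1) + 1) * (Fintype.card F - 2 ^ (m + 1) + 1) =
    Fintype.card F ^ 2 + 1 := by
  have hr := r_le (F := F) m
  have h2 := r_sq (F := F) m
  zify [hr]
  have h2' : ((2 : ℤ) ^ (m + 1)) ^ 2 = 2 * (Fintype.card F : ℤ) := by exact_mod_cast h2
  linear_combination -h2'

include hS in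
theorem prime_dvd_q {p : ℕ} (hp : p.Prime) {k : ℕ} (h : p ∣ Fintype.card F ^ k) : p = 2 := by
  rw [hS.card, ← pow_mul] at h
  exact (Nat.prime_dvd_prime_iff_eq hp Nat.prime_two).mp (hp.dvd_of_dvd_pow h)

theorem degreePrimes_eq : degreePrimes (Sg F m) = {r : ℕ | r.Prime ∧ (r = 2 ∨
    r ∣ (Fintype.card F - 1) * (Fintype.card F ^ 2 + 1))} := by
  have hpe := prod_eq (F := F) m
  ext p
  simp only [degreePrimes, Set.mem_ofPred_eq]
  refine and_congr_right fun hp => ?_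
  constructor
  · rintro ⟨d, hd, hpd⟩
    rw [mem_charDegrees] at hd
    rcases hd with rfl | rfl | rfl | rfl | rfl | rfl
    · exact absurd (Nat.dvd_one.mp hpd) hp.one_lt.ne'
    · left; exact prime_dvd_q m hp hpd
    · right; exact Dvd.dvd.mul_left hpd _
    · right
      rw [← hpe]
      exact hpd.trans ⟨Fintype.card F + 2 ^ (m + 1) + 1, by ring⟩
    · right
      rw [← hpe]
      exact hpd.trans ⟨Fintype.card F - 2 ^ (m + 1) + 1, by ring⟩
    · rcases hp.dvd_mul.mp hpd with h | h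
      · left; exact (Nat.prime_dvd_prime_iff_eq hp Nat.prime_two).mp (hp.dvd_of_dvd_pow h)
      · right; exact Dvd.dvd.mul_right h _
  · rintro (rfl | h)
    · refine ⟨Fintype.card F ^ 2, (mem_charDegrees m _).mpr (Or.inr (Or.inl rfl)), ?_⟩
      rw [hS.card, ← pow_mul]
      exact dvd_pow_self 2 (by omega)
    · rcases hp.dvd_mul.mp h with h | h
      · exact ⟨_, (mem_charDegrees m _).mpr (Or.inr (Or.inr (Or.inr (Or.inr (Or.inr rfl))))),
          Dvd.dvd.mul_left h _⟩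
      · exact ⟨_, (mem_charDegrees m _).mpr (Or.inr (Or.inr (Or.inl rfl))), h⟩

theorem adj_iff (r s : ℕ) : (degreeGraph (Sg F m)).Adj r s ↔ (r ≠ s ∧ r.Prime ∧ s.Prime ∧
    ((r ∣ (Fintype.card F - 1) * (Fintype.card F ^ 2 + 1) ∧
      s ∣ (Fintype.card F - 1) * (Fintype.card F ^ 2 + 1)) ∨ (r = 2 ∧ s ∣ Fintype.card F - 1) ∨
      (s = 2 ∧ r ∣ Fintype.card F - 1))) := by
  have hpe := prod_eq (F := F) m
  have h1m := hS.one_le
  simp only [degreeGraph]
  refine and_congr_right fun hrs => and_congr_right fun hr => and_congr_right fun hs => ?_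
  have hcop : Nat.Coprime r s := (Nat.coprime_primes hr hs).mpr hrs
  have d6 : 2 ^ m * (Fintype.card F - 1) ∈ charDegrees (Sg F m) :=
    (mem_charDegrees m _).mpr (Or.inr (Or.inr (Or.inr (Or.inr (Or.inr rfl)))))
  have d5 : (Fintype.card F - 1) * (Fintype.card F + 2 ^ (m + 1) + 1) ∈ charDegrees (Sg F m) :=
    (mem_charDegrees m _).mpr (Or.inr (Or.inr (Or.inr (Or.inr (Or.inl rfl)))))
  have d4 : (Fintype.card F - 1) * (Fintype.card F - 2 ^ (m + 1) + 1) ∈ charDegrees (Sg F m) :=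
    (mem_charDegrees m _).mpr (Or.inr (Or.inr (Or.inr (Or.inl rfl))))
  have d3 : Fintype.card F ^ 2 + 1 ∈ charDegrees (Sg F m) :=
    (mem_charDegrees m _).mpr (Or.inr (Or.inr (Or.inl rfl)))
  constructor
  · rintro ⟨d, hd, hpd⟩
    have hrd := (dvd_mul_right r s).trans hpd
    have hsd := (dvd_mul_left s r).trans hpd
    rw [mem_charDegrees] at hd
    rcases hd with rfl | rfl | rfl | rfl | rfl | rfl
    · exact absurd (Nat.dvd_one.mp hrd) hr.one_lt.ne'
    · exact absurd ((prime_dvd_q m hr hrd).trans (prime_dvd_q m hs hsd).symm) hrs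
    · left; exact ⟨Dvd.dvd.mul_left hrd _, Dvd.dvd.mul_left hsd _⟩
    · left
      rw [← hpe]
      exact ⟨hrd.trans ⟨Fintype.card F + 2 ^ (m + 1) + 1, by ring⟩,
        hsd.trans ⟨Fintype.card F + 2 ^ (m + 1) + 1, by ring⟩⟩
    · left
      rw [← hpe]
      exact ⟨hrd.trans ⟨Fintype.card F - 2 ^ (m + 1) + 1, by ring⟩,
        hsd.trans ⟨Fintype.card F - 2 ^ (m + 1) + 1, by ring⟩⟩
    · have key : ∀ p : ℕ, p.Prime → p ∣ 2 ^ m * (Fintype.card F - 1) → p = 2 ∨
          p ∣ Fintype.card F - 1 := by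
        intro p hp hpd
        rcases hp.dvd_mul.mp hpd with h | h
        · left; exact (Nat.prime_dvd_prime_iff_eq hp Nat.prime_two).mp (hp.dvd_of_dvd_pow h)
        · right; exact h
      rcases key r hr hrd with h1 | h1 <;> rcases key s hs hsd with h2 | h2
      · exact absurd (h1.trans h2.symm) hrs
      · right; left; exact ⟨h1, h2⟩
      · right; right; exact ⟨h2, h1⟩
      · left; exact ⟨Dvd.dvd.mul_right h1 _, Dvd.dvd.mul_right h2 _⟩
  · have mixed : ∀ a b : ℕ, b.Prime → Nat.Coprime a b → a ∣ Fintype.card F - 1 →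
        b ∣ Fintype.card F ^ 2 + 1 → ∃ d ∈ charDegrees (Sg F m), a * b ∣ d := by
      intro a b hb hab ha hb'
      rw [← hpe] at hb'
      rcases hb.dvd_mul.mp hb' with h | h
      · exact ⟨_, d5, mul_dvd_mul ha h⟩
      · exact ⟨_, d4, mul_dvd_mul ha h⟩
    rintro (⟨h1, h2⟩ | ⟨rfl, h⟩ | ⟨rfl, h⟩)
    · rcases hr.dvd_mul.mp h1 with h1 | h1 <;> rcases hs.dvd_mul.mp h2 with h2 | h2
      · exact ⟨_, d6, Dvd.dvd.mul_left (hcop.mul_dvd_of_dvd_of_dvd h1 h2) _⟩
      · exact mixed r s hs hcop h1 h2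
      · rw [mul_comm]; exact mixed s r hr hcop.symm h2 h1
      · exact ⟨_, d3, hcop.mul_dvd_of_dvd_of_dvd h1 h2⟩
    · exact ⟨_, d6, mul_dvd_mul (dvd_pow_self 2 (by omega)) h⟩
    · rw [mul_comm]
      exact ⟨_, d6, mul_dvd_mul (dvd_pow_self 2 (by omega)) h⟩

end Cfsg.Agent.H15.Suz
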