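import Mathlib
import Cfsg.Agent.H15.SzLie
import Cfsg.Agent.H15.SzSub5

/-! # Suzuki groups: words are not laws in large Suzuki groups -/

set_option autoImplicit false

namespace Cfsg.Agent.H15.Suz

open Polynomial Matrix

section poly

variable {R : Type*} [CommRing R] (r : ℕ)

/-- long root element -/
def TX (b : R) : Matrix (Fin 4) (Fin 4) R := !![1, 0, b, b ^ r; 0, 1, 0, b; 0, 0, 1, 0; 0, 0, 0, 1]

variable (R) in
/-- Weyl element -/
def WX : Matrix (Fin 4) (Fin 4) R := !![0, 0, 0, 1; 0, 0, 1, 0; 0, 1, 0, 0; 1, 0, 0, 0]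

/-- one step -/
def stp (b : R) (v : Fin 4 → R) : Fin 4 → R := ![b ^ r * v 0 + (b * v 1 + v 3), b * v 0 + v 2, v 1, v 0]

theorem stp_eq (b : R) (v : Fin 4 → R) : v ᵥ* TX r b ᵥ* WX R = stp r b v := by
  ext i
  fin_cases i <;>
    simp [Matrix.vecMul, dotProduct, Fin.sum_univ_four, TX, WX, stp] <;> ring

theorem vec_TX_three (b : R) (v : Fin 4 → R) : (v ᵥ* TX r b) 3 = b ^ r * v 0 + (b * v 1 + v 3) := by
  simp [Matrix.vecMul, dotProduct, Fin.sum_univ_four, TX]; ring

theorem TX_mul [CharP R 2] {n : ℕ} (hr : r = 2 ^ n) (a b : R) : TX r a * TX r b = TX r (a + b) := by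
  have : Fact (Nat.Prime 2) := ⟨Nat.prime_two⟩
  have h : (a + b) ^ r = a ^ r + b ^ r := by rw [hr]; exact add_pow_char_pow a b 2 n
  ext i j
  fin_cases i <;> fin_cases j <;>
    simp [Matrix.mul_apply, Fin.sum_univ_four, TX, h, add_comm]

end poly

section deg

variable {F : Type*} [Field F] (r : ℕ)

/-- leading coordinate -/
structure Good (v : Fin 4 → F[X]) (D : ℕ) : Prop where
  pos : 0 < D
  zero : natDegree (v 0) = r * D
  one : natDegree (v 1) < r * D
  two : natDegree (v 2) < r * D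
  three : natDegree (v 3) < r * D

variable {r}

theorem Good.top (hr : 2 ≤ r) {v : Fin 4 → F[X]} {D : ℕ} (h : Good r v D) {b : F[X]}
    (hb : 1 ≤ natDegree b) :
    natDegree (b ^ r * v 0 + (b * v 1 + v 3)) = r * (D + natDegree b) := by
  have hv0 : v 0 ≠ 0 := by
    intro h0
    have h1 := h.zero
    rw [h0, natDegree_zero] at h1
    have := h.pos
    nlinarith
  have hb0 : b ≠ 0 := by rintro rfl; simp at hb
  have h1 : natDegree (b ^ r * v 0) = r * (D + natDegree b) := by
    rw [natDegree_mul (pow_ne_zero _ hb0) hv0, natDegree_pow, h.zero]; ring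
  have h2 : natDegree (b * v 1 + v 3) < natDegree (b ^ r * v 0) := by
    rw [h1]
    refine lt_of_le_of_lt (natDegree_add_le _ _) ?_
    have h3 : natDegree (b * v 1) ≤ natDegree b + natDegree (v 1) := natDegree_mul_le
    have h4 := h.one
    have h5 := h.three
    rw [max_lt_iff]
    constructor <;> nlinarith
  rw [natDegree_add_eq_left_of_natDegree_lt h2, h1]

theorem Good.step (hr : 2 ≤ r) {v : Fin 4 → F[X]} {D : ℕ} (h : Good r v D) {b : F[X]}
    (hb : 1 ≤ natDegree b) : Good r (stp r b v) (D + natDegree b) where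
  pos := by omega
  zero := h.top hr hb
  one := by
    show natDegree (b * v 0 + v 2) < _
    refine lt_of_le_of_lt (natDegree_add_le _ _) ?_
    have h3 : natDegree (b * v 0) ≤ natDegree b + natDegree (v 0) := natDegree_mul_le
    have h4 := h.zero
    have h5 := h.two
    rw [max_lt_iff]
    constructor <;> nlinarith
  two := by
    show natDegree (v 1) < _
    have := h.one
    nlinarith
  three := by
    show natDegree (v 0) < _
    rw [h.zero]
    nlinarith

/-- exponents of the letters -/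
def pe (l : ℕ × Bool) : ℕ := cond l.2 (2 * l.1 + 1) (2 * l.1 + 2)
/-- exponents of the letters -/
def qe (l : ℕ × Bool) : ℕ := cond l.2 (2 * l.1 + 2) (2 * l.1 + 1)

variable (F r) in
/-- matrix of a letter -/
noncomputable def mX (l : ℕ × Bool) : Matrix (Fin 4) (Fin 4) F[X] :=
  TX r (X ^ pe l) * WX F[X] * TX r (X ^ qe l)

/-- degree bound -/
def Bd (L : List (ℕ × Bool)) : ℕ := (L.map fun l => pe l + qe l).sum

theorem natDegree_sum_pow {a b : ℕ} (ha : 1 ≤ a) (hb : 1 ≤ b) (hab : a ≠ b) :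
    1 ≤ natDegree ((X : F[X]) ^ a + X ^ b) ∧ natDegree ((X : F[X]) ^ a + X ^ b) ≤ a + b := by
  constructor
  · rcases lt_or_gt_of_ne hab with h | h
    · rw [natDegree_add_eq_right_of_natDegree_lt (by simpa using h), natDegree_X_pow]
      exact hb
    · rw [natDegree_add_eq_left_of_natDegree_lt (by simpa using h), natDegree_X_pow]
      exact ha
  · refine (natDegree_add_le _ _).trans ?_
    simp

theorem natDegree_main [CharP F 2] {n : ℕ} (hr : r = 2 ^ n) (hr2 : 2 ≤ r) (L : List (ℕ × Bool)) :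
    ∀ (l : ℕ × Bool) (v : Fin 4 → F[X]) (D : ℕ), Good r v D → FreeGroup.IsReduced (l :: L) →
      0 < natDegree ((v ᵥ* TX r (X ^ qe l) ᵥ* (L.map (mX F r)).prod) 3) ∧
      natDegree ((v ᵥ* TX r (X ^ qe l) ᵥ* (L.map (mX F r)).prod) 3) ≤ r * (D + qe l + Bd L) := by
  have hqe : ∀ l, 1 ≤ qe l := by
    intro l; unfold qe; cases l.2 <;> simp
  have hpe : ∀ l, 1 ≤ pe l := by
    intro l; unfold pe; cases l.2 <;> simp
  induction L with
  | nil =>
    intro l v D h _
    rw [List.map_nil, List.prod_nil, Matrix.vecMul_one, vec_TX_three,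
      h.top hr2 (by rw [natDegree_X_pow]; exact hqe l), natDegree_X_pow]
    have := h.pos
    unfold Bd
    rw [List.map_nil, List.sum_nil, add_zero]
    exact ⟨by positivity, le_rfl⟩
  | cons l' L ih =>
    intro l v D h hred
    rw [FreeGroup.isReduced_cons_cons] at hred
    obtain ⟨h1, h2⟩ := hred
    have hne : qe l ≠ pe l' := by
      intro h3
      unfold qe pe at h3
      rcases l with ⟨i, _ | _⟩ <;> rcases l' with ⟨j, _ | _⟩
      · simp at h3
        omega
      · simp at h3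
        exact absurd (h1 h3) (by simp)
      · simp at h3
        exact absurd (h1 h3) (by simp)
      · simp at h3
        omega
    obtain ⟨d1, d2⟩ := natDegree_sum_pow (F := F) (hqe l) (hpe l') hne
    have h3 := h.step hr2 d1
    have h4 := ih l' _ _ h3 h2
    have h5 : v ᵥ* TX r (X ^ qe l) ᵥ* ((l' :: L).map (mX F r)).prod =
        stp r (X ^ qe l + X ^ pe l') v ᵥ* TX r (X ^ qe l') ᵥ* (L.map (mX F r)).prod := by
      rw [← stp_eq, ← TX_mul r hr, List.map_cons, List.prod_cons]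
      unfold mX
      simp only [Matrix.vecMul_vecMul, Matrix.mul_assoc]
    rw [h5]
    refine ⟨h4.1, h4.2.trans ?_⟩
    apply Nat.mul_le_mul_left
    have : Bd (l' :: L) = pe l' + qe l' + Bd L := by
      unfold Bd; rw [List.map_cons, List.sum_cons]
    rw [this]
    omega

theorem good_start (hr2 : 2 ≤ r) {a : ℕ} (ha : 1 ≤ a) :
    Good (F := F) r (stp r (X ^ a) ![1, 0, 0, 0]) a where
  pos := ha
  zero := by
    show natDegree ((X ^ a) ^ r * 1 + (X ^ a * 0 + 0)) = _
    rw [mul_one, mul_zero, add_zero, add_zero, ← pow_mul, natDegree_X_pow, mul_comm]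
  one := by
    show natDegree (X ^ a * 1 + 0) < _
    rw [mul_one, add_zero, natDegree_X_pow]
    nlinarith
  two := by
    show natDegree 0 < _
    rw [natDegree_zero]; positivity
  three := by
    show natDegree 1 < _
    rw [natDegree_one]; positivity

/-- the corner entry of the word -/
theorem corner [CharP F 2] {n : ℕ} (hr : r = 2 ^ n) (hr2 : 2 ≤ r) {L : List (ℕ × Bool)}
    (hL : L ≠ []) (hred : FreeGroup.IsReduced L) :
    0 < natDegree ((L.map (mX F r)).prod 0 3) ∧
      natDegree ((L.map (mX F r)).prod 0 3) ≤ r * Bd L := by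
  obtain ⟨l, L, rfl⟩ := List.exists_cons_of_ne_nil hL
  have hpe : 1 ≤ pe l := by unfold pe; cases l.2 <;> simp
  have h1 := natDegree_main hr hr2 L l _ _ (good_start (F := F) hr2 hpe) hred
  have h2 : ((l :: L).map (mX F r)).prod 0 3 =
      (stp r (X ^ pe l) ![1, 0, 0, 0] ᵥ* TX r (X ^ qe l) ᵥ* (L.map (mX F r)).prod) 3 := by
    rw [← stp_eq, List.map_cons, List.prod_cons]
    unfold mX
    rw [Matrix.vecMul_vecMul, Matrix.vecMul_vecMul, Matrix.vecMul_vecMul, ← Matrix.mul_assoc,
      ← Matrix.mul_assoc]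
    generalize (TX r (X ^ pe l) * WX F[X] * TX r (X ^ qe l) *
      (L.map fun l => TX r (X ^ pe l) * WX F[X] * TX r (X ^ qe l)).prod) = M
    simp [Matrix.vecMul, dotProduct, Fin.sum_univ_four]
  rw [h2]
  refine ⟨h1.1, h1.2.trans ?_⟩
  apply Nat.mul_le_mul_left
  have : Bd (l :: L) = pe l + qe l + Bd L := by
    unfold Bd; rw [List.map_cons, List.sum_cons]
  rw [this]

end deg

section main

variable {F : Type*} [Field F] [Fintype F] {m : ℕ} [hS : SzF F m]

variable (m) in
/-- the substituted elements -/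
noncomputable def gS (s : F) (i : ℕ) : Sg F m := t m 0 (s ^ (2 * i + 1)) * w F m * t m 0 (s ^ (2 * i + 2))

theorem t0_val (b : F) : ((t m 0 b).1 : Matrix (Fin 4) (Fin 4) F) = TX (2 ^ (m + 1)) b := by
  rw [t_mat, fo_zero_left, map_zero, zero_mul, add_zero, th_apply]
  rfl

theorem gS_val (s : F) (i : ℕ) : ((gS m s i).1 : Matrix (Fin 4) (Fin 4) F) =
    TX (2 ^ (m + 1)) (s ^ (2 * i + 1)) * WX F * TX (2 ^ (m + 1)) (s ^ (2 * i + 2)) := by
  rw [← t0_val, ← t0_val, show WX F = ((w F m).1 : Matrix (Fin 4) (Fin 4) F) from (w_mat m).symm]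
  rfl

theorem gS_inv_val (s : F) (i : ℕ) : (((gS m s i)⁻¹).1 : Matrix (Fin 4) (Fin 4) F) =
    TX (2 ^ (m + 1)) (s ^ (2 * i + 2)) * WX F * TX (2 ^ (m + 1)) (s ^ (2 * i + 1)) := by
  have h1 : (gS m s i)⁻¹ = t m 0 (s ^ (2 * i + 2)) * w F m * t m 0 (s ^ (2 * i + 1)) := by
    unfold gS
    rw [_root_.mul_inv_rev, _root_.mul_inv_rev, t_inv, t_inv, w_inv]
    simp only [map_zero, zero_mul, add_zero, mul_assoc]
  rw [h1, ← t0_val, ← t0_val, show WX F = ((w F m).1 : Matrix (Fin 4) (Fin 4) F) from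
    (w_mat m).symm]
  rfl

theorem map_TX {R S : Type*} [CommRing R] [CommRing S] (f : R →+* S) (r : ℕ) (b : R) :
    (TX r b).map f = TX r (f b) := by
  ext i j
  fin_cases i <;> fin_cases j <;> simp [TX]

theorem map_WX {R S : Type*} [CommRing R] [CommRing S] (f : R →+* S) :
    (WX R).map f = WX S := by
  ext i j
  fin_cases i <;> fin_cases j <;> simp [WX]

theorem val_prod (L : List (Sg F m)) : ((L.prod).1 : Matrix (Fin 4) (Fin 4) F) =
    (L.map fun g => (g.1 : Matrix (Fin 4) (Fin 4) F)).prod := by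
  induction L with
  | nil => rfl
  | cons g L ih =>
    rw [List.prod_cons, List.map_cons, List.prod_cons, ← ih]
    rfl

theorem lift_val (s : F) (L : List (ℕ × Bool)) :
    ((FreeGroup.lift (gS m s) (FreeGroup.mk L)).1 : Matrix (Fin 4) (Fin 4) F) =
      ((L.map (mX F (2 ^ (m + 1)))).prod).map (evalRingHom s) := by
  rw [FreeGroup.lift_mk, val_prod]
  have h1 : ((L.map (mX F (2 ^ (m + 1)))).prod).map (evalRingHom s) =
      (evalRingHom s).mapMatrix (L.map (mX F (2 ^ (m + 1)))).prod := rfl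
  rw [h1, map_list_prod, List.map_map, List.map_map]
  congr 1
  apply List.map_congr_left
  rintro ⟨i, b⟩ -
  show _ = (mX F (2 ^ (m + 1)) (i, b)).map (evalRingHom s)
  unfold mX
  rw [Matrix.map_mul, Matrix.map_mul, map_TX, map_TX, map_WX]
  cases b
  · show (((gS m s i)⁻¹).1 : Matrix (Fin 4) (Fin 4) F) = _
    rw [gS_inv_val]
    simp [pe, qe]
  · show ((gS m s i).1 : Matrix (Fin 4) (Fin 4) F) = _
    rw [gS_val]
    simp [pe, qe]

/-- words are not laws -/
theorem not_law {w : FreeGroup ℕ} (hw : w ≠ 1) (hm : Bd w.toWord ≤ m) :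
    ∃ f : ℕ → Sg F m, FreeGroup.lift f w ≠ 1 := by
  have hc := charTwo F m
  have hr2 : 2 ≤ 2 ^ (m + 1) := by
    rw [pow_succ]; have := Nat.one_le_two_pow (n := m); omega
  have hL : w.toWord ≠ [] := by
    rw [ne_eq, FreeGroup.toWord_eq_nil_iff]; exact hw
  obtain ⟨h1, h2⟩ := corner (F := F) (r := 2 ^ (m + 1)) rfl hr2 hL FreeGroup.isReduced_toWord
  set P := (w.toWord.map (mX F (2 ^ (m + 1)))).prod 0 3 with hP
  have hP0 : P ≠ 0 := by rintro h0; rw [h0, natDegree_zero] at h1; exact lt_irrefl _ h1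
  have hcard : (natDegree P : Cardinal) < Cardinal.mk F := by
    rw [Cardinal.mk_fintype, hS.card, Nat.cast_lt]
    refine lt_of_le_of_lt h2 ?_
    have h3 : Bd w.toWord < 2 ^ m := lt_of_le_of_lt hm Nat.lt_two_pow_self
    calc 2 ^ (m + 1) * Bd w.toWord < 2 ^ (m + 1) * 2 ^ m :=
          Nat.mul_lt_mul_of_pos_left h3 (by positivity)
      _ = 2 ^ (2 * m + 1) := by rw [← pow_add]; congr 1; ring
  obtain ⟨s, hs⟩ := P.exists_eval_ne_zero_of_natDegree_lt_card hP0 hcard
  refine ⟨gS m s, fun h => hs ?_⟩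
  have h3 := lift_val (m := m) s w.toWord
  rw [FreeGroup.mk_toWord, h] at h3
  have h4 := congrFun (congrFun h3 0) 3
  rw [Matrix.map_apply, ← hP] at h4
  rw [← coe_evalRingHom, ← h4]
  rfl

end main

end Cfsg.Agent.H15.Suz
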