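import Mathlib
import Cfsg.Agent.H15.SzSub7
import Cfsg.Agent.H15.SzLie

/-! # Suzuki groups: transitive actions in which nontrivial elements fix at most two points -/

set_option autoImplicit false

open scoped Pointwise commutatorElement

namespace Cfsg.Agent.H15.Suz

open Cfsg.Agent.H15.IrrLin

section idx

variable {G : Type*} [Group G]

theorem mem_of_relIndex_two {H N : Subgroup G} (h : H.relIndex N = 1 ∨ H.relIndex N = 2) :
    (∀ g ∈ N, g * g ∈ H) ∧ ∀ a ∈ N, ∀ b ∈ N, ⁅a, b⁆ ∈ H := by
  have hnorm : (H.subgroupOf N).Normal := by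
    rcases h with h | h
    · have h1 : H.subgroupOf N = ⊤ := Subgroup.index_eq_one.mp h
      rw [h1]; infer_instance
    · exact Subgroup.normal_of_index_eq_two h
  have hcard : Nat.card (N ⧸ H.subgroupOf N) = 1 ∨ Nat.card (N ⧸ H.subgroupOf N) = 2 := h
  have hsq : ∀ x : N ⧸ H.subgroupOf N, x * x = 1 := by
    intro x
    have h1 : x ^ Nat.card (N ⧸ H.subgroupOf N) = 1 := pow_card_eq_one'
    rcases hcard with hc | hc
    · rw [hc, pow_one] at h1; rw [h1, one_mul]
    · rw [hc, sq] at h1; exact h1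
  have hcomm : ∀ x y : N ⧸ H.subgroupOf N, x * y = y * x := by
    intro x y
    have hx : x⁻¹ = x := inv_eq_of_mul_eq_one_right (hsq x)
    have hy : y⁻¹ = y := inv_eq_of_mul_eq_one_right (hsq y)
    have hxy : (x * y)⁻¹ = x * y := inv_eq_of_mul_eq_one_right (hsq _)
    rw [mul_inv_rev, hx, hy] at hxy
    exact hxy.symm
  constructor
  · intro g hg
    have h1 := hsq (QuotientGroup.mk ⟨g, hg⟩)
    rw [← QuotientGroup.mk_mul, QuotientGroup.eq_one_iff] at h1
    exact h1
  · intro a ha b hb
    let a' : N := ⟨a, ha⟩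
    let b' : N := ⟨b, hb⟩
    have h1 : ⁅(QuotientGroup.mk a' : N ⧸ H.subgroupOf N), (QuotientGroup.mk b' : N ⧸ H.subgroupOf N)⁆
        = 1 := by
      rw [commutatorElement_eq_one_iff_mul_comm]; exact hcomm _ _
    have h2 : (QuotientGroup.mk ⁅a', b'⁆ : N ⧸ H.subgroupOf N) = 1 := h1
    rw [QuotientGroup.eq_one_iff] at h2
    exact h2

theorem relIndex_le_two [Finite G] {Ω : Type*} [Finite Ω] [MulAction G Ω] (α : Ω) (N : Subgroup G)
    (x : G) (hx : Nat.card (MulAction.fixedBy Ω x) ≤ 2) (h : ∀ n ∈ N, x • n • α = n • α) :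
    (MulAction.stabilizer G α).relIndex N = 1 ∨ (MulAction.stabilizer G α).relIndex N = 2 := by
  have h1 : (MulAction.stabilizer G α).relIndex N = (MulAction.orbit N α).ncard := by
    rw [← MulAction.index_stabilizer]
    have h0 : (MulAction.stabilizer G α).subgroupOf N = MulAction.stabilizer N α := by
      ext n; rfl
    rw [← h0]; rfl
  have h2 : (MulAction.orbit N α).ncard ≤ 2 := by
    refine le_trans ?_ hx
    rw [Nat.card_coe_set_eq]
    apply Set.ncard_le_ncard _ (Set.toFinite _)
    rintro _ ⟨n, rfl⟩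
    exact h n n.2
  have h3 : (MulAction.stabilizer G α).relIndex N ≠ 0 := Subgroup.index_ne_zero_of_finite
  omega

end idx

section

variable {F : Type*} [Field F] [Fintype F] (m : ℕ) [hS : SzF F m]
variable {Ω : Type*} [Fintype Ω] [MulAction (Sg F m) Ω]

include hS in
omit [Fintype Ω] [MulAction (Sg F m) Ω] in
theorem exists_sq' (l : Fˣ) : ∃ k : Fˣ, k * k = l := by
  have h2 : Function.Injective (fun l : Fˣ => l * l) := by
    intro a b hab
    have h3 : (a * b⁻¹) * (a * b⁻¹) = 1 := by
      have : (a * b⁻¹) * (a * b⁻¹) = (a * a) * (b * b)⁻¹ := by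
        rw [mul_inv]; exact mul_mul_mul_comm a b⁻¹ a b⁻¹
      rw [this]
      simp only at hab
      rw [hab, mul_inv_cancel]
    exact mul_inv_eq_one.mp (unit_sq_eq_one m h3)
  exact (Finite.injective_iff_surjective.mp h2) l

/-- a stabiliser containing a central involution of `U` contains the Borel subgroup -/
theorem BB_le_stab (hfix : ∀ g : Sg F m, g ≠ 1 → Nat.card (MulAction.fixedBy Ω g) ≤ 2) (α : Ω)
    {b : F} (hb0 : b ≠ 0) (hb : t m 0 b • α = α) : BB F m ≤ MulAction.stabilizer (Sg F m) α := by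
  set H := MulAction.stabilizer (Sg F m) α with hH
  have h1 := relIndex_le_two α (UU F m) (t m 0 b) (hfix _ (t0_ne m hb0)) (by
    rintro _ ⟨x, y, rfl⟩
    rw [← mul_smul, ← t0_comm, mul_smul, hb])
  have h2 := (mem_of_relIndex_two h1).1
  have hZ : ∀ c : F, t m 0 c ∈ H := by
    intro c
    obtain ⟨a, ha⟩ := (norm_bijective (F := F) m).2 c
    simp only at ha
    have h3 := h2 (t m a 0) (t_mem_UU m a 0)
    rw [t_sq, mul_comm, ha] at h3
    exact h3
  have h4 := relIndex_le_two α (BB F m) (t m 0 b) (hfix _ (t0_ne m hb0)) (by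
    intro n hn
    obtain ⟨x, y, k, rfl⟩ := (mem_BB_iff m).mp hn
    have h5 : t m 0 b * (t m x y * dd m k) = (t m x y * dd m k) *
        t m 0 (((k : F) * th F m k)⁻¹ * b) := by
      have h6 := td_conj_t0 m x y k (((k : F) * th F m k)⁻¹ * b)
      have hk0 : (k : F) * th F m k ≠ 0 := mul_ne_zero k.ne_zero (th_ne_zero m k.ne_zero)
      rw [mul_inv_cancel_left₀ hk0] at h6
      rw [← h6]; group
    rw [← mul_smul, h5, mul_smul]
    congr 1
    exact hZ _)
  obtain ⟨h5, h6⟩ := mem_of_relIndex_two h4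
  have hU : UU F m ≤ H := by
    rintro _ ⟨x, y, rfl⟩
    obtain ⟨k, c, d, h⟩ := t_eq_commutator m x y
    rw [h]
    exact h6 _ (DD_le_BB m ((mem_DD m).mpr ⟨k, rfl⟩)) _ (UU_le_BB m (t_mem_UU m c d))
  intro g hg
  obtain ⟨x, y, k, rfl⟩ := (mem_BB_iff m).mp hg
  obtain ⟨l, rfl⟩ := exists_sq' (F := F) m k
  rw [dd_mul]
  exact H.mul_mem (hU (t_mem_UU m x y)) (h5 _ (DD_le_BB m ((mem_DD m).mpr ⟨l, rfl⟩)))

omit [Fintype Ω] [MulAction (Sg F m) Ω] in
theorem card_norm_cent {g : Sg F m} (hg : g ∈ R0 F m) :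
    Nat.card (Subgroup.normalizer ((Cg m g : Subgroup (Sg F m)) : Set (Sg F m))) =
      4 * Nat.card (Cg m g) := by
  obtain ⟨g₁, hg₁, g₂, hg₂, -, hR, -, -, -, hn1, hn2⟩ := two_classes (F := F) m
  have key : ∀ g' ∈ R0 F m, g ∈ XA m g' → ∃ x : Sg F m,
      Cg m g' = (Cg m g).map (MulAut.conj x).toMonoidHom := by
    intro g' hg' hX
    obtain ⟨h1, x, hx⟩ := hX
    have hne : x⁻¹ * g * x ≠ 1 := by
      intro h; apply h1
      rw [show g = x * (x⁻¹ * g * x) * x⁻¹ by group, h]; group
    have h2 := (cent_eq m hg' hx hne).2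
    refine ⟨x⁻¹, ?_⟩
    have h3 := cent_conj_eq m x⁻¹ g
    rw [inv_inv] at h3
    rw [← h3]
    exact h2.symm
  have key2 : ∀ g' ∈ R0 F m, g ∈ XA m g' →
      Nat.card (Subgroup.normalizer ((Cg m g' : Subgroup (Sg F m)) : Set (Sg F m))) =
        Nat.card (Cg m g') * 4 →
      Nat.card (Subgroup.normalizer ((Cg m g : Subgroup (Sg F m)) : Set (Sg F m))) =
        4 * Nat.card (Cg m g) := by
    intro g' hg' hX hn
    obtain ⟨x, hx⟩ := key g' hg' hX
    rw [hx, card_map_conj] at hn
    rw [← Subgroup.map_equiv_normalizer_eq (Cg m g) (MulAut.conj x), card_map_conj] at hn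
    rw [hn, mul_comm]
  rw [hR] at hg
  rcases hg with hg | hg
  · exact key2 g₁ hg₁ hg hn1
  · exact key2 g₂ hg₂ hg hn2

omit [Fintype Ω] [MulAction (Sg F m) Ω] in
theorem card_N_DD {n : Sg F m} (hn : ∀ d ∈ DD F m, n * d * n⁻¹ ∈ DD F m) : n * n ∈ DD F m := by
  obtain ⟨k, hk⟩ := exists_ne_one (F := F) m
  -- n permutes the two fixed points
  have h1 : ∀ p : Om F m, (∀ d ∈ DD F m, d • p = p) → p = oinf F m ∨ p = op m (0 : F) 0 :=
    fun p hp => fix_dd m hk (hp _ ((mem_DD m).mpr ⟨k, rfl⟩))
  have hfin : ∀ d ∈ DD F m, d • oinf F m = oinf F m ∧ d • op m (0 : F) 0 = op m (0 : F) 0 := by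
    intro d hd
    obtain ⟨l, rfl⟩ := (mem_DD m).mp hd
    exact ⟨dd_oinf m l, by rw [dd_op]; simp⟩
  have h2 : ∀ p : Om F m, (∀ d ∈ DD F m, d • p = p) → ∀ d ∈ DD F m, d • (n⁻¹ • p) = n⁻¹ • p := by
    intro p hp d hd
    have h3 := hp _ (hn d hd)
    rw [mul_smul, mul_smul] at h3
    rw [eq_inv_smul_iff]; exact h3
  have ha := h1 _ (h2 _ (fun d hd => (hfin d hd).1))
  have hb := h1 _ (h2 _ (fun d hd => (hfin d hd).2))
  rw [mem_DD]
  rcases ha with ha | ha
  · rcases hb with hb | hb
    · exact absurd (MulAction.injective _ (hb.trans ha.symm)) (op_ne_oinf m _ _)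
    · apply exists_dd
      · rw [mul_smul, inv_smul_eq_iff.mp ha |>.symm]
        exact (inv_smul_eq_iff.mp ha).symm
      · rw [mul_smul, inv_smul_eq_iff.mp hb |>.symm]
        exact (inv_smul_eq_iff.mp hb).symm
  · rcases hb with hb | hb
    · have ha' : n • op m (0 : F) 0 = oinf F m := (inv_smul_eq_iff.mp ha).symm
      have hb' : n • oinf F m = op m (0 : F) 0 := (inv_smul_eq_iff.mp hb).symm
      apply exists_dd
      · rw [mul_smul, hb', ha']
      · rw [mul_smul, ha', hb']
    · exact absurd (MulAction.injective _ (hb.trans ha.symm)) (op_ne_oinf m _ _)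

theorem odd_mem_of_sq {G : Type*} [Group G] {H D : Subgroup G} (hodd : Odd (Nat.card H))
    (h : ∀ x ∈ H, x * x ∈ D) : H ≤ D := by
  intro x hx
  obtain ⟨j, hj⟩ := hodd
  have h1 : x ^ (2 * j + 1) = 1 := by
    rw [← hj]
    have : (⟨x, hx⟩ : H) ^ Nat.card H = 1 := pow_card_eq_one'
    exact congrArg Subtype.val this
  have h2 : x = x ^ (j + 1) * x ^ (j + 1) := by
    rw [← pow_add, show j + 1 + (j + 1) = (2 * j + 1) + 1 by ring, pow_succ, h1, one_mul]
  rw [h2]
  exact h _ (H.pow_mem hx _)

omit [Fintype Ω] [MulAction (Sg F m) Ω] in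
/-- subgroups of odd order containing a conjugate of `D` -/
theorem odd_card {H : Subgroup (Sg F m)} (hodd : Odd (Nat.card H)) {x : Sg F m}
    (hD : (DD F m).map (MulAut.conj x).toMonoidHom ≤ H) : Nat.card H = Fintype.card F - 1 := by
  have hsol : Group.IsSolvable H := by
    apply solvable_of_cyclic_two
    intro P
    have h2 : ¬ 2 ∣ Nat.card H := by
      rw [← even_iff_two_dvd, Nat.not_even_iff_odd]; exact hodd
    have h1 : Nat.card P = 1 := by
      rw [P.card_eq_multiplicity, Nat.factorization_eq_zero_of_not_dvd h2, pow_zero]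
    have : Subsingleton P := (Nat.card_eq_one_iff_unique.mp h1).1
    infer_instance
  have hdvd : Fintype.card F - 1 ∣ Nat.card H := by
    rw [← card_DD m, ← card_map_conj m (DD F m) x]
    exact Subgroup.card_dvd_of_le hD
  have h8 := eight_le_q (F := F) m
  apply Nat.dvd_antisymm _ hdvd
  rcases local_of_solvable m H hsol with ⟨P, hP⟩ | ⟨U, hU1, hU2, hU3⟩
  · obtain ⟨y, hy⟩ := sylow_eq m P
    -- conjugate into B
    have hB : ∀ g ∈ H, y⁻¹ * g * y ∈ BB F m := fun g hg => (sylow_normalizer m hy g).mp (hP hg)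
    let f : H →* Fˣ :=
      { toFun := fun g => piB F m ⟨y⁻¹ * g.1 * y, hB g g.2⟩
        map_one' := by
          rw [← map_one (piB F m)]
          congr 1
          apply Subtype.ext
          show y⁻¹ * 1 * y = 1
          group
        map_mul' := by
          intro a b
          rw [← map_mul]
          congr 1
          apply Subtype.ext
          show y⁻¹ * (a.1 * b.1) * y = (y⁻¹ * a.1 * y) * (y⁻¹ * b.1 * y)
          group }
    have hf : Function.Injective f := by
      rw [injective_iff_map_eq_one]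
      intro g hg
      obtain ⟨a, b, hab⟩ := (piB_eq_one m).mp hg
      have h1 : y⁻¹ * g.1 * y = t m a b := hab
      have h2 : g ^ 4 = 1 := by
        apply Subtype.ext
        exact pow_four' m (x := y) (a := a) (b := b) (by rw [← h1]; group)
      have h3 : orderOf g ∣ 4 := orderOf_dvd_of_pow_eq_one h2
      have h4 : orderOf g ∣ Nat.card H := orderOf_dvd_natCard _
      have h5 : Nat.Coprime 4 (Nat.card H) := by
        have : Nat.Coprime (2 ^ 2) (Nat.card H) :=
          Nat.Coprime.pow_left 2 (Nat.coprime_two_left.mpr hodd)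
        simpa using this
      have h6 := Nat.dvd_gcd h3 h4
      rw [Nat.coprime_iff_gcd_eq_one.mp h5] at h6
      exact orderOf_eq_one_iff.mp (Nat.dvd_one.mp h6)
    have h1 := Subgroup.card_dvd_of_injective f hf
    rwa [Nat.card_units, Nat.card_eq_fintype_card (α := F)] at h1
  · -- the torus
    have hr0 : 2 < 2 ^ (m + 1) := by
      have : 2 ^ 1 < 2 ^ (m + 1) := Nat.pow_lt_pow_right (by norm_num) (by
        have := hS.one_le; omega)
      simpa using this
    have hrlt : 2 ^ (m + 1) < Fintype.card F := by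
      rw [hS.card]; exact Nat.pow_lt_pow_right (by norm_num) (by have := hS.one_le; omega)
    have hU0 : Nontrivial U := by
      rw [← Finite.one_lt_card_iff_nontrivial]
      rcases hU2 with h | h | h
      · omega
      · rw [h]; generalize 2 ^ (m + 1) = r at *; omega
      · rw [h]; generalize 2 ^ (m + 1) = r at *; omega
    obtain ⟨⟨y, hy⟩, hy1⟩ := exists_ne (1 : U)
    have hy2 : y ≠ 1 := fun h => hy1 (Subtype.ext h)
    have hUy := eq_cent_of_tor m hy2 hU1 hU2 hy
    by_cases hyR : y ∈ R0 F m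
    · exfalso
      have h1 := cent_norm_dvd m hyR
      have h2 : Nat.card H ∣ Nat.card (Cg m y) * 4 := by
        rw [hUy] at hU3
        exact (Subgroup.card_dvd_of_le hU3).trans h1
      have h3 : Fintype.card F - 1 ∣ Nat.card (Cg m y) * 4 := hdvd.trans h2
      have h4 : Nat.Coprime (Fintype.card F - 1) 4 := by
        have h5 : Odd (Fintype.card F - 1) := tor_odd m (Or.inl rfl)
        have : Nat.Coprime (Fintype.card F - 1) (2 ^ 2) :=
          Nat.Coprime.pow_right 2 (Nat.coprime_two_right.mpr h5)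
        simpa using this
      have h5 := Nat.Coprime.dvd_of_dvd_mul_right h4 h3
      have h6 : Fintype.card F - 1 ≠ 1 := by omega
      obtain ⟨p, hp, hpd⟩ := Nat.exists_prime_and_dvd h6
      have h7 : TorOrd F m (Nat.card (Cg m y)) := by rw [← hUy]; exact hU2
      have h8' := tor_eq m (Or.inl rfl) h7 hp hpd (hpd.trans h5)
      rcases card_cent m hyR with h | h
      · rw [h] at h8'; generalize 2 ^ (m + 1) = r at *; omega
      · rw [h] at h8'; generalize 2 ^ (m + 1) = r at *; omega
    · rw [mem_R0] at hyR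
      push Not at hyR
      rcases trichotomy m hy2 hyR with ⟨z, a, b, hab, h⟩ | ⟨z, k, hk, h⟩
      · exfalso
        have h1 := pow_four' m h
        have h3 : orderOf y ∣ 4 := orderOf_dvd_of_pow_eq_one h1
        have h4 : orderOf y ∣ Nat.card U := by
          rw [← Subgroup.orderOf_mk y hy]; exact orderOf_dvd_natCard _
        have h5 : Nat.Coprime 4 (Nat.card U) := by
          have : Nat.Coprime (2 ^ 2) (Nat.card U) :=
            Nat.Coprime.pow_left 2 (Nat.coprime_two_left.mpr (tor_odd m hU2))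
          simpa using this
        have h6 := Nat.dvd_gcd h3 h4
        rw [Nat.coprime_iff_gcd_eq_one.mp h5] at h6
        exact hy2 (orderOf_eq_one_iff.mp (Nat.dvd_one.mp h6))
      · have hUD : U = (DD F m).map (MulAut.conj z).toMonoidHom := by
          rw [hUy, h, cent_conj_dd m z hk]
        have hHD : H ≤ (DD F m).map (MulAut.conj z).toMonoidHom := by
          apply odd_mem_of_sq hodd
          intro g hg
          have h1 := hU3 hg
          rw [hUD] at h1
          rw [mem_map_conj]
          rw [show z⁻¹ * (g * g) * z = (z⁻¹ * g * z) * (z⁻¹ * g * z) by group]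
          apply card_N_DD
          intro d hd
          have h2 := (Subgroup.mem_normalizer_iff.mp h1 (z * d * z⁻¹)).mp ⟨d, hd, rfl⟩
          rw [mem_map_conj] at h2
          rwa [show z⁻¹ * (g * (z * d * z⁻¹) * g⁻¹) * z = z⁻¹ * g * z * d * (z⁻¹ * g * z)⁻¹ by
            group] at h2
        have h1 := Subgroup.card_dvd_of_le hHD
        rwa [card_map_conj, card_DD] at h1

theorem two_fix (htr : MulAction.IsPretransitive (Sg F m) Ω)
    (hfix : ∀ g : Sg F m, g ≠ 1 → Nat.card (MulAction.fixedBy Ω g) ≤ 2)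
    (hex : ∃ g : Sg F m, g ≠ 1 ∧ Nat.card (MulAction.fixedBy Ω g) = 2) :
    (Fintype.card Ω = Fintype.card F ^ 2 + 1 ∧ MulAction.IsMultiplyPretransitive (Sg F m) Ω 2) ∨
    (Fintype.card Ω = Fintype.card F ^ 2 * (Fintype.card F ^ 2 + 1) ∧
      ∀ α : Ω, Nat.card (MulAction.stabilizer (Sg F m) α) = Fintype.card F - 1) := by
  have hcardΩ : ∀ α : Ω, Fintype.card Ω * Nat.card (MulAction.stabilizer (Sg F m) α) =
      Nat.card (Sg F m) := by
    intro α
    rw [← Nat.card_eq_fintype_card, ← MulAction.index_stabilizer_of_transitive (Sg F m) α, mul_comm]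
    exact Subgroup.card_mul_index _
  have h8 := eight_le_q (F := F) m
  obtain ⟨g0, hg0, hg02⟩ := hex
  have hne : Nonempty (MulAction.fixedBy Ω g0) := by
    have : 0 < Nat.card (MulAction.fixedBy Ω g0) := by omega
    exact (Nat.card_pos_iff.mp this).1
  obtain ⟨α, hα⟩ := hne
  have hα' : g0 • α = α := hα
  -- not a single point
  have hnt : ∀ β : Ω, MulAction.stabilizer (Sg F m) β ≠ ⊤ := by
    intro β h
    have h1 : Nat.card (MulAction.fixedBy Ω g0) ≤ 1 := by
      have h2 : ∀ γ : Ω, γ = β := by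
        intro γ
        obtain ⟨g, rfl⟩ := htr.exists_smul_eq β γ
        have : g ∈ MulAction.stabilizer (Sg F m) β := by rw [h]; trivial
        exact this
      have : Subsingleton (MulAction.fixedBy Ω g0) :=
        ⟨fun a b => Subtype.ext ((h2 a).trans (h2 b).symm)⟩
      exact Finite.card_le_one_iff_subsingleton.mpr this
    omega
  by_cases hinv : ∃ (u : Sg F m) (β : Ω), u ≠ 1 ∧ u * u = 1 ∧ u • β = β
  · left
    obtain ⟨u, β, hu1, hu2, hβ⟩ := hinv
    obtain ⟨p, hp, -⟩ := invol_fix m hu1 hu2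
    obtain ⟨x, rfl⟩ := exists_to_inf m p
    obtain ⟨b, hb⟩ := sq_eq_one_of_BB m (g := x⁻¹ * u * x) (by
      rw [mem_BB, mul_smul, mul_smul, hp, inv_smul_smul]) (by
      rw [show x⁻¹ * u * x * (x⁻¹ * u * x) = x⁻¹ * (u * u) * x by group, hu2]; group)
    have hb0 : b ≠ 0 := by
      rintro rfl
      rw [t_zero] at hb
      apply hu1
      rw [show u = x * (x⁻¹ * u * x) * x⁻¹ by group, hb]; group
    have hbfix : t m 0 b • (x⁻¹ • β) = x⁻¹ • β := by
      rw [← hb, mul_smul, mul_smul, smul_inv_smul, hβ]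
    set γ := x⁻¹ • β with hγ
    have h1 := BB_le_stab m hfix γ hb0 hbfix
    have h2 : MulAction.stabilizer (Sg F m) γ = BB F m := by
      apply le_antisymm _ h1
      intro g hg
      by_contra hgB
      exact hnt γ (overgroup_UU m ((UU_le_BB m).trans h1) hg hgB)
    constructor
    · have h3 := hcardΩ γ
      rw [h2, card_BB, card_Sg] at h3
      have h4 : 0 < Fintype.card F ^ 2 * (Fintype.card F - 1) := by
        have : 0 < Fintype.card F - 1 := by omega
        positivity
      apply Nat.eq_of_mul_eq_mul_right h4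
      rw [h3]; ring
    · rw [MulAction.is_two_pretransitive_iff]
      -- transfer from the ovoid
      have key : ∀ g g' : Sg F m, g • γ = g' • γ ↔ g • oinf F m = g' • oinf F m := by
        intro g g'
        have h3 : g'⁻¹ * g ∈ MulAction.stabilizer (Sg F m) γ ↔ g'⁻¹ * g ∈ BB F m := by rw [h2]
        rw [MulAction.mem_stabilizer_iff, mem_BB, mul_smul, mul_smul, inv_smul_eq_iff,
          inv_smul_eq_iff] at h3
        exact h3
      intro a b c d hab hcd
      obtain ⟨ga, rfl⟩ := htr.exists_smul_eq γ a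
      obtain ⟨gb, rfl⟩ := htr.exists_smul_eq γ b
      obtain ⟨gc, rfl⟩ := htr.exists_smul_eq γ c
      obtain ⟨gd, rfl⟩ := htr.exists_smul_eq γ d
      obtain ⟨g, hg1, hg2⟩ := exists_two m (ga • oinf F m) (gb • oinf F m) (gc • oinf F m)
        (gd • oinf F m) (fun h => hab ((key _ _).mpr h)) (fun h => hcd ((key _ _).mpr h))
      refine ⟨g, ?_, ?_⟩
      · rw [← mul_smul, key, mul_smul, hg1]
      · rw [← mul_smul, key, mul_smul, hg2]
  · push Not at hinv
    right
    have hodd : ∀ β : Ω, Odd (Nat.card (MulAction.stabilizer (Sg F m) β)) := by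
      intro β
      rw [← Nat.not_even_iff_odd, even_iff_two_dvd]
      intro h
      have : Fact (Nat.Prime 2) := ⟨Nat.prime_two⟩
      obtain ⟨u, hu⟩ := exists_prime_orderOf_dvd_card' 2 h
      rw [← Subgroup.orderOf_coe] at hu
      have hu1 : (u : Sg F m) ≠ 1 := by
        intro h
        rw [h, orderOf_one] at hu
        norm_num at hu
      have hu2 : (u : Sg F m) * u = 1 := by rw [← sq, ← hu, pow_orderOf_eq_one]
      exact hinv u β hu1 hu2 u.2
    set H := MulAction.stabilizer (Sg F m) α with hH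
    have hg0H : g0 ∈ H := hα'
    -- the centralizer of g0 is in H
    have hodd4 : ¬ g0 ^ 4 = 1 := by
      intro h
      have h3 : orderOf (⟨g0, hg0H⟩ : H) ∣ 4 := orderOf_dvd_of_pow_eq_one (Subtype.ext h)
      have h4 : orderOf (⟨g0, hg0H⟩ : H) ∣ Nat.card H := orderOf_dvd_natCard _
      have h5 : Nat.Coprime 4 (Nat.card H) := by
        have : Nat.Coprime (2 ^ 2) (Nat.card H) :=
          Nat.Coprime.pow_left 2 (Nat.coprime_two_left.mpr (hodd α))
        simpa using this
      have h6 := Nat.dvd_gcd h3 h4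
      rw [Nat.coprime_iff_gcd_eq_one.mp h5] at h6
      exact hg0 (congrArg Subtype.val (orderOf_eq_one_iff.mp (Nat.dvd_one.mp h6)))
    have htor : IsCyclic (Cg m g0) ∧ TorOrd F m (Nat.card (Cg m g0)) := by
      rcases elt_cases m hg0 with ⟨x, a, b, -, h⟩ | h
      · exact absurd (pow_four' m h) hodd4
      · exact h
    have hle : Cg m g0 ≤ H := by
      have h1 := relIndex_le_two α (Cg m g0) g0 (hfix _ hg0) (by
        intro n hn
        rw [← mul_smul, ← mem_centralizer_iff_comm.mp hn, mul_smul, hα'])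
      have h2 := (mem_of_relIndex_two h1).1
      exact odd_mem_of_sq (tor_odd m htor.2) h2
    have hcardH : Nat.card H = Fintype.card F - 1 := by
      by_cases hR : g0 ∈ R0 F m
      · exfalso
        -- the normalizer
        have h1 := relIndex_le_two α (Subgroup.normalizer ((Cg m g0 : Subgroup (Sg F m)) :
          Set (Sg F m))) g0 (hfix _ hg0) (by
            intro n hn
            have h2 : n⁻¹ * g0 * n ∈ Cg m g0 := by
              have := (Subgroup.mem_normalizer_iff.mp (inv_mem hn) g0).mp (mem_cent_self m g0)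
              rwa [inv_inv] at this
            have h3 : (n⁻¹ * g0 * n) • α = α := hle h2
            rw [← mul_smul, show g0 * n = n * (n⁻¹ * g0 * n) by group, mul_smul, h3])
        have h2 := (mem_of_relIndex_two h1).1
        -- all squares of the normalizer lie in H ; the normalizer has order 4a
        have h3 := card_norm_cent m hR
        set N := Subgroup.normalizer ((Cg m g0 : Subgroup (Sg F m)) : Set (Sg F m)) with hN
        have h4 : Nat.card (H.subgroupOf N) * H.relIndex N = 4 * Nat.card (Cg m g0) := by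
          rw [← h3]; exact Subgroup.card_mul_index _
        have h5 : Nat.card (H.subgroupOf N) ∣ Nat.card H := by
          have h6 : Nat.card (H.subgroupOf N) = Nat.card ((H.subgroupOf N).map N.subtype) :=
            Nat.card_congr ((H.subgroupOf N).equivMapOfInjective N.subtype N.subtype_injective).toEquiv
          rw [h6]
          apply Subgroup.card_dvd_of_le
          rintro _ ⟨n, hn, rfl⟩
          exact hn
        have h6 : Odd (Nat.card (H.subgroupOf N)) := Odd.of_dvd_nat (hodd α) h5
        obtain ⟨j, hj⟩ := h6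
        rcases h1 with h1 | h1
        · rw [h1] at h4; omega
        · rw [h1] at h4; omega
      · rw [mem_R0] at hR
        push Not at hR
        rcases trichotomy m hg0 hR with ⟨x, a, b, -, h⟩ | ⟨x, k, hk, h⟩
        · exact absurd (pow_four' m h) hodd4
        · apply odd_card m (hodd α) (x := x)
          rw [← cent_conj_dd m x hk, ← h]; exact hle
    have hΩ : Fintype.card Ω = Fintype.card F ^ 2 * (Fintype.card F ^ 2 + 1) := by
      have h3 := hcardΩ α
      rw [← hH, hcardH, card_Sg] at h3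
      exact Nat.eq_of_mul_eq_mul_right (by omega) h3
    refine ⟨hΩ, fun β => ?_⟩
    have h3 := hcardΩ β
    rw [hΩ, card_Sg] at h3
    exact Nat.eq_of_mul_eq_mul_left (by positivity) h3

end

end Cfsg.Agent.H15.Suz
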