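import Cfsg.Agent.H17.InvTwoE

/-!
# Conjugacy of involutions of symplectic and orthogonal groups in characteristic two
-/

set_option autoImplicit false
set_option linter.unusedSectionVars false

namespace Cfsg.Agent.H15.TI

open Module Cfsg.Agent.H5 Cfsg.Agent.H17
open scoped Matrix

section lin

variable {F : Type*} [Field F] {V : Type*} [AddCommGroup V] [Module F V]

/-- rank and alternation are invariants under isometries -/
theorem inv_of_conj {B : LinearMap.BilinForm F V} {g h c : V ≃ₗ[F] V} (hc : ∀ u v, B (c u) (c v) = B u v)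
    (h1 : ∀ v, h (c v) = c (g v)) :
    finrank F (LinearMap.range (g.toLinearMap - LinearMap.id)) = finrank F (LinearMap.range (h.toLinearMap - LinearMap.id)) ∧
    ((∀ v, B v (g v - v) = 0) ↔ ∀ v, B v (h v - v) = 0) := by
  constructor
  · have h2 : LinearMap.range (h.toLinearMap - LinearMap.id) = (LinearMap.range (g.toLinearMap - LinearMap.id)).map (c : V →ₗ[F] V) := by
      ext x
      constructor
      · rintro ⟨v, rfl⟩
        refine ⟨g (c.symm v) - c.symm v, ⟨_, rfl⟩, ?_⟩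
        show c (g (c.symm v) - c.symm v) = h v - v
        rw [map_sub, ← h1, LinearEquiv.apply_symm_apply]
      · rintro ⟨_, ⟨v, rfl⟩, rfl⟩
        refine ⟨c v, ?_⟩
        show h (c v) - c v = c (g v - v)
        rw [map_sub, h1]
    rw [h2]
    exact (LinearEquiv.finrank_map_eq c _).symm
  · constructor
    · intro hA v
      obtain ⟨w, rfl⟩ := c.surjective v
      rw [h1, ← map_sub, hc, hA]
    · intro hA v
      have := hA (c v)
      rwa [h1, ← map_sub, hc] at this

end lin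

section ig

variable {F : Type*} [Field F] [Finite F] [CharP F 2] {V : Type*} [AddCommGroup V] [Module F V] [FiniteDimensional F V]
  {B : LinearMap.BilinForm F V} {N : V → F} {μ : F → F} {m M : ℕ}

theorem rk_of (H : ISet B N μ m M) (g : IG B N) {ι : Type} [Fintype ι] {e : ι → V} {τ : ι → ι} (hτ : Function.Involutive τ)
    (he : LinearIndependent F e) (hgT : ∀ v, (g : V ≃ₗ[F] V) v - v = TT B e τ v) : iR g = Fintype.card ι := by
  rw [← TT_rank H.nd he hτ]
  have h1 : (g : V ≃ₗ[F] V).toLinearMap - LinearMap.id = TT B e τ := LinearMap.ext fun v => hgT v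
  show finrank F (LinearMap.range ((g : V ≃ₗ[F] V).toLinearMap - LinearMap.id)) = _
  rw [h1]

theorem not_alt (H : ISet B N μ m M) (g : IG B N) {s : ℕ} {e : Fin s → V} (hs : 0 < s) (he : LinearIndependent F e)
    (hgT : ∀ v, (g : V ≃ₗ[F] V) v - v = TT B e id v) : ¬ iA g := by
  intro hA
  obtain ⟨v, hv⟩ := exists_dual_inv H.nd he (fun j => if j = ⟨0, hs⟩ then 1 else 0)
  have h1 := hA v
  rw [hgT, TT_apply, map_sum, Finset.sum_eq_single ⟨0, hs⟩] at h1
  · rw [map_smul] at h1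
    simp only [id] at h1
    rw [hv, if_pos rfl, smul_eq_mul, mul_one] at h1
    exact one_ne_zero h1
  · intro j _ hj
    rw [hv, if_neg hj, zero_smul, map_zero]
  · intro h
    exact absurd (Finset.mem_univ _) h

theorem is_alt (g : IG B N) {k : ℕ} {e : Fin k ⊕ Fin k → V} (hgT : ∀ v, (g : V ≃ₗ[F] V) v - v = TT B e Sum.swap v) : iA g := by
  intro v
  rw [hgT, TT_apply, map_sum, Fintype.sum_sum_type]
  simp only [map_smul, smul_eq_mul, Sum.swap_inl, Sum.swap_inr]
  rw [← Finset.sum_add_distrib]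
  refine Finset.sum_eq_zero fun i _ => ?_
  linear_combination (B v (e (Sum.inl i)) * B v (e (Sum.inr i))) * two_zero F

theorem conj_of_fam (H : ISet B N μ m M) {g h : IG B N} {ι : Type} [Fintype ι] {e e' : ι → V} {τ : ι → ι}
    (he : LinearIndependent F e) (he' : LinearIndependent F e') (h0 : ∀ i j, B (e i) (e j) = 0)
    (h0' : ∀ i j, B (e' i) (e' j) = 0) (hN : ∀ i, N (e' i) = N (e i)) (h1 : ∀ v, (g : V ≃ₗ[F] V) v - v = TT B e τ v)
    (h2 : ∀ v, (h : V ≃ₗ[F] V) v - v = TT B e' τ v) : IsConj g h := by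
  obtain ⟨c, hc, hce⟩ := H.witt e e' he he' (fun i j => by rw [h0, h0']) hN
  refine isConj_iff.mpr ⟨⟨c, hc⟩, ?_⟩
  rw [mul_inv_eq_iff_eq_mul]
  apply Subtype.ext
  apply LinearEquiv.ext
  intro v
  show c ((g : V ≃ₗ[F] V) v) = (h : V ≃ₗ[F] V) (c v)
  have e1 : (g : V ≃ₗ[F] V) v = TT B e τ v + v := by rw [← h1]; abel
  have e2 : (h : V ≃ₗ[F] V) (c v) = TT B e' τ (c v) + c v := by rw [← h2]; abel
  rw [e1, e2, map_add, TT_conj hc.1 hce]

theorem invol_apply {g : IG B N} (hg : orderOf g = 2) (v : V) : (g : V ≃ₗ[F] V) ((g : V ≃ₗ[F] V) v) = v := by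
  have h1 : g * g = 1 := by rw [← pow_two, ← hg, pow_orderOf_eq_one]
  exact LinearEquiv.congr_fun (congrArg Subtype.val h1) v

/-- the conjugacy criterion -/
theorem ig_conj_iff (H : ISet B N μ m M) {g h : IG B N} (hg : orderOf g = 2) (hh : orderOf h = 2) :
    IsConj g h ↔ iR g = iR h ∧ (iA g ↔ iA h) := by
  constructor
  · intro hgh
    obtain ⟨c, hc⟩ := isConj_iff.mp hgh
    have h1 : ∀ v, (h : V ≃ₗ[F] V) ((c : V ≃ₗ[F] V) v) = (c : V ≃ₗ[F] V) ((g : V ≃ₗ[F] V) v) := by
      intro v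
      have : h * c = c * g := by rw [← hc]; group
      exact LinearEquiv.congr_fun (congrArg Subtype.val this) v
    exact inv_of_conj c.2.1 h1
  · rintro ⟨hR, hA⟩
    rcases invol_cases H g.2 (invol_apply hg) with ⟨s, e, h1, h2, h3, h4, h5⟩ | ⟨k, e, h1, h2, h3, h5⟩
    · have hgR := rk_of H g (τ := id) (fun _ => rfl) h1 h5
      have hgA := not_alt H g h4 h1 h5
      rcases invol_cases H h.2 (invol_apply hh) with ⟨s', e', h1', h2', h3', h4', h5'⟩ | ⟨k', e', h1', h2', h3', h5'⟩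
      · have hhR := rk_of H h (τ := id) (fun _ => rfl) h1' h5'
        rw [Fintype.card_fin] at hgR hhR
        obtain rfl : s = s' := by omega
        exact conj_of_fam H h1 h1' h2 h2' (fun i => by rw [h3, h3']) h5 h5'
      · exact absurd (hA.2 (is_alt h h5')) hgA
    · have hgR := rk_of H g (τ := Sum.swap) (fun x => Sum.swap_swap x) h1 h5
      have hgA := is_alt g h5
      rcases invol_cases H h.2 (invol_apply hh) with ⟨s', e', h1', h2', h3', h4', h5'⟩ | ⟨k', e', h1', h2', h3', h5'⟩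
      · exact absurd (hA.1 hgA) (not_alt H h h4' h1' h5')
      · have hhR := rk_of H h (τ := Sum.swap) (fun x => Sum.swap_swap x) h1' h5'
        rw [Fintype.card_sum, Fintype.card_fin] at hgR hhR
        obtain rfl : k = k' := by omega
        exact conj_of_fam H h1 h1' h2 h2' (fun i => by rw [h3, h3']) h5 h5'

/-- alternating involutions have even rank -/
theorem even_of_alt (H : ISet B N μ m M) {g : IG B N} (hg : orderOf g = 2) (hA : iA g) : Even (iR g) := by
  rcases invol_cases H g.2 (invol_apply hg) with ⟨s, e, h1, h2, h3, h4, h5⟩ | ⟨k, e, h1, h2, h3, h5⟩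
  · exact absurd hA (not_alt H g h4 h1 h5)
  · have hgR := rk_of H g (τ := Sum.swap) (fun x => Sum.swap_swap x) h1 h5
    rw [Fintype.card_sum, Fintype.card_fin] at hgR
    exact ⟨k, hgR⟩

/-- the number of vectors with `B(v, g v) = 0` -/
theorem card_alt (H : ISet B N μ m M) {g : IG B N} (hg : orderOf g = 2) (hA : ¬ iA g) :
    Nat.card {v : V // B v ((g : V ≃ₗ[F] V) v) = 0} * Nat.card F = Nat.card V := by
  haveI : Finite V := Module.finite_of_finite F
  have hself : ∀ v, B v v = 0 := H.alt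
  have hiv := invol_apply hg
  have hadj : ∀ x y, B x ((g : V ≃ₗ[F] V) y) = B y ((g : V ≃ₗ[F] V) x) := by
    intro x y
    rw [← g.2.1 x, hiv, H.sym]
  let φ : V →+ F := AddMonoidHom.mk' (fun v => B v ((g : V ≃ₗ[F] V) v)) fun v w => by
    rw [map_add, map_add, map_add, LinearMap.add_apply, LinearMap.add_apply, hadj v w]
    linear_combination (B w ((g : V ≃ₗ[F] V) v)) * two_zero F
  have hφ : ∀ v, φ v = B v ((g : V ≃ₗ[F] V) v) := fun _ => rfl
  have hsm : ∀ (c : F) v, φ (c • v) = c ^ 2 * φ v := by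
    intro c v
    rw [hφ, hφ, map_smul, map_smul, map_smul, LinearMap.smul_apply, smul_eq_mul, smul_eq_mul]; ring
  have hex : ∃ v, φ v ≠ 0 := by
    by_contra hcon
    push Not at hcon
    apply hA
    intro v
    rw [map_sub, hself, sub_zero]
    exact hcon v
  obtain ⟨v₀, hv₀⟩ := hex
  have hsurj : Function.Surjective φ := by
    intro x
    haveI := Fintype.ofFinite F
    obtain ⟨a, ha⟩ := FiniteField.isSquare_of_char_two (ringChar.eq F 2) (x / φ v₀)
    refine ⟨a • v₀, ?_⟩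
    rw [hsm, pow_two, ← ha, div_mul_cancel₀ _ hv₀]
  have h1 := AddSubgroup.card_eq_card_quotient_mul_card_addSubgroup φ.ker
  have h2 : Nat.card (V ⧸ φ.ker) = Nat.card F := Nat.card_congr (QuotientAddGroup.quotientKerEquivOfSurjective φ hsurj).toEquiv
  rw [h1, h2, mul_comm]
  rfl

end ig

section og

variable {F : Type*} [Field F] [Finite F] [CharP F 2] {V : Type*} [AddCommGroup V] [Module F V] [FiniteDimensional F V]
  {Q : QuadraticForm F V} {m M : ℕ}

theorem og_conj_iff (H : ISet (pB Q) (fun v => Q v) id m M) {g h : OG Q} (hg : orderOf g = 2) (hh : orderOf h = 2) :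
    IsConj g h ↔ finrank F (movS g) = finrank F (movS h) ∧
      ((∀ v, pB Q v (g v - v) = 0) ↔ ∀ v, pB Q v (h v - v) = 0) := by
  have h1 : IsConj g h ↔ IsConj (ogIG Q g) (ogIG Q h) := by
    constructor
    · intro h; exact (ogIG Q).toMonoidHom.map_isConj h
    · intro h
      have := (ogIG Q).symm.toMonoidHom.map_isConj h
      simpa using this
  rw [h1, ig_conj_iff H (by rw [MulEquiv.orderOf_eq]; exact hg) (by rw [MulEquiv.orderOf_eq]; exact hh)]
  exact Iff.rfl

end og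

section mat

variable {F : Type*} [Field F] {ι : Type} [Fintype ι] [DecidableEq ι] {Q : QuadraticForm F (ι → F)}

theorem range_eq (t : Cfsg.isometryGroup F ⇑Q) :
    LinearMap.range (Matrix.toLin' ((((t : Cfsg.isometryGroup F ⇑Q) : GL ι F) : Matrix ι ι F) - 1)) = movS (ogEquiv Q t) := by
  unfold movS
  congr 1
  apply LinearMap.ext
  intro v
  rw [Matrix.toLin'_apply, Matrix.sub_mulVec, Matrix.one_mulVec]
  rfl

theorem rank_eq (t : Cfsg.isometryGroup F ⇑Q) :
    ((((t : Cfsg.isometryGroup F ⇑Q) : GL ι F) : Matrix ι ι F) - 1).rank = finrank F (movS (ogEquiv Q t)) := by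
  rw [← range_eq]
  rfl

theorem isConj_iff_og (t s : Cfsg.isometryGroup F ⇑Q) : IsConj t s ↔ IsConj (ogEquiv Q t) (ogEquiv Q s) := by
  constructor
  · intro h; exact (ogEquiv Q).toMonoidHom.map_isConj h
  · intro h
    have := (ogEquiv Q).symm.toMonoidHom.map_isConj h
    simpa using this

variable [Finite F] [CharP F 2] {m M : ℕ}

/-- conjugate in the orthogonal group iff conjugate in the symplectic group -/
theorem conj_iff_sp (H : ISet (pB Q) (fun v => Q v) id m M) (t s : Cfsg.isometryGroup F ⇑Q) (ht : orderOf t = 2)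
    (hs : orderOf s = 2) : IsConj t s ↔ ∃ g ∈ Cfsg.preserving (Units.coeHom (Matrix ι ι F)) (fun u v => Q (u + v) - Q u - Q v),
      g * (t : GL ι F) * g⁻¹ = (s : GL ι F) := by
  constructor
  · intro h
    obtain ⟨c, hc⟩ := isConj_iff.1 h
    refine ⟨c, ?_, congrArg Subtype.val hc⟩
    intro u v
    have h1 : ∀ w, Q (((c : GL ι F) : Matrix ι ι F) *ᵥ w) = Q w := fun w => c.2 w w
    show Q (((c : GL ι F) : Matrix ι ι F) *ᵥ u + ((c : GL ι F) : Matrix ι ι F) *ᵥ v) - Q (((c : GL ι F) : Matrix ι ι F) *ᵥ u) -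
      Q (((c : GL ι F) : Matrix ι ι F) *ᵥ v) = Q (u + v) - Q u - Q v
    rw [← Matrix.mulVec_add, h1, h1, h1]
  · rintro ⟨g, hg, hgs⟩
    rw [isConj_iff_og, og_conj_iff H (by rw [MulEquiv.orderOf_eq]; exact ht) (by rw [MulEquiv.orderOf_eq]; exact hs)]
    set c : (ι → F) ≃ₗ[F] (ι → F) := LinearMap.GeneralLinearGroup.generalLinearEquiv F (ι → F)
      (Matrix.GeneralLinearGroup.toLin g) with hcdef
    have hc : ∀ v, c v = (g : Matrix ι ι F) *ᵥ v := fun _ => rfl
    have hpB : ∀ u v, pB Q u v = Q (u + v) - Q u - Q v := by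
      intro u v
      rw [q_add]; ring
    have h1 : ∀ u v, pB Q (c u) (c v) = pB Q u v := by
      intro u v
      rw [hpB, hpB, hc, hc]
      exact hg u v
    have h2 : ∀ v, (ogEquiv Q s) (c v) = c ((ogEquiv Q t) v) := by
      intro v
      rw [ogEquiv_apply, ogEquiv_apply, hc, hc, Matrix.mulVec_mulVec, Matrix.mulVec_mulVec, ← Units.val_mul, ← Units.val_mul, ← hgs]
      congr 2
      group
    exact inv_of_conj (g := (ogEquiv Q t).1) (h := (ogEquiv Q s).1) h1 h2

/-- elements of `Ω` -/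
theorem omega_iff (hnd : ND Q) (hrg : RG Q = ⊤) (_hV : finrank F (ι → F) = 2 * m) (t : Cfsg.isometryGroup F ⇑Q) :
    t ∈ Cfsg.Omega F ⇑Q ↔ ogEquiv Q t ∈ DG Q := by
  have h1 := comm_map_equiv (ogEquiv Q)
  rw [comm_eq_dg_two (two_zero F) hnd hrg] at h1
  rw [← h1]
  constructor
  · intro h; exact ⟨t, h, rfl⟩
  · rintro ⟨t', h, h2⟩
    have : t' = t := (ogEquiv Q).injective h2
    rwa [← this]

theorem omega_even (hnd : ND Q) (hrg : RG Q = ⊤) (hV : finrank F (ι → F) = 2 * m) (t : Cfsg.isometryGroup F ⇑Q) :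
    t ∈ Cfsg.Omega F ⇑Q ↔ Even ((((t : Cfsg.isometryGroup F ⇑Q) : GL ι F) : Matrix ι ι F) - 1).rank := by
  rw [omega_iff hnd hrg hV, dg_even_mov hnd hrg hV, rank_eq]

/-- no splitting of classes -/
theorem conj_omega (H : ISet (pB Q) (fun v => Q v) id m M) (hnd : ND Q) (hrg : RG Q = ⊤) (hV : finrank F (ι → F) = 2 * m)
    (hm : 1 ≤ m) (hMm : M ≤ m) (hM : ∀ U : Submodule F (ι → F), TS Q U → finrank F U ≤ M)
    (t s : Cfsg.isometryGroup F ⇑Q) (ht : orderOf t = 2) (hconj : IsConj t s)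
    (hns : ¬ (finrank F (movS (ogEquiv Q t)) = m ∧ (∀ v, pB Q v (ogEquiv Q t v - v) = 0) ∧ M = m)) :
    ∃ g ∈ Cfsg.Omega F ⇑Q, g * t * g⁻¹ = s := by
  have h1 := (special_iff H hnd hV hrg hMm hM (g := ogEquiv Q t) (by rw [MulEquiv.orderOf_eq]; exact ht)).not.2
    (fun h => hns ⟨h.2.1, h.1, h.2.2⟩)
  push Not at h1
  obtain ⟨c, hc1, hc2⟩ := h1
  obtain ⟨x, hx⟩ := isConj_iff.1 hconj
  by_cases hxO : x ∈ Cfsg.Omega F ⇑Q
  · exact ⟨x, hxO, hx⟩
  · set d := (ogEquiv Q).symm c with hd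
    have hdt : d * t = t * d := by
      apply (ogEquiv Q).injective
      rw [map_mul, map_mul, hd, MulEquiv.apply_symm_apply, hc1]
    refine ⟨x * d, ?_, ?_⟩
    · rw [omega_iff hnd hrg hV, map_mul, hd, MulEquiv.apply_symm_apply]
      rw [omega_iff hnd hrg hV] at hxO
      obtain ⟨u, hu⟩ := exists_ne_q hnd (by rw [hV]; omega)
      rw [Subgroup.mul_mem_iff_of_index_two (dg_index hnd hrg hu)]
      exact ⟨fun h => absurd h hxO, fun h => absurd h hc2⟩
    · rw [← hx]
      have : x * d * t * (x * d)⁻¹ = x * (d * t) * d⁻¹ * x⁻¹ := by group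
      rw [this, hdt]; group

/-- the splitting classes -/
theorem conj_omega_special (H : ISet (pB Q) (fun v => Q v) id m M) (hnd : ND Q) (hrg : RG Q = ⊤)
    (hV : finrank F (ι → F) = 2 * m) (hMm : M = m) (hM : ∀ U : Submodule F (ι → F), TS Q U → finrank F U ≤ M)
    (t s : Cfsg.isometryGroup F ⇑Q) (ht : orderOf t = 2) (htO : t ∈ Cfsg.Omega F ⇑Q) (hconj : IsConj t s)
    (hr : finrank F (movS (ogEquiv Q t)) = m) (hA : ∀ v, pB Q v (ogEquiv Q t v - v) = 0) :
    (∃ g ∈ Cfsg.Omega F ⇑Q, g * t * g⁻¹ = s) ↔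
      Even (finrank F (movS (ogEquiv Q t) ⊓ movS (ogEquiv Q s) : Submodule F (ι → F))) := by
  have hsp := (special_iff H hnd hV hrg hMm.le hM (g := ogEquiv Q t) (by rw [MulEquiv.orderOf_eq]; exact ht)).2 ⟨hA, hr, hMm⟩
  have hmE : Even m := by
    rw [omega_iff hnd hrg hV, dg_even_mov hnd hrg hV, hr] at htO
    exact htO
  have hnT : ∀ v, Q (ogEquiv Q t v - v) = pB Q v (ogEquiv Q t v - v) := fun v => H.nT _ (ogIG Q (ogEquiv Q t)).2 v
  have hts : TS Q (movS (ogEquiv Q t)) := by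
    intro x hx
    obtain ⟨y, rfl⟩ := (mem_movS _ x).mp hx
    rw [hnT, hA]
  have P : PT Q m := ⟨hnd, hV, movS (ogEquiv Q t), hts, hr⟩
  have key : ∀ x : Cfsg.isometryGroup F ⇑Q, x * t * x⁻¹ = s → (x ∈ Cfsg.Omega F ⇑Q ↔
      Even (finrank F (movS (ogEquiv Q t) ⊓ movS (ogEquiv Q s) : Submodule F (ι → F)))) := by
    intro x hx
    rw [omega_iff hnd hrg hV, ← P.ev_og_iff' hrg, P.ev_iff _ hts hr]
    have h1 : imS (ogSS Q (ogEquiv Q x)) (movS (ogEquiv Q t)) = movS (ogEquiv Q s) := by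
      have h2 : ogEquiv Q s * ogEquiv Q x = ogEquiv Q x * ogEquiv Q t := by
        rw [← map_mul, ← map_mul, ← hx]; congr 1; group
      ext y
      rw [mem_imS]
      have h3 : (ogSS Q (ogEquiv Q x)).1.1.symm y = ((ogEquiv Q x)⁻¹ : OG Q) y := rfl
      rw [h3, mem_movS, mem_movS]
      constructor
      · rintro ⟨z, hz⟩
        refine ⟨ogEquiv Q x z, ?_⟩
        rw [← og_mul, h2, og_mul, ← og_sub, hz, og_inv']
      · rintro ⟨z, hz⟩
        refine ⟨((ogEquiv Q x)⁻¹ : OG Q) z, ?_⟩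
        have h4 : ogEquiv Q t * (ogEquiv Q x)⁻¹ = (ogEquiv Q x)⁻¹ * ogEquiv Q s := by
          rw [eq_inv_mul_iff_mul_eq, ← mul_assoc, ← h2]; group
        rw [← hz, og_sub, ← og_mul, ← og_mul, h4]
    rw [h1]
    constructor
    · intro h
      exact (Nat.even_add.1 h).2 hmE
    · intro h; exact h.add hmE
  constructor
  · rintro ⟨g, hg, hgs⟩
    exact (key g hgs).1 hg
  · intro h
    obtain ⟨x, hx⟩ := isConj_iff.1 hconj
    exact ⟨x, (key x hx).2 h, hx⟩

end mat

end Cfsg.Agent.H15.TI
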