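import Cfsg.Agent.H15.TI1

/-!
# Involutions of `Sp` in characteristic two: matrix form
-/

set_option autoImplicit false
set_option linter.unusedSectionVars false

namespace Cfsg.Agent.H15.TI

open Module Cfsg.Agent.H5 Cfsg.Agent.H17
open scoped Matrix

variable {F : Type*} [Field F] {m : ℕ}

theorem spIG_apply (a : Matrix.symplecticGroup (Fin m) F) (v : Fin m ⊕ Fin m → F) :
    ((spIG m F a : IG (sympB m F) (fun _ => (0 : F))) : (Fin m ⊕ Fin m → F) ≃ₗ[F] _) v = (a : Matrix (Fin m ⊕ Fin m) (Fin m ⊕ Fin m) F) *ᵥ v :=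
  mkE_apply (mem_Sp_sJ.mp a.2) v

theorem sp_rank (a : Matrix.symplecticGroup (Fin m) F) :
    ((a : Matrix (Fin m ⊕ Fin m) (Fin m ⊕ Fin m) F) - 1).rank = iR (spIG m F a) := by
  have h : ((a : Matrix (Fin m ⊕ Fin m) (Fin m ⊕ Fin m) F) - 1).mulVecLin =
      ((spIG m F a : IG (sympB m F) (fun _ => (0 : F))) : (Fin m ⊕ Fin m → F) ≃ₗ[F] _).toLinearMap - LinearMap.id := by
    apply LinearMap.ext
    intro v
    rw [Matrix.mulVecLin_apply, Matrix.sub_mulVec, Matrix.one_mulVec, ← spIG_apply]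
    rfl
  unfold Matrix.rank iR
  rw [h]

variable [Finite F] [CharP F 2]

theorem sp_alt (a : Matrix.symplecticGroup (Fin m) F) :
    iA (spIG m F a) ↔ ∀ v, Cfsg.sympForm m F v ((a : Matrix (Fin m ⊕ Fin m) (Fin m ⊕ Fin m) F) *ᵥ v) = 0 := by
  unfold iA
  refine forall_congr' fun v => ?_
  rw [map_sub, (iset_sp (F := F) m).alt, sub_zero, spIG_apply, sympB_apply]

theorem card_space : Nat.card (Fin m ⊕ Fin m → F) = Nat.card F ^ (2 * m) := by
  rw [Nat.card_fun, Nat.card_sum, Nat.card_fin, two_mul]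

theorem sp_card_alt {a : Matrix.symplecticGroup (Fin m) F} (h : iA (spIG m F a)) :
    Nat.card {v : Fin m ⊕ Fin m → F // Cfsg.sympForm m F v ((a : Matrix (Fin m ⊕ Fin m) (Fin m ⊕ Fin m) F) *ᵥ v) = 0} = Nat.card F ^ (2 * m) := by
  rw [← card_space (F := F) (m := m)]
  exact Nat.card_congr (Equiv.subtypeUnivEquiv ((sp_alt a).1 h))

theorem sp_card {a : Matrix.symplecticGroup (Fin m) F} (ha : orderOf a = 2) (h : ¬ iA (spIG m F a)) :
    Nat.card {v : Fin m ⊕ Fin m → F // Cfsg.sympForm m F v ((a : Matrix (Fin m ⊕ Fin m) (Fin m ⊕ Fin m) F) *ᵥ v) = 0} * Nat.card F =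
      Nat.card F ^ (2 * m) := by
  rw [← card_space (F := F) (m := m), ← card_alt (iset_sp m) (g := spIG m F a) (by rw [MulEquiv.orderOf_eq]; exact ha) h]
  congr 1
  refine Nat.card_congr (Equiv.subtypeEquivRight fun v => ?_)
  rw [spIG_apply, sympB_apply]

theorem sp_conj_iff {a b : Matrix.symplecticGroup (Fin m) F} (ha : orderOf a = 2) (hb : orderOf b = 2) :
    IsConj a b ↔ ((a : Matrix (Fin m ⊕ Fin m) (Fin m ⊕ Fin m) F) - 1).rank = ((b : Matrix (Fin m ⊕ Fin m) (Fin m ⊕ Fin m) F) - 1).rank ∧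
      (iA (spIG m F a) ↔ iA (spIG m F b)) := by
  rw [sp_rank, sp_rank, ← ig_conj_iff (iset_sp m) (g := spIG m F a) (h := spIG m F b) (by rw [MulEquiv.orderOf_eq]; exact ha)
    (by rw [MulEquiv.orderOf_eq]; exact hb)]
  constructor
  · intro h; exact (spIG m F).toMonoidHom.map_isConj h
  · intro h
    have := (spIG m F).symm.toMonoidHom.map_isConj h
    simpa using this

theorem sp_even {a : Matrix.symplecticGroup (Fin m) F} (ha : orderOf a = 2) (h : iA (spIG m F a)) :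
    Even ((a : Matrix (Fin m ⊕ Fin m) (Fin m ⊕ Fin m) F) - 1).rank := by
  rw [sp_rank]
  exact even_of_alt (iset_sp m) (by rw [MulEquiv.orderOf_eq]; exact ha) h

end Cfsg.Agent.H15.TI
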