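import Mathlib
import Cfsg.Prelude.Def_Classical

/-!
# Square-zero maps and involutions of `GL_n`, `SL_n`, `SU_n` in characteristic two
-/

set_option autoImplicit false
set_option linter.unusedSectionVars false

namespace Cfsg.Agent.H15.TI

open Module
open scoped Matrix

section sqz

variable {F : Type*} [Field F] {V : Type*} [AddCommGroup V] [Module F V] [FiniteDimensional F V]

/-- coordinates for a square-zero map -/
theorem exists_coord (N : V →ₗ[F] V) (hN : ∀ v, N (N v) = 0) :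
    ∃ (W D : Submodule F V) (φ : ((W × W) × D) ≃ₗ[F] V), finrank F W = finrank F (LinearMap.range N) ∧
      finrank F D + (finrank F (LinearMap.range N) + finrank F (LinearMap.range N)) = finrank F V ∧
      ∀ x, N (φ x) = φ ((0, x.1.1), 0) := by
  obtain ⟨W, hW⟩ := (LinearMap.ker N).exists_isCompl
  obtain ⟨C, hC⟩ := (LinearMap.range N).exists_isCompl
  have hRK : LinearMap.range N ≤ LinearMap.ker N := by
    rintro _ ⟨v, rfl⟩
    exact hN v
  set D := C ⊓ LinearMap.ker N with hD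
  have hRD : LinearMap.range N ⊓ D = ⊥ := by
    rw [hD, ← inf_assoc, hC.inf_eq_bot, bot_inf_eq]
  have hRD' : LinearMap.range N ⊔ D = LinearMap.ker N := by
    rw [hD, ← sup_inf_assoc_of_le C hRK, hC.sup_eq_top, top_inf_eq]
  have hWk : ∀ w : W, N w = 0 → w = 0 := by
    intro w hw
    have : (w : V) ∈ LinearMap.ker N ⊓ W := ⟨hw, w.2⟩
    rw [hW.inf_eq_bot] at this
    exact Subtype.ext this
  let φ₀ : ((W × W) × D) →ₗ[F] V := (W.subtype.coprod (N.comp W.subtype)).coprod D.subtype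
  have hφ : ∀ x, φ₀ x = (x.1.1 : V) + N x.1.2 + x.2 := fun _ => rfl
  have hNφ : ∀ x, N (φ₀ x) = N x.1.1 := by
    intro x
    have h1 : N (x.2 : V) = 0 := x.2.2.2
    rw [hφ, map_add, map_add, hN, h1, add_zero, add_zero]
  have hinj : Function.Injective φ₀ := by
    rw [injective_iff_map_eq_zero]
    intro x hx
    have h1 : x.1.1 = 0 := by
      apply hWk
      rw [← hNφ, hx, map_zero]
    rw [hφ, h1, Submodule.coe_zero, zero_add] at hx
    have h2 : N (x.1.2 : V) ∈ LinearMap.range N ⊓ D := by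
      refine ⟨⟨_, rfl⟩, ?_⟩
      have : N (x.1.2 : V) = -(x.2 : V) := eq_neg_of_add_eq_zero_left hx
      rw [this]
      exact D.neg_mem x.2.2
    rw [hRD, Submodule.mem_bot] at h2
    have h3 := hWk _ h2
    rw [h2, zero_add] at hx
    exact Prod.ext (Prod.ext h1 h3) (Subtype.ext hx)
  have hsurj : Function.Surjective φ₀ := by
    have hdec : ∀ v, ∃ w : W, ∃ k, N k = 0 ∧ v = w + k := by
      intro v
      have : v ∈ LinearMap.ker N ⊔ W := by rw [hW.sup_eq_top]; exact Submodule.mem_top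
      obtain ⟨k, hk, w, hw, rfl⟩ := Submodule.mem_sup.mp this
      exact ⟨⟨w, hw⟩, k, hk, add_comm _ _⟩
    intro v
    obtain ⟨w, k, hk, rfl⟩ := hdec v
    have hkD : k ∈ LinearMap.range N ⊔ D := by rw [hRD']; exact hk
    obtain ⟨_, ⟨u, rfl⟩, d, hd, rfl⟩ := Submodule.mem_sup.mp hkD
    obtain ⟨w', k', hk', rfl⟩ := hdec u
    refine ⟨((w, w'), ⟨d, hd⟩), ?_⟩
    rw [hφ, map_add, hk', add_zero]
    show (w : V) + N w' + d = w + (N w' + d)
    rw [add_assoc]
  have h1 := LinearMap.finrank_range_add_finrank_ker N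
  have h2 := Submodule.finrank_add_eq_of_isCompl hW
  have hWr : finrank F W = finrank F (LinearMap.range N) := by omega
  refine ⟨W, D, LinearEquiv.ofBijective φ₀ ⟨hinj, hsurj⟩, hWr, ?_, ?_⟩
  · have h3 := (LinearEquiv.ofBijective φ₀ ⟨hinj, hsurj⟩).finrank_eq
    rw [Module.finrank_prod, Module.finrank_prod, hWr] at h3
    omega
  · intro x
    show N (φ₀ x) = φ₀ ((0, x.1.1), 0)
    rw [hNφ, hφ]
    show N x.1.1 = ((0 : W) : V) + N x.1.1 + ((0 : D) : V)
    rw [Submodule.coe_zero, Submodule.coe_zero, zero_add, add_zero]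

theorem sqz_conj (N N' : V →ₗ[F] V) (hN : ∀ v, N (N v) = 0) (hN' : ∀ v, N' (N' v) = 0)
    (hr : finrank F (LinearMap.range N) = finrank F (LinearMap.range N')) : ∃ g : V ≃ₗ[F] V, ∀ v, g (N v) = N' (g v) := by
  obtain ⟨W, D, φ, h1, h2, h3⟩ := exists_coord N hN
  obtain ⟨W', D', φ', h1', h2', h3'⟩ := exists_coord N' hN'
  obtain e := LinearEquiv.ofFinrankEq (R := F) W W' (by rw [h1, h1', hr])
  obtain f := LinearEquiv.ofFinrankEq (R := F) D D' (by omega)
  let ψ : ((W × W) × D) ≃ₗ[F] ((W' × W') × D') := LinearEquiv.prodCongr (LinearEquiv.prodCongr e e) f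
  refine ⟨φ.symm.trans (ψ.trans φ'), fun v => ?_⟩
  obtain ⟨x, rfl⟩ := φ.surjective v
  rw [h3]
  show φ' (ψ (φ.symm (φ ((0, x.1.1), 0)))) = N' (φ' (ψ (φ.symm (φ x))))
  rw [LinearEquiv.symm_apply_apply, LinearEquiv.symm_apply_apply, h3']
  congr 1
  show ((e 0, e x.1.1), f 0) = ((0, e x.1.1), 0)
  rw [map_zero, map_zero]

end sqz

section gl

variable {F : Type*} [Field F] [CharP F 2] {n : ℕ}

theorem two_zero' (F : Type*) [Field F] [CharP F 2] : (2 : F) = 0 := by exact_mod_cast CharP.cast_eq_zero F 2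

theorem gl_conj_of_rank {a b : GL (Fin n) F} (ha : a * a = 1) (hb : b * b = 1)
    (hr : ((a : Matrix (Fin n) (Fin n) F) - 1).rank = ((b : Matrix (Fin n) (Fin n) F) - 1).rank) : IsConj a b := by
  have hsq : ∀ c : GL (Fin n) F, c * c = 1 → ∀ v, ((c : Matrix (Fin n) (Fin n) F) - 1).mulVecLin
      (((c : Matrix (Fin n) (Fin n) F) - 1).mulVecLin v) = 0 := by
    intro c hc v
    have h1 : (c : Matrix (Fin n) (Fin n) F) * c = 1 := congrArg Units.val hc
    have h2 : ((c : Matrix (Fin n) (Fin n) F) - 1) * ((c : Matrix (Fin n) (Fin n) F) - 1) = 0 := by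
      have h3 : ((c : Matrix (Fin n) (Fin n) F) - 1) * ((c : Matrix (Fin n) (Fin n) F) - 1) = (2 : F) • (1 - (c : Matrix (Fin n) (Fin n) F)) := by
        rw [mul_sub, sub_mul, sub_mul, h1, two_smul]
        simp only [mul_one, one_mul]
        abel
      rw [h3, two_zero', zero_smul]
    rw [Matrix.mulVecLin_apply, Matrix.mulVecLin_apply, Matrix.mulVec_mulVec, h2, Matrix.zero_mulVec]
  obtain ⟨g, hg⟩ := sqz_conj _ _ (hsq a ha) (hsq b hb) hr
  have hgab : ∀ v, g ((a : Matrix (Fin n) (Fin n) F) *ᵥ v) = (b : Matrix (Fin n) (Fin n) F) *ᵥ g v := by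
    intro v
    have h1 := hg v
    rw [Matrix.mulVecLin_apply, Matrix.mulVecLin_apply, Matrix.sub_mulVec, Matrix.sub_mulVec, Matrix.one_mulVec,
      Matrix.one_mulVec, map_sub] at h1
    exact sub_left_injective h1
  have hM : LinearMap.toMatrix' g.toLinearMap * LinearMap.toMatrix' g.symm.toLinearMap = 1 := by
    rw [← LinearMap.toMatrix'_comp]
    simp
  have hM' : LinearMap.toMatrix' g.symm.toLinearMap * LinearMap.toMatrix' g.toLinearMap = 1 := by
    rw [← LinearMap.toMatrix'_comp]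
    simp
  let c : GL (Fin n) F := ⟨_, _, hM, hM'⟩
  rw [isConj_iff]
  refine ⟨c, ?_⟩
  rw [mul_inv_eq_iff_eq_mul]
  apply Units.ext
  rw [Units.val_mul, Units.val_mul]
  apply Matrix.toLin'.injective
  apply LinearMap.ext
  intro v
  rw [Matrix.toLin'_mul, Matrix.toLin'_mul, LinearMap.comp_apply, LinearMap.comp_apply]
  show Matrix.toLin' (LinearMap.toMatrix' g.toLinearMap) _ = Matrix.toLin' (b : Matrix (Fin n) (Fin n) F)
    (Matrix.toLin' (LinearMap.toMatrix' g.toLinearMap) v)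
  rw [Matrix.toLin'_toMatrix', Matrix.toLin'_apply, Matrix.toLin'_apply]
  exact hgab v

theorem rank_of_factor {F : Type*} [Field F] {n ℓ : ℕ} {N : Matrix (Fin n) (Fin n) F} (A : Matrix (Fin n) (Fin ℓ) F) (B : Matrix (Fin ℓ) (Fin n) F)
    (C : Matrix (Fin ℓ) (Fin n) F) (D : Matrix (Fin n) (Fin ℓ) F) (h : N = A * B) (hC : C * A = 1) (hD : B * D = 1) : N.rank = ℓ := by
  apply le_antisymm
  · rw [h]
    exact (Matrix.rank_mul_le_left _ _).trans (Matrix.rank_le_width _)
  · have h1 : (C * N) * D = 1 := by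
      rw [h, ← Matrix.mul_assoc, hC, Matrix.one_mul, hD]
    have h2 : ((C * N) * D).rank = ℓ := by rw [h1, Matrix.rank_one, Fintype.card_fin]
    rw [← h2]
    exact (Matrix.rank_mul_le_left _ _).trans (Matrix.rank_mul_le_right _ _)

end gl

end Cfsg.Agent.H15.TI
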