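import Cfsg.Agent.H15.TI3
import Cfsg.Agent.H17.GUConj

/-!
# Involutions of `SL_n`, `SU_n` in characteristic two
-/

set_option autoImplicit false
set_option linter.unusedSectionVars false

namespace Cfsg.Agent.H15.TI

open Module
open scoped Matrix

section perm

variable {n ℓ : ℕ}

/-- the involution exchanging `i` and `n - ℓ + i` for `i < ℓ` -/
def sgf (h : 2 * ℓ ≤ n) (i : Fin n) : Fin n :=
  if h1 : i.val < ℓ then ⟨i.val + (n - ℓ), by omega⟩ else if h2 : n - ℓ ≤ i.val then ⟨i.val - (n - ℓ), by omega⟩ else i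

theorem sgf_val (h : 2 * ℓ ≤ n) (i : Fin n) :
    (sgf h i).val = if i.val < ℓ then i.val + (n - ℓ) else if n - ℓ ≤ i.val then i.val - (n - ℓ) else i.val := by
  unfold sgf
  split_ifs <;> rfl

theorem sgf_inv (h : 2 * ℓ ≤ n) : Function.Involutive (sgf h) := by
  intro i
  apply Fin.ext
  have hi := i.2
  rw [sgf_val, sgf_val]
  split_ifs <;> omega

/-- as a permutation -/
def sg (h : 2 * ℓ ≤ n) : Equiv.Perm (Fin n) := (sgf_inv h).toPerm _

theorem sg_apply (h : 2 * ℓ ≤ n) (i : Fin n) : sg h i = sgf h i := rfl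

variable (F : Type*) [Field F]

/-- the permutation matrix -/
def PM (n ℓ : ℕ) : Matrix (Fin n) (Fin n) F := Matrix.of (fun i j : Fin n =>
  if (j.val < ℓ ∧ i.val = j.val + (n - ℓ)) ∨ (i.val < ℓ ∧ j.val = i.val + (n - ℓ)) ∨ (i = j ∧ ℓ ≤ i.val ∧ i.val < n - ℓ) then (1 : F) else 0)

theorem PM_apply (h : 2 * ℓ ≤ n) (i j : Fin n) : PM F n ℓ i j = if sg h i = j then 1 else 0 := by
  unfold PM
  rw [Matrix.of_apply, sg_apply]
  have hi := i.2
  have hj := j.2
  have e : ((j.val < ℓ ∧ i.val = j.val + (n - ℓ)) ∨ (i.val < ℓ ∧ j.val = i.val + (n - ℓ)) ∨ (i = j ∧ ℓ ≤ i.val ∧ i.val < n - ℓ)) ↔ sgf h i = j := by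
    rw [Fin.ext_iff, Fin.ext_iff, sgf_val]
    split_ifs <;> omega
  simp only [e]

theorem PM_mulVec (h : 2 * ℓ ≤ n) (v : Fin n → F) (i : Fin n) : (PM F n ℓ *ᵥ v) i = v (sg h i) := by
  show ∑ j, PM F n ℓ i j * v j = _
  simp only [PM_apply F h, ite_mul, one_mul, zero_mul]
  rw [Finset.sum_ite_eq Finset.univ (sg h i), if_pos (Finset.mem_univ _)]

theorem PM_sq (h : 2 * ℓ ≤ n) : PM F n ℓ * PM F n ℓ = 1 := by
  ext i j
  rw [Matrix.mul_apply]
  simp only [PM_apply F h, ite_mul, one_mul, zero_mul]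
  rw [Finset.sum_ite_eq Finset.univ (sg h i), if_pos (Finset.mem_univ _), sg_apply, sg_apply, sgf_inv h, Matrix.one_apply]

variable [CharP F 2]

theorem PM_det (h : 2 * ℓ ≤ n) : (PM F n ℓ).det = 1 := by
  have e : PM F n ℓ = (sg h).permMatrix F := by
    ext i j
    rw [PM_apply F h, Equiv.Perm.permMatrix, PEquiv.toMatrix_apply, Equiv.toPEquiv_apply]
    simp [eq_comm]
  rw [e, Matrix.det_permutation]
  rcases Int.units_eq_one_or (Equiv.Perm.sign (sg h)) with h1 | h1 <;> rw [h1]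
  · simp
  · simp only [Units.val_neg, Units.val_one, Int.cast_neg, Int.cast_one]
    linear_combination (-1 : F) * two_zero' F

/-- the rank factorization -/
def fA (n ℓ : ℕ) : Matrix (Fin n) (Fin ℓ) F := Matrix.of fun i k => if i.val = k.val ∨ i.val = k.val + (n - ℓ) then 1 else 0
def fC (n ℓ : ℕ) : Matrix (Fin ℓ) (Fin n) F := Matrix.of fun k i => if i.val = k.val then 1 else 0

theorem fC_fA (h : 2 * ℓ ≤ n) : fC F n ℓ * fA F n ℓ = 1 := by
  ext k k'
  have hk := k.2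
  have hk' := k'.2
  rw [Matrix.mul_apply, Finset.sum_eq_single (⟨k.val, by omega⟩ : Fin n)]
  · unfold fC fA
    rw [Matrix.of_apply, Matrix.of_apply, Matrix.one_apply, if_pos rfl, one_mul]
    have e : (k.val = k'.val ∨ k.val = k'.val + (n - ℓ)) ↔ k = k' := by rw [Fin.ext_iff]; omega
    simp only [e]
  · intro i _ hi
    unfold fC
    rw [Matrix.of_apply, if_neg, zero_mul]
    intro h1; exact hi (Fin.ext h1)
  · intro h1; exact absurd (Finset.mem_univ _) h1

theorem PM_factor (h1 : 1 ≤ ℓ) (h : 2 * ℓ ≤ n) : PM F n ℓ - 1 = fA F n ℓ * (fA F n ℓ)ᵀ := by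
  ext i j
  have hi := i.2
  have hj := j.2
  have h2 : (1 : F) + 1 = 0 := by linear_combination two_zero' F
  rw [Matrix.mul_apply, Matrix.sub_apply, PM_apply F h, Matrix.one_apply]
  by_cases c1 : i.val < ℓ
  · rw [Finset.sum_eq_single (⟨i.val, c1⟩ : Fin ℓ)]
    · have e1 : (sg h i = j) ↔ j.val = i.val + (n - ℓ) := by
        rw [sg_apply, Fin.ext_iff, sgf_val, if_pos c1]; omega
      rw [Matrix.transpose_apply]
      unfold fA
      rw [Matrix.of_apply, Matrix.of_apply, if_pos (Or.inl rfl), one_mul]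
      simp only [e1, Fin.ext_iff]
      by_cases c2 : j.val = i.val + (n - ℓ)
      · rw [if_pos c2, if_neg (by omega), if_pos (Or.inr c2), sub_zero]
      · by_cases c3 : i.val = j.val
        · rw [if_neg c2, if_pos c3, if_pos (Or.inl c3.symm)]
          linear_combination -h2
        · rw [if_neg c2, if_neg c3, if_neg (by omega), sub_zero]
    · intro k _ hk
      have hk2 := k.2
      unfold fA
      rw [Matrix.of_apply, if_neg, zero_mul]
      rintro (h3 | h3)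
      · exact hk (Fin.ext h3.symm)
      · omega
    · intro h1; exact absurd (Finset.mem_univ _) h1
  · by_cases c2 : n - ℓ ≤ i.val
    · rw [Finset.sum_eq_single (⟨i.val - (n - ℓ), by omega⟩ : Fin ℓ)]
      · have e1 : (sg h i = j) ↔ j.val = i.val - (n - ℓ) := by
          rw [sg_apply, Fin.ext_iff, sgf_val, if_neg c1, if_pos c2]; omega
        rw [Matrix.transpose_apply]
        unfold fA
        rw [Matrix.of_apply, Matrix.of_apply, if_pos (Or.inr (by show i.val = i.val - (n - ℓ) + (n - ℓ); omega)), one_mul]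
        simp only [e1, Fin.ext_iff]
        by_cases c3 : j.val = i.val - (n - ℓ)
        · rw [if_pos c3, if_neg (by omega), if_pos (Or.inl c3), sub_zero]
        · by_cases c4 : i.val = j.val
          · rw [if_neg c3, if_pos c4, if_pos (Or.inr (by omega))]
            linear_combination -h2
          · rw [if_neg c3, if_neg c4, if_neg (by omega), sub_zero]
      · intro k _ hk
        have hk2 := k.2
        unfold fA
        rw [Matrix.of_apply, if_neg, zero_mul]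
        rintro (h3 | h3)
        · omega
        · exact hk (Fin.ext (by show k.val = i.val - (n - ℓ); omega))
      · intro h1; exact absurd (Finset.mem_univ _) h1
    · have e1 : (sg h i = j) ↔ i = j := by
        rw [sg_apply, Fin.ext_iff, sgf_val, if_neg c1, if_neg c2, Fin.ext_iff]
      simp only [e1, sub_self]
      symm
      apply Finset.sum_eq_zero
      intro k _
      have hk2 := k.2
      unfold fA
      rw [Matrix.of_apply, if_neg (by omega), zero_mul]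

theorem PM_rank (h1 : 1 ≤ ℓ) (h : 2 * ℓ ≤ n) : (PM F n ℓ - 1).rank = ℓ := by
  refine rank_of_factor (fA F n ℓ) (fA F n ℓ)ᵀ (fC F n ℓ) (fC F n ℓ)ᵀ (PM_factor F h1 h) (fC_fA F h) ?_
  rw [← Matrix.transpose_mul, fC_fA F h, Matrix.transpose_one]

/-- centralizing diagonal matrices -/
def dgv (n ℓ : ℕ) (c : F) (i : Fin n) : F := (if i.val = 0 then c else 1) * (if i.val = n - ℓ then c else 1)

omit [CharP F 2] in
theorem dgv_sg (h1 : 1 ≤ ℓ) (h : 2 * ℓ ≤ n) (c : F) (i : Fin n) : dgv F n ℓ c (sg h i) = dgv F n ℓ c i := by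
  unfold dgv
  have hi := i.2
  rw [sg_apply, sgf_val]
  have h3 : 0 < ℓ := h1
  by_cases c1 : i.val < ℓ
  · rw [if_pos c1]
    by_cases c2 : i.val = 0
    · rw [if_neg (by omega), if_pos (by omega), if_pos c2, if_neg (by omega)]; ring
    · rw [if_neg (by omega), if_neg (by omega), if_neg c2, if_neg (by omega)]
  · rw [if_neg c1]
    by_cases c2 : n - ℓ ≤ i.val
    · rw [if_pos c2]
      by_cases c3 : i.val = n - ℓ
      · rw [if_pos (by omega), if_neg (by omega), if_neg (by omega), if_pos c3]; ring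
      · rw [if_neg (by omega), if_neg (by omega), if_neg (by omega), if_neg c3]
    · rw [if_neg c2]

omit [CharP F 2] in
theorem dgv_prod (h1 : 1 ≤ ℓ) (h : 2 * ℓ ≤ n) (c : F) : ∏ i, dgv F n ℓ c i = c ^ 2 := by
  unfold dgv
  rw [Finset.prod_mul_distrib]
  have e1 : ∀ p : Fin n, ∏ i : Fin n, (if i.val = p.val then c else 1) = c := by
    intro p
    rw [Finset.prod_eq_single p]
    · rw [if_pos rfl]
    · intro b _ hb
      rw [if_neg fun h => hb (Fin.ext h)]
    · intro h; exact absurd (Finset.mem_univ _) h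
  have e2 := e1 ⟨0, by omega⟩
  have e3 := e1 ⟨n - ℓ, by omega⟩
  rw [e2, e3, pow_two]

omit [CharP F 2] in
theorem dgv_comm (h1 : 1 ≤ ℓ) (h : 2 * ℓ ≤ n) (c : F) :
    Matrix.diagonal (dgv F n ℓ c) * PM F n ℓ = PM F n ℓ * Matrix.diagonal (dgv F n ℓ c) := by
  ext i j
  rw [Matrix.diagonal_mul, Matrix.mul_diagonal, PM_apply F h]
  split_ifs with h2
  · rw [mul_one, one_mul, ← h2, dgv_sg F h1 h]
  · rw [mul_zero, zero_mul]

end perm

section main

variable {F : Type*} [Field F] [CharP F 2] {n ℓ : ℕ}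

theorem sum_sq_zero {a : Matrix (Fin n) (Fin n) F} (ha : a * a = 1) : (a - 1) * (a - 1) = 0 := by
  have h3 : (a - 1) * (a - 1) = (2 : F) • (1 - a) := by
    rw [mul_sub, sub_mul, sub_mul, ha, two_smul]
    simp only [mul_one, one_mul]
    abel
  rw [h3, two_zero', zero_smul]

/-- the bound on the rank -/
theorem two_rank_le {a : Matrix (Fin n) (Fin n) F} (ha : a * a = 1) : 2 * (a - 1).rank ≤ n := by
  obtain ⟨W, D, φ, -, h, -⟩ := exists_coord ((a - 1).mulVecLin) (fun v => by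
    rw [Matrix.mulVecLin_apply, Matrix.mulVecLin_apply, Matrix.mulVec_mulVec, sum_sq_zero ha, Matrix.zero_mulVec])
  rw [Module.finrank_fin_fun] at h
  have : (a - 1).rank = finrank F (LinearMap.range (a - 1).mulVecLin) := rfl
  omega

theorem rank_pos {a : Matrix (Fin n) (Fin n) F} (ha : a ≠ 1) : 1 ≤ (a - 1).rank := by
  by_contra h
  have h1 : finrank F (LinearMap.range (a - 1).mulVecLin) = 0 := by
    show (a - 1).rank = 0
    omega
  rw [Submodule.finrank_eq_zero, LinearMap.range_eq_bot] at h1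
  apply ha
  rw [← sub_eq_zero]
  apply Matrix.toLin'.injective
  rw [map_zero]
  exact h1

/-- the permutation involution -/
def PG (F : Type*) [Field F] (h : 2 * ℓ ≤ n) : GL (Fin n) F := ⟨PM F n ℓ, PM F n ℓ, PM_sq F h, PM_sq F h⟩

theorem PG_sq (h : 2 * ℓ ≤ n) : PG F h * PG F h = 1 := Units.ext (PM_sq F h)

theorem dgv_mul_inv (c : Fˣ) (i : Fin n) : dgv F n ℓ c i * dgv F n ℓ (c⁻¹ : Fˣ) i = 1 := by
  unfold dgv
  have h := Units.mul_inv c
  split_ifs
  · linear_combination ((c : F) * ((c⁻¹ : Fˣ) : F) + 1) * h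
  · linear_combination h
  · linear_combination h
  · ring

/-- the diagonal element -/
noncomputable def DG (n ℓ : ℕ) (c : Fˣ) : GL (Fin n) F :=
  ⟨Matrix.diagonal (dgv F n ℓ c), Matrix.diagonal (dgv F n ℓ (c⁻¹ : Fˣ)), by
    rw [Matrix.diagonal_mul_diagonal, ← Matrix.diagonal_one]
    congr 1
    funext i
    exact dgv_mul_inv c i, by
    rw [Matrix.diagonal_mul_diagonal, ← Matrix.diagonal_one]
    congr 1
    funext i
    rw [mul_comm]
    exact dgv_mul_inv c i⟩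

theorem DG_comm (h1 : 1 ≤ ℓ) (h : 2 * ℓ ≤ n) (c : Fˣ) : DG n ℓ c * PG F h = PG F h * DG n ℓ c :=
  Units.ext (dgv_comm F h1 h c)

theorem DG_det (h1 : 1 ≤ ℓ) (h : 2 * ℓ ≤ n) (c : Fˣ) : ((DG n ℓ c : GL (Fin n) F) : Matrix (Fin n) (Fin n) F).det = (c : F) ^ 2 := by
  show (Matrix.diagonal (dgv F n ℓ c)).det = _
  rw [Matrix.det_diagonal, dgv_prod F h1 h]

/-- two involutions of the same rank are conjugate by an element of determinant one -/
theorem adjust (S : Subgroup (GL (Fin n) F)) (h1 : 1 ≤ ℓ) (h : 2 * ℓ ≤ n) {a b x y : GL (Fin n) F}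
    (hx : x * a * x⁻¹ = PG F h) (hy : y * b * y⁻¹ = PG F h) (hxS : x ∈ S) (hyS : y ∈ S)
    (hc : ∃ c : Fˣ, (c : F) ^ 2 = (y : Matrix (Fin n) (Fin n) F).det * ((x⁻¹ : GL (Fin n) F) : Matrix (Fin n) (Fin n) F).det ∧ DG n ℓ c ∈ S) :
    ∃ g ∈ S, (g : Matrix (Fin n) (Fin n) F).det = 1 ∧ g * a * g⁻¹ = b := by
  obtain ⟨c, hc, hcS⟩ := hc
  refine ⟨y⁻¹ * DG n ℓ c * x, mul_mem (mul_mem (inv_mem hyS) hcS) hxS, ?_, ?_⟩
  · rw [Units.val_mul, Units.val_mul, Matrix.det_mul, Matrix.det_mul, DG_det h1 h, hc]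
    have e1 : (y : Matrix (Fin n) (Fin n) F).det * ((y⁻¹ : GL (Fin n) F) : Matrix (Fin n) (Fin n) F).det = 1 := by
      rw [← Matrix.det_mul, Units.mul_inv, Matrix.det_one]
    have e2 : (x : Matrix (Fin n) (Fin n) F).det * ((x⁻¹ : GL (Fin n) F) : Matrix (Fin n) (Fin n) F).det = 1 := by
      rw [← Matrix.det_mul, Units.mul_inv, Matrix.det_one]
    linear_combination ((x : Matrix (Fin n) (Fin n) F).det * ((x⁻¹ : GL (Fin n) F) : Matrix (Fin n) (Fin n) F).det) * e1 + e2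
  · have e : y⁻¹ * DG n ℓ c * x * a * (y⁻¹ * DG n ℓ c * x)⁻¹ = y⁻¹ * (DG n ℓ c * (x * a * x⁻¹) * (DG n ℓ c)⁻¹) * y := by group
    rw [e, hx, DG_comm h1 h, mul_inv_cancel_right, ← hy]; group

theorem sl_sq {a : Matrix.SpecialLinearGroup (Fin n) F} (ha : orderOf a = 2) :
    (a : Matrix (Fin n) (Fin n) F) * a = 1 ∧ (a : Matrix (Fin n) (Fin n) F) ≠ 1 := by
  constructor
  · have h1 : a * a = 1 := by rw [← pow_two, ← ha, pow_orderOf_eq_one]
    exact congrArg (fun m : Matrix.SpecialLinearGroup (Fin n) F => (m : Matrix (Fin n) (Fin n) F)) h1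
  · intro h
    have : a = 1 := Subtype.ext h
    rw [this, orderOf_one] at ha
    omega

theorem toGL_sq {a : Matrix.SpecialLinearGroup (Fin n) F} (ha : orderOf a = 2) :
    Matrix.SpecialLinearGroup.toGL a * Matrix.SpecialLinearGroup.toGL a = 1 := Units.ext (sl_sq ha).1

theorem coe_toGL (a : Matrix.SpecialLinearGroup (Fin n) F) :
    ((Matrix.SpecialLinearGroup.toGL a : GL (Fin n) F) : Matrix (Fin n) (Fin n) F) = a := rfl

theorem sl_conj_iff [Finite F] {a b : Matrix.SpecialLinearGroup (Fin n) F} (ha : orderOf a = 2) (hb : orderOf b = 2) :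
    IsConj a b ↔ ((a : Matrix (Fin n) (Fin n) F) - 1).rank = ((b : Matrix (Fin n) (Fin n) F) - 1).rank := by
  constructor
  · intro h
    obtain ⟨c, hc⟩ := isConj_iff.1 h
    have h1 : (b : Matrix (Fin n) (Fin n) F) - 1 = (c : Matrix (Fin n) (Fin n) F) * ((a : Matrix (Fin n) (Fin n) F) - 1) * ((c⁻¹ : Matrix.SpecialLinearGroup (Fin n) F) : Matrix (Fin n) (Fin n) F) := by
      have h2 : (c : Matrix (Fin n) (Fin n) F) * ((c⁻¹ : Matrix.SpecialLinearGroup (Fin n) F) : Matrix (Fin n) (Fin n) F) = 1 := by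
        rw [← Matrix.SpecialLinearGroup.coe_mul, mul_inv_cancel, Matrix.SpecialLinearGroup.coe_one]
      rw [mul_sub, sub_mul, mul_one, h2, ← hc, Matrix.SpecialLinearGroup.coe_mul, Matrix.SpecialLinearGroup.coe_mul]
    rw [h1, Matrix.rank_mul_eq_left_of_isUnit_det, Matrix.rank_mul_eq_right_of_isUnit_det]
    · rw [c.2]; exact isUnit_one
    · rw [(c⁻¹).2]; exact isUnit_one
  · intro hr
    set ℓ := ((a : Matrix (Fin n) (Fin n) F) - 1).rank with hℓ
    have h1 : 1 ≤ ℓ := rank_pos (sl_sq ha).2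
    have h2 : 2 * ℓ ≤ n := two_rank_le (sl_sq ha).1
    have hP : ((PG F h2 : Matrix (Fin n) (Fin n) F) - 1).rank = ℓ := PM_rank F h1 h2
    obtain ⟨x, hx⟩ := isConj_iff.1 (gl_conj_of_rank (toGL_sq ha) (PG_sq h2) (by rw [hP]; rfl))
    obtain ⟨y, hy⟩ := isConj_iff.1 (gl_conj_of_rank (toGL_sq hb) (PG_sq h2) (by rw [hP, hr]; rfl))
    haveI := Fintype.ofFinite F
    obtain ⟨s, hs⟩ := FiniteField.isSquare_of_char_two (ringChar.eq F 2)
      ((y : Matrix (Fin n) (Fin n) F).det * ((x⁻¹ : GL (Fin n) F) : Matrix (Fin n) (Fin n) F).det)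
    have hs0 : s ≠ 0 := by
      rintro rfl
      have e1 : (y : Matrix (Fin n) (Fin n) F).det ≠ 0 := ((Matrix.isUnit_iff_isUnit_det _).1 y.isUnit).ne_zero
      have e2 : ((x⁻¹ : GL (Fin n) F) : Matrix (Fin n) (Fin n) F).det ≠ 0 := ((Matrix.isUnit_iff_isUnit_det _).1 (x⁻¹).isUnit).ne_zero
      rw [mul_zero] at hs
      exact mul_ne_zero e1 e2 hs
    obtain ⟨g, -, hg1, hg2⟩ := adjust ⊤ h1 h2 hx hy trivial trivial ⟨Units.mk0 s hs0, by rw [Units.val_mk0, pow_two, hs], trivial⟩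
    rw [isConj_iff]
    let g' : Matrix.SpecialLinearGroup (Fin n) F := ⟨g, hg1⟩
    refine ⟨g', ?_⟩
    rw [mul_inv_eq_iff_eq_mul]
    apply Subtype.ext
    rw [mul_inv_eq_iff_eq_mul] at hg2
    exact congrArg Units.val hg2

end main

section unitary

variable {K : Type*} [Field K] [Fintype K] [CharP K 2] {n q ℓ : ℕ}

open Cfsg.Agent.H17 in
theorem PG_mem_GU (h : 2 * ℓ ≤ n) : PG K h ∈ Cfsg.GU n K q := by
  intro u v
  show ∑ i, (PM K n ℓ *ᵥ u) i * ((PM K n ℓ *ᵥ v) i) ^ q = ∑ i, u i * (v i) ^ q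
  simp only [PM_mulVec K h]
  exact Equiv.sum_comp (sg h) (fun i => u i * (v i) ^ q)

theorem DG_mem_GU (c : Kˣ) (hc : (c : K) * (c : K) ^ q = 1) : DG n ℓ c ∈ Cfsg.GU n K q := by
  intro u v
  show ∑ i, (Matrix.diagonal (dgv K n ℓ c) *ᵥ u) i * ((Matrix.diagonal (dgv K n ℓ c) *ᵥ v) i) ^ q = ∑ i, u i * (v i) ^ q
  refine Finset.sum_congr rfl fun i _ => ?_
  rw [Matrix.mulVec_diagonal, Matrix.mulVec_diagonal, mul_pow]
  have h1 : dgv K n ℓ c i * (dgv K n ℓ c i) ^ q = 1 := by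
    unfold dgv
    split_ifs
    · rw [mul_pow]
      linear_combination ((c : K) * (c : K) ^ q + 1) * hc
    · rw [mul_one]; exact hc
    · rw [one_mul]; exact hc
    · rw [mul_one, one_pow, mul_one]
  linear_combination (u i * (v i) ^ q) * h1

open Cfsg.Agent.H17 in
theorem det_norm (hK : Fintype.card K = q ^ 2) {x : GL (Fin n) K} (hx : x ∈ Cfsg.GU n K q) :
    (x : Matrix (Fin n) (Fin n) K).det * (x : Matrix (Fin n) (Fin n) K).det ^ q = 1 := by
  obtain ⟨σ, hσ, hσ2, -⟩ := H5.exists_frob hK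
  have h1 := (mem_GU_sT hσ hσ2 x).1 hx
  have h2 := congrArg Matrix.det h1
  rw [Matrix.det_mul, Matrix.det_one] at h2
  unfold sT at h2
  rw [Matrix.det_transpose] at h2
  have h3 : ((x : Matrix (Fin n) (Fin n) K).map σ).det = σ ((x : Matrix (Fin n) (Fin n) K).det) := by
    rw [RingHom.map_det]; rfl
  rw [h3, hσ] at h2
  rw [mul_comm]; exact h2

theorem su_conj (hK : Fintype.card K = q ^ 2) {a b : ↥(Cfsg.SU n K q)} (ha : orderOf a = 2) (hb : orderOf b = 2)
    (hr : (((a : Matrix.SpecialLinearGroup (Fin n) K) : Matrix (Fin n) (Fin n) K) - 1).rank =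
      (((b : Matrix.SpecialLinearGroup (Fin n) K) : Matrix (Fin n) (Fin n) K) - 1).rank) : IsConj a b := by
  have ha' : orderOf (a : Matrix.SpecialLinearGroup (Fin n) K) = 2 := by rw [Subgroup.orderOf_coe, ha]
  have hb' : orderOf (b : Matrix.SpecialLinearGroup (Fin n) K) = 2 := by rw [Subgroup.orderOf_coe, hb]
  set ℓ := (((a : Matrix.SpecialLinearGroup (Fin n) K) : Matrix (Fin n) (Fin n) K) - 1).rank with hℓ
  have h1 : 1 ≤ ℓ := rank_pos (sl_sq ha').2
  have h2 : 2 * ℓ ≤ n := two_rank_le (sl_sq ha').1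
  have hP : ((PG K h2 : Matrix (Fin n) (Fin n) K) - 1).rank = ℓ := PM_rank K h1 h2
  have haG : Matrix.SpecialLinearGroup.toGL (a : Matrix.SpecialLinearGroup (Fin n) K) ∈ Cfsg.GU n K q := fun u v => a.2 u v
  have hbG : Matrix.SpecialLinearGroup.toGL (b : Matrix.SpecialLinearGroup (Fin n) K) ∈ Cfsg.GU n K q := fun u v => b.2 u v
  have hx := (Cfsg.Agent.H17.gu_conj hK ⟨_, haG⟩ ⟨PG K h2, PG_mem_GU h2⟩).2 (gl_conj_of_rank (toGL_sq ha') (PG_sq h2) (by rw [hP]; rfl))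
  have hy := (Cfsg.Agent.H17.gu_conj hK ⟨_, hbG⟩ ⟨PG K h2, PG_mem_GU h2⟩).2 (gl_conj_of_rank (toGL_sq hb') (PG_sq h2) (by rw [hP, hr]; rfl))
  obtain ⟨x, hx⟩ := isConj_iff.1 hx
  obtain ⟨y, hy⟩ := isConj_iff.1 hy
  have hqe : 2 ∣ q := by
    have h3 : 2 ∣ q ^ 2 := by
      rw [← hK]
      exact (CharP.cast_eq_zero_iff K 2 _).1 (Nat.cast_card_eq_zero K)
    exact Nat.prime_two.dvd_of_dvd_pow h3
  obtain ⟨k, hk⟩ := hqe
  set μ : K := ((y : GL (Fin n) K) : Matrix (Fin n) (Fin n) K).det * ((x⁻¹ : ↥(Cfsg.GU n K q)) : GL (Fin n) K).val.det with hμ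
  have hμ1 : μ * μ ^ q = 1 := by
    have e1 := det_norm hK y.2
    have e2 := det_norm hK (x⁻¹).2
    rw [hμ, mul_pow]
    linear_combination (((x⁻¹ : ↥(Cfsg.GU n K q)) : GL (Fin n) K).val.det * ((x⁻¹ : ↥(Cfsg.GU n K q)) : GL (Fin n) K).val.det ^ q) * e1 + e2
  have hμ0 : μ ≠ 0 := by
    intro h
    rw [h, zero_mul] at hμ1
    exact zero_ne_one hμ1
  set c : K := μ ^ (k + 1) with hc
  have hc0 : c ≠ 0 := pow_ne_zero _ hμ0
  have hc2 : c ^ 2 = μ := by
    rw [hc, ← pow_mul]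
    have : (k + 1) * 2 = q + 1 + 1 := by omega
    rw [this, pow_succ, pow_succ, mul_comm (μ ^ q) μ, hμ1, one_mul]
  have hcn : c * c ^ q = 1 := by
    rw [hc, ← pow_mul, mul_comm (k + 1) q, pow_mul, ← mul_pow, hμ1, one_pow]
  obtain ⟨g, hgG, hg1, hg2⟩ := adjust (Cfsg.GU n K q) h1 h2 (congrArg Subtype.val hx) (congrArg Subtype.val hy) x.2 y.2
    ⟨Units.mk0 c hc0, by rw [Units.val_mk0, hc2]; rfl, DG_mem_GU _ (by rw [Units.val_mk0]; exact hcn)⟩
  rw [isConj_iff]
  let g' : Matrix.SpecialLinearGroup (Fin n) K := ⟨g, hg1⟩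
  refine ⟨⟨g', fun u v => hgG u v⟩, ?_⟩
  rw [mul_inv_eq_iff_eq_mul]
  apply Subtype.ext
  apply Subtype.ext
  rw [mul_inv_eq_iff_eq_mul] at hg2
  exact congrArg Units.val hg2

end unitary

end Cfsg.Agent.H15.TI
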