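import Cfsg.Agent.H15.ChevInv9

/-!
# The invariant bilinear form in characteristic two (simply laced types)
-/

set_option autoImplicit false
set_option linter.unusedSectionVars false

namespace Cfsg.Agent.H15.Chev

open Cfsg.Agent.H6 Cfsg.Lie Cfsg.Agent.H22
open scoped Matrix

/-- table check for a pair of roots -/
def okBf (D : ChevalleyDatum) (r a : ℕ) : Bool :=
  decide (a = r) || (decide (a = D.neg r) ||
    match D.chainEntry r a with
    | [] => true
    | (u, c) :: L => L.isEmpty && (decide (c % 2 = 1) && (decide (u < D.nroots) && (decide (u ≠ r) && (decide (u ≠ D.neg r) &&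
        match D.chainEntry r (D.neg u) with
        | [] => false
        | (u', c') :: L' => L'.isEmpty && (decide (c' % 2 = 1) && decide (u' = D.neg a)))))))

def tabBf (D : ChevalleyDatum) : Bool :=
  ((List.range D.nroots).all fun r => (List.range D.nroots).all fun a => okBf D r a) &&
  (((List.range D.rank).all fun i => (List.range D.nroots).all fun r => decide (D.pairing r (D.simple i) = D.cartan i r)) &&
  ((List.range D.rank).all fun i => (List.range D.rank).all fun j => decide (D.cartan i (D.simple j) = D.cartan j (D.simple i))))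

/-- simply laced data -/
structure SLd (D : ChevalleyDatum) : Prop where
  chain : ∀ r < D.nroots, ∀ a < D.nroots, a ≠ r → a ≠ D.neg r → D.chainEntry r a = [] ∨
    ∃ u c, D.chainEntry r a = [(u, c)] ∧ c % 2 = 1 ∧ u < D.nroots ∧ u ≠ r ∧ u ≠ D.neg r ∧
      ∃ c', D.chainEntry r (D.neg u) = [(D.neg a, c')] ∧ c' % 2 = 1
  pair : ∀ i < D.rank, ∀ r < D.nroots, D.pairing r (D.simple i) = D.cartan i r
  sym : ∀ i < D.rank, ∀ j < D.rank, D.cartan i (D.simple j) = D.cartan j (D.simple i)

theorem sld_of {D : ChevalleyDatum} (h : tabBf D = true) : SLd D := by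
  unfold tabBf at h
  rw [Bool.and_eq_true, Bool.and_eq_true, List.all_eq_true, List.all_eq_true, List.all_eq_true] at h
  obtain ⟨h1, h2, h3⟩ := h
  refine ⟨?_, ?_, ?_⟩
  · intro r hr a ha hne hne'
    have h4 := h1 r (List.mem_range.2 hr)
    rw [List.all_eq_true] at h4
    have h5 := h4 a (List.mem_range.2 ha)
    unfold okBf at h5
    rw [Bool.or_eq_true, Bool.or_eq_true, decide_eq_true_eq, decide_eq_true_eq] at h5
    rcases h5 with h5 | h5 | h5
    · exact absurd h5 hne
    · exact absurd h5 hne'
    · revert h5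
      cases hc : D.chainEntry r a with
      | nil => intro _; exact Or.inl rfl
      | cons x L =>
        obtain ⟨u, c⟩ := x
        intro h5
        simp only [Bool.and_eq_true, decide_eq_true_eq, List.isEmpty_iff] at h5
        obtain ⟨h6, h7, h8, h9, h10, h11⟩ := h5
        right
        subst h6
        refine ⟨u, c, rfl, h7, h8, h9, h10, ?_⟩
        revert h11
        cases hc' : D.chainEntry r (D.neg u) with
        | nil => intro h; exact absurd h (by simp)
        | cons x L' =>
          obtain ⟨u', c'⟩ := x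
          intro h11
          simp only [Bool.and_eq_true, decide_eq_true_eq, List.isEmpty_iff] at h11
          obtain ⟨h12, h13, h14⟩ := h11
          subst h12 h14
          exact ⟨c', rfl, h13⟩
  · intro i hi r hr
    have h4 := h2 i (List.mem_range.2 hi)
    rw [List.all_eq_true] at h4
    exact of_decide_eq_true (h4 r (List.mem_range.2 hr))
  · intro i hi j hj
    have h4 := h3 i (List.mem_range.2 hi)
    rw [List.all_eq_true] at h4
    exact of_decide_eq_true (h4 j (List.mem_range.2 hj))

variable {D : ChevalleyDatum} {N : ℕ} {η : ℕ → ℕ → ℤ} {rc : ℕ → ℕ → ℤ} {F : Type*} [Field F]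

/-- matrix of the form -/
def KB (D : ChevalleyDatum) (F : Type*) [Field F] : Matrix D.Idx D.Idx F := Matrix.of fun a b =>
  match a, b with
  | Sum.inl i, Sum.inl j => ((D.cartan j (D.simple i) : ℤ) : F)
  | Sum.inr a, Sum.inr b => if (b : ℕ) = D.neg a then 1 else 0
  | _, _ => 0

/-- the form -/
noncomputable def BF (D : ChevalleyDatum) (F : Type*) [Field F] (v w : D.Idx → F) : F := v ⬝ᵥ (KB D F *ᵥ w)

theorem odd_cast (h2 : (2 : F) = 0) {c : ℤ} (h : c % 2 = 1) : ((c : ℤ) : F) = 1 := by
  rw [cast_mod2 h2, if_pos h]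

theorem x_mulVec_apply (M : Matrix D.Idx D.Idx F) (a : D.Idx) {b : ℕ} (hb : b < D.nroots) :
    (M *ᵥ be D F b) a = M a (Sum.inr ⟨b, hb⟩) := by
  rw [be_of_lt hb, Matrix.mulVec_single_one]; rfl

theorem x_mulVec_apply_h (M : Matrix D.Idx D.Idx F) (a : D.Idx) {b : ℕ} (hb : b < D.rank) :
    (M *ᵥ bh D F b) a = M a (Sum.inl ⟨b, hb⟩) := by
  rw [bh_of_lt hb, Matrix.mulVec_single_one]; rfl

variable (hG : Good D N η rc) (hS : SLd D)
include hG

theorem KB_symm (hS : SLd D) : (KB D F)ᵀ = KB D F := by
  ext a b
  rw [Matrix.transpose_apply]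
  rcases a with a | a <;> rcases b with b | b
  · change ((D.cartan a (D.simple b) : ℤ) : F) = ((D.cartan b (D.simple a) : ℤ) : F)
    rw [hS.sym a a.2 b b.2]
  · rfl
  · rfl
  · change (if (a : ℕ) = D.neg b then (1 : F) else 0) = if (b : ℕ) = D.neg a then 1 else 0
    congr 1
    apply propext
    constructor
    · intro h; rw [h, hG.neg_neg' b.2]
    · intro h; rw [h, hG.neg_neg' a.2]

theorem KB_mul_inr (M : Matrix D.Idx D.Idx F) (a : Fin D.nroots) (b : D.Idx) :
    (KB D F * M) (Sum.inr a) b = M (Sum.inr (hG.ngf a)) b := by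
  rw [Matrix.mul_apply, Finset.sum_eq_single (Sum.inr (hG.ngf a))]
  · change (if D.neg a = D.neg a then (1 : F) else 0) * _ = _
    rw [if_pos rfl, one_mul]
  · intro c _ hc
    rcases c with c | c
    · change (0 : F) * _ = 0
      rw [zero_mul]
    · change (if (c : ℕ) = D.neg a then (1 : F) else 0) * _ = _
      rw [if_neg, zero_mul]
      intro h
      exact hc (congrArg _ (Fin.ext h))
  · intro h; exact absurd (Finset.mem_univ _) h

theorem mul_KB_inr (hS : SLd D) (M : Matrix D.Idx D.Idx F) (a : D.Idx) (b : Fin D.nroots) :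
    (Mᵀ * KB D F) a (Sum.inr b) = M (Sum.inr (hG.ngf b)) a := by
  have h1 : Mᵀ * KB D F = (KB D F * M)ᵀ := by rw [Matrix.transpose_mul, KB_symm hG hS]
  rw [h1, Matrix.transpose_apply, KB_mul_inr hG]

omit hG in
theorem KB_mul_inl (M : Matrix D.Idx D.Idx F) (i : Fin D.rank) (b : D.Idx) :
    (KB D F * M) (Sum.inl i) b = ∑ j : Fin D.rank, ((D.cartan j (D.simple i) : ℤ) : F) * M (Sum.inl j) b := by
  rw [Matrix.mul_apply, Fintype.sum_sum_type]
  have : ∑ s : Fin D.nroots, KB D F (Sum.inl i) (Sum.inr s) * M (Sum.inr s) b = 0 := by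
    apply Finset.sum_eq_zero
    intro s _
    change (0 : F) * _ = 0
    rw [zero_mul]
  rw [this, add_zero]
  rfl

theorem mul_KB_inl (hS : SLd D) (M : Matrix D.Idx D.Idx F) (a : D.Idx) (i : Fin D.rank) :
    (Mᵀ * KB D F) a (Sum.inl i) = ∑ j : Fin D.rank, ((D.cartan j (D.simple i) : ℤ) : F) * M (Sum.inl j) a := by
  have h1 : Mᵀ * KB D F = (KB D F * M)ᵀ := by rw [Matrix.transpose_mul, KB_symm hG hS]
  rw [h1, Matrix.transpose_apply, KB_mul_inl]

/-- root elements in characteristic two -/
theorem x_act_nil {r a : ℕ} (hr : r < D.nroots) (ha : a < D.nroots) (hne : a ≠ r) (hne' : a ≠ D.neg r)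
    (h : D.chainEntry r a = []) (t : F) : D.x F r t *ᵥ be D F a = be D F a := by
  rw [x_be hr ha (hG.keys r) hne hne', h, chainVec, add_zero]

theorem x_act_one (h2 : (2 : F) = 0) {r a u : ℕ} {c : ℤ} (hr : r < D.nroots) (ha : a < D.nroots) (hne : a ≠ r) (hne' : a ≠ D.neg r)
    (h : D.chainEntry r a = [(u, c)]) (hc : c % 2 = 1) (t : F) : D.x F r t *ᵥ be D F a = be D F a + t • be D F u := by
  rw [x_be hr ha (hG.keys r) hne hne', h, chainVec, chainVec, add_zero, odd_cast h2 hc, one_mul, pow_one]

theorem rc_ne_zero {r : ℕ} (hr : r < D.nroots) (h : ∀ j < D.rank, rc r j = 0) : False := by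
  apply hG.toSem.neg_ne hr
  apply hG.rc_inj (hG.neg_lt' hr) hr
  intro j hj
  rw [hG.rc_neg j hj r hr, h j hj, neg_zero]

/-- self-adjointness of root elements -/
theorem x_adj (hS : SLd D) (h2 : (2 : F) = 0) {r : ℕ} (hr : r < D.nroots) (t : F) :
    KB D F * D.x F r t = (D.x F r t)ᵀ * KB D F := by
  have hnr : D.neg r < D.nroots := hG.neg_lt' hr
  have hne : D.neg r ≠ r := hG.toSem.neg_ne hr
  -- half of the root case
  have key : ∀ a b : Fin D.nroots, D.x F r t (Sum.inr (hG.ngf a)) (Sum.inr b) ≠ 0 →
      D.x F r t (Sum.inr (hG.ngf a)) (Sum.inr b) = D.x F r t (Sum.inr (hG.ngf b)) (Sum.inr a) := by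
    intro a b h0
    have e1 := x_mulVec_apply (D.x F r t) (Sum.inr (hG.ngf a)) b.2
    have e2 := x_mulVec_apply (D.x F r t) (Sum.inr (hG.ngf b)) a.2
    change _ = D.x F r t (Sum.inr (hG.ngf a)) (Sum.inr b) at e1
    change _ = D.x F r t (Sum.inr (hG.ngf b)) (Sum.inr a) at e2
    rw [← e1] at h0
    rw [← e1, ← e2]
    have hab : D.neg a = (b : ℕ) ↔ D.neg b = (a : ℕ) := by
      constructor
      · intro h; rw [← h, hG.neg_neg' a.2]
      · intro h; rw [← h, hG.neg_neg' b.2]
    by_cases hbr : (b : ℕ) = r
    · rw [hbr, x_be_self hr, be_inr] at h0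
      have h3 : r = (hG.ngf a : ℕ) := by
        by_contra hc
        rw [if_neg hc] at h0
        exact h0 rfl
      have h4 : (a : ℕ) = D.neg r := by
        rw [h3]; exact (hG.neg_neg' a.2).symm
      rw [hbr, x_be_self hr, be_inr, if_pos h3, h4, x_be_neg hr hnr hne, Pi.add_apply, Pi.add_apply, Pi.smul_apply, Pi.smul_apply,
        hvec_inr, be_inr, be_inr]
      have h5 : D.neg r = ((hG.ngf b : Fin D.nroots) : ℕ) := by change _ = D.neg b; rw [hbr]
      rw [if_pos h5, if_neg (fun h => hne (h5.trans h.symm)), smul_zero, smul_zero, add_zero, add_zero]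
    · by_cases hbn : (b : ℕ) = D.neg r
      · have hnb : (hG.ngf b : ℕ) = r := by change D.neg b = r; rw [hbn, hG.neg_neg' hr]
        rw [hbn, x_be_neg hr hnr hne, Pi.add_apply, Pi.add_apply, Pi.smul_apply, Pi.smul_apply, hvec_inr, smul_zero, add_zero,
          be_inr, be_inr] at h0
        rw [hbn, x_be_neg hr hnr hne, Pi.add_apply, Pi.add_apply, Pi.smul_apply, Pi.smul_apply, hvec_inr, smul_zero, add_zero,
          be_inr, be_inr]
        by_cases h3 : D.neg r = (hG.ngf a : ℕ)
        · have h4 : (a : ℕ) = r := by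
            have := congrArg D.neg h3
            rw [hG.neg_neg' hr] at this
            change r = D.neg (D.neg a) at this
            rw [hG.neg_neg' a.2] at this
            exact this.symm
          rw [if_pos h3, if_neg (fun h => hne (h3.trans h.symm)), smul_zero, add_zero, h4, x_be_self hr, be_inr, if_pos hnb.symm]
        · rw [if_neg h3, zero_add] at h0
          have h4 : r = (hG.ngf a : ℕ) := by
            by_contra hc
            rw [if_neg hc, smul_zero] at h0
            exact h0 rfl
          have h5 : (a : ℕ) = D.neg r := by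
            rw [h4]; exact (hG.neg_neg' a.2).symm
          rw [if_neg h3, zero_add, if_pos h4, h5, x_be_neg hr hnr hne, Pi.add_apply, Pi.add_apply, Pi.smul_apply, Pi.smul_apply,
            hvec_inr, smul_zero, add_zero, be_inr, be_inr, if_pos hnb.symm, if_neg (fun h => hne (h.trans hnb)), zero_add]
      · rcases hS.chain r hr b b.2 hbr hbn with h3 | ⟨u, c, h3, hc, hu, hur, hunr, c', h3', hc'⟩
        · rw [x_act_nil hG hr b.2 hbr hbn h3, be_inr] at h0
          have h4 : (b : ℕ) = (hG.ngf a : ℕ) := by
            by_contra hc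
            rw [if_neg hc] at h0
            exact h0 rfl
          have h5 : (hG.ngf b : ℕ) = a := by change D.neg b = _; rw [h4]; exact hG.neg_neg' a.2
          have har : (a : ℕ) ≠ r := by
            intro h; apply hbn; rw [h4, ← h]; rfl
          have han : (a : ℕ) ≠ D.neg r := by
            intro h; apply hbr; rw [h4]; change D.neg a = r; rw [h, hG.neg_neg' hr]
          rw [x_act_nil hG hr b.2 hbr hbn h3, be_inr, if_pos h4]
          rcases hS.chain r hr a a.2 har han with h6 | ⟨u, c, h6, hc, hu, hur, hunr, c', h6', hc'⟩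
          · rw [x_act_nil hG hr a.2 har han h6, be_inr, if_pos h5.symm]
          · rw [x_act_one hG h2 hr a.2 har han h6 hc, Pi.add_apply, Pi.smul_apply, be_inr, be_inr, if_pos h5.symm, if_neg, smul_zero,
              add_zero]
            intro hc0
            rw [h5] at hc0
            -- `a + r = a` is impossible
            have h7 := (Good.addC_get hG 1 (hG.add_rc r hr a a.2) 0 (by rw [h6]; simp)).2.2
            simp only [h6, List.getElem_cons_zero] at h7
            rw [hc0] at h7
            exact rc_ne_zero hG hr (fun j hj => by have := h7 j hj; push_cast at this; linarith)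
        · rw [x_act_one hG h2 hr b.2 hbr hbn h3 hc, Pi.add_apply, Pi.smul_apply, be_inr, be_inr] at h0 ⊢
          have hbu : (b : ℕ) ≠ u := by
            intro hc0
            have h7 := (Good.addC_get hG 1 (hG.add_rc r hr b b.2) 0 (by rw [h3]; simp)).2.2
            simp only [h3, List.getElem_cons_zero] at h7
            rw [← hc0] at h7
            exact rc_ne_zero hG hr (fun j hj => by have := h7 j hj; push_cast at this; linarith)
          by_cases h4 : (b : ℕ) = (hG.ngf a : ℕ)
          · have h5 : (hG.ngf b : ℕ) = a := by change D.neg b = _; rw [h4]; exact hG.neg_neg' a.2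
            have har : (a : ℕ) ≠ r := by
              intro h; apply hbn; rw [h4, ← h]; rfl
            have han : (a : ℕ) ≠ D.neg r := by
              intro h; apply hbr; rw [h4]; change D.neg a = r; rw [h, hG.neg_neg' hr]
            rw [if_pos h4, if_neg (fun h => hbu (h4.trans h.symm)), smul_zero, add_zero]
            rcases hS.chain r hr a a.2 har han with h6 | ⟨u, c, h6, hc, hu, hur, hunr, c', h6', hc'⟩
            · rw [x_act_nil hG hr a.2 har han h6, be_inr, if_pos h5.symm]
            · rw [x_act_one hG h2 hr a.2 har han h6 hc, Pi.add_apply, Pi.smul_apply, be_inr, be_inr, if_pos h5.symm, if_neg, smul_zero,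
                add_zero]
              intro hc0
              rw [h5] at hc0
              have h7 := (Good.addC_get hG 1 (hG.add_rc r hr a a.2) 0 (by rw [h6]; simp)).2.2
              simp only [h6, List.getElem_cons_zero] at h7
              rw [hc0] at h7
              exact rc_ne_zero hG hr (fun j hj => by have := h7 j hj; push_cast at this; linarith)
          · rw [if_neg h4, zero_add] at h0 ⊢
            have h5 : u = (hG.ngf a : ℕ) := by
              by_contra hc0
              rw [if_neg hc0, smul_zero] at h0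
              exact h0 rfl
            have ha : D.neg u = (a : ℕ) := by rw [h5]; exact hG.neg_neg' a.2
            have har : (a : ℕ) ≠ r := by
              intro h; apply hunr; rw [h5, ← h]; rfl
            have han : (a : ℕ) ≠ D.neg r := by
              intro h; apply hur; rw [h5]; change D.neg a = r; rw [h, hG.neg_neg' hr]
            rw [ha] at h3'
            rw [if_pos h5, x_act_one hG h2 hr a.2 har han h3' hc', Pi.add_apply, Pi.smul_apply, be_inr, be_inr]
            have h8 : (a : ℕ) ≠ (hG.ngf b : ℕ) := by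
              intro h
              apply h4
              change (b : ℕ) = D.neg a
              rw [h]
              exact (hG.neg_neg' b.2).symm
            have h9 : D.neg b = ((hG.ngf b : Fin D.nroots) : ℕ) := rfl
            rw [if_neg h8, if_pos h9, zero_add]
  -- the mixed case
  have mixed : ∀ (i : Fin D.rank) (b : Fin D.nroots),
      (∑ j : Fin D.rank, ((D.cartan j (D.simple i) : ℤ) : F) * D.x F r t (Sum.inl j) (Sum.inr b)) =
        D.x F r t (Sum.inr (hG.ngf b)) (Sum.inl i) := by
    intro i b
    have e1 := x_mulVec_apply_h (D.x F r t) (Sum.inr (hG.ngf b)) i.2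
    change _ = D.x F r t (Sum.inr (hG.ngf b)) (Sum.inl i) at e1
    rw [← e1, x_bh hr i.2, Pi.add_apply, bh_inr, zero_add, Pi.smul_apply, be_inr]
    have e3 : ∀ j : Fin D.rank, D.x F r t (Sum.inl j) (Sum.inr b) = (D.x F r t *ᵥ be D F b) (Sum.inl j) := fun j =>
      (x_mulVec_apply (D.x F r t) (Sum.inl j) b.2).symm
    by_cases hbn : (b : ℕ) = D.neg r
    · have hnb : r = (hG.ngf b : ℕ) := by change r = D.neg b; rw [hbn, hG.neg_neg' hr]
      rw [if_pos hnb, smul_eq_mul, mul_one, neg_mul, neg_mod2 h2]
      have e4 : ∀ j : Fin D.rank, ((D.cartan j (D.simple i) : ℤ) : F) * D.x F r t (Sum.inl j) (Sum.inr b) =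
          (((cor D r j * D.cartan j (D.simple i) : ℤ)) : F) * t := by
        intro j
        rw [e3, hbn, x_be_neg hr hnr hne, Pi.add_apply, Pi.add_apply, be_inl, Pi.smul_apply, Pi.smul_apply, be_inl, hvec_inl,
          smul_zero, add_zero, zero_add, smul_eq_mul]
        push_cast
        ring
      rw [Finset.sum_congr rfl fun j _ => e4 j, ← Finset.sum_mul, ← Int.cast_sum]
      congr 2
      rw [← hS.pair i i.2 r hr, hG.pairing_eq, Finset.sum_range]
    · rw [if_neg, smul_zero]
      · apply Finset.sum_eq_zero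
        intro j _
        rw [e3]
        by_cases hbr : (b : ℕ) = r
        · rw [hbr, x_be_self hr, be_inl, mul_zero]
        · rw [x_be hr b.2 (hG.keys r) hbr hbn, Pi.add_apply, be_inl, chainVec_inl, add_zero, mul_zero]
      · intro h
        apply hbn
        rw [h]
        exact (hG.neg_neg' b.2).symm
  ext a b
  rcases a with a | a <;> rcases b with b | b
  · rw [KB_mul_inl, mul_KB_inl hG hS]
    have e5 : ∀ i j : Fin D.rank, D.x F r t (Sum.inl j) (Sum.inl i) = if i = j then 1 else 0 := by
      intro i j
      have e1 := x_mulVec_apply_h (D.x F r t) (Sum.inl j) i.2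
      change _ = D.x F r t (Sum.inl j) (Sum.inl i) at e1
      rw [← e1, x_bh hr i.2, Pi.add_apply, bh_inl, Pi.smul_apply, be_inl, smul_zero, add_zero]
      congr 1
      apply propext
      exact ⟨fun h => Fin.ext h, fun h => congrArg _ h⟩
    simp only [e5, mul_ite, mul_one, mul_zero]
    rw [Finset.sum_ite_eq, if_pos (Finset.mem_univ _), Finset.sum_ite_eq, if_pos (Finset.mem_univ _), hS.sym b b.2 a a.2]
  · rw [KB_mul_inl, mul_KB_inr hG hS, mixed]
  · rw [KB_mul_inr hG, mul_KB_inl hG hS, mixed]
  · rw [KB_mul_inr hG, mul_KB_inr hG hS]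
    by_cases h : D.x F r t (Sum.inr (hG.ngf a)) (Sum.inr b) = 0
    · rw [h]
      by_contra hc
      have h3 := key b a (fun h' => hc h'.symm)
      rw [h] at h3
      exact hc h3.symm
    · exact key a b h

end Cfsg.Agent.H15.Chev
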