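import Cfsg.Agent.H15.TwInv1

/-!
# Isometries and the additive function `v ↦ B(v, u v)`
-/

set_option autoImplicit false
set_option linter.unusedSectionVars false

namespace Cfsg.Agent.H15.Chev

open Cfsg.Agent.H6 Cfsg.Lie Cfsg.Agent.H22
open scoped Matrix

/-- coefficients of a polynomial function with values in a subspace -/
theorem coef_mem {F M ι : Type*} [Field F] [Fintype F] [AddCommGroup M] [Module F M] (V : Submodule F M) (S : Finset ι)
    (n : ι → ℕ) (v : ι → M) (hn : ∀ k ∈ S, n k < Fintype.card F) (h : ∀ t : F, ∑ k ∈ S, t ^ n k • v k ∈ V) {k₀ : ι}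
    (hk₀ : k₀ ∈ S) (hne : ∀ k ∈ S, k ≠ k₀ → n k ≠ n k₀) : v k₀ ∈ V := by
  classical
  by_contra hv
  obtain ⟨f, hf1, hf2⟩ := Submodule.exists_le_ker_of_notMem hv
  set p : Polynomial F := ∑ k ∈ S, Polynomial.C (f (v k)) * Polynomial.X ^ n k with hp
  have hp0 : p = 0 := by
    apply Polynomial.eq_zero_of_natDegree_lt_card_of_eval_eq_zero p (f := (id : F → F)) Function.injective_id
    · intro t
      have h1 := hf2 (h t)
      rw [LinearMap.mem_ker, map_sum] at h1
      rw [hp, Polynomial.eval_finset_sum]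
      rw [← h1]
      refine Finset.sum_congr rfl fun k _ => ?_
      rw [Polynomial.eval_mul, Polynomial.eval_C, Polynomial.eval_pow, Polynomial.eval_X, map_smul, smul_eq_mul, mul_comm]
      rfl
    · have h1 : p.natDegree ≤ Fintype.card F - 1 := by
        rw [hp]
        apply Polynomial.natDegree_sum_le_of_forall_le
        intro k hk
        have := hn k hk
        refine (Polynomial.natDegree_C_mul_X_pow_le _ _).trans (by omega)
      have h2 : 0 < Fintype.card F := Fintype.card_pos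
      omega
  have h1 : p.coeff (n k₀) = f (v k₀) := by
    rw [hp, Polynomial.finset_sum_coeff, Finset.sum_eq_single k₀]
    · rw [Polynomial.coeff_C_mul, Polynomial.coeff_X_pow, if_pos rfl, mul_one]
    · intro k hk hkk
      rw [Polynomial.coeff_C_mul, Polynomial.coeff_X_pow, if_neg (fun e => hne k hk hkk e.symm), mul_zero]
    · intro hc; exact absurd hk₀ hc
  rw [hp0, Polynomial.coeff_zero] at h1
  exact hf1 h1.symm

variable {D : ChevalleyDatum} {N : ℕ} {η : ℕ → ℕ → ℤ} {rc : ℕ → ℕ → ℤ} {F : Type*} [Field F]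

theorem BF_add_left (v v' w : D.Idx → F) : BF D F (v + v') w = BF D F v w + BF D F v' w := by
  unfold BF; rw [add_dotProduct]
theorem BF_add_right (v w w' : D.Idx → F) : BF D F v (w + w') = BF D F v w + BF D F v w' := by
  unfold BF; rw [Matrix.mulVec_add, dotProduct_add]
theorem BF_smul_left (c : F) (v w : D.Idx → F) : BF D F (c • v) w = c * BF D F v w := by
  unfold BF; rw [smul_dotProduct, smul_eq_mul]
theorem BF_smul_right (c : F) (v w : D.Idx → F) : BF D F v (c • w) = c * BF D F v w := by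
  unfold BF; rw [Matrix.mulVec_smul, dotProduct_smul, smul_eq_mul]
theorem BF_zero_left (w : D.Idx → F) : BF D F 0 w = 0 := by
  unfold BF; rw [zero_dotProduct]

variable (hG : Good D N η rc) (hS : SLd D)
include hG hS

theorem BF_symm (v w : D.Idx → F) : BF D F v w = BF D F w v := by
  unfold BF
  rw [Matrix.dotProduct_mulVec, dotProduct_comm, ← Matrix.mulVec_transpose, KB_symm hG hS]

omit hS in
theorem BF_be (a : Fin D.nroots) (w : D.Idx → F) : BF D F (be D F a) w = w (Sum.inr (hG.ngf a)) := by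
  unfold BF
  rw [be_of_lt a.2, single_one_dotProduct, Matrix.mulVec, dotProduct, Finset.sum_eq_single (Sum.inr (hG.ngf a))]
  · change (if D.neg a = D.neg a then (1 : F) else 0) * _ = _
    rw [if_pos rfl, one_mul]
  · intro c _ hc
    rcases c with c | c
    · change (0 : F) * _ = 0
      rw [zero_mul]
    · change (if (c : ℕ) = D.neg a then (1 : F) else 0) * _ = _
      rw [if_neg, zero_mul]
      intro h
      exact hc (congrArg _ (Fin.ext h))
  · intro h; exact absurd (Finset.mem_univ _) h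

theorem group_KB (h2 : (2 : F) = 0) {g : GL D.Idx F} (hg : g ∈ D.group F) :
    (g : Matrix D.Idx D.Idx F)ᵀ * KB D F * (g : Matrix D.Idx D.Idx F) = KB D F := by
  rw [hG.group_eq_US] at hg
  unfold US at hg
  induction hg using Subgroup.closure_induction with
  | mem x hx =>
    obtain ⟨r, hr, t, rfl⟩ := hx
    rw [hG.coe_xg, ← x_adj hG hS h2 hr, Matrix.mul_assoc, ← hG.coe_xg, ← Units.val_mul, ← hG.xg_add]
    have : t + t = 0 := by rw [← two_mul, h2, zero_mul]
    rw [this, hG.xg_zero, Units.val_one, Matrix.mul_one]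
  | one => rw [Units.val_one, Matrix.transpose_one, Matrix.one_mul, Matrix.mul_one]
  | mul a b _ _ ha hb =>
    rw [Units.val_mul, Matrix.transpose_mul]
    calc _ = (b : Matrix D.Idx D.Idx F)ᵀ * ((a : Matrix D.Idx D.Idx F)ᵀ * KB D F * (a : Matrix D.Idx D.Idx F)) *
        (b : Matrix D.Idx D.Idx F) := by simp only [Matrix.mul_assoc]
      _ = _ := by rw [ha, hb]
  | inv a _ ha =>
    have e1 : (a : Matrix D.Idx D.Idx F) * ((a⁻¹ : GL D.Idx F) : Matrix D.Idx D.Idx F) = 1 := by
      rw [← Units.val_mul, mul_inv_cancel, Units.val_one]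
    have e2 : ((a⁻¹ : GL D.Idx F) : Matrix D.Idx D.Idx F)ᵀ * (a : Matrix D.Idx D.Idx F)ᵀ = 1 := by
      rw [← Matrix.transpose_mul, e1, Matrix.transpose_one]
    nth_rw 1 [← ha]
    calc _ = (((a⁻¹ : GL D.Idx F) : Matrix D.Idx D.Idx F)ᵀ * (a : Matrix D.Idx D.Idx F)ᵀ) * KB D F *
        ((a : Matrix D.Idx D.Idx F) * ((a⁻¹ : GL D.Idx F) : Matrix D.Idx D.Idx F)) := by simp only [Matrix.mul_assoc]
      _ = _ := by rw [e1, e2, Matrix.one_mul, Matrix.mul_one]

theorem group_isom (h2 : (2 : F) = 0) {g : GL D.Idx F} (hg : g ∈ D.group F) (v w : D.Idx → F) :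
    BF D F ((g : Matrix D.Idx D.Idx F) *ᵥ v) ((g : Matrix D.Idx D.Idx F) *ᵥ w) = BF D F v w := by
  unfold BF
  rw [Matrix.mulVec_mulVec, dotProduct_comm, Matrix.dotProduct_mulVec, ← Matrix.mulVec_transpose, Matrix.mulVec_mulVec,
    ← Matrix.mul_assoc, group_KB hG hS h2 hg, dotProduct_comm]

/-- the subspace on which all conjugates vanish -/
theorem exists_VS (h2 : (2 : F) = 0) {M : Subgroup (GL D.Idx F)} {u : GL D.Idx F} (hu : u ∈ D.group F) (hu2 : u * u = 1) :
    ∃ V : Submodule F (D.Idx → F), ∀ v, v ∈ V ↔ ∀ g ∈ M, BF D F ((g : Matrix D.Idx D.Idx F) *ᵥ v)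
      ((u : Matrix D.Idx D.Idx F) *ᵥ ((g : Matrix D.Idx D.Idx F) *ᵥ v)) = 0 := by
  have hcross : ∀ v w : D.Idx → F, BF D F v ((u : Matrix D.Idx D.Idx F) *ᵥ w) = BF D F w ((u : Matrix D.Idx D.Idx F) *ᵥ v) := by
    intro v w
    rw [← group_isom hG hS h2 hu v, Matrix.mulVec_mulVec, ← Units.val_mul, hu2, Units.val_one, Matrix.one_mulVec,
      BF_symm hG hS]
  let P : (D.Idx → F) → Prop := fun v => ∀ g ∈ M, BF D F ((g : Matrix D.Idx D.Idx F) *ᵥ v)
      ((u : Matrix D.Idx D.Idx F) *ᵥ ((g : Matrix D.Idx D.Idx F) *ᵥ v)) = 0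
  have h0 : P 0 := by
    intro g _
    rw [Matrix.mulVec_zero, BF_zero_left]
  have ha : ∀ v w, P v → P w → P (v + w) := by
    rintro v w hv hw g hg
    rw [Matrix.mulVec_add, Matrix.mulVec_add, BF_add_left, BF_add_right, BF_add_right, hv g hg, hw g hg, zero_add, add_zero,
      hcross, ← two_mul, h2, zero_mul]
  have hs : ∀ (c : F) v, P v → P (c • v) := by
    rintro c v hv g hg
    rw [Matrix.mulVec_smul, Matrix.mulVec_smul, BF_smul_left, BF_smul_right, hv g hg, mul_zero, mul_zero]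
  exact ⟨⟨⟨⟨{v | P v}, fun {a b} h1 h2 => ha a b h1 h2⟩, h0⟩, fun c {v} h1 => hs c v h1⟩, fun v => Iff.rfl⟩

end Cfsg.Agent.H15.Chev
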