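import Cfsg.Agent.H15.TwInv2
import Cfsg.Agent.H6.TwOrder2

/-!
# Levi subgroups of twisted groups
-/

set_option autoImplicit false
set_option linter.unusedSectionVars false

namespace Cfsg.Agent.H15.Chev

open Cfsg.Agent.H6 Cfsg.Lie Cfsg.Agent.H22
open scoped Matrix

variable {D : ChevalleyDatum} {N : ℕ} {η : ℕ → ℕ → ℤ} {rc : ℕ → ℕ → ℤ} {F : Type*} [Field F]
  {m : ℕ} {rho inv lam pi : ℕ → ℕ} {ep : ℕ → ℤ} {e : ℕ} {σ : ↥(D.group F) →* ↥(D.group F)}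
  {ι : Type} {L : ι → List (Fin D.rank)}

/-- `ρ`-stability of `Φ_J` -/
def RSt (D : ChevalleyDatum) (rc : ℕ → ℕ → ℤ) (rho : ℕ → ℕ) (J : Set ℕ) : Prop :=
  ∀ r < D.nroots, (rho r ∈ Phi D rc J ↔ r ∈ Phi D rc J)

section
variable (h : TwCtx D N η rc F m rho inv lam pi ep e σ) {J : Set ℕ} (hJ : RSt D rc rho J)
include h

theorem par_le_group (J : Set ℕ) : D.parabolicSubgroup F J ≤ D.group F := by
  rw [parabolic_gen h.G]
  refine sup_le h.G.borel_le ?_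
  rw [Subgroup.closure_le]
  rintro _ ⟨j, _, hj, rfl⟩
  exact h.G.ng_mem_group j

theorem pos_le_par (J : Set ℕ) : D.posUnipotent F ≤ D.parabolicSubgroup F J := by
  rw [parabolic_gen h.G]
  exact le_trans le_sup_left le_sup_left

theorem levi_le_group (J : Set ℕ) : D.leviSubgroup F J ≤ D.group F :=
  (levi_le_par h.G h.E J).trans (par_le_group h J)

include hJ

theorem sgf_rad {q : GL D.Idx F} (hq : q ∈ D.unipotentRadical F J) : sgf σ q ∈ D.unipotentRadical F J := by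
  rw [radical_eq h.G h.E] at hq ⊢
  refine h.sgf_US_stable (fun r hr => hr.1.2) ?_ hq
  intro r (hr : r ∈ posS D N \ Phi D rc J)
  exact ⟨⟨h.T.rho_pos r hr.1.2 hr.1.1, h.T.rho_lt r hr.1.2⟩, fun h' => hr.2 ((hJ r hr.1.2).1 h')⟩

theorem sgf_ML {l : GL D.Idx F} (hl : l ∈ ML D rc F J) : sgf σ l ∈ ML D rc F J :=
  h.sgf_US_stable (fun r hr => hr.1) (fun r hr => (hJ r hr.1).2 hr) hl

theorem sgf_UL {l : GL D.Idx F} (hl : l ∈ UL D N rc F J) : sgf σ l ∈ UL D N rc F J := by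
  refine h.sgf_US_stable (fun r hr => hr.1.2) ?_ hl
  intro r (hr : r ∈ posS D N ∩ Phi D rc J)
  exact ⟨⟨h.T.rho_pos r hr.1.2 hr.1.1, h.T.rho_lt r hr.1.2⟩, (hJ r hr.1.2).2 hr.2⟩

theorem sgf_levi {l : GL D.Idx F} (hl : l ∈ D.leviSubgroup F J) : sgf σ l ∈ D.leviSubgroup F J := by
  obtain ⟨x, hx, d, hd, rfl⟩ := (mem_levi_iff h.G h.E J).1 hl
  have hxG : x ∈ D.group F := levi_le_group h J (ML_le_levi h.G h.E J hx)
  have hdG : d ∈ D.group F := h.G.diagonal_le hd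
  rw [sgf_mul hxG hdG]
  exact mul_mem (ML_le_levi h.G h.E J (sgf_ML h hJ hx)) (diag_le_levi h.G h.E J (h.S.sgf_diag h.T h.E h.hm h.add hd))

theorem par_fix {x : GL D.Idx F} (hx : x ∈ D.parabolicSubgroup F J) (hf : x ∈ fixS σ) :
    ∃ q ∈ D.unipotentRadical F J, q ∈ fixS σ ∧ ∃ l ∈ D.leviSubgroup F J, l ∈ fixS σ ∧ x = q * l := by
  obtain ⟨q, hq, l, hl, rfl⟩ := par_decomp h.G h.E J hx
  have hqG : q ∈ D.group F := par_le_group h J (rad_le_par h.G h.E J hq)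
  have hlG : l ∈ D.group F := levi_le_group h J hl
  have h1 := hf.2
  rw [sgf_mul hqG hlG] at h1
  have h2 : q⁻¹ * sgf σ q = l * (sgf σ l)⁻¹ := by
    rw [inv_mul_eq_iff_eq_mul, ← mul_assoc, ← h1, mul_inv_cancel_right]
  have h3 : q⁻¹ * sgf σ q ∈ D.unipotentRadical F J ⊓ D.leviSubgroup F J := by
    refine Subgroup.mem_inf.2 ⟨mul_mem (inv_mem hq) (sgf_rad h hJ hq), ?_⟩
    rw [h2]; exact mul_mem hl (inv_mem (sgf_levi h hJ hl))
  rw [rad_inf_levi h.G h.E J, Subgroup.mem_bot] at h3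
  have h4 : sgf σ q = q := by rw [inv_mul_eq_one] at h3; exact h3.symm
  have h5 : sgf σ l = l := by
    rw [h3] at h2
    rw [eq_comm, mul_inv_eq_one] at h2
    exact h2.symm
  exact ⟨q, hq, ⟨hqG, h4⟩, l, hl, ⟨hlG, h5⟩, rfl⟩

end

variable {h : TwCtx D N η rc F m rho inv lam pi ep e σ} {G₁ : Subgroup (GL D.Idx F)} (hT : TwGrp h L G₁)
  {J : Set ℕ} (hJ : RSt D rc rho J)
include hT

theorem rad_le_pos (J : Set ℕ) : D.unipotentRadical F J ≤ D.posUnipotent F := by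
  rw [radical_eq h.G h.E, h.G.posUnipotent_eq_US]
  exact US_mono Set.sdiff_subset

include hJ

/-- elements of `p`-power order of a twisted Levi subgroup -/
theorem levi_sylow_tw [Fintype F] (p : ℕ) [hp : Fact p.Prime] [CharP F p]
    (hodd : ¬ p ∣ (D.posUnipotent F ⊓ G₁).relIndex G₁) {t : GL D.Idx F}
    (ht : t ∈ D.leviSubgroup F J) (htG : t ∈ G₁) (ht2 : ∃ k : ℕ, t ^ p ^ k = 1) :
    ∃ l ∈ D.leviSubgroup F J, l ∈ G₁ ∧ l * t * l⁻¹ ∈ UL D N rc F J := by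
  haveI : Finite (Matrix D.Idx D.Idx F) := inferInstanceAs (Finite (D.Idx → D.Idx → F))
  haveI : Finite (GL D.Idx F) := Finite.of_injective (fun g : GL D.Idx F => (g : Matrix D.Idx D.Idx F)) fun a b h => Units.ext h
  set P := D.parabolicSubgroup F J ⊓ G₁ with hP
  set U := D.posUnipotent F ⊓ G₁ with hU
  have hUP : U ≤ P := inf_le_inf_right _ (pos_le_par h J)
  have hPG : P ≤ G₁ := inf_le_right
  have hidx2 : ¬ p ∣ (U.subgroupOf P).index := by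
    intro h'
    apply hodd
    have e := Subgroup.relIndex_mul_relIndex U P G₁ hUP hPG
    rw [← e]
    exact dvd_mul_of_dvd_left h' _
  have hUp : IsPGroup p (U.subgroupOf P) := by
    have h1 : IsPGroup p (D.posUnipotent F) := isPGroup_pos (F := F) h.G h.E p
    intro x
    obtain ⟨k, hk⟩ := h1 ⟨((x : ↥P) : GL D.Idx F), x.2.1⟩
    refine ⟨k, ?_⟩
    have := congrArg Subtype.val hk
    exact Subtype.ext (Subtype.ext this)
  have htP : t ∈ P := Subgroup.mem_inf.2 ⟨levi_le_par h.G h.E J ht, htG⟩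
  obtain ⟨k, hk⟩ := ht2
  have hZ : IsPGroup p (Subgroup.zpowers (⟨t, htP⟩ : ↥P)) := by
    rw [IsPGroup.iff_card]
    have h1 : orderOf (⟨t, htP⟩ : ↥P) ∣ p ^ k := by
      apply orderOf_dvd_of_pow_eq_one
      exact Subtype.ext hk
    obtain ⟨j, -, hj⟩ := (Nat.dvd_prime_pow hp.out).1 h1
    exact ⟨j, by rw [Nat.card_zpowers, hj]⟩
  obtain ⟨Q, hQ⟩ := hZ.exists_le_sylow
  obtain ⟨x, hx⟩ := MulAction.exists_smul_eq ↥P Q (hUp.toSylow hidx2)
  have h1 : x * ⟨t, htP⟩ * x⁻¹ ∈ U.subgroupOf P := by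
    have h2 : x * ⟨t, htP⟩ * x⁻¹ ∈ x • Q := by
      rw [← SetLike.mem_coe, Sylow.coe_smul]
      exact ⟨_, hQ (Subgroup.mem_zpowers _), rfl⟩
    rw [hx] at h2
    exact h2
  obtain ⟨x, hxP⟩ := x
  have h1' : x * t * x⁻¹ ∈ U := h1
  obtain ⟨q, hq, hqf, l, hl, hlf, rfl⟩ := par_fix h hJ hxP.1 (hT.le_fix hxP.2)
  have hqU : q ∈ D.posUnipotent F := rad_le_pos hT J hq
  have hqG : q ∈ G₁ := hT.pos_le (Subgroup.mem_inf.2 ⟨hqU, hqf⟩)
  have hlG : l ∈ G₁ := by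
    have := mul_mem (inv_mem hqG) hxP.2
    rwa [inv_mul_cancel_left] at this
  have h3 : l * t * l⁻¹ ∈ D.posUnipotent F := by
    have e : l * t * l⁻¹ = q⁻¹ * (q * l * t * (q * l)⁻¹) * q := by group
    rw [e]
    exact mul_mem (mul_mem (inv_mem hqU) h1'.1) hqU
  exact ⟨l, hl, hlG, levi_inf_pos h.G h.E J (mul_mem (mul_mem hl ht) (inv_mem hl)) h3⟩

/-- canonical form in a twisted Levi subgroup -/
theorem levi_canon_tw {g : GL D.Idx F} (hg : g ∈ D.leviSubgroup F J) (hgG : g ∈ G₁) :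
    ∃ y ∈ UL D N rc F J, y ∈ G₁ ∧ ∃ n ∈ D.monomialSubgroup F, n ∈ G₁ ∧ ∃ w χ, Mon h.G (xg D F) n w χ ∧
      n ∈ D.leviSubgroup F J ∧ w ∈ WJ h.G J ∧ ∃ v ∈ UL D N rc F J, v ∈ G₁ ∧ g = y * n * v := by
  obtain ⟨y, hy, n, hn, w, χ, hm, hnL, hw, v, hv, he⟩ := levi_bruhat h.G h.E hg
  obtain ⟨a, ha, n', hn', w', χ', hw'r, hm', b, hb, he'⟩ := hT.canon₁ hgG
  have hB : D.posUnipotent F ≤ D.borelSubgroup F := le_sup_left
  have hUm : ∀ v : h.G.W, US (xg D F) (h.G.Um v) ≤ D.borelSubgroup F := fun v => (h.US_le_pos (h.G.Um_sub v)).trans hB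
  have hyB := hB (UL_le_pos h.G J hy)
  have hvB := hB (UL_le_pos h.G J hv)
  -- the Weyl elements agree
  have h1 := h.G.bruhat_unique h.E hyB hn hvB (hB ha.1) hn'.1 (hUm _ hb.1) (he.symm.trans he')
  have h1' := h1
  rw [← h.G.HA_eq] at h1'
  obtain ⟨χ'', h3⟩ := h.G.HA_mon (h.G.rdn h.E) h1'
  have h4 := h.G.mon_unique h.E (hm.inv.mul hm') h3
  rw [inv_mul_eq_one] at h4
  subst h4
  -- split `v`
  have hun : posS D N ∩ Phi D rc J = ((posS D N ∩ Phi D rc J) ∩ h.G.Upl w) ∪ ((posS D N ∩ Phi D rc J) ∩ h.G.Um w) := by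
    rw [← Set.inter_union_distrib_left, ← h.G.posS_eq_union w]
    ext s
    exact ⟨fun hs => ⟨hs, hs.1⟩, fun hs => hs.1⟩
  obtain ⟨v₁, hv₁, v₂, hv₂, hvv⟩ := h.G.US_union_mul (h.G.rd h.E) (UL_pClo h.G J) hun hv
  have hv₁U : n * v₁ * n⁻¹ ∈ UL D N rc F J := by
    refine hm.mem_US (S := (posS D N ∩ Phi D rc J) ∩ h.G.Upl w) (fun s hs => hs.1.1.2) ?_ hv₁
    intro s hs
    refine ⟨⟨?_, (w.1 s).2⟩, WJ_phi h.G h.E hw s hs.1.2⟩
    exact (h.G.mem_Upl.1 hs.2).2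
  have hv₂m : v₂ ∈ US (xg D F) (h.G.Um w) := US_mono Set.inter_subset_right hv₂
  have hv₂U : v₂ ∈ UL D N rc F J := US_mono Set.inter_subset_left hv₂
  set y' := y * (n * v₁ * n⁻¹) with hy'
  have hy'U : y' ∈ UL D N rc F J := mul_mem hy hv₁U
  have he2 : g = y' * n * v₂ := by rw [he, hvv, hy']; group
  -- compare
  set τ := n' * n⁻¹ with hτ
  have hτH : τ ∈ D.diagonalSubgroup F := by
    have e1 : τ = n * (n⁻¹ * n') * n⁻¹ := by rw [hτ]; group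
    rw [e1]
    exact h.G.diagonal_normal_monomial h.E hn h1
  have he3 : y' * n * v₂ = (a * τ) * n * b := by
    rw [← he2, he', hτ]; group
  obtain ⟨h5, h6⟩ := h.G.canon_unique h.E (hB (UL_le_pos h.G J hy'U)) (mul_mem (hB ha.1) (Subgroup.mem_sup_right hτH)) hm hv₂m hb.1 he3
  have h7 : τ ∈ D.posUnipotent F ⊓ D.diagonalSubgroup F := by
    refine Subgroup.mem_inf.2 ⟨?_, hτH⟩
    have : τ = a⁻¹ * y' := by rw [h5]; group
    rw [this]
    exact mul_mem (inv_mem ha.1) (UL_le_pos h.G J hy'U)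
  rw [h.G.pos_inf_diagonal, Subgroup.mem_bot] at h7
  have h8 : n' = n := by rw [hτ, mul_inv_eq_one] at h7; exact h7
  rw [h7, mul_one] at h5
  refine ⟨y', hy'U, by rw [h5]; exact ha.2, n, hn, by rw [← h8]; exact hn'.2, w, χ, hm, hnL, hw, v₂, hv₂U, by rw [h6]; exact hb.2, he2⟩

end Cfsg.Agent.H15.Chev
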