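import Cfsg.Agent.H15.TwInv3

/-!
# Involutions of twisted groups in characteristic two: the inductive step
-/

set_option autoImplicit false
set_option linter.unusedSectionVars false

namespace Cfsg.Agent.H15.Chev

open Cfsg.Agent.H6 Cfsg.Lie Cfsg.Agent.H22
open scoped Matrix

variable {D : ChevalleyDatum} {N : ℕ} {η : ℕ → ℕ → ℤ} {rc : ℕ → ℕ → ℤ} {F : Type*} [Field F]
  {m : ℕ} {rho inv lam pi : ℕ → ℕ} {ep : ℕ → ℤ} {e : ℕ} {σ : ↥(D.group F) →* ↥(D.group F)}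
  {ι : Type} {L : ι → List (Fin D.rank)}

section
variable (h : TwCtx D N η rc F m rho inv lam pi ep e σ)
include h

theorem fix_xg_iff (h2 : (2 : F) = 0) {r : ℕ} (hr : r < D.nroots) (hρ : rho r = r) (b : F) :
    xg D F r b ∈ fixS σ ↔ b ^ (lam r * e) = b := by
  have hep : ((ep r : ℤ) : F) = 1 := by
    rcases h.T.ep_or r hr with h' | h' <;> rw [h']
    · simp
    · push_cast; exact neg_mod2 h2 1
  rw [mem_fixS]
  constructor
  · rintro ⟨-, h1⟩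
    rw [h.S.x r hr] at h1
    unfold tX at h1
    rw [hρ, hep, one_mul] at h1
    by_contra hne
    -- injectivity of root subgroups
    have h3 : xg D F r (b ^ (lam r * e) + b) = 1 := by
      rw [h.G.xg_add, h1, ← h.G.xg_add, ← two_mul, h2, zero_mul, h.G.xg_zero]
    have h4 : b ^ (lam r * e) + b ≠ 0 := by
      intro h5
      apply hne
      have h6 := eq_neg_of_add_eq_zero_left h5
      rw [h6, neg_mod2 h2]
    exact h.G.xg_ne_one h.E hr h4 h3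
  · intro h1
    refine ⟨h.G.xg_mem_group r b, ?_⟩
    rw [h.S.x r hr]
    unfold tX
    rw [hρ, hep, one_mul, h1]

theorem sqrt_fix (h2 : (2 : F) = 0) {k : ℕ} {c s : F} (hc : c ^ k = c) (hs : s ^ 2 = c) : s ^ k = s := by
  have h3 : (s ^ k) ^ 2 = s ^ 2 := by
    rw [← pow_mul, mul_comm, pow_mul, hs, hc]
  have h4 : (s ^ k + s) ^ 2 = 0 := by
    have : (s ^ k + s) ^ 2 = (s ^ k) ^ 2 + s ^ 2 + 2 * (s ^ k * s) := by ring
    rw [this, h2, zero_mul, add_zero, h3, ← two_mul, h2, zero_mul]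
  have h5 : s ^ k + s = 0 := by
    rcases pow_eq_zero_iff (two_ne_zero) |>.1 h4 with h5
    exact h5
  have h6 := eq_neg_of_add_eq_zero_left h5
  rw [h6, neg_mod2 h2]

end

variable {h : TwCtx D N η rc F m rho inv lam pi ep e σ} {G₁ : Subgroup (GL D.Idx F)} (hT : TwGrp h L G₁)
include hT

theorem xg_mem_G₁ (h2 : (2 : F) = 0) {r : ℕ} (hr : r < D.nroots) (hρ : rho r = r) {b : F} (hb : b ^ (lam r * e) = b) :
    xg D F r b ∈ G₁ := by
  have hf : xg D F r b ∈ fixS σ := (fix_xg_iff h h2 hr hρ b).2 hb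
  by_cases hN : N ≤ r
  · exact hT.pos_le (Subgroup.mem_inf.2 ⟨h.G.xg_mem_pos hN hr b, hf⟩)
  · obtain ⟨w, hw, h1⟩ := h.exists_longest
    obtain ⟨n, hn, χ, hm⟩ := hT.rep_all hw
    have h3 : n * xg D F r b * n⁻¹ ∈ D.posUnipotent F := by
      have h4 := hm.act ⟨r, hr⟩ b
      change n * xg D F r b * n⁻¹ = _ at h4
      rw [h4]
      refine h.G.xg_mem_pos ?_ (w.1 ⟨r, hr⟩).2 _
      have h5 := h1 ⟨r, hr⟩
      change N ≤ r ↔ _ at h5
      by_contra hc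
      exact hN (h5.2 (by omega))
    have h4 : n * xg D F r b * n⁻¹ ∈ G₁ :=
      hT.pos_le (Subgroup.mem_inf.2 ⟨h3, mul_mem (mul_mem (hT.le_fix hn.2) hf) (inv_mem (hT.le_fix hn.2))⟩)
    have h5 : xg D F r b = n⁻¹ * (n * xg D F r b * n⁻¹) * n := by group
    rw [h5]
    exact mul_mem (mul_mem (inv_mem hn.2) h4) hn.2

/-- hypotheses of one step -/
structure TStep (hT : TwGrp h L G₁) (J : Set ℕ) (r₀ : Fin D.nroots) : Prop where
  rst : RSt D rc rho J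
  pos : (r₀ : ℕ) ∈ posS D N ∩ Phi D rc J
  dom : JDom D J r₀
  fix : rho r₀ = r₀
  top : ∀ s ∈ Phi D rc J, s ≤ (r₀ : ℕ)
  reach : ∀ V : Submodule F (D.Idx → F), (∀ g ∈ D.leviSubgroup F J, g ∈ G₁ → ∀ v ∈ V, (g : Matrix D.Idx D.Idx F) *ᵥ v ∈ V) →
    be D F r₀ ∈ V → ∀ s ∈ Phi D rc J, be D F s ∈ V

theorem tw_cell (hV : EvC h.G F) (hS : SLd D) (h2 : (2 : F) = 0) {J : Set ℕ} {r₀ : Fin D.nroots} (hst : TStep hT J r₀)
    {u : GL D.Idx F} (hu : u ∈ UL D N rc F J) (huG : u ∈ G₁) (hu2 : u * u = 1) (hne : u ≠ 1) :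
    ∃ g ∈ D.leviSubgroup F J, g ∈ G₁ ∧ ∃ n' w' χ', Mon h.G (xg D F) n' w' χ' ∧ w'.1 r₀ = h.G.ngf r₀ ∧ n' ∈ G₁ ∧
        n' ∈ D.leviSubgroup F J ∧ ∃ v ∈ UL D N rc F J, v ∈ G₁ ∧ g * u * g⁻¹ = n' * v := by
  classical
  have huD : u ∈ D.group F := hT.le_group huG
  -- existence of a conjugate with nonzero coefficient
  have hcoef0 : ∃ g ∈ D.leviSubgroup F J, g ∈ G₁ ∧ BF D F ((g : Matrix D.Idx D.Idx F) *ᵥ be D F r₀)
      ((u : Matrix D.Idx D.Idx F) *ᵥ ((g : Matrix D.Idx D.Idx F) *ᵥ be D F r₀)) ≠ 0 := by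
    by_contra hcon
    push Not at hcon
    obtain ⟨V, hVs⟩ := exists_VS h.G hS h2 (M := D.leviSubgroup F J ⊓ G₁) huD hu2
    have h0 : be D F r₀ ∈ V := (hVs _).2 fun g hg => hcon g hg.1 hg.2
    have hst' : ∀ g ∈ D.leviSubgroup F J, g ∈ G₁ → ∀ v ∈ V, (g : Matrix D.Idx D.Idx F) *ᵥ v ∈ V := by
      intro g hg hgG v hv
      rw [hVs] at hv ⊢
      intro g' hg'
      have := hv (g' * g) (mul_mem hg' (Subgroup.mem_inf.2 ⟨hg, hgG⟩))
      rw [Units.val_mul, ← Matrix.mulVec_mulVec] at this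
      exact this
    have hall := hst.reach V hst' h0
    obtain ⟨τ, h1, h3⟩ := h.G.exists_op' (h.G.rd h.E) (UL_pClo h.G J) hu
    have hn2 := h.G.nroots_eq
    have hex : ∃ r, N ≤ r ∧ r < D.nroots ∧ τ r ≠ 0 := by
      by_contra hc
      push Not at hc
      apply hne
      rw [h3]
      have : op (xg D F) τ N N = op (xg D F) (fun _ => (0 : F)) N N := by
        apply op_congr
        intro r hr hr'
        exact hc r hr (by omega)
      rw [this]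
      unfold op
      apply List.prod_eq_one
      intro x hx
      rw [List.mem_map] at hx
      obtain ⟨r, _, rfl⟩ := hx
      exact h.G.xg_zero r
    set r := Nat.find hex with hr
    obtain ⟨hrN, hrl, hτ⟩ := Nat.find_spec hex
    rw [← hr] at hrN hrl hτ
    have hmin : ∀ s, s < r → τ s = 0 := by
      intro s hs
      by_cases hsN : N ≤ s
      · by_contra hc
        exact Nat.find_min hex hs ⟨hsN, by omega, hc⟩
      · exact h1 s fun h => hsN h.1.1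
    have hrS : r ∈ posS D N ∩ Phi D rc J := by
      by_contra hc
      exact hτ (h1 r hc)
    have hlead := lead_coeff (F := F) h.G τ (r := ⟨r, hrl⟩) hrN hmin
    rw [← h3] at hlead
    change ((u : Matrix D.Idx D.Idx F) *ᵥ be D F (D.neg r)) (Sum.inr ⟨r, hrl⟩) = -(τ r) ^ 2 at hlead
    have h4 := (hVs _).1 (hall (D.neg r) (phi_neg h.G hrS.2)) 1 (one_mem _)
    rw [Units.val_one, Matrix.one_mulVec] at h4
    have h5 := BF_be (F := F) h.G (h.G.ngf ⟨r, hrl⟩) ((u : Matrix D.Idx D.Idx F) *ᵥ be D F (D.neg r))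
    have h6 : h.G.ngf (h.G.ngf ⟨r, hrl⟩) = ⟨r, hrl⟩ := Fin.ext (h.G.neg_neg' hrl)
    rw [h6, hlead] at h5
    change BF D F (be D F (D.neg r)) _ = _ at h5
    rw [h4] at h5
    exact neg_ne_zero.2 (pow_ne_zero 2 hτ) h5.symm
  obtain ⟨g, hg, hgG, hgc⟩ := hcoef0
  set u1 := g⁻¹ * u * g with hu1
  have hcoef : ((u1 : Matrix D.Idx D.Idx F) *ᵥ be D F r₀) (Sum.inr (h.G.ngf r₀)) ≠ 0 := by
    have e0 := BF_be (F := F) h.G r₀ ((u1 : Matrix D.Idx D.Idx F) *ᵥ be D F r₀)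
    rw [← e0, ← group_isom h.G hS h2 (hT.le_group hgG), Matrix.mulVec_mulVec _ (g : Matrix D.Idx D.Idx F)]
    have e1 : (g : Matrix D.Idx D.Idx F) * (u1 : Matrix D.Idx D.Idx F) = (u : Matrix D.Idx D.Idx F) * (g : Matrix D.Idx D.Idx F) := by
      rw [← Units.val_mul, ← Units.val_mul]
      congr 1
      rw [hu1]; group
    rw [e1, ← Matrix.mulVec_mulVec]
    exact hgc
  have huL : u ∈ D.leviSubgroup F J := ML_le_levi h.G h.E J (UL_le_ML h.G J hu)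
  have hu1L : u1 ∈ D.leviSubgroup F J := mul_mem (mul_mem (inv_mem hg) huL) hg
  have hu1G : u1 ∈ G₁ := mul_mem (mul_mem (inv_mem hgG) huG) hgG
  obtain ⟨y, hy, hyG, n', hn'N, hn'G, w', χ', hm', hn'L, hw', v, hv, hvG, he⟩ := levi_canon_tw hT hst.rst hu1L hu1G
  have hfix := UL_fix h.G hV hst.pos.1 hst.dom hv
  obtain ⟨c₃, hc₃, e₃⟩ := mon_be (F := F) h.G h.E hn'N hm' r₀
  rw [he, Units.val_mul, Units.val_mul, ← Matrix.mulVec_mulVec, ← Matrix.mulVec_mulVec, hfix, e₃, Matrix.mulVec_smul,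
    Pi.smul_apply] at hcoef
  have hyne := right_ne_zero_of_mul hcoef
  have hle : (w'.1 r₀ : ℕ) ≤ h.G.ngf r₀ := by
    by_contra hc
    push Not at hc
    apply hyne
    have hyU := h.G.pos_uni (UL_le_pos h.G J hy)
    rw [be_of_lt (w'.1 r₀).2, Matrix.mulVec_single_one]
    by_contra hne0
    have hne' : (Sum.inr (h.G.ngf r₀) : D.Idx) ≠ Sum.inr (w'.1 r₀) := by
      intro h
      have := Sum.inr.inj h
      rw [this] at hc
      exact lt_irrefl _ hc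
    have h3 := hyU.1 _ _ hne' hne0
    have h4 := lev_inr_lt (D := D) (N := N) hc
    omega
  have hge : (h.G.ngf r₀ : ℕ) ≤ w'.1 r₀ := by
    have h3 : (w'.1 r₀ : ℕ) ∈ Phi D rc J := WJ_phi h.G h.E hw' r₀ hst.pos.2
    have h4 : (h.G.ngf (w'.1 r₀) : ℕ) ≤ r₀ := hst.top _ (phi_neg h.G h3)
    have h5 := ngf_le h.G h4
    have h6 : h.G.ngf (h.G.ngf (w'.1 r₀)) = w'.1 r₀ := Fin.ext (h.G.neg_neg' (w'.1 r₀).2)
    rw [h6] at h5
    exact h5
  have hw'r : w'.1 r₀ = h.G.ngf r₀ := Fin.ext (le_antisymm hle hge)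
  refine ⟨y⁻¹ * g⁻¹, mul_mem (inv_mem (ML_le_levi h.G h.E J (UL_le_ML h.G J hy))) (inv_mem hg), mul_mem (inv_mem hyG) (inv_mem hgG),
    n', w', χ', hm', hw'r, hn'G, hn'L, v * y, mul_mem hv hy, mul_mem hvG hyG, ?_⟩
  have e : y⁻¹ * g⁻¹ * u * (y⁻¹ * g⁻¹)⁻¹ = y⁻¹ * (g⁻¹ * u * g) * y := by group
  rw [e, ← hu1, he]; group

end Cfsg.Agent.H15.Chev
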