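import Cfsg.Agent.H15.TwInv4

/-!
# Involutions of twisted groups in characteristic two: normal forms
-/

set_option autoImplicit false
set_option linter.unusedSectionVars false

namespace Cfsg.Agent.H15.Chev

open Cfsg.Agent.H6 Cfsg.Lie Cfsg.Agent.H22
open scoped Matrix

variable {D : ChevalleyDatum} {N : ℕ} {η : ℕ → ℕ → ℤ} {rc : ℕ → ℕ → ℤ} {F : Type*} [Field F]
  {m : ℕ} {rho inv lam pi : ℕ → ℕ} {ep : ℕ → ℤ} {e : ℕ} {σ : ↥(D.group F) →* ↥(D.group F)}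
  {ι : Type} {L : ι → List (Fin D.rank)}

section
variable {hG : Good D N η rc} {hE : Ext D rc}

/-- explicit conjugation of `n_r(t)` to `x_r(1)` -/
theorem nX_conj' (hG : Good D N η rc) (hE : Ext D rc) (h2 : (2 : F) = 0) (r : Fin D.nroots) {t a : F} (ht : t ≠ 0) (ha : a ^ 2 = t) :
    (nX D (xg D F) r a * (xg D F r t)⁻¹) * nX D (xg D F) r t * (nX D (xg D F) r a * (xg D F r t)⁻¹)⁻¹ = xg D F r 1 := by
  have ha0 : a ≠ 0 := by
    rintro rfl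
    apply ht
    rw [← ha]; ring
  obtain ⟨w, χ, -, -, -, -, -, h6, -⟩ := nX_facts hG hE h2 r (Units.mk0 a ha0)
  have e1 : nX D (xg D F) r t = xg D F r t * xg D F (D.neg r) t⁻¹ * (xg D F r t)⁻¹ := by
    unfold nX
    rw [← hG.xg_neg, neg_eq2 hG hE h2, neg_eq2 hG hE h2]
  have e2 := h6 (t⁻¹)
  rw [Units.val_mk0, ha, mul_inv_cancel₀ ht] at e2
  rw [e1, ← e2]
  group

/-- elements of the Levi subgroup act on `X_{r}` through a torus element -/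
theorem levi_act (hG : Good D N η rc) (hE : Ext D rc) (hV : EvC hG F) {J : Set ℕ} {r₀ : Fin D.nroots} {l : GL D.Idx F}
    (hl : l ∈ D.leviSubgroup F (Jst D J r₀)) :
    ∃ c : Fˣ, (∀ b : F, l * xg D F r₀ b * l⁻¹ = xg D F r₀ ((c : F) * b)) ∧
      ∀ t : F, l * nX D (xg D F) r₀ t * l⁻¹ = nX D (xg D F) r₀ ((c : F) * t) := by
  obtain ⟨x, hx, d, hd, rfl⟩ := (mem_levi_iff hG hE _).1 hl
  obtain ⟨χ, hm⟩ := hG.HA_mon (hG.rdn hE) (show d ∈ HA D (xg D F) by rw [hG.HA_eq]; exact hd)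
  have hmem : ∀ b : F, xg D F r₀ b ∈ US (xg D F) {(r₀ : ℕ), D.neg r₀} := fun b => mem_US (Or.inl rfl) b
  have hmem' : ∀ b : F, xg D F (D.neg r₀) b ∈ US (xg D F) {(r₀ : ℕ), D.neg r₀} := fun b => mem_US (Or.inr rfl) b
  refine ⟨χ r₀, fun b => ?_, fun t => ?_⟩
  · have h1 := hm.act r₀ b
    change d * xg D F r₀ b * d⁻¹ = xg D F r₀ ((χ r₀ : F) * b) at h1
    have h3 := ML_comm hG hV r₀.2 hx (hmem ((χ r₀ : F) * b))
    calc x * d * xg D F r₀ b * (x * d)⁻¹ = x * (d * xg D F r₀ b * d⁻¹) * x⁻¹ := by group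
      _ = _ := by rw [h1, h3, mul_inv_cancel_right]
  · have h1 := hm.conj_nX r₀ t
    change d * nX D (xg D F) r₀ t * d⁻¹ = nX D (xg D F) r₀ ((χ r₀ : F) * t) at h1
    have hn : nX D (xg D F) r₀ ((χ r₀ : F) * t) ∈ US (xg D F) {(r₀ : ℕ), D.neg r₀} := by
      unfold nX; exact mul_mem (mul_mem (hmem _) (hmem' _)) (hmem _)
    have h3 := ML_comm hG hV r₀.2 hx hn
    calc x * d * nX D (xg D F) r₀ t * (x * d)⁻¹ = x * (d * nX D (xg D F) r₀ t * d⁻¹) * x⁻¹ := by group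
      _ = _ := by rw [h1, h3, mul_inv_cancel_right]

end

variable {h : TwCtx D N η rc F m rho inv lam pi ep e σ} {G₁ : Subgroup (GL D.Idx F)} (hT : TwGrp h L G₁)
include hT

theorem nX_mem_G₁ (h2 : (2 : F) = 0) {r : ℕ} (hr : r < D.nroots) (hρ : rho r = r) {b : F} (hb : b ^ (lam r * e) = b) :
    nX D (xg D F) r b ∈ G₁ := by
  have hn : D.neg r < D.nroots := h.G.neg_lt' hr
  have hρn : rho (D.neg r) = D.neg r := by rw [h.T.rho_neg r hr, hρ]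
  have hln : lam (D.neg r) = lam r := h.T.lam_neg r hr
  unfold nX
  refine mul_mem (mul_mem (xg_mem_G₁ hT h2 hr hρ hb) (xg_mem_G₁ hT h2 hn hρn ?_)) (xg_mem_G₁ hT h2 hr hρ hb)
  rw [neg_mod2 h2, hln, inv_pow, hb]

theorem tw_step [Fintype F] [CharP F 2] (hV : EvC h.G F) (hS : SLd D) (h2 : (2 : F) = 0) (hsq : ∀ c : F, ∃ a, a ^ 2 = c)
    (hodd : ¬ 2 ∣ (D.posUnipotent F ⊓ G₁).relIndex G₁) {J : Set ℕ} {r₀ : Fin D.nroots} (hst : TStep hT J r₀)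
    (hst1 : RSt D rc rho (Jst D J r₀))
    {u : GL D.Idx F} (hu : u ∈ UL D N rc F J) (huG : u ∈ G₁) (hu2 : u * u = 1) (hne : u ≠ 1) :
    ∃ g ∈ D.leviSubgroup F J, g ∈ G₁ ∧ ∃ u' ∈ UL D N rc F (Jst D J r₀), u' ∈ G₁ ∧ u' * u' = 1 ∧
      g * u * g⁻¹ = xg D F r₀ 1 * u' := by
  obtain ⟨g, hg, hgG, n', w', χ', hm', hw'r, hn'G, hn'L, v, hv, hvG, he⟩ := tw_cell hT hV hS h2 hst hu huG hu2 hne
  have hr := hst.pos
  have hd := hst.dom
  have hE := h.E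
  set k := lam (r₀ : ℕ) * e with hk
  have hnr : D.neg r₀ < D.nroots := h.G.neg_lt' r₀.2
  have hρn : rho (D.neg r₀) = D.neg r₀ := by rw [h.T.rho_neg r₀ r₀.2, hst.fix]
  have hln : lam (D.neg r₀) = lam r₀ := h.T.lam_neg r₀ r₀.2
  set u2 := g * u * g⁻¹ with hu2d
  have hu2G : u2 ∈ G₁ := mul_mem (mul_mem hgG huG) (inv_mem hgG)
  have hu22 : u2 * u2 = 1 := by
    have : u2 * u2 = g * (u * u) * g⁻¹ := by rw [hu2d]; group
    rw [this, hu2]; group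
  have hu2inv : u2⁻¹ = u2 := inv_eq_of_mul_eq_one_left hu22
  have hact : ∀ b : F, u2 * xg D F r₀ b * u2⁻¹ = xg D F (D.neg r₀) ((χ' r₀ : F) * b) := by
    intro b
    have h1 := UL_comm h.G hV hr.1 hd b hv
    have h3 := hm'.act r₀ b
    rw [hw'r] at h3
    have e1 : u2 * xg D F r₀ b * u2⁻¹ = n' * (v * xg D F r₀ b * v⁻¹) * n'⁻¹ := by rw [he]; group
    rw [e1, h1, mul_inv_cancel_right]
    exact h3
  have hχ0 : (χ' r₀ : F) ≠ 0 := Units.ne_zero _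
  have hone : (1 : F) ^ (lam r₀ * e) = 1 := one_pow _
  have hχk : (χ' r₀ : F) ^ k = χ' r₀ := by
    have h3 : xg D F (D.neg r₀) (χ' r₀ : F) ∈ fixS σ := by
      have h4 := hact 1
      rw [mul_one] at h4
      rw [← h4]
      exact hT.le_fix (mul_mem (mul_mem hu2G (xg_mem_G₁ hT h2 r₀.2 hst.fix hone)) (inv_mem hu2G))
    have h4 := (fix_xg_iff h h2 hnr hρn _).1 h3
    rwa [hln] at h4
  obtain ⟨s, hs⟩ := hsq (χ' r₀ : F)⁻¹
  have hs0 : s ≠ 0 := by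
    rintro rfl
    apply inv_ne_zero hχ0
    rw [← hs]; ring
  have hsk : s ^ k = s := sqrt_fix h h2 (by rw [inv_pow, hχk]) hs
  obtain ⟨wν, χν, -, -, -, t1sq, ta, tb, -⟩ := nX_facts h.G hE h2 r₀ (Units.mk0 s hs0)
  rw [Units.val_mk0] at t1sq ta tb
  set t1 := nX D (xg D F) r₀ s with ht1
  have ht1G : t1 ∈ G₁ := nX_mem_G₁ hT h2 r₀.2 hst.fix hsk
  have hsinv : s⁻¹ ^ 2 = (χ' r₀ : F) := by
    rw [inv_pow, hs, inv_inv]
  have hmem : ∀ b : F, xg D F r₀ b ∈ US (xg D F) {(r₀ : ℕ), D.neg r₀} := fun b => mem_US (Or.inl rfl) b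
  have hmem' : ∀ b : F, xg D F (D.neg r₀) b ∈ US (xg D F) {(r₀ : ℕ), D.neg r₀} := fun b => mem_US (Or.inr rfl) b
  have hnXm : ∀ b : F, nX D (xg D F) r₀ b ∈ US (xg D F) {(r₀ : ℕ), D.neg r₀} := fun b => by
    unfold nX
    exact mul_mem (mul_mem (hmem _) (hmem' _)) (hmem _)
  have ht1m : t1 ∈ US (xg D F) {(r₀ : ℕ), D.neg r₀} := hnXm s
  have hRM : US (xg D F) {(r₀ : ℕ), D.neg r₀} ≤ ML D rc F J := by
    apply US_mono
    rintro a (ha | ha)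
    · rw [ha]; exact hr.2
    · rw [Set.mem_singleton_iff] at ha
      rw [ha]; exact phi_neg h.G hr.2
  set t2 := t1 * u2 with ht2
  have hc1 : ∀ b : F, t2 * xg D F r₀ b * t2⁻¹ = xg D F r₀ b := by
    intro b
    have e1 : t2 * xg D F r₀ b * t2⁻¹ = t1 * (u2 * xg D F r₀ b * u2⁻¹) * t1⁻¹ := by rw [ht2]; group
    rw [e1, hact, tb, hs]
    congr 1
    field_simp
  have hc2 : ∀ b : F, t2 * xg D F (D.neg r₀) b * t2⁻¹ = xg D F (D.neg r₀) b := by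
    intro b
    have e0 : xg D F (D.neg r₀) b = u2 * xg D F r₀ ((χ' r₀ : F)⁻¹ * b) * u2⁻¹ := by
      rw [hact]
      congr 1
      field_simp
    have e1 : t2 * xg D F (D.neg r₀) b * t2⁻¹ = t1 * ((u2 * u2) * xg D F r₀ ((χ' r₀ : F)⁻¹ * b) * (u2 * u2)⁻¹) * t1⁻¹ := by
      rw [e0, ht2]; group
    rw [e1, hu22, one_mul, inv_one, mul_one, ta, hsinv]
    congr 1
    field_simp
  have hcR : ∀ g' ∈ US (xg D F) {(r₀ : ℕ), D.neg r₀}, t2 * g' = g' * t2 := by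
    have h : US (xg D F) {(r₀ : ℕ), D.neg r₀} ≤ Subgroup.centralizer {t2} := by
      rw [US_le]
      rintro a (ha | ha) b
      · rw [ha, Subgroup.mem_centralizer_singleton_iff]
        have := hc1 b
        nth_rw 1 [← this]
        group
      · rw [Set.mem_singleton_iff] at ha
        rw [ha, Subgroup.mem_centralizer_singleton_iff]
        have := hc2 b
        nth_rw 1 [← this]
        group
    intro g' hg'
    have := h hg'
    rw [Subgroup.mem_centralizer_singleton_iff] at this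
    exact this.symm
  have huL : u ∈ D.leviSubgroup F J := ML_le_levi h.G hE J (UL_le_ML h.G J hu)
  have ht2L : t2 ∈ D.leviSubgroup F J :=
    mul_mem (ML_le_levi h.G hE J (hRM ht1m)) (mul_mem (mul_mem hg huL) (inv_mem hg))
  have ht2L₁ := cent_R h.G hE hV h2 hr hd ht2L hcR
  have ht2G : t2 ∈ G₁ := mul_mem ht1G hu2G
  have hu2t : u2 = t1 * t2 := by rw [ht2, ← mul_assoc, t1sq, one_mul]
  have ht2sq : t2 * t2 = 1 := by
    have e1 := hcR t1 ht1m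
    calc t2 * t2 = (t1 * t1) * (t2 * t2) := by rw [t1sq, one_mul]
      _ = t1 * (t1 * t2) * t2 := by simp only [mul_assoc]
      _ = t1 * (t2 * t1) * t2 := by rw [e1]
      _ = (t1 * t2) * (t1 * t2) := by simp only [mul_assoc]
      _ = 1 := by rw [← hu2t, hu22]
  obtain ⟨l, hl, hlG, hlU⟩ := levi_sylow_tw hT hst1 2 hodd ht2L₁ ht2G ⟨1, by rw [pow_one, pow_two, ht2sq]⟩
  obtain ⟨c, hcx, hcn⟩ := levi_act h.G hE hV hl
  set s' := (c : F) * s with hs'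
  have hs'0 : s' ≠ 0 := mul_ne_zero (Units.ne_zero _) hs0
  have hs'k : s' ^ k = s' := by
    have h3 : xg D F r₀ s' ∈ fixS σ := by
      rw [hs', ← hcx s]
      exact hT.le_fix (mul_mem (mul_mem hlG (xg_mem_G₁ hT h2 r₀.2 hst.fix hsk)) (inv_mem hlG))
    exact (fix_xg_iff h h2 r₀.2 hst.fix _).1 h3
  obtain ⟨a, ha⟩ := hsq s'
  have hak : a ^ k = a := sqrt_fix h h2 hs'k ha
  set ρ := nX D (xg D F) r₀ a * (xg D F r₀ s')⁻¹ with hρ
  have hρe := nX_conj' h.G hE h2 r₀ hs'0 ha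
  rw [← hρ] at hρe
  have hρm : ρ ∈ US (xg D F) {(r₀ : ℕ), D.neg r₀} := mul_mem (hnXm a) (inv_mem (hmem s'))
  have hρG : ρ ∈ G₁ := mul_mem (nX_mem_G₁ hT h2 r₀.2 hst.fix hak) (inv_mem (xg_mem_G₁ hT h2 r₀.2 hst.fix hs'k))
  set u' := l * t2 * l⁻¹ with hu'
  have huρ := ML_comm h.G hV r₀.2 (UL_le_ML h.G _ hlU) hρm
  have hsub := phi_mono (rc := rc) h.G (Jst_sub (D := D) J (r₀ : ℕ))
  have hMM : D.leviSubgroup F (Jst D J r₀) ≤ D.leviSubgroup F J := by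
    rw [levi_eq h.G hE, levi_eq h.G hE]
    exact sup_le le_sup_left ((US_mono (phi_mono h.G (Jst_sub J r₀))).trans le_sup_right)
  refine ⟨ρ * l * g, mul_mem (mul_mem (ML_le_levi h.G hE J (hRM hρm)) (hMM hl)) hg, mul_mem (mul_mem hρG hlG) hgG,
    u', hlU, mul_mem (mul_mem hlG ht2G) (inv_mem hlG), ?_, ?_⟩
  · have : u' * u' = l * (t2 * t2) * l⁻¹ := by rw [hu']; group
    rw [this, ht2sq]; group
  · calc ρ * l * g * u * (ρ * l * g)⁻¹ = ρ * (l * u2 * l⁻¹) * ρ⁻¹ := by rw [hu2d]; group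
      _ = ρ * ((l * t1 * l⁻¹) * (l * t2 * l⁻¹)) * ρ⁻¹ := by rw [hu2t]; group
      _ = ρ * (nX D (xg D F) r₀ s' * u') * ρ⁻¹ := by rw [ht1, hcn]
      _ = (ρ * nX D (xg D F) r₀ s' * ρ⁻¹) * (ρ * u' * ρ⁻¹) := by group
      _ = xg D F r₀ 1 * u' := by rw [hρe, ← huρ, mul_inv_cancel_right]

/-- normal forms of involutions of `U_J` -/
def NF (D : ChevalleyDatum) (N : ℕ) (rc : ℕ → ℕ → ℤ) (F : Type*) [Field F] (G₁ : Subgroup (GL D.Idx F)) (J : Set ℕ)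
    (T : Set (GL D.Idx F)) : Prop :=
  ∀ u ∈ UL D N rc F J, u ∈ G₁ → u * u = 1 → ∃ g ∈ D.leviSubgroup F J, g ∈ G₁ ∧ g * u * g⁻¹ ∈ T

omit hT in
theorem NF_empty {J : Set ℕ} (hJ : ∀ r ∈ Phi D rc J, ¬ N ≤ r) : NF D N rc F G₁ J {1} := by
  intro u hu _ _
  refine ⟨1, one_mem _, one_mem _, ?_⟩
  have : UL D N rc F J = ⊥ := by
    have h1 : posS D N ∩ Phi D rc J = ∅ := by
      ext r
      simp only [Set.mem_inter_iff, Set.mem_empty_iff_false, iff_false]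
      rintro ⟨h1, h2⟩
      exact hJ r h2 h1.1
    unfold UL
    rw [h1, US_empty]
  rw [this, Subgroup.mem_bot] at hu
  rw [hu]; simp

theorem NF_step [Fintype F] [CharP F 2] (hV : EvC h.G F) (hS : SLd D) (h2 : (2 : F) = 0) (hsq : ∀ c : F, ∃ a, a ^ 2 = c)
    (hodd : ¬ 2 ∣ (D.posUnipotent F ⊓ G₁).relIndex G₁) {J J₁ : Set ℕ} {r₀ : Fin D.nroots} (hst : TStep hT J r₀)
    (hJ₁ : Jst D J r₀ = J₁) (hst1 : RSt D rc rho J₁) {T : Set (GL D.Idx F)} (hTM : T ⊆ (ML D rc F J₁ : Set (GL D.Idx F)))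
    (hT₁ : NF D N rc F G₁ J₁ T) :
    NF D N rc F G₁ J ({1} ∪ (fun y => xg D F r₀ 1 * y) '' T) := by
  subst hJ₁
  intro u hu huG hu2
  by_cases hne : u = 1
  · exact ⟨1, one_mem _, one_mem _, Or.inl (by rw [hne]; simp)⟩
  obtain ⟨g, hg, hgG, u', hu', hu'G, hu'2, he⟩ := tw_step hT hV hS h2 hsq hodd hst hst1 hu huG hu2 hne
  obtain ⟨g', hg', hg'G, hy⟩ := hT₁ u' hu' hu'G hu'2
  set y := g' * u' * g'⁻¹ with hyd
  obtain ⟨c, hcx, -⟩ := levi_act h.G h.E hV hg'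
  have hc1 := hcx 1
  rw [mul_one] at hc1
  have hone : (1 : F) ^ (lam r₀ * e) = 1 := one_pow _
  have hck : (c : F) ^ (lam r₀ * e) = c := by
    have h3 : xg D F r₀ (c : F) ∈ fixS σ := by
      rw [← hc1]
      exact hT.le_fix (mul_mem (mul_mem hg'G (xg_mem_G₁ hT h2 r₀.2 hst.fix hone)) (inv_mem hg'G))
    exact (fix_xg_iff h h2 r₀.2 hst.fix _).1 h3
  obtain ⟨a, ha⟩ := hsq (c : F)⁻¹
  have ha0 : a ≠ 0 := by
    rintro rfl
    apply inv_ne_zero (Units.ne_zero c)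
    rw [← ha]; ring
  have hak : a ^ (lam r₀ * e) = a := sqrt_fix h h2 (by rw [inv_pow, hck]) ha
  obtain ⟨-, -, -, -, -, -, -, ta, -⟩ := nX_facts h.G h.E h2 r₀ (Units.mk0 a ha0)
  obtain ⟨-, -, -, -, -, -, tb, -, -⟩ := nX_facts h.G h.E h2 r₀ (1 : Fˣ)
  rw [Units.val_mk0] at ta
  rw [Units.val_one] at tb
  set k := nX D (xg D F) r₀ a * nX D (xg D F) r₀ 1 with hk
  have hmem : ∀ b : F, xg D F r₀ b ∈ US (xg D F) {(r₀ : ℕ), D.neg r₀} := fun b => mem_US (Or.inl rfl) b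
  have hmem' : ∀ b : F, xg D F (D.neg r₀) b ∈ US (xg D F) {(r₀ : ℕ), D.neg r₀} := fun b => mem_US (Or.inr rfl) b
  have hnXm : ∀ b : F, nX D (xg D F) r₀ b ∈ US (xg D F) {(r₀ : ℕ), D.neg r₀} := fun b => by
    unfold nX
    exact mul_mem (mul_mem (hmem _) (hmem' _)) (hmem _)
  have hkm : k ∈ US (xg D F) {(r₀ : ℕ), D.neg r₀} := mul_mem (hnXm a) (hnXm 1)
  have hkG : k ∈ G₁ := mul_mem (nX_mem_G₁ hT h2 r₀.2 hst.fix hak) (nX_mem_G₁ hT h2 r₀.2 hst.fix hone)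
  have hkx : k * xg D F r₀ (c : F) * k⁻¹ = xg D F r₀ 1 := by
    have e1 : k * xg D F r₀ (c : F) * k⁻¹ = nX D (xg D F) r₀ a * (nX D (xg D F) r₀ 1 * xg D F r₀ (c : F) * (nX D (xg D F) r₀ 1)⁻¹) *
        (nX D (xg D F) r₀ a)⁻¹ := by rw [hk]; group
    rw [e1, tb, ta, ha, inv_one, one_pow, one_mul, inv_mul_cancel₀ (Units.ne_zero c)]
  have hyk := ML_comm h.G hV r₀.2 (hTM hy) hkm
  have hRM : US (xg D F) {(r₀ : ℕ), D.neg r₀} ≤ ML D rc F J := by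
    apply US_mono
    rintro a (ha | ha)
    · rw [ha]; exact hst.pos.2
    · rw [Set.mem_singleton_iff] at ha
      rw [ha]; exact phi_neg h.G hst.pos.2
  have hMM : D.leviSubgroup F (Jst D J r₀) ≤ D.leviSubgroup F J := by
    rw [levi_eq h.G h.E, levi_eq h.G h.E]
    exact sup_le le_sup_left ((US_mono (phi_mono h.G (Jst_sub J r₀))).trans le_sup_right)
  refine ⟨k * g' * g, mul_mem (mul_mem (ML_le_levi h.G h.E J (hRM hkm)) (hMM hg')) hg, mul_mem (mul_mem hkG hg'G) hgG, Or.inr ⟨y, hy, ?_⟩⟩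
  change xg D F r₀ 1 * y = _
  calc xg D F r₀ 1 * y = (k * xg D F r₀ (c : F) * k⁻¹) * (k * y * k⁻¹) := by rw [hkx, ← hyk, mul_inv_cancel_right]
    _ = k * ((g' * xg D F r₀ 1 * g'⁻¹) * (g' * u' * g'⁻¹)) * k⁻¹ := by rw [hc1, hyd]; group
    _ = k * (g' * (g * u * g⁻¹) * g'⁻¹) * k⁻¹ := by rw [he]; group
    _ = _ := by group

end Cfsg.Agent.H15.Chev
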