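import Cfsg.Agent.H15.TwInv5

/-!
# Involutions of twisted groups in characteristic two: reachability certificates
-/

set_option autoImplicit false
set_option linter.unusedSectionVars false

namespace Cfsg.Agent.H15.Chev

open Cfsg.Agent.H6 Cfsg.Lie Cfsg.Agent.H22
open scoped Matrix

/-- support in a list -/
def inP (l : ℕ) (rc : ℕ → ℕ → ℤ) (JL : List ℕ) (s : ℕ) : Bool :=
  (List.range l).all fun i => decide (i ∈ JL) || decide (rc s i = 0)

theorem mem_phi {D : ChevalleyDatum} {rc : ℕ → ℕ → ℤ} {l : ℕ} (hl : l = D.rank) (JL : List ℕ) {s : ℕ} (hs : s < D.nroots) :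
    s ∈ Phi D rc {j | j ∈ JL} ↔ inP l rc JL s = true := by
  subst hl
  unfold inP
  rw [List.all_eq_true]
  constructor
  · rintro ⟨-, h⟩ i hi
    rw [Bool.or_eq_true, decide_eq_true_eq, decide_eq_true_eq]
    by_cases hi' : i ∈ JL
    · exact Or.inl hi'
    · exact Or.inr (h i (List.mem_range.1 hi) hi')
  · intro h
    refine ⟨hs, fun i hi hi' => ?_⟩
    have h1 := h i (List.mem_range.2 hi)
    rw [Bool.or_eq_true, decide_eq_true_eq, decide_eq_true_eq] at h1
    rcases h1 with h1 | h1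
    · exact absurd h1 hi'
    · exact h1

/-- closure computation -/
def reachL (ok : ℕ → ℕ → ℕ → Bool) : List (ℕ × ℕ × ℕ) → List ℕ → List ℕ
  | [], K => K
  | (n, ru, s) :: C, K => bif K.any (fun k => Nat.beq k s) && ok n ru s then reachL ok C (n :: K) else []

theorem reachL_spec {P : ℕ → Prop} {ok : ℕ → ℕ → ℕ → Bool} (hok : ∀ n ru s, ok n ru s = true → P s → P n) :
    ∀ (C : List (ℕ × ℕ × ℕ)) (K : List ℕ), (∀ k ∈ K, P k) → ∀ k ∈ reachL ok C K, P k := by
  intro C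
  induction C with
  | nil => intro K hK k hk; exact hK k hk
  | cons c C ih =>
    obtain ⟨n, ru, s⟩ := c
    intro K hK k hk
    rw [reachL] at hk
    cases hb : (K.any (fun k => Nat.beq k s) && ok n ru s) with
    | false => rw [hb] at hk; exact absurd hk (by simp)
    | true =>
      rw [hb] at hk
      rw [Bool.and_eq_true, List.any_eq_true] at hb
      obtain ⟨⟨k', hk', he⟩, h2⟩ := hb
      have he' : k' = s := Nat.eq_of_beq_eq_true he
      subst he'
      refine ih (n :: K) ?_ k hk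
      intro x hx
      rw [List.mem_cons] at hx
      rcases hx with rfl | hx
      · exact hok _ _ _ h2 (hK _ hk')
      · exact hK x hx

/-- the static part of a step -/
def chkSt (D : ChevalleyDatum) (l n N : ℕ) (rc : ℕ → ℕ → ℤ) (rho : ℕ → ℕ) (JL : List ℕ) (r₀ : ℕ) : Bool :=
  ((List.range n).all fun r => (inP l rc JL (rho r) == inP l rc JL r) && (!(inP l rc JL r) || Nat.ble r r₀)) &&
  (Nat.ble N r₀ && (inP l rc JL r₀ && (Nat.beq (rho r₀) r₀ && JL.all fun j => decide (0 ≤ D.cartan j r₀))))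

/-- one root element with a single odd term -/
def okOne (D : ChevalleyDatum) (a s s' : ℕ) : Bool :=
  decide (s ≠ a) && (decide (s ≠ D.neg a) && match D.chainEntry a s with
    | [] => false
    | (u, c) :: L => L.isEmpty && (decide (c % 2 = 1) && decide (u = s')))

section
variable {D : ChevalleyDatum} {N : ℕ} {η : ℕ → ℕ → ℤ} {rc : ℕ → ℕ → ℤ} {F : Type*} [Field F]

theorem okOne_spec (hG : Good D N η rc) (h2 : (2 : F) = 0) {a s s' : ℕ} (ha : a < D.nroots) (hs : s < D.nroots)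
    (h : okOne D a s s' = true) (t : F) : (xg D F a t : Matrix D.Idx D.Idx F) *ᵥ be D F s = be D F s + t • be D F s' := by
  unfold okOne at h
  rw [Bool.and_eq_true, Bool.and_eq_true, decide_eq_true_eq, decide_eq_true_eq] at h
  obtain ⟨h1, h3, h4⟩ := h
  revert h4
  cases hc : D.chainEntry a s with
  | nil => intro h4; exact absurd h4 (by simp)
  | cons x L =>
    obtain ⟨u, c⟩ := x
    intro h4
    simp only [Bool.and_eq_true, decide_eq_true_eq, List.isEmpty_iff] at h4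
    obtain ⟨h5, h6, h7⟩ := h4
    subst h5 h7
    rw [hG.coe_xg]
    exact x_act_one hG h2 ha hs h1 h3 hc h6 t

end

variable {D : ChevalleyDatum} {N : ℕ} {η : ℕ → ℕ → ℤ} {rc : ℕ → ℕ → ℤ} {F : Type*} [Field F]
  {m : ℕ} {rho inv lam pi : ℕ → ℕ} {ep : ℕ → ℤ} {e : ℕ} {σ : ↥(D.group F) →* ↥(D.group F)}
  {ι : Type} {L : ι → List (Fin D.rank)}

variable {h : TwCtx D N η rc F m rho inv lam pi ep e σ} {G₁ : Subgroup (GL D.Idx F)} (hT : TwGrp h L G₁)
include hT

/-- assembling a step -/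
theorem mkStep {l n : ℕ} (hl : l = D.rank) (hn : n = D.nroots) (JL : List ℕ) (r₀ : Fin D.nroots)
    (hst : chkSt D l n N rc rho JL r₀ = true)
    (ok : ℕ → ℕ → ℕ → Bool)
    (hok : ∀ V : Submodule F (D.Idx → F), (∀ g ∈ D.leviSubgroup F {j | j ∈ JL}, g ∈ G₁ → ∀ v ∈ V, (g : Matrix D.Idx D.Idx F) *ᵥ v ∈ V) →
      ∀ n ru s, ok n ru s = true → be D F s ∈ V → be D F n ∈ V)
    (C : List (ℕ × ℕ × ℕ))
    (hC : ((List.range n).all fun s => !(inP l rc JL s) || (reachL ok C [(r₀ : ℕ)]).any fun k => Nat.beq k s) = true) :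
    TStep hT {j | j ∈ JL} r₀ := by
  subst hn
  unfold chkSt at hst
  rw [Bool.and_eq_true, List.all_eq_true, Bool.and_eq_true, Bool.and_eq_true, Bool.and_eq_true, List.all_eq_true] at hst
  obtain ⟨h1, h2, h3, h4, h5⟩ := hst
  have h1' : ∀ r < D.nroots, inP l rc JL (rho r) = inP l rc JL r ∧ (inP l rc JL r = true → r ≤ r₀) := by
    intro r hr
    have h6 := h1 r (List.mem_range.2 hr)
    rw [Bool.and_eq_true, beq_iff_eq, Bool.or_eq_true, Bool.not_eq_true'] at h6
    refine ⟨h6.1, fun h7 => ?_⟩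
    rcases h6.2 with h8 | h8
    · rw [h7] at h8; exact absurd h8 (by simp)
    · exact Nat.le_of_ble_eq_true h8
  refine ⟨?_, ?_, ?_, ?_, ?_, ?_⟩
  · intro r hr
    rw [mem_phi hl JL (h.T.rho_lt r hr), mem_phi hl JL hr, (h1' r hr).1]
  · exact ⟨⟨Nat.le_of_ble_eq_true h2, r₀.2⟩, (mem_phi hl JL r₀.2).2 h3⟩
  · intro j hj _
    exact of_decide_eq_true (h5 j hj)
  · exact Nat.eq_of_beq_eq_true h4
  · intro s hs
    exact (h1' s hs.1).2 ((mem_phi hl JL hs.1).1 hs)
  · intro V hV hr₀ s hs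
    rw [List.all_eq_true] at hC
    have h6 := hC s (List.mem_range.2 hs.1)
    rw [(mem_phi hl JL hs.1).1 hs, Bool.not_true, Bool.false_or, List.any_eq_true] at h6
    obtain ⟨k, hk, he⟩ := h6
    have he' : k = s := Nat.eq_of_beq_eq_true he
    subst he'
    exact reachL_spec (P := fun s => be D F s ∈ V) (hok V hV) C [(r₀ : ℕ)] (by
      intro k hk
      rw [List.mem_singleton] at hk
      rw [hk]; exact hr₀) k hk

omit hT in
theorem wp_mem_WJ (hG : Good D N η rc) {J : Set ℕ} (A : List (Fin D.rank)) (hA : ∀ i ∈ A, (i : ℕ) ∈ J) :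
    wp hG.s A ∈ WJ hG J := by
  induction A with
  | nil => exact one_mem _
  | cons a A ih =>
    rw [wp_cons]
    exact mul_mem (Subgroup.subset_closure ⟨a, hA a List.mem_cons_self, rfl⟩) (ih fun i hi => hA i (List.mem_cons_of_mem _ hi))

/-- Weyl moves -/
theorem ruleA {J : Set ℕ} {j : ι} (hj : ∀ i ∈ L j, (i : ℕ) ∈ J) {V : Submodule F (D.Idx → F)}
    (hV : ∀ g ∈ D.leviSubgroup F J, g ∈ G₁ → ∀ v ∈ V, (g : Matrix D.Idx D.Idx F) *ᵥ v ∈ V) {s : ℕ} (hs : s < D.nroots)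
    (hsV : be D F s ∈ V) : be D F (rfw D (L j) s) ∈ V := by
  obtain ⟨n, hn, χ, hm⟩ := hT.rep j
  have hw : h.wJ L j ∈ WJ h.G J := wp_mem_WJ h.G (L j) hj
  obtain ⟨x, hx, -, -, d, hd, he⟩ := mono_of_WJ h.G h.E hn.1 hm hw
  have hnL : n ∈ D.leviSubgroup F J := by
    rw [he]
    exact mul_mem (ML_le_levi h.G h.E J hx) (diag_le_levi h.G h.E J hd)
  obtain ⟨c, hc, e1⟩ := mon_be (F := F) h.G h.E hn.1 hm ⟨s, hs⟩
  have h1 := hV n hnL hn.2 _ hsV
  change (n : Matrix D.Idx D.Idx F) *ᵥ be D F s = _ at e1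
  rw [e1] at h1
  have h3 := V.smul_mem c⁻¹ h1
  rw [smul_smul, inv_mul_cancel₀ hc, one_smul] at h3
  have e2 : (((h.wJ L j).1 ⟨s, hs⟩ : Fin D.nroots) : ℕ) = rfw D (L j) s := wp_val h.G (L j) ⟨s, hs⟩
  rw [e2] at h3
  exact h3

omit hT in
/-- pair moves -/
theorem ruleB2 [Fintype F] (hG : Good D N η rc) (h2 : (2 : F) = 0) {q : ℕ} (hq : 2 ≤ q) (hK : Fintype.card F = q ^ 2)
    {V : Submodule F (D.Idx → F)} {a b s s1 s2 s3 : ℕ} (ha : a < D.nroots) (hb : b < D.nroots) (hs : s < D.nroots) (hs2 : s2 < D.nroots)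
    (hx : ∀ t : F, ∀ v ∈ V, ((xg D F a t * xg D F b (t ^ q) : GL D.Idx F) : Matrix D.Idx D.Idx F) *ᵥ v ∈ V)
    (h1 : okOne D a s s1 = true) (h3 : okOne D b s s2 = true) (h4 : okOne D a s2 s3 = true) (hsV : be D F s ∈ V) :
    be D F s1 ∈ V ∧ be D F s2 ∈ V := by
  have key : ∀ t : F, ∑ k : Fin 4, t ^ (![0, 1, q, q + 1] : Fin 4 → ℕ) k •
      (![be D F s, be D F s1, be D F s2, be D F s3] : Fin 4 → D.Idx → F) k ∈ V := by
    intro t
    have h5 := hx t _ hsV
    rw [Units.val_mul, ← Matrix.mulVec_mulVec, okOne_spec hG h2 hb hs h3, Matrix.mulVec_add, Matrix.mulVec_smul,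
      okOne_spec hG h2 ha hs h1, okOne_spec hG h2 ha hs2 h4] at h5
    have e1 : ∑ k : Fin 4, t ^ (![0, 1, q, q + 1] : Fin 4 → ℕ) k •
        (![be D F s, be D F s1, be D F s2, be D F s3] : Fin 4 → D.Idx → F) k =
        be D F s + t • be D F s1 + t ^ q • (be D F s2 + t • be D F s3) := by
      simp only [Fin.sum_univ_four, Matrix.cons_val_zero, Matrix.cons_val_one, Matrix.cons_val, pow_zero, one_smul, pow_one,
        smul_add, smul_smul, pow_add]
      abel
    rw [e1]; exact h5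
  have hcard : ∀ k ∈ (Finset.univ : Finset (Fin 4)), (![0, 1, q, q + 1] : Fin 4 → ℕ) k < Fintype.card F := by
    intro k _
    rw [hK]
    have h5 : q + 1 < q ^ 2 := by nlinarith
    fin_cases k
    · change 0 < q ^ 2; omega
    · change 1 < q ^ 2; omega
    · change q < q ^ 2; omega
    · exact h5
  refine ⟨?_, ?_⟩
  · refine coef_mem V Finset.univ _ _ hcard key (k₀ := (1 : Fin 4)) (Finset.mem_univ _) ?_
    intro k _ hk
    fin_cases k
    · change 0 ≠ 1; omega
    · exact absurd rfl hk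
    · change q ≠ 1; omega
    · change q + 1 ≠ 1; omega
  · refine coef_mem V Finset.univ _ _ hcard key (k₀ := (2 : Fin 4)) (Finset.mem_univ _) ?_
    intro k _ hk
    fin_cases k
    · change 0 ≠ q; omega
    · change 1 ≠ q; omega
    · exact absurd rfl hk
    · change q + 1 ≠ q; omega

omit hT in
/-- triple moves -/
theorem ruleB3 [Fintype F] (hG : Good D N η rc) (h2 : (2 : F) = 0) {q : ℕ} (hq : 2 ≤ q) (hK : Fintype.card F = q ^ 3)
    {V : Submodule F (D.Idx → F)} {a b c s sa sb sc sab sac sbc sabc : ℕ} (ha : a < D.nroots) (hb : b < D.nroots) (hc : c < D.nroots)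
    (hs : s < D.nroots) (hsb : sb < D.nroots) (hsc : sc < D.nroots) (hsbc : sbc < D.nroots)
    (hx : ∀ t : F, ∀ v ∈ V, ((xg D F a t * xg D F b (t ^ q) * xg D F c (t ^ q ^ 2) : GL D.Idx F) : Matrix D.Idx D.Idx F) *ᵥ v ∈ V)
    (h1 : okOne D a s sa = true) (h3 : okOne D b s sb = true) (h4 : okOne D c s sc = true)
    (h5 : okOne D a sb sab = true) (h6 : okOne D a sc sac = true) (h7 : okOne D b sc sbc = true)
    (h8 : okOne D a sbc sabc = true) (hsV : be D F s ∈ V) :
    be D F sa ∈ V ∧ be D F sb ∈ V ∧ be D F sc ∈ V := by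
  have key : ∀ t : F, ∑ k : Fin 8, t ^ (![0, 1, q, q ^ 2, 1 + q, 1 + q ^ 2, q + q ^ 2, 1 + q + q ^ 2] : Fin 8 → ℕ) k •
      (![be D F s, be D F sa, be D F sb, be D F sc, be D F sab, be D F sac, be D F sbc, be D F sabc] : Fin 8 → D.Idx → F) k ∈ V := by
    intro t
    have h9 := hx t _ hsV
    rw [Units.val_mul, Units.val_mul, ← Matrix.mulVec_mulVec, ← Matrix.mulVec_mulVec, okOne_spec hG h2 hc hs h4,
      Matrix.mulVec_add (xg D F b (t ^ q) : Matrix D.Idx D.Idx F), Matrix.mulVec_smul, okOne_spec hG h2 hb hs h3,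
      okOne_spec hG h2 hb hsc h7, Matrix.mulVec_add, Matrix.mulVec_add, Matrix.mulVec_smul, Matrix.mulVec_smul,
      Matrix.mulVec_add, Matrix.mulVec_smul,
      okOne_spec hG h2 ha hs h1, okOne_spec hG h2 ha hsb h5, okOne_spec hG h2 ha hsc h6, okOne_spec hG h2 ha hsbc h8] at h9
    have e1 : ∑ k : Fin 8, t ^ (![0, 1, q, q ^ 2, 1 + q, 1 + q ^ 2, q + q ^ 2, 1 + q + q ^ 2] : Fin 8 → ℕ) k •
        (![be D F s, be D F sa, be D F sb, be D F sc, be D F sab, be D F sac, be D F sbc, be D F sabc] : Fin 8 → D.Idx → F) k =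
        be D F s + t • be D F sa + t ^ q • (be D F sb + t • be D F sab) +
          t ^ q ^ 2 • (be D F sc + t • be D F sac + t ^ q • (be D F sbc + t • be D F sabc)) := by
      simp only [Fin.sum_univ_eight, Matrix.cons_val_zero, Matrix.cons_val_one, Matrix.cons_val, pow_zero, one_smul, pow_one,
        smul_add, smul_smul, pow_add]
      have e3 : t ^ q ^ 2 * (t ^ q * t) = t * t ^ q * t ^ q ^ 2 := by ring
      have e4 : t ^ q ^ 2 * t ^ q = t ^ q * t ^ q ^ 2 := by ring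
      have e5 : t ^ q ^ 2 * t = t * t ^ q ^ 2 := by ring
      have e6 : t ^ q * t = t * t ^ q := by ring
      rw [e3, e4, e5, e6]
      abel
    rw [e1]; exact h9
  have hq2 : 2 * q ≤ q ^ 2 := by nlinarith
  have hq3 : 2 * q ^ 2 ≤ q ^ 3 := by nlinarith [pow_pos (show 0 < q by omega) 2]
  have hcard : ∀ k ∈ (Finset.univ : Finset (Fin 8)),
      (![0, 1, q, q ^ 2, 1 + q, 1 + q ^ 2, q + q ^ 2, 1 + q + q ^ 2] : Fin 8 → ℕ) k < Fintype.card F := by
    intro k _
    rw [hK]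
    fin_cases k
    · change 0 < q ^ 3; omega
    · change 1 < q ^ 3; omega
    · change q < q ^ 3; omega
    · change q ^ 2 < q ^ 3; omega
    · change 1 + q < q ^ 3; omega
    · change 1 + q ^ 2 < q ^ 3; omega
    · change q + q ^ 2 < q ^ 3; omega
    · change 1 + q + q ^ 2 < q ^ 3; omega
  refine ⟨?_, ?_, ?_⟩
  · refine coef_mem V Finset.univ _ _ hcard key (k₀ := (1 : Fin 8)) (Finset.mem_univ _) ?_
    intro k _ hk
    fin_cases k
    · change 0 ≠ 1; omega
    · exact absurd rfl hk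
    · change q ≠ 1; omega
    · change q ^ 2 ≠ 1; omega
    · change 1 + q ≠ 1; omega
    · change 1 + q ^ 2 ≠ 1; omega
    · change q + q ^ 2 ≠ 1; omega
    · change 1 + q + q ^ 2 ≠ 1; omega
  · refine coef_mem V Finset.univ _ _ hcard key (k₀ := (2 : Fin 8)) (Finset.mem_univ _) ?_
    intro k _ hk
    fin_cases k
    · change 0 ≠ q; omega
    · change 1 ≠ q; omega
    · exact absurd rfl hk
    · change q ^ 2 ≠ q; omega
    · change 1 + q ≠ q; omega
    · change 1 + q ^ 2 ≠ q; omega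
    · change q + q ^ 2 ≠ q; omega
    · change 1 + q + q ^ 2 ≠ q; omega
  · refine coef_mem V Finset.univ _ _ hcard key (k₀ := (3 : Fin 8)) (Finset.mem_univ _) ?_
    intro k _ hk
    fin_cases k
    · change 0 ≠ q ^ 2; omega
    · change 1 ≠ q ^ 2; omega
    · change q ≠ q ^ 2; omega
    · exact absurd rfl hk
    · change 1 + q ≠ q ^ 2; omega
    · change 1 + q ^ 2 ≠ q ^ 2; omega
    · change q + q ^ 2 ≠ q ^ 2; omega
    · change 1 + q + q ^ 2 ≠ q ^ 2; omega

end Cfsg.Agent.H15.Chev
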