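import Cfsg.Agent.H15.TwInv6

/-!
# Involution classes of twisted groups: final form
-/

set_option autoImplicit false
set_option linter.unusedSectionVars false

namespace Cfsg.Agent.H15.Chev

open Cfsg.Agent.H6 Cfsg.Lie Cfsg.Agent.H22
open scoped Matrix

/-- the next root -/
def nxt (D : ChevalleyDatum) (a s : ℕ) : ℕ := match D.chainEntry a s with
  | [] => 0
  | (u, _) :: _ => u

variable {D : ChevalleyDatum} {N : ℕ} {η : ℕ → ℕ → ℤ} {rc : ℕ → ℕ → ℤ} {F : Type*} [Field F]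

theorem phi_all (rc : ℕ → ℕ → ℤ) {JL : List ℕ} (hJ : ∀ i < D.rank, i ∈ JL) : Phi D rc {j | j ∈ JL} = {r | r < D.nroots} := by
  ext r
  constructor
  · exact fun h => h.1
  · intro h
    exact ⟨h, fun i hi hiJ => absurd (hJ i hi) hiJ⟩

theorem levi_all (hG : Good D N η rc) (hE : Ext D rc) {JL : List ℕ} (hJ : ∀ i < D.rank, i ∈ JL) {g : GL D.Idx F} (hg : g ∈ D.group F) :
    g ∈ D.leviSubgroup F {j | j ∈ JL} := by
  apply ML_le_levi hG hE
  rw [hG.group_eq_US] at hg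
  change g ∈ US (xg D F) (Phi D rc _)
  rw [phi_all rc hJ]
  exact hg

theorem classes_card_sub (hG : Good D N η rc) (hE : Ext D rc) [Fintype F] [CharP F 2] (E : ℕ → List (ℕ × ℕ)) (hEe : E = ent D) (w n d : ℕ)
    (hn : n = D.nroots) (hd : d = D.rank + D.nroots) (hw : d ≤ w) (G₁ : Subgroup (GL D.Idx F))
    (RC : List (List ℕ × List (ℕ × List ℕ))) (hC : RC.all (okR E w n d) = true)
    (hRG : ∀ e ∈ RC, prodX D F e.1 ∈ G₁)
    (hcov : ∀ g ∈ G₁, orderOf g = 2 → ∃ e ∈ RC, ∃ h ∈ G₁, h * g * h⁻¹ = prodX D F e.1) (hnd : (RC.map fun e => e.2.length).Nodup) :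
    (ConjClasses.mk '' {g : ↥G₁ | orderOf g = 2}).ncard = RC.length := by
  classical
  have h2 : (2 : F) = 0 := CharTwo.two_eq_zero
  rw [List.all_eq_true] at hC
  have hspec := fun e he => okR_spec (F := F) hG hE h2 E hEe w n d hn hd hw (hC e he)
  let f : {e // e ∈ RC} → ↥G₁ := fun e => ⟨prodX D F e.1.1, hRG e.1 e.2⟩
  have hset : ConjClasses.mk '' {g : ↥G₁ | orderOf g = 2} = ((RC.attach.map fun e => ConjClasses.mk (f e)).toFinset : Set _) := by
    ext c
    simp only [Set.mem_image, Set.mem_ofPred_eq, List.coe_toFinset, List.mem_map, List.mem_attach, true_and]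
    constructor
    · rintro ⟨g, ho, rfl⟩
      obtain ⟨e, he, h, hh, hc⟩ := hcov g g.2 (by rw [Subgroup.orderOf_coe]; exact ho)
      refine ⟨⟨e, he⟩, ?_⟩
      rw [ConjClasses.mk_eq_mk_iff_isConj, isConj_comm, isConj_iff]
      exact ⟨⟨h, hh⟩, Subtype.ext hc⟩
    · rintro ⟨e, rfl⟩
      refine ⟨f e, ?_, rfl⟩
      rw [← Subgroup.orderOf_coe]
      exact (hspec e.1 e.2).1
  rw [hset, Set.ncard_coe_finset, List.toFinset_card_of_nodup, List.length_map, List.length_attach]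
  rw [List.nodup_map_iff_inj_on]
  · intro e₁ _ e₂ _ h
    rw [ConjClasses.mk_eq_mk_iff_isConj, isConj_iff] at h
    obtain ⟨x, hx⟩ := h
    have hx' := congrArg Subtype.val hx
    change (x : GL D.Idx F) * prodX D F e₁.1.1 * (x : GL D.Idx F)⁻¹ = prodX D F e₂.1.1 at hx'
    have r3 := rank_conj (F := F) (x : GL D.Idx F) (prodX D F e₁.1.1)
    rw [hx', (hspec e₁.1 e₁.2).2, (hspec e₂.1 e₂.2).2] at r3
    exact Subtype.ext (List.inj_on_of_nodup_map hnd e₁.2 e₂.2 r3.symm)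
  · exact List.nodup_attach.2 (List.Nodup.of_map _ hnd)

theorem isPrimePow_of_card [Fintype F] {q n : ℕ} (hn : n ≠ 0) (hK : Fintype.card F = q ^ n) : IsPrimePow q := by
  have h1 := FiniteField.isPrimePow_card F
  rw [hK] at h1
  exact (isPrimePow_pow_iff hn).1 h1

theorem two_dvd_of_card [Fintype F] [CharP F 2] {q n : ℕ} (hK : Fintype.card F = q ^ n) : 2 ∣ q := by
  obtain ⟨k, -, hk⟩ := FiniteField.card F 2
  have h1 : 2 ∣ q ^ n := by
    rw [← hK, hk]
    exact dvd_pow_self 2 k.pos.ne'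
  exact Nat.prime_two.dvd_of_dvd_pow h1

end Cfsg.Agent.H15.Chev
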