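import Cfsg.Agent.H15.TwInvD4

/-!
# Involution classes of `3D4(q)`, `q` even: the main theorem
-/

set_option autoImplicit false
set_option linter.unusedSectionVars false
set_option maxRecDepth 100000

namespace Cfsg.Agent.H15.Chev.I3D4

open Cfsg.Agent.H6 Cfsg.Lie Cfsg.Agent.H22 Cfsg.Agent.H15.Chev
open scoped Matrix

theorem Jst_list (JL : List ℕ) (r : ℕ) : Jst chevD4 {j | j ∈ JL} r = {j | j ∈ JJ JL r} := by
  ext k
  unfold JJ
  simp [Jst]

theorem conj3 {G : Type*} [Group G] {a b c x y w : G} (hay : Commute a y) (haw : Commute a w) (hbx : Commute b x) (hbw : Commute b w)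
    (hcx : Commute c x) (hcy : Commute c y) (hab : Commute a b) (hac : Commute a c) (hbc : Commute b c) :
    (a * (b * (c * 1))) * (x * (y * (w * 1))) * (a * (b * (c * 1)))⁻¹ =
      (a * x * a⁻¹) * ((b * y * b⁻¹) * ((c * w * c⁻¹) * 1)) := by
  have e1 : c * (x * (y * w)) * c⁻¹ = x * (y * (c * w * c⁻¹)) := by
    calc c * (x * (y * w)) * c⁻¹ = (c * x) * y * w * c⁻¹ := by group
      _ = x * (c * y) * w * c⁻¹ := by rw [hcx.eq]; group
      _ = _ := by rw [hcy.eq]; group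
  have hbcw : Commute b (c * w * c⁻¹) := (hbc.mul_right hbw).mul_right hbc.inv_right
  have e2 : b * (x * (y * (c * w * c⁻¹))) * b⁻¹ = x * ((b * y * b⁻¹) * (c * w * c⁻¹)) := by
    calc b * (x * (y * (c * w * c⁻¹))) * b⁻¹ = (b * x) * y * (c * w * c⁻¹) * b⁻¹ := by group
      _ = x * (b * y * b⁻¹) * (b * (c * w * c⁻¹)) * b⁻¹ := by rw [hbx.eq]; group
      _ = _ := by rw [hbcw.eq]; group
  have haby : Commute a (b * y * b⁻¹) := (hab.mul_right hay).mul_right hab.inv_right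
  have hacw : Commute a (c * w * c⁻¹) := (hac.mul_right haw).mul_right hac.inv_right
  have e3 : a * (x * ((b * y * b⁻¹) * (c * w * c⁻¹))) * a⁻¹ = (a * x * a⁻¹) * ((b * y * b⁻¹) * (c * w * c⁻¹)) := by
    have h1 := haby.mul_right hacw
    calc a * (x * ((b * y * b⁻¹) * (c * w * c⁻¹))) * a⁻¹ = (a * x * a⁻¹) * (a * ((b * y * b⁻¹) * (c * w * c⁻¹))) * a⁻¹ := by group
      _ = _ := by rw [h1.eq]; group
  rw [mul_one, mul_one, mul_one]
  rw [← e3, ← e2, ← e1]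
  group

variable {K : Type*} [Field K] [Fintype K] [CharP K 2] {q : ℕ}

theorem wg_triple (a b c : ℕ) (t u v : K) : wg chevD4 K [(a, t), (b, u), (c, v)] = xg chevD4 K a t * (xg chevD4 K b u * (xg chevD4 K c v * 1)) := by
  unfold wg
  simp

theorem okD_spec {σ : ↥(chevD4.group K) →* ↥(chevD4.group K)} (h : WD4a.Ctx K q σ) (hq : 2 ≤ q) (hK : Fintype.card K = q ^ 3)
    (js : List (Fin 2)) (JL : List ℕ) (hjs : ∀ j ∈ js, ∀ i ∈ WD4a.LL j, (i : ℕ) ∈ JL) (V : Submodule K (chevD4.Idx → K))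
    (hV : ∀ g ∈ chevD4.leviSubgroup K {j | j ∈ JL}, g ∈ twistedD4 K q → ∀ v ∈ V, (g : Matrix chevD4.Idx chevD4.Idx K) *ᵥ v ∈ V) :
    ∀ n ru s, okD js n ru s = true → be chevD4 K s ∈ V → be chevD4 K n ∈ V := by
  have h2 : (2 : K) = 0 := CharTwo.two_eq_zero
  have hG := h.G
  have hT := WD4a.grp h (WD4a.pow_pow hK)
  have hq3 := WD4a.pow_pow hK
  intro n ru s hok hs
  unfold okD at hok
  rw [Bool.and_eq_true, List.any_eq_true] at hok
  obtain ⟨h1, j, hj, hjo⟩ := hok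
  have hs24 : s < chevD4.nroots := by
    have := Nat.le_of_ble_eq_true h1
    change s < 24
    omega
  rw [Bool.or_eq_true] at hjo
  rcases hjo with hjo | hjo
  · rw [Bool.and_eq_true] at hjo
    have := Nat.eq_of_beq_eq_true hjo.2
    rw [this]
    exact ruleA hT (J := {j | j ∈ JL}) (fun i hi => hjs j hj i hi) hV hs24 hs
  · simp only [Bool.and_eq_true, Bool.or_eq_true] at hjo
    obtain ⟨⟨hj2, hrn⟩, ho1, ho2, ho3, hl1, hl2, hl3, ho4, ho5, ho6, ho7⟩ := hjo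
    have hj1 : j = 1 := Fin.ext (Nat.eq_of_beq_eq_true hj2)
    subst hj1
    have hb24 : ∀ x, Nat.ble (x + 1) 24 = true → x < chevD4.nroots := by
      intro x hx
      have := Nat.le_of_ble_eq_true hx
      change x < 24
      omega
    have hx : ∀ t : K, xg chevD4 K d4m1 t * xg chevD4 K d4m3 (t ^ q) * xg chevD4 K d4m4 (t ^ q ^ 2) ∈ twistedD4 K q ∧
        xg chevD4 K d4m1 t * xg chevD4 K d4m3 (t ^ q) * xg chevD4 K d4m4 (t ^ q ^ 2) ∈ chevD4.leviSubgroup K {j | j ∈ JL} := by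
      intro t
      have hphi : ∀ i : Fin 4, (i : ℕ) ∈ JL → chevD4.neg (chevD4.simple i) ∈ Phi chevD4 (cO TD4.MO) {j | j ∈ JL} := by
        intro i hi
        exact phi_neg hG (phi_simple hG hi i.2)
      have h4 := WD4a.gen_mem (q := q) 1 false (WD4a.f1 q t) (WD4a.key1 hq3 t)
      rw [WD4a.pw1, WD4a.f1_0, WD4a.f1_2, WD4a.f1_3] at h4
      change wg chevD4 K [(d4m1, t), (d4m3, t ^ q), (d4m4, t ^ q ^ 2)] ∈ _ at h4
      rw [wg_triple, mul_one, ← mul_assoc] at h4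
      refine ⟨h4, ML_le_levi hG h.E _ (mul_mem (mul_mem (mem_US ?_ t) (mem_US ?_ _)) (mem_US ?_ _))⟩
      · have := hphi 0 (hjs 1 hj ⟨0, by decide⟩ (by decide))
        change chevD4.neg (chevD4.simple 0) ∈ _ at this
        rwa [WD4a.s0, WD4a.m0] at this
      · have := hphi 2 (hjs 1 hj ⟨2, by decide⟩ (by decide))
        change chevD4.neg (chevD4.simple 2) ∈ _ at this
        rwa [WD4a.s2, WD4a.m2] at this
      · have := hphi 3 (hjs 1 hj ⟨3, by decide⟩ (by decide))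
        change chevD4.neg (chevD4.simple 3) ∈ _ at this
        rwa [WD4a.s3, WD4a.m3] at this
    obtain ⟨h5, h6, h7⟩ := ruleB3 (F := K) hG h2 hq hK (V := V) (a := d4m1) (b := d4m3) (c := d4m4) (by decide) (by decide) (by decide)
      hs24 (hb24 _ hl1) (hb24 _ hl2) (hb24 _ hl3)
      (fun t v hv => hV _ (hx t).2 (hx t).1 v hv) ho1 ho2 ho3 ho4 ho5 ho6 ho7 hs
    rcases hrn with ⟨-, hn⟩ | ⟨-, hn⟩ | ⟨-, hn⟩
    · rw [Nat.eq_of_beq_eq_true hn]; exact h5
    · rw [Nat.eq_of_beq_eq_true hn]; exact h6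
    · rw [Nat.eq_of_beq_eq_true hn]; exact h7

theorem rst_of {σ : ↥(chevD4.group K) →* ↥(chevD4.group K)} (h : WD4a.Ctx K q σ) (JL : List ℕ)
    (hc : ((List.range 24).all fun r => inP 4 (cO TD4.MO) JL (sP WD4a.RT r) == inP 4 (cO TD4.MO) JL r) = true) :
    RSt chevD4 (cO TD4.MO) (sP WD4a.RT) {j | j ∈ JL} := by
  intro r hr
  rw [List.all_eq_true] at hc
  have h1 := hc r (List.mem_range.2 hr)
  rw [beq_iff_eq] at h1
  have h6 : 4 = chevD4.rank := rfl
  rw [mem_phi h6 JL (h.T.rho_lt r hr), mem_phi h6 JL hr, h1]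

theorem odd_idx {σ : ↥(chevD4.group K) →* ↥(chevD4.group K)} (h : WD4a.Ctx K q σ) (hq : IsPrimePow q) (h2q : 2 ∣ q) (hK : Fintype.card K = q ^ 3) :
    ¬ 2 ∣ (chevD4.posUnipotent K ⊓ twistedD4 K q).relIndex (twistedD4 K q) := by
  have h1 := WD4a.card_group hq hK
  have h3 := WD4a.card_pos h hq.ne_zero hK
  have h4 : Nat.card ↥(twistedD4 K q) = q ^ 12 * (chevD4.posUnipotent K ⊓ twistedD4 K q).relIndex (twistedD4 K q) := by
    rw [← h3]
    have := Subgroup.relIndex_mul_relIndex ⊥ (chevD4.posUnipotent K ⊓ twistedD4 K q) (twistedD4 K q) bot_le inf_le_right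
    rw [Subgroup.relIndex_bot_left, Subgroup.relIndex_bot_left] at this
    exact this.symm
  intro hd
  obtain ⟨c, hc⟩ := hd
  obtain ⟨q', rfl⟩ := h2q
  have hq'0 : 0 < q' := by
    rcases Nat.eq_zero_or_pos q' with h0 | h0
    · rw [h0] at hq; exact absurd rfl hq.ne_zero
    · exact h0
  rw [h4, hc] at h1
  have h5 : (0 : ℕ) < (2 * q') ^ 12 := by positivity
  have h6 : 2 * c = ((2 * q') ^ 2 - 1) * ((2 * q') ^ 6 - 1) * ((2 * q') ^ 8 + (2 * q') ^ 4 + 1) := by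
    apply Nat.eq_of_mul_eq_mul_left h5
    rw [h1]; ring
  have hodd : ∀ k, k ≠ 0 → ¬ Even ((2 * q') ^ k - 1) := by
    intro k hk
    rw [Nat.not_even_iff_odd]
    have h7 : 1 ≤ (2 * q') ^ k := Nat.one_le_pow _ _ (by omega)
    have h8 : Even ((2 * q') ^ k) := (even_two_mul q').pow_of_ne_zero hk
    exact Nat.Even.sub_odd h7 h8 odd_one
  have h7 : Even (((2 * q') ^ 2 - 1) * ((2 * q') ^ 6 - 1) * ((2 * q') ^ 8 + (2 * q') ^ 4 + 1)) := by
    rw [← h6]
    exact even_two_mul c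
  simp only [Nat.even_mul] at h7
  rcases h7 with (h7 | h7) | h7
  · exact hodd 2 (by norm_num) h7
  · exact hodd 6 (by norm_num) h7
  · have h8 : Even ((2 * q') ^ 8) := (even_two_mul q').pow_of_ne_zero (by norm_num)
    have h9 : Even ((2 * q') ^ 4) := (even_two_mul q').pow_of_ne_zero (by norm_num)
    have h10 := (h8.add h9).add_one
    exact Nat.not_even_iff_odd.2 h10 h7

/-- normal forms in the rank one Levi subgroup -/
theorem NF1 {σ : ↥(chevD4.group K) →* ↥(chevD4.group K)} (h : WD4a.Ctx K q σ) (hK : Fintype.card K = q ^ 3) (hq0 : q ≠ 0)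
    (h2 : (2 : K) = 0) (hsq : ∀ c : K, ∃ a, a ^ 2 = c) :
    NF chevD4 12 (cO TD4.MO) K (twistedD4 K q) {j | j ∈ J1}
      {1, xg chevD4 K 18 1 * (xg chevD4 K 13 1 * (xg chevD4 K 12 1 * 1))} := by
  have hG := h.G
  have hT := WD4a.grp h (WD4a.pow_pow hK)
  have hq3 := WD4a.pow_pow hK
  have hc := WD4a.corb (K := K) 1
  have hU := TD4.chk.umS h 1 (WD4a.ums 1)
  intro u hu huG _
  have hsub : posS chevD4 12 ∩ Phi chevD4 (cO TD4.MO) {j | j ∈ J1} ⊆ h.G.Um (h.wJ WD4a.LL 1) := by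
    intro r hr
    have h3 := h.mem_Um_wJ WD4a.orbL (j := 1) (r := ⟨r, hr.1.2⟩)
    change r ∈ _ ↔ _ at h3
    rw [h3]
    refine ⟨hr.1.1, fun i hi => hr.2.2 i i.2 ?_⟩
    intro hmem
    apply hi
    have : ∀ i : Fin 4, (i : ℕ) ∈ J1 → i ∈ WD4a.L 1 := by decide
    exact this i hmem
  have huU : u ∈ US (xg chevD4 K) (h.G.Um (h.wJ WD4a.LL 1)) := US_mono hsub hu
  obtain ⟨t, ht, he⟩ := hG.exists_op' (hG.rd h.E) (hG.pClo_Um _) huU
  have hf := (h.corb_fix_iff WD4a.orbL hc hU t ht).1 (by rw [← he]; exact hT.le_fix huG)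
  rw [h.op_eq_pw hc t (by
    intro r hr
    apply ht
    intro h3
    obtain ⟨i, hi, hie⟩ := hU r h3
    exact hr i hi hie)] at he
  set f : ℕ → K := fun i => t (chevD4.simple i) with hfd
  have hf' : ∀ i ∈ WD4a.LL 1, f (sP WD4a.PT i) = f i ^ (lamF 0 WD4a.LT (chevD4.simple i) * q) := hf
  have e2 : f 2 = f 0 ^ q := by
    have h3 := hf' _ WD4a.in1
    rw [WD4a.lam_one, one_mul] at h3
    change f (sP WD4a.PT 0) = f 0 ^ q at h3
    rwa [WD4a.p0] at h3
  have e3 : f 3 = f 2 ^ q := by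
    have h3 := hf' _ WD4a.in1'
    rw [WD4a.lam_one, one_mul] at h3
    change f (sP WD4a.PT 2) = f 2 ^ q at h3
    rwa [WD4a.p2] at h3
  have hpw := WD4a.pw1 (K := K) true f
  change _ = wg chevD4 K [(d4p1, f 0), (d4p3, f 2), (d4p4, f 3)] at hpw
  rw [wg_triple] at hpw
  change u = pw chevD4 K true (WD4a.LL 1) f at he
  rw [hpw] at he
  by_cases h0 : f 0 = 0
  · refine ⟨1, one_mem _, one_mem _, Or.inl ?_⟩
    rw [he, e3, e2, h0, zero_pow hq0, zero_pow hq0, hG.xg_zero, hG.xg_zero, hG.xg_zero]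
    simp
  · have h20 : f 2 ≠ 0 := by rw [e2]; exact pow_ne_zero _ h0
    have h30 : f 3 ≠ 0 := by rw [e3]; exact pow_ne_zero _ h20
    obtain ⟨a, ha⟩ := hsq (f 0)⁻¹
    have ha0 : a ≠ 0 := by
      rintro rfl
      apply inv_ne_zero h0
      rw [← ha]; ring
    -- products of n-elements
    have hN : ∀ g : ℕ → K, (∀ i ∈ WD4a.LL 1, g (sP WD4a.PT i) = g i ^ (lamF 0 WD4a.LT (chevD4.simple i) * q)) →
        nX chevD4 (xg chevD4 K) d4p1 (g 0) * (nX chevD4 (xg chevD4 K) d4p3 (g 2) * (nX chevD4 (xg chevD4 K) d4p4 (g 3) * 1)) ∈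
          twistedD4 K q := by
      intro g hg
      have h3 := hc.nXprod g
      have h4 : ((WD4a.LL 1).map fun i : Fin chevD4.rank => nX chevD4 (xg chevD4 K) (chevD4.simple i) (g i)).prod =
          nX chevD4 (xg chevD4 K) (chevD4.simple 0) (g 0) * (nX chevD4 (xg chevD4 K) (chevD4.simple 2) (g 2) *
            (nX chevD4 (xg chevD4 K) (chevD4.simple 3) (g 3) * 1)) := rfl
      rw [h4, WD4a.s0, WD4a.s2, WD4a.s3] at h3
      rw [h3]
      have hg' : ∀ i ∈ WD4a.LL 1, (fun i => -(g i)⁻¹) (sP WD4a.PT i) =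
          (fun i => -(g i)⁻¹) (i : ℕ) ^ (lamF 0 WD4a.LT (chevD4.simple i) * q) := by
        intro i hi
        change -(g (sP WD4a.PT i))⁻¹ = (-(g i)⁻¹) ^ _
        rw [hg i hi, neg_mod2 h2, neg_mod2 h2, inv_pow]
      exact mul_mem (mul_mem (WD4a.gen_mem 1 true g hg) (WD4a.gen_mem 1 false _ hg')) (WD4a.gen_mem 1 true g hg)
    have hNL : ∀ g : ℕ → K, nX chevD4 (xg chevD4 K) d4p1 (g 0) * (nX chevD4 (xg chevD4 K) d4p3 (g 2) *
        (nX chevD4 (xg chevD4 K) d4p4 (g 3) * 1)) ∈ chevD4.leviSubgroup K {j | j ∈ J1} := by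
      intro g
      apply ML_le_levi hG h.E
      have hphi : ∀ i : Fin 4, (i : ℕ) ∈ J1 → ∀ x : K, nX chevD4 (xg chevD4 K) (chevD4.simple i) x ∈
          ML chevD4 (cO TD4.MO) K {j | j ∈ J1} := by
        intro i hi x
        have h3 : chevD4.simple i ∈ Phi chevD4 (cO TD4.MO) {j | j ∈ J1} := phi_simple hG hi i.2
        have h4 := phi_neg hG h3
        unfold nX
        exact mul_mem (mul_mem (mem_US h3 _) (mem_US h4 _)) (mem_US h3 _)
      have a1 := hphi 0 (by decide) (g 0)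
      have a2 := hphi 2 (by decide) (g 2)
      have a3 := hphi 3 (by decide) (g 3)
      change nX chevD4 (xg chevD4 K) (chevD4.simple 0) _ ∈ _ at a1
      change nX chevD4 (xg chevD4 K) (chevD4.simple 2) _ ∈ _ at a2
      change nX chevD4 (xg chevD4 K) (chevD4.simple 3) _ ∈ _ at a3
      rw [WD4a.s0] at a1
      rw [WD4a.s2] at a2
      rw [WD4a.s3] at a3
      exact mul_mem a1 (mul_mem a2 (mul_mem a3 (one_mem _)))
    -- commutation
    have hcs : ∀ i i' : Fin 4, i ∈ WD4a.L 1 → i' ∈ WD4a.L 1 → i ≠ i' → ∀ (b : Bool) (x y : K),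
        Commute (nX chevD4 (xg chevD4 K) (chevD4.simple i) x) (sx chevD4 K b i' y) := by
      intro i i' hi hi' hne b x y
      have h1 := hc.comm i hi i' hi' hne
      change Commute (sx chevD4 K true i x * sx chevD4 K false i (-x⁻¹) * sx chevD4 K true i x) _
      exact ((h1 true b x y).mul_left (h1 false b _ y)).mul_left (h1 true b x y)
    have hcn : ∀ i i' : Fin 4, i ∈ WD4a.L 1 → i' ∈ WD4a.L 1 → i ≠ i' → ∀ (x y : K),
        Commute (nX chevD4 (xg chevD4 K) (chevD4.simple i) x) (nX chevD4 (xg chevD4 K) (chevD4.simple i') y) := by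
      intro i i' hi hi' hne x y
      exact hc.comm_nX hi hi' hne x y
    have i0 : (0 : Fin 4) ∈ WD4a.L 1 := by decide
    have i2 : (2 : Fin 4) ∈ WD4a.L 1 := by decide
    have i3 : (3 : Fin 4) ∈ WD4a.L 1 := by decide
    have conj : ∀ (b : Bool) (g x : ℕ → K),
        (nX chevD4 (xg chevD4 K) (chevD4.simple 0) (g 0) * (nX chevD4 (xg chevD4 K) (chevD4.simple 2) (g 2) *
          (nX chevD4 (xg chevD4 K) (chevD4.simple 3) (g 3) * 1))) *
        (sx chevD4 K b 0 (x 0) * (sx chevD4 K b 2 (x 2) * (sx chevD4 K b 3 (x 3) * 1))) *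
        (nX chevD4 (xg chevD4 K) (chevD4.simple 0) (g 0) * (nX chevD4 (xg chevD4 K) (chevD4.simple 2) (g 2) *
          (nX chevD4 (xg chevD4 K) (chevD4.simple 3) (g 3) * 1)))⁻¹ =
        (nX chevD4 (xg chevD4 K) (chevD4.simple 0) (g 0) * sx chevD4 K b 0 (x 0) * (nX chevD4 (xg chevD4 K) (chevD4.simple 0) (g 0))⁻¹) *
        ((nX chevD4 (xg chevD4 K) (chevD4.simple 2) (g 2) * sx chevD4 K b 2 (x 2) * (nX chevD4 (xg chevD4 K) (chevD4.simple 2) (g 2))⁻¹) *
        ((nX chevD4 (xg chevD4 K) (chevD4.simple 3) (g 3) * sx chevD4 K b 3 (x 3) * (nX chevD4 (xg chevD4 K) (chevD4.simple 3) (g 3))⁻¹) * 1)) := by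
      intro b g x
      exact conj3 (hcs 0 2 i0 i2 (by decide) b _ _) (hcs 0 3 i0 i3 (by decide) b _ _) (hcs 2 0 i2 i0 (by decide) b _ _)
        (hcs 2 3 i2 i3 (by decide) b _ _) (hcs 3 0 i3 i0 (by decide) b _ _) (hcs 3 2 i3 i2 (by decide) b _ _)
        (hcn 0 2 i0 i2 (by decide) _ _) (hcn 0 3 i0 i3 (by decide) _ _) (hcn 2 3 i2 i3 (by decide) _ _)
    -- action on root elements
    have act1 : ∀ (i : Fin 4) (x b : K), x ≠ 0 → nX chevD4 (xg chevD4 K) (chevD4.simple i) x * sx chevD4 K true i b *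
        (nX chevD4 (xg chevD4 K) (chevD4.simple i) x)⁻¹ = sx chevD4 K false i (x⁻¹ ^ 2 * b) := by
      intro i x b hx
      obtain ⟨-, -, -, -, -, -, h6, -, -⟩ := nX_facts hG h.E h2 (hG.sr i) (Units.mk0 x hx)
      exact h6 b
    have act2 : ∀ (i : Fin 4) (x b : K), x ≠ 0 → nX chevD4 (xg chevD4 K) (chevD4.simple i) x * sx chevD4 K false i b *
        (nX chevD4 (xg chevD4 K) (chevD4.simple i) x)⁻¹ = sx chevD4 K true i (x ^ 2 * b) := by
      intro i x b hx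
      obtain ⟨-, -, -, -, -, -, -, h6, -⟩ := nX_facts hG h.E h2 (hG.sr i) (Units.mk0 x hx)
      exact h6 b
    have c1 := conj true (fun _ => 1) f
    have c2 := conj false (WD4a.f1 q a) f
    have t0 : ∀ b, sx chevD4 K b ((0 : Fin 4) : ℕ) = sx chevD4 K b 0 := fun _ => rfl
    have b0 := act1 0 1 (f 0) one_ne_zero
    have b2 := act1 2 1 (f 2) one_ne_zero
    have b3 := act1 3 1 (f 3) one_ne_zero
    rw [inv_one, one_pow, one_mul] at b0 b2 b3
    change nX chevD4 (xg chevD4 K) (chevD4.simple 0) 1 * sx chevD4 K true 0 (f 0) * (nX chevD4 (xg chevD4 K) (chevD4.simple 0) 1)⁻¹ =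
      sx chevD4 K false 0 (f 0) at b0
    change nX chevD4 (xg chevD4 K) (chevD4.simple 2) 1 * sx chevD4 K true 2 (f 2) * (nX chevD4 (xg chevD4 K) (chevD4.simple 2) 1)⁻¹ =
      sx chevD4 K false 2 (f 2) at b2
    change nX chevD4 (xg chevD4 K) (chevD4.simple 3) 1 * sx chevD4 K true 3 (f 3) * (nX chevD4 (xg chevD4 K) (chevD4.simple 3) 1)⁻¹ =
      sx chevD4 K false 3 (f 3) at b3
    rw [b0, b2, b3] at c1
    have d0 := act2 0 (WD4a.f1 q a 0) (f 0) (by rw [WD4a.f1_0]; exact ha0)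
    have d2 := act2 2 (WD4a.f1 q a 2) (f 2) (by rw [WD4a.f1_2]; exact pow_ne_zero _ ha0)
    have d3 := act2 3 (WD4a.f1 q a 3) (f 3) (by rw [WD4a.f1_3]; exact pow_ne_zero _ ha0)
    have g0 : WD4a.f1 q a 0 ^ 2 * f 0 = 1 := by rw [WD4a.f1_0, ha, inv_mul_cancel₀ h0]
    have g2 : WD4a.f1 q a 2 ^ 2 * f 2 = 1 := by
      rw [WD4a.f1_2, e2, ← pow_mul, mul_comm q 2, pow_mul, ha, inv_pow, inv_mul_cancel₀ (pow_ne_zero _ h0)]
    have g3 : WD4a.f1 q a 3 ^ 2 * f 3 = 1 := by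
      rw [WD4a.f1_3, e3, e2, ← pow_mul, mul_comm (q ^ 2) 2, pow_mul, ha, inv_pow, ← pow_mul, ← pow_two,
        inv_mul_cancel₀ (pow_ne_zero _ h0)]
    rw [g0] at d0
    rw [g2] at d2
    rw [g3] at d3
    change nX chevD4 (xg chevD4 K) (chevD4.simple 0) (WD4a.f1 q a 0) * sx chevD4 K false 0 (f 0) *
      (nX chevD4 (xg chevD4 K) (chevD4.simple 0) (WD4a.f1 q a 0))⁻¹ = sx chevD4 K true 0 1 at d0
    change nX chevD4 (xg chevD4 K) (chevD4.simple 2) (WD4a.f1 q a 2) * sx chevD4 K false 2 (f 2) *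
      (nX chevD4 (xg chevD4 K) (chevD4.simple 2) (WD4a.f1 q a 2))⁻¹ = sx chevD4 K true 2 1 at d2
    change nX chevD4 (xg chevD4 K) (chevD4.simple 3) (WD4a.f1 q a 3) * sx chevD4 K false 3 (f 3) *
      (nX chevD4 (xg chevD4 K) (chevD4.simple 3) (WD4a.f1 q a 3))⁻¹ = sx chevD4 K true 3 1 at d3
    rw [d0, d2, d3] at c2
    have hone : ∀ i ∈ WD4a.LL 1, (fun _ : ℕ => (1 : K)) (sP WD4a.PT i) =
        (fun _ : ℕ => (1 : K)) (i : ℕ) ^ (lamF 0 WD4a.LT (chevD4.simple i) * q) := by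
      intro i _
      exact (one_pow _).symm
    have N1 := hN (fun _ => 1) hone
    have N2 := hN (WD4a.f1 q a) (WD4a.key1 hq3 a)
    have L1 := hNL (fun _ => 1)
    have L2 := hNL (WD4a.f1 q a)
    rw [← WD4a.s0, ← WD4a.s2, ← WD4a.s3] at N1 N2 L1 L2
    refine ⟨_, mul_mem L2 L1, mul_mem N2 N1, Or.inr ?_⟩
    rw [Set.mem_singleton_iff]
    have hu' : u = sx chevD4 K true 0 (f 0) * (sx chevD4 K true 2 (f 2) * (sx chevD4 K true 3 (f 3) * 1)) := by
      rw [he, ← WD4a.s0, ← WD4a.s2, ← WD4a.s3]; rfl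
    have hfin : sx chevD4 K true 0 1 * (sx chevD4 K true 2 1 * (sx chevD4 K true 3 1 * 1)) =
        xg chevD4 K 18 1 * (xg chevD4 K 13 1 * (xg chevD4 K 12 1 * 1)) := by
      change xg chevD4 K (chevD4.simple 0) 1 * (xg chevD4 K (chevD4.simple 2) 1 * (xg chevD4 K (chevD4.simple 3) 1 * 1)) = _
      rw [WD4a.s0, WD4a.s2, WD4a.s3]; rfl
    rw [← hfin, ← c2, hu', mul_inv_rev]
    rw [← c1]
    simp only [mul_assoc]

theorem main (hK : Fintype.card K = q ^ 3) :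
    (ConjClasses.mk '' {g : ↥(twistedD4 K q) | orderOf g = 2}).ncard = 2 := by
  have h2 : (2 : K) = 0 := CharTwo.two_eq_zero
  have hqp : IsPrimePow q := isPrimePow_of_card three_ne_zero hK
  have h2q : 2 ∣ q := two_dvd_of_card hK
  have hq : 2 ≤ q := Nat.le_of_dvd hqp.pos h2q
  have hsq : ∀ c : K, ∃ a, a ^ 2 = c := by
    intro c
    obtain ⟨a, ha⟩ := FiniteField.isSquare_of_char_two (F := K) (ringChar.eq K 2) c
    exact ⟨a, by rw [pow_two]; exact ha.symm⟩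
  obtain ⟨σ, h⟩ := WD4a.exists_ctx three_ne_zero hqp hK
  have hT := WD4a.grp h (WD4a.pow_pow hK)
  have hS := sld_of tbf
  have hV := evC_of (F := K) h.G h.E h2 hEv hSym
  have hodd := odd_idx h hqp h2q hK
  have hl : 4 = chevD4.rank := rfl
  have hn : 24 = chevD4.nroots := rfl
  have T0 := mkStep hT hl hn J0 ⟨23, by decide⟩ st0 (okD [0, 1])
    (okD_spec h hq hK _ J0 (by decide)) C0 re0
  have N1 := NF1 h hK (by omega) h2 hsq
  have m12 : xg chevD4 K 12 1 ∈ ML chevD4 (cO TD4.MO) K {j | j ∈ J1} := mem_US ((mem_phi hl J1 (by decide)).2 inJ1.1) 1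
  have m13 : xg chevD4 K 13 1 ∈ ML chevD4 (cO TD4.MO) K {j | j ∈ J1} := mem_US ((mem_phi hl J1 (by decide)).2 inJ1.2.1) 1
  have m18 : xg chevD4 K 18 1 ∈ ML chevD4 (cO TD4.MO) K {j | j ∈ J1} := mem_US ((mem_phi hl J1 (by decide)).2 inJ1.2.2) 1
  have N0 := NF_step hT hV hS h2 hsq hodd T0 ((Jst_list J0 23).trans (by rw [js1])) (rst_of h J1 rk1) (by
    rintro _ (rfl | rfl)
    · exact one_mem _
    · exact mul_mem m18 (mul_mem m13 (mul_mem m12 (one_mem _)))) N1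
  have hcov : ∀ g ∈ twistedD4 K q, orderOf g = 2 → ∃ e ∈ RC, ∃ h ∈ twistedD4 K q, h * g * h⁻¹ = prodX chevD4 K e.1 := by
    intro g hg ho
    have hg2 : g * g = 1 := by
      have := pow_orderOf_eq_one g
      rwa [ho, pow_two] at this
    have hne : g ≠ 1 := by
      rintro rfl
      rw [orderOf_one] at ho
      omega
    have hJall : ∀ i < chevD4.rank, i ∈ J0 := by
      have : ∀ i < 4, i ∈ J0 := by decide
      exact this
    have hgL := levi_all h.G h.E hJall (hT.le_group hg)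
    obtain ⟨l, hl', hlG, hlU⟩ := levi_sylow_tw hT (rst_of h J0 rkA) 2 hodd hgL hg ⟨1, by rw [pow_one, pow_two, hg2]⟩
    have hsqm : (l * g * l⁻¹) * (l * g * l⁻¹) = 1 := by
      have : (l * g * l⁻¹) * (l * g * l⁻¹) = l * (g * g) * l⁻¹ := by group
      rw [this, hg2]; group
    obtain ⟨x, -, hxG, hx⟩ := N0 _ hlU (mul_mem (mul_mem hlG hg) (inv_mem hlG)) hsqm
    have hxe : ∀ y, x * (l * g * l⁻¹) * x⁻¹ = y → (x * l) * g * (x * l)⁻¹ = y := by
      intro y hy; rw [← hy]; group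
    have hxl : x * l ∈ twistedD4 K q := mul_mem hxG hlG
    rcases hx with hx | ⟨_, (rfl | rfl), hx⟩
    · exfalso
      apply hne
      have h3 := hxe _ hx
      rw [mul_inv_eq_one] at h3
      exact mul_left_cancel (h3.trans (mul_one _).symm)
    · exact ⟨_, List.mem_cons_self, x * l, hxl, by rw [hxe _ hx.symm]; simp [prodX]⟩
    · exact ⟨_, List.mem_cons_of_mem _ List.mem_cons_self, x * l, hxl, by rw [hxe _ hx.symm]; simp [prodX]⟩
  have hx23 : xg chevD4 K 23 1 ∈ twistedD4 K q := xg_mem_G₁ hT h2 (by decide) fixes.2 (one_pow _)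
  have hx3 : xg chevD4 K 18 1 * (xg chevD4 K 13 1 * (xg chevD4 K 12 1 * 1)) ∈ twistedD4 K q := by
    have h4 := WD4a.gen_mem (q := q) 1 true (WD4a.f1 q (1 : K)) (WD4a.key1 (WD4a.pow_pow hK) 1)
    rw [WD4a.pw1, WD4a.f1_0, WD4a.f1_2, WD4a.f1_3, one_pow, one_pow] at h4
    change wg chevD4 K [(d4p1, 1), (d4p3, 1), (d4p4, 1)] ∈ _ at h4
    rw [wg_triple] at h4
    exact h4
  have hfin := classes_card_sub (F := K) h.G h.E EE EE_eq 32 24 28 rfl rfl (by norm_num) (twistedD4 K q) RC hC (by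
    intro e he
    have : ∀ e ∈ RC, e.1 = [23] ∨ e.1 = [23, 18, 13, 12] := by decide +kernel
    rcases this e he with h5 | h5 <;> rw [h5]
    · simpa [prodX] using hx23
    · have := mul_mem hx23 hx3
      simpa [prodX] using this) hcov hnd
  rw [hfin]
  rfl

end Cfsg.Agent.H15.Chev.I3D4
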