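import Cfsg.Agent.H15.TwInvE6

/-!
# Involution classes of `2E6(q)`, `q` even: the main theorem
-/

set_option autoImplicit false
set_option linter.unusedSectionVars false
set_option maxRecDepth 100000

namespace Cfsg.Agent.H15.Chev.I2E6

open Cfsg.Agent.H6 Cfsg.Lie Cfsg.Agent.H22 Cfsg.Agent.H15.Chev
open scoped Matrix

theorem Jst_list (JL : List ℕ) (r : ℕ) : Jst chevE6 {j | j ∈ JL} r = {j | j ∈ JJ JL r} := by
  ext k
  unfold JJ
  simp [Jst]

variable {K : Type*} [Field K] [Fintype K] [CharP K 2] {q : ℕ}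

theorem wg_pair (a b : ℕ) (t u : K) : wg chevE6 K [(a, t), (b, u)] = xg chevE6 K a t * xg chevE6 K b u := by
  unfold wg
  simp

theorem okE_spec {σ : ↥(chevE6.group K) →* ↥(chevE6.group K)} (h : WE6.Ctx K q σ) (hq : 2 ≤ q) (hK : Fintype.card K = q ^ 2)
    (js : List (Fin 4)) (JL : List ℕ) (hjs : ∀ j ∈ js, ∀ i ∈ WE6.LL j, (i : ℕ) ∈ JL) (V : Submodule K (chevE6.Idx → K))
    (hV : ∀ g ∈ chevE6.leviSubgroup K {j | j ∈ JL}, g ∈ twistedE6 K q → ∀ v ∈ V, (g : Matrix chevE6.Idx chevE6.Idx K) *ᵥ v ∈ V) :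
    ∀ n ru s, okE js n ru s = true → be chevE6 K s ∈ V → be chevE6 K n ∈ V := by
  have h2 : (2 : K) = 0 := CharTwo.two_eq_zero
  have hG := h.G
  have hT := WE6.grp h (WE6.pow_pow hK)
  have hq2 := WE6.pow_pow hK
  intro n ru s hok hs
  unfold okE at hok
  rw [Bool.and_eq_true, List.any_eq_true] at hok
  obtain ⟨h1, j, hj, hjo⟩ := hok
  have hs72 : s < chevE6.nroots := by
    have := Nat.le_of_ble_eq_true h1
    change s < 72
    omega
  rw [Bool.or_eq_true] at hjo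
  rcases hjo with hjo | hjo
  · rw [Bool.and_eq_true] at hjo
    have := Nat.eq_of_beq_eq_true hjo.2
    rw [this]
    exact ruleA hT (J := {j | j ∈ JL}) (fun i hi => hjs j hj i hi) hV hs72 hs
  · rw [Bool.and_eq_true, Bool.and_eq_true, Bool.and_eq_true, Bool.and_eq_true, Bool.and_eq_true] at hjo
    obtain ⟨⟨hj2, hrn⟩, ho1, ho2, hlt, ho3⟩ := hjo
    set a := pa (j : ℕ) with ha
    set b := pb (j : ℕ) with hb
    set s1 := nxt chevE6 a s with hs1
    set s2 := nxt chevE6 b s with hs2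
    set s3 := nxt chevE6 a s2 with hs3
    have hs2l : s2 < chevE6.nroots := by
      have := Nat.le_of_ble_eq_true hlt
      change s2 < 72
      omega
    have hal : a < chevE6.nroots := by
      have : ∀ j : Fin 4, pa (j : ℕ) < chevE6.nroots := by decide +kernel
      exact this j
    have hbl : b < chevE6.nroots := by
      have : ∀ j : Fin 4, pb (j : ℕ) < chevE6.nroots := by decide +kernel
      exact this j
    -- the elements
    have hx : ∀ t : K, xg chevE6 K a t * xg chevE6 K b (t ^ q) ∈ twistedE6 K q ∧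
        xg chevE6 K a t * xg chevE6 K b (t ^ q) ∈ chevE6.leviSubgroup K {j | j ∈ JL} := by
      intro t
      have hj2' := Nat.le_of_ble_eq_true hj2
      have hcases : j = 2 ∨ j = 3 := by
        have : ∀ j : Fin 4, 2 ≤ (j : ℕ) → j = 2 ∨ j = 3 := by decide
        exact this j hj2'
      have hphi : ∀ i : Fin 6, (i : ℕ) ∈ JL → chevE6.neg (chevE6.simple i) ∈ Phi chevE6 (cO TE6.MO) {j | j ∈ JL} := by
        intro i hi
        exact phi_neg hG (phi_simple hG hi i.2)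
      rcases hcases with rfl | rfl
      · have h4 := WE6.gen_mem (q := q) 2 false (WE6.f2 q t) (WE6.key2 hq2 t)
        rw [WE6.pw2, WE6.f2_2, WE6.f2_4] at h4
        change wg chevE6 K [(e6m3, t), (e6m5, t ^ q)] ∈ _ at h4
        rw [wg_pair] at h4
        refine ⟨h4, ML_le_levi hG h.E _ (mul_mem (mem_US ?_ t) (mem_US ?_ _))⟩
        · have := hphi 2 (hjs 2 hj ⟨2, by decide⟩ (by decide))
          change chevE6.neg (chevE6.simple 2) ∈ _ at this
          rwa [WE6.s2, WE6.m2] at this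
        · have := hphi 4 (hjs 2 hj ⟨4, by decide⟩ (by decide))
          change chevE6.neg (chevE6.simple 4) ∈ _ at this
          rwa [WE6.s4, WE6.m4] at this
      · have h4 := WE6.gen_mem (q := q) 3 false (WE6.f3 q t) (WE6.key3 hq2 t)
        rw [WE6.pw3, WE6.f3_0, WE6.f3_5] at h4
        change wg chevE6 K [(e6m1, t), (e6m6, t ^ q)] ∈ _ at h4
        rw [wg_pair] at h4
        refine ⟨h4, ML_le_levi hG h.E _ (mul_mem (mem_US ?_ t) (mem_US ?_ _))⟩
        · have := hphi 0 (hjs 3 hj ⟨0, by decide⟩ (by decide))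
          change chevE6.neg (chevE6.simple 0) ∈ _ at this
          rwa [WE6.s0, WE6.m0] at this
        · have := hphi 5 (hjs 3 hj ⟨5, by decide⟩ (by decide))
          change chevE6.neg (chevE6.simple 5) ∈ _ at this
          rwa [WE6.s5, WE6.m5] at this
    obtain ⟨h5, h6⟩ := ruleB2 (F := K) hG h2 hq hK (V := V) hal hbl hs72 hs2l
      (fun t v hv => hV _ (hx t).2 (hx t).1 v hv) ho1 ho2 ho3 hs
    rw [Bool.or_eq_true, Bool.and_eq_true, Bool.and_eq_true] at hrn
    rcases hrn with ⟨-, hn⟩ | ⟨-, hn⟩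
    · rw [Nat.eq_of_beq_eq_true hn]; exact h5
    · rw [Nat.eq_of_beq_eq_true hn]; exact h6

theorem rst_of {σ : ↥(chevE6.group K) →* ↥(chevE6.group K)} (h : WE6.Ctx K q σ) (JL : List ℕ)
    (hc : ((List.range 72).all fun r => inP 6 (cO TE6.MO) JL (sP WE6.RT r) == inP 6 (cO TE6.MO) JL r) = true) :
    RSt chevE6 (cO TE6.MO) (sP WE6.RT) {j | j ∈ JL} := by
  intro r hr
  rw [List.all_eq_true] at hc
  have h1 := hc r (List.mem_range.2 hr)
  rw [beq_iff_eq] at h1
  have h6 : 6 = chevE6.rank := rfl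
  rw [mem_phi h6 JL (h.T.rho_lt r hr), mem_phi h6 JL hr, h1]

theorem fix_mem {σ : ↥(chevE6.group K) →* ↥(chevE6.group K)} (h : WE6.Ctx K q σ) (hK : Fintype.card K = q ^ 2) (h2 : (2 : K) = 0) {S : List ℕ}
    (hS : ∀ r ∈ S, r ∈ [71, 60, 44, 39, 25, 20, 8, 47]) : prodX chevE6 K S ∈ twistedE6 K q := by
  have hf := fixes
  rw [List.all_eq_true] at hf
  unfold prodX
  apply Subgroup.list_prod_mem
  intro x hx
  rw [List.mem_map] at hx
  obtain ⟨r, hr, rfl⟩ := hx
  have h1 := hf r (hS r hr)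
  rw [Bool.and_eq_true] at h1
  have h3 : r < chevE6.nroots := by
    have := Nat.le_of_ble_eq_true h1.1
    change r < 72
    omega
  exact xg_mem_G₁ (WE6.grp h (WE6.pow_pow hK)) h2 h3 (Nat.eq_of_beq_eq_true h1.2) (one_pow _)

theorem odd_idx {σ : ↥(chevE6.group K) →* ↥(chevE6.group K)} (h : WE6.Ctx K q σ) (hq : IsPrimePow q) (h2q : 2 ∣ q) (hK : Fintype.card K = q ^ 2) :
    ¬ 2 ∣ (chevE6.posUnipotent K ⊓ twistedE6 K q).relIndex (twistedE6 K q) := by
  have h1 := WE6.card_group hq hK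
  have h3 := WE6.card_pos h hq.ne_zero hK
  have h4 : Nat.card ↥(twistedE6 K q) = q ^ 36 * (chevE6.posUnipotent K ⊓ twistedE6 K q).relIndex (twistedE6 K q) := by
    rw [← h3]
    have := Subgroup.relIndex_mul_relIndex ⊥ (chevE6.posUnipotent K ⊓ twistedE6 K q) (twistedE6 K q) bot_le inf_le_right
    rw [Subgroup.relIndex_bot_left, Subgroup.relIndex_bot_left] at this
    exact this.symm
  intro hd
  obtain ⟨c, hc⟩ := hd
  obtain ⟨q', rfl⟩ := h2q
  have hq'0 : 0 < q' := by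
    rcases Nat.eq_zero_or_pos q' with h0 | h0
    · rw [h0] at hq; exact absurd rfl hq.ne_zero
    · exact h0
  rw [h4, hc] at h1
  have h5 : (0 : ℕ) < (2 * q') ^ 36 := by positivity
  have h6 : Nat.gcd 3 (2 * q' + 1) * (2 * c) = ((2 * q') ^ 2 - 1) * ((2 * q') ^ 5 + 1) * ((2 * q') ^ 6 - 1) * ((2 * q') ^ 8 - 1) *
      ((2 * q') ^ 9 + 1) * ((2 * q') ^ 12 - 1) := by
    apply Nat.eq_of_mul_eq_mul_left h5
    calc (2 * q') ^ 36 * (Nat.gcd 3 (2 * q' + 1) * (2 * c)) = Nat.gcd 3 (2 * q' + 1) * ((2 * q') ^ 36 * (2 * c)) := by ring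
      _ = _ := h1
      _ = _ := by ring
  have hodd : ∀ k, k ≠ 0 → ¬ Even ((2 * q') ^ k - 1) := by
    intro k hk
    rw [Nat.not_even_iff_odd]
    have h7 : 1 ≤ (2 * q') ^ k := Nat.one_le_pow _ _ (by omega)
    have h8 : Even ((2 * q') ^ k) := (even_two_mul q').pow_of_ne_zero hk
    exact Nat.Even.sub_odd h7 h8 odd_one
  have hodd' : ∀ k, k ≠ 0 → ¬ Even ((2 * q') ^ k + 1) := by
    intro k hk
    rw [Nat.not_even_iff_odd]
    have h8 : Even ((2 * q') ^ k) := (even_two_mul q').pow_of_ne_zero hk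
    exact h8.add_one
  have h7 : Even (((2 * q') ^ 2 - 1) * ((2 * q') ^ 5 + 1) * ((2 * q') ^ 6 - 1) * ((2 * q') ^ 8 - 1) *
      ((2 * q') ^ 9 + 1) * ((2 * q') ^ 12 - 1)) := by
    rw [← h6]
    exact ⟨Nat.gcd 3 (2 * q' + 1) * c, by ring⟩
  simp only [Nat.even_mul] at h7
  rcases h7 with ((((h7 | h7) | h7) | h7) | h7) | h7
  · exact hodd 2 (by norm_num) h7
  · exact hodd' 5 (by norm_num) h7
  · exact hodd 6 (by norm_num) h7
  · exact hodd 8 (by norm_num) h7
  · exact hodd' 9 (by norm_num) h7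
  · exact hodd 12 (by norm_num) h7

theorem rk0 : ((List.range 72).all fun r => inP 6 (cO TE6.MO) J1 (sP WE6.RT r) == inP 6 (cO TE6.MO) J1 r) = true := by decide +kernel
theorem rk2 : ((List.range 72).all fun r => inP 6 (cO TE6.MO) J2 (sP WE6.RT r) == inP 6 (cO TE6.MO) J2 r) = true := by decide +kernel
theorem rk3 : ((List.range 72).all fun r => inP 6 (cO TE6.MO) J3 (sP WE6.RT r) == inP 6 (cO TE6.MO) J3 r) = true := by decide +kernel
theorem rk4 : ((List.range 72).all fun r => inP 6 (cO TE6.MO) J4 (sP WE6.RT r) == inP 6 (cO TE6.MO) J4 r) = true := by decide +kernel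
theorem rkA : ((List.range 72).all fun r => inP 6 (cO TE6.MO) J0 (sP WE6.RT r) == inP 6 (cO TE6.MO) J0 r) = true := by decide +kernel
theorem inJ3 : inP 6 (cO TE6.MO) J3 39 = true := by decide +kernel
theorem inJ2 : inP 6 (cO TE6.MO) J2 44 = true ∧ inP 6 (cO TE6.MO) J2 39 = true := by decide +kernel
theorem inJ1 : inP 6 (cO TE6.MO) J1 60 = true ∧ inP 6 (cO TE6.MO) J1 44 = true ∧ inP 6 (cO TE6.MO) J1 39 = true := by decide +kernel

theorem main (hK : Fintype.card K = q ^ 2) :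
    (ConjClasses.mk '' {g : ↥(twistedE6 K q) | orderOf g = 2}).ncard = 3 := by
  have h2 : (2 : K) = 0 := CharTwo.two_eq_zero
  have hqp : IsPrimePow q := isPrimePow_of_card two_ne_zero hK
  have h2q : 2 ∣ q := two_dvd_of_card hK
  have hq : 2 ≤ q := Nat.le_of_dvd hqp.pos h2q
  have hsq : ∀ c : K, ∃ a, a ^ 2 = c := by
    intro c
    obtain ⟨a, ha⟩ := FiniteField.isSquare_of_char_two (F := K) (ringChar.eq K 2) c
    exact ⟨a, by rw [pow_two]; exact ha.symm⟩
  obtain ⟨σ, h⟩ := WE6.exists_ctx two_ne_zero hqp hK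
  have hT := WE6.grp h (WE6.pow_pow hK)
  have hS := sld_of tbf
  have hV := evC_of (F := K) h.G h.E h2 IE6.hEv IE6.hSym
  have hodd := odd_idx h hqp h2q hK
  have hl : 6 = chevE6.rank := rfl
  have hn : 72 = chevE6.nroots := rfl
  have hj := js1
  rw [Prod.mk.injEq, Prod.mk.injEq, Prod.mk.injEq] at hj
  obtain ⟨hj0, hj1, hj2, hj3⟩ := hj
  -- the steps
  have T0 := mkStep hT hl hn J0 ⟨71, by decide⟩ st0 (okE [0, 1, 2, 3])
    (okE_spec h hq hK _ J0 (by decide)) C0 re0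
  have T1 := mkStep hT hl hn J1 ⟨60, by decide⟩ st1 (okE [1, 2, 3])
    (okE_spec h hq hK _ J1 (by decide)) C1 re1
  have T2 := mkStep hT hl hn J2 ⟨44, by decide⟩ st2 (okE [1, 2])
    (okE_spec h hq hK _ J2 (by decide)) C2 re2
  have T3 := mkStep hT hl hn J3 ⟨39, by decide⟩ st3 (okE [1])
    (okE_spec h hq hK _ J3 (by decide)) C3 re3
  have N4 : NF chevE6 36 (cO TE6.MO) K (twistedE6 K q) {j | j ∈ J4} {1} := by
    apply NF_empty
    intro r hr _
    have he := em4
    rw [List.all_eq_true] at he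
    have h3 := he r (List.mem_range.2 hr.1)
    rw [(mem_phi hl J4 hr.1).1 hr] at h3
    exact absurd h3 (by simp)
  have N3 := NF_step hT hV hS h2 hsq hodd T3 ((Jst_list J3 39).trans (by rw [hj3])) (rst_of h J4 rk4)
    (T := {1}) (by rintro _ rfl; exact one_mem _) N4
  have m39 : xg chevE6 K 39 1 ∈ ML chevE6 (cO TE6.MO) K {j | j ∈ J3} := mem_US ((mem_phi hl J3 (by decide)).2 inJ3) 1
  have N2 := NF_step hT hV hS h2 hsq hodd T2 ((Jst_list J2 44).trans (by rw [hj2])) (rst_of h J3 rk3) (by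
    rintro _ (rfl | ⟨_, rfl, rfl⟩)
    · exact one_mem _
    · exact mul_mem m39 (one_mem _)) N3
  have m39' : xg chevE6 K 39 1 ∈ ML chevE6 (cO TE6.MO) K {j | j ∈ J2} := mem_US ((mem_phi hl J2 (by decide)).2 inJ2.2) 1
  have m44' : xg chevE6 K 44 1 ∈ ML chevE6 (cO TE6.MO) K {j | j ∈ J2} := mem_US ((mem_phi hl J2 (by decide)).2 inJ2.1) 1
  have N1 := NF_step hT hV hS h2 hsq hodd T1 ((Jst_list J1 60).trans (by rw [hj1])) (rst_of h J2 rk2) (by
    rintro _ (rfl | ⟨_, (rfl | ⟨_, rfl, rfl⟩), rfl⟩)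
    · exact one_mem _
    · exact mul_mem m44' (one_mem _)
    · exact mul_mem m44' (mul_mem m39' (one_mem _))) N2
  have m39'' : xg chevE6 K 39 1 ∈ ML chevE6 (cO TE6.MO) K {j | j ∈ J1} := mem_US ((mem_phi hl J1 (by decide)).2 inJ1.2.2) 1
  have m44'' : xg chevE6 K 44 1 ∈ ML chevE6 (cO TE6.MO) K {j | j ∈ J1} := mem_US ((mem_phi hl J1 (by decide)).2 inJ1.2.1) 1
  have m60'' : xg chevE6 K 60 1 ∈ ML chevE6 (cO TE6.MO) K {j | j ∈ J1} := mem_US ((mem_phi hl J1 (by decide)).2 inJ1.1) 1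
  have N0 := NF_step hT hV hS h2 hsq hodd T0 ((Jst_list J0 71).trans (by rw [hj0])) (rst_of h J1 rk0) (by
    rintro _ (rfl | ⟨_, (rfl | ⟨_, (rfl | ⟨_, rfl, rfl⟩), rfl⟩), rfl⟩)
    · exact one_mem _
    · exact mul_mem m60'' (one_mem _)
    · exact mul_mem m60'' (mul_mem m44'' (one_mem _))
    · exact mul_mem m60'' (mul_mem m44'' (mul_mem m39'' (one_mem _)))) N1
  -- the relation
  have hrel : prodX chevE6 K [25, 20, 8, 47] * prodX chevE6 K [71, 60, 44, 39] =
      prodX chevE6 K [71, 60, 44] * prodX chevE6 K [25, 20, 8, 47] := by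
    have hr := rel4
    rw [Bool.and_eq_true, Bool.and_eq_true] at hr
    have := word_eq2 (F := K) h.G h2 IE6.EE IE6.EE_eq 128 72 78 rfl rfl (by norm_num) hr.1.1 hr.1.2 (Nat.eq_of_beq_eq_true hr.2)
    rw [← prodX_append, ← prodX_append]
    exact this
  have hcov : ∀ g ∈ twistedE6 K q, orderOf g = 2 → ∃ e ∈ RC, ∃ h ∈ twistedE6 K q, h * g * h⁻¹ = prodX chevE6 K e.1 := by
    intro g hg ho
    have hg2 : g * g = 1 := by
      have := pow_orderOf_eq_one g
      rwa [ho, pow_two] at this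
    have hne : g ≠ 1 := by
      rintro rfl
      rw [orderOf_one] at ho
      omega
    have hJall : ∀ i < chevE6.rank, i ∈ J0 := by
      have : ∀ i < 6, i ∈ J0 := by decide
      exact this
    have hgL := levi_all h.G h.E hJall (hT.le_group hg)
    obtain ⟨l, hl', hlG, hlU⟩ := levi_sylow_tw hT (rst_of h J0 rkA) 2 hodd hgL hg ⟨1, by rw [pow_one, pow_two, hg2]⟩
    have hsqm : (l * g * l⁻¹) * (l * g * l⁻¹) = 1 := by
      have : (l * g * l⁻¹) * (l * g * l⁻¹) = l * (g * g) * l⁻¹ := by group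
      rw [this, hg2]; group
    obtain ⟨x, -, hxG, hx⟩ := N0 _ hlU (mul_mem (mul_mem hlG hg) (inv_mem hlG)) hsqm
    have hxe : ∀ y, x * (l * g * l⁻¹) * x⁻¹ = y → (x * l) * g * (x * l)⁻¹ = y := by
      intro y hy; rw [← hy]; group
    have hxl : x * l ∈ twistedE6 K q := mul_mem hxG hlG
    rcases hx with hx | ⟨_, (rfl | ⟨_, (rfl | ⟨_, (rfl | ⟨_, rfl, rfl⟩), rfl⟩), rfl⟩), hx⟩
    · exfalso
      apply hne
      have h3 := hxe _ hx
      rw [mul_inv_eq_one] at h3
      exact mul_left_cancel (h3.trans (mul_one _).symm)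
    · exact ⟨_, List.mem_cons_self, x * l, hxl, by rw [hxe _ hx.symm]; simp [prodX]⟩
    · exact ⟨_, List.mem_cons_of_mem _ List.mem_cons_self, x * l, hxl, by rw [hxe _ hx.symm]; simp [prodX]⟩
    · exact ⟨_, List.mem_cons_of_mem _ (List.mem_cons_of_mem _ List.mem_cons_self), x * l, hxl, by
        rw [hxe _ hx.symm]; simp [prodX]⟩
    · have h3 := hxe _ hx.symm
      have h4 : (x * l) * g * (x * l)⁻¹ = prodX chevE6 K [71, 60, 44, 39] := by
        rw [h3]; simp [prodX]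
      have hc : prodX chevE6 K [25, 20, 8, 47] ∈ twistedE6 K q := fix_mem h hK h2 (by decide)
      refine ⟨_, List.mem_cons_of_mem _ (List.mem_cons_of_mem _ List.mem_cons_self), prodX chevE6 K [25, 20, 8, 47] * (x * l),
        mul_mem hc hxl, ?_⟩
      calc prodX chevE6 K [25, 20, 8, 47] * (x * l) * g * (prodX chevE6 K [25, 20, 8, 47] * (x * l))⁻¹ =
          prodX chevE6 K [25, 20, 8, 47] * ((x * l) * g * (x * l)⁻¹) * (prodX chevE6 K [25, 20, 8, 47])⁻¹ := by group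
        _ = _ := by rw [h4, hrel, mul_inv_cancel_right]
  have hfin := classes_card_sub (F := K) h.G h.E IE6.EE IE6.EE_eq 128 72 78 rfl rfl (by norm_num) (twistedE6 K q) RC hC (by
    intro e he
    have : ∀ e ∈ RC, ∀ r ∈ e.1, r ∈ [71, 60, 44, 39, 25, 20, 8, 47] := by decide +kernel
    exact fix_mem h hK h2 (this e he)) hcov hnd
  rw [hfin]
  rfl

end Cfsg.Agent.H15.Chev.I2E6
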